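import Cfsg.Agent.U5.B

/-! The unipotent subgroup of `SU₄(q)` in coordinates: pairs `(X, A)`, `X = (z c; c̄ y)` hermitian,
`A = (1 a; 0 1)`, `(X, A) (X', A') = (X + A X' A*, A A')`. -/

set_option autoImplicit false
set_option linter.unusedSectionVars false
set_option linter.style.haveILetI false

open Equiv

namespace Cfsg.Agent.Fu

open Cfsg.Fus Cfsg.FusionSystem Cfsg.Agent.Uf

/-- The model of a Sylow `p`-subgroup of `SU₄(q)`. -/
@[ext] structure U4 (K : Type*) [Field K] [StarRing K] where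
  a : K
  y : K
  c : K
  z : K
  hy : star y = y
  hz : star z = z

namespace U4

variable {K : Type*} [Field K] [StarRing K]

attribute [simp] U4.hy U4.hz

instance instMul : Mul (U4 K) := ⟨fun x w => ⟨x.a + w.a, x.y + w.y, x.c + w.c + x.a * w.y,
  x.z + w.z + x.a * star w.c + star x.a * w.c + x.a * star x.a * w.y, by simp,
  by simp only [star_add, star_mul', star_star, x.hz, w.hy, w.hz]; ring⟩⟩
instance instOne : One (U4 K) := ⟨⟨0, 0, 0, 0, by simp, by simp⟩⟩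
instance instInv : Inv (U4 K) := ⟨fun x => ⟨-x.a, -x.y, x.a * x.y - x.c,
  -x.z + x.a * star x.c + star x.a * x.c - x.a * star x.a * x.y, by simp,
  by simp only [star_add, star_neg, star_sub, star_mul', star_star, x.hy, x.hz]; ring⟩⟩

@[simp] theorem mul_a (x w : U4 K) : (x * w).a = x.a + w.a := rfl
@[simp] theorem mul_y (x w : U4 K) : (x * w).y = x.y + w.y := rfl
@[simp] theorem mul_c (x w : U4 K) : (x * w).c = x.c + w.c + x.a * w.y := rfl
@[simp] theorem mul_z (x w : U4 K) : (x * w).z =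
    x.z + w.z + x.a * star w.c + star x.a * w.c + x.a * star x.a * w.y := rfl
@[simp] theorem one_a : (1 : U4 K).a = 0 := rfl
@[simp] theorem one_y : (1 : U4 K).y = 0 := rfl
@[simp] theorem one_c : (1 : U4 K).c = 0 := rfl
@[simp] theorem one_z : (1 : U4 K).z = 0 := rfl
@[simp] theorem inv_a (x : U4 K) : x⁻¹.a = -x.a := rfl
@[simp] theorem inv_y (x : U4 K) : x⁻¹.y = -x.y := rfl
@[simp] theorem inv_c (x : U4 K) : x⁻¹.c = x.a * x.y - x.c := rfl
@[simp] theorem inv_z (x : U4 K) :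
    x⁻¹.z = -x.z + x.a * star x.c + star x.a * x.c - x.a * star x.a * x.y := rfl

instance instGroup : Group (U4 K) := Group.ofLeftAxioms
  (fun x y z => by ext <;> simp [-mul_eq_mul_left_iff, -mul_eq_mul_right_iff] <;> ring)
  (fun x => by ext <;> simp)
  (fun x => by ext <;> simp [-mul_eq_mul_left_iff, -mul_eq_mul_right_iff] <;> ring)

theorem coord_inj : Function.Injective fun x : U4 K => (x.a, x.y, x.c, x.z) :=
  fun x w h => by
    simp only [Prod.mk.injEq] at h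
    exact U4.ext h.1 h.2.1 h.2.2.1 h.2.2.2

instance instFinite [Finite K] : Finite (U4 K) := Finite.of_injective _ coord_inj

theorem comm_iff {x w : U4 K} : x * w = w * x ↔ x.a * w.y = w.a * x.y ∧
    x.a * star w.c + star x.a * w.c + x.a * star x.a * w.y =
      w.a * star x.c + star w.a * x.c + w.a * star w.a * x.y := by
  refine ⟨fun h => ⟨?_, ?_⟩, fun h => ?_⟩
  · have := congrArg U4.c h
    simp only [mul_c] at this; linear_combination this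
  · have := congrArg U4.z h
    simp only [mul_z] at this; linear_combination this
  · ext <;> simp only [mul_a, mul_c, mul_y, mul_z]
    · ring
    · ring
    · linear_combination h.1
    · linear_combination h.2

end U4

open U4

variable {K : Type*} [Field K] [StarRing K]

/-- The commutator used in the chain lemmas. -/
def cm (g x : U4 K) : U4 K := x⁻¹ * (g * x * g⁻¹)

theorem cm_def (g x : U4 K) : x⁻¹ * (g * x * g⁻¹) = cm g x := rfl
theorem cj_eq (g x : U4 K) : g * x * g⁻¹ = x * cm g x := by simp [cm]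
theorem cm_eq_one {g x : U4 K} : cm g x = 1 ↔ g * x = x * g := by
  rw [cm, inv_mul_eq_one, eq_mul_inv_iff_mul_eq, eq_comm]

@[simp] theorem cm_a (g x : U4 K) : (cm g x).a = 0 := by simp [cm]
@[simp] theorem cm_y (g x : U4 K) : (cm g x).y = 0 := by simp [cm]
theorem cm_c (g x : U4 K) : (cm g x).c = g.a * x.y - x.a * g.y := by
  simp [cm]; ring
theorem cm_z (g x : U4 K) : (cm g x).z = g.a * star x.c + star g.a * x.c - x.a * star g.c -
    star x.a * g.c + g.a * star g.a * x.y + x.a * star x.a * g.y -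
    (x.a * star g.a + star x.a * g.a) * x.y := by
  simp [cm]; ring
theorem cj_a (g x : U4 K) : (g * x * g⁻¹).a = x.a := by simp
theorem cj_y (g x : U4 K) : (g * x * g⁻¹).y = x.y := by simp
theorem cj_c (g x : U4 K) : (g * x * g⁻¹).c = x.c + g.a * x.y - x.a * g.y := by simp; ring
theorem cj_z (g x : U4 K) : (g * x * g⁻¹).z = x.z + g.a * star x.c + star g.a * x.c -
    x.a * star g.c - star x.a * g.c + g.a * star g.a * x.y - x.a * star x.a * g.y := by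
  simp; ring

/-- `Z(S)`. -/
def sZ (K : Type*) [Field K] [StarRing K] : Subgroup (U4 K) where
  carrier := {x | x.a = 0 ∧ x.y = 0 ∧ x.c = 0}
  one_mem' := by simp
  mul_mem' := by rintro x w ⟨a, b, c⟩ ⟨a', b', c'⟩; simp [*]
  inv_mem' := by rintro x ⟨a, b, c⟩; simp [*]
/-- `Z₂(S) = S' = Q ∩ J`. -/
def sZ2 (K : Type*) [Field K] [StarRing K] : Subgroup (U4 K) where
  carrier := {x | x.a = 0 ∧ x.y = 0}
  one_mem' := by simp
  mul_mem' := by rintro x w ⟨a, b⟩ ⟨a', b'⟩; simp [*]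
  inv_mem' := by rintro x ⟨a, b⟩; simp [*]
/-- `Q = q^{1+4}`. -/
def sQ (K : Type*) [Field K] [StarRing K] : Subgroup (U4 K) where
  carrier := {x | x.y = 0}
  one_mem' := by simp
  mul_mem' := by intro x w (a : _ = _) (a' : _ = _); simp [*]
  inv_mem' := by intro x (a : _ = _); simp [*]
/-- `J = q⁴`. -/
def sJ (K : Type*) [Field K] [StarRing K] : Subgroup (U4 K) where
  carrier := {x | x.a = 0}
  one_mem' := by simp
  mul_mem' := by intro x w (a : _ = _) (a' : _ = _); simp [*]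
  inv_mem' := by intro x (a : _ = _); simp [*]
/-- `J ⟨x_t⟩` (used for `q = 2`). -/
def sJx (t : K) : Subgroup (U4 K) where
  carrier := {x | ∃ n : ℤ, x.a = n * t}
  one_mem' := ⟨0, by simp⟩
  mul_mem' := by rintro x w ⟨n, a⟩ ⟨m, a'⟩; exact ⟨n + m, by simp [a, a', add_mul]⟩
  inv_mem' := by rintro x ⟨n, a⟩; exact ⟨-n, by simp [a]⟩

theorem mem_sZ {x : U4 K} : x ∈ sZ K ↔ x.a = 0 ∧ x.y = 0 ∧ x.c = 0 := Iff.rfl
theorem mem_sZ2 {x : U4 K} : x ∈ sZ2 K ↔ x.a = 0 ∧ x.y = 0 := Iff.rfl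
theorem mem_sQ {x : U4 K} : x ∈ sQ K ↔ x.y = 0 := Iff.rfl
theorem mem_sJ {x : U4 K} : x ∈ sJ K ↔ x.a = 0 := Iff.rfl
theorem mem_sJx {t : K} {x : U4 K} : x ∈ sJx t ↔ ∃ n : ℤ, x.a = n * t := Iff.rfl

theorem Z_Z2 : sZ K ≤ sZ2 K := fun _ h => ⟨h.1, h.2.1⟩
theorem Z2_Q : sZ2 K ≤ sQ K := fun _ h => h.2
theorem Z2_J : sZ2 K ≤ sJ K := fun _ h => h.1
theorem Z_Q : sZ K ≤ sQ K := Z_Z2.trans Z2_Q
theorem Z_J : sZ K ≤ sJ K := Z_Z2.trans Z2_J
theorem J_Jx (t : K) : sJ K ≤ sJx t := fun _ h => ⟨0, by simpa using mem_sJ.1 h⟩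

theorem cm_sZ2 (g x : U4 K) : cm g x ∈ sZ2 K := ⟨cm_a g x, cm_y g x⟩
theorem cm_sZ {g : U4 K} (hg : g ∈ sZ2 K) (x : U4 K) : cm g x ∈ sZ K :=
  ⟨cm_a g x, cm_y g x, by simp [cm_c, hg.1, hg.2]⟩
theorem cm_sZ' (g : U4 K) {x : U4 K} (hx : x ∈ sZ2 K) : cm g x ∈ sZ K :=
  ⟨cm_a g x, cm_y g x, by simp [cm_c, hx.1, hx.2]⟩
theorem comm_sZ (g : U4 K) {x : U4 K} (hx : x ∈ sZ K) : g * x = x * g := by
  obtain ⟨a, b, c⟩ := hx
  simp [comm_iff, *]
theorem comm_sJ {g x : U4 K} (hg : g ∈ sJ K) (hx : x ∈ sJ K) : g * x = x * g := by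
  simp [comm_iff, mem_sJ.1 hg, mem_sJ.1 hx]
theorem cm_sQ {g x : U4 K} (hg : g ∈ sQ K) (hx : x ∈ sQ K) : cm g x ∈ sZ K :=
  ⟨cm_a g x, cm_y g x, by simp [cm_c, mem_sQ.1 hg, mem_sQ.1 hx]⟩
theorem sZ_eq {x w : U4 K} (hx : x ∈ sZ K) (hw : w ∈ sZ K) (h : x.z = w.z) : x = w :=
  U4.ext (hx.1.trans hw.1.symm) (hx.2.1.trans hw.2.1.symm) (hx.2.2.trans hw.2.2.symm) h

/-- Root elements. -/
def xa (t : K) : U4 K := ⟨t, 0, 0, 0, by simp, by simp⟩
/-- Root elements. -/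
def xc (t : K) : U4 K := ⟨0, 0, t, 0, by simp, by simp⟩
/-- Root elements. -/
def xy (t : K) (h : star t = t) : U4 K := ⟨0, t, 0, 0, h, by simp⟩
/-- Root elements. -/
def xz (t : K) (h : star t = t) : U4 K := ⟨0, 0, 0, t, by simp, h⟩

theorem xc_mem (t : K) : xc t ∈ sZ2 K := ⟨rfl, rfl⟩
theorem xz_mem (t : K) (h : star t = t) : xz t h ∈ sZ K := ⟨rfl, rfl, rfl⟩

/-- Every real element is `a c̄ + ā c`. -/
theorem exists_trc [HF K] {a t : K} (ha : a ≠ 0) (ht : star t = t) :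
    ∃ c, a * star c + star a * c = t := by
  obtain ⟨y, hy⟩ := exists_tr (t := -t) (by rw [star_neg, ht])
  have ha' : star a ≠ 0 := star_ne_zero.2 ha
  refine ⟨y / star a, ?_⟩
  rw [star_div₀, star_star, hy]
  field_simp
  ring

theorem mem_J_of_comm [HF K] {x : U4 K} (h : ∀ t, x * xc t = xc t * x) : x ∈ sJ K := by
  by_contra ha
  obtain ⟨c, hc⟩ := exists_trc (a := x.a) ha (star_one K)
  have := (comm_iff.1 (h c)).2
  simp [xc, hc] at this

theorem exists_cm_z [HF K] {x : U4 K} (ha : x.a ≠ 0) {z : U4 K} (hz : z ∈ sZ K) :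
    ∃ t, cm (xc t) x = z := by
  obtain ⟨c, hc⟩ := exists_trc ha z.hz
  refine ⟨-c, sZ_eq (cm_sZ (xc_mem _) x) hz ?_⟩
  rw [cm_z, ← hc]; simp [xc]

section Card
variable [Finite K] [HF K]

theorem card_real : Nat.card {y : K // star y = y} = qq K := rfl

theorem card_U4 : Nat.card (U4 K) = qq K ^ 6 := by
  let e : U4 K ≃ K × K × {y : K // star y = y} × {y : K // star y = y} :=
    ⟨fun x => (x.a, x.c, ⟨x.y, x.hy⟩, ⟨x.z, x.hz⟩), fun v => ⟨v.1, v.2.2.1, v.2.1, v.2.2.2, v.2.2.1.2,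
      v.2.2.2.2⟩, fun _ => rfl, fun _ => rfl⟩
  rw [Nat.card_congr e]
  simp only [Nat.card_prod, card_K, card_real]
  ring

theorem card_sZ : Nat.card (sZ K) = qq K :=
  Nat.card_congr (β := {y : K // star y = y}) ⟨fun x => ⟨x.1.z, x.1.hz⟩,
    fun v => ⟨xz v.1 v.2, xz_mem _ _⟩, fun x => Subtype.ext (sZ_eq (xz_mem _ _) x.2 rfl), fun _ => rfl⟩

theorem card_sZ2 : Nat.card (sZ2 K) = qq K ^ 3 := by
  let e : sZ2 K ≃ K × {y : K // star y = y} :=
    ⟨fun x => (x.1.c, ⟨x.1.z, x.1.hz⟩), fun v => ⟨⟨0, 0, v.1, v.2, by simp, v.2.2⟩, rfl, rfl⟩,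
      fun x => Subtype.ext (U4.ext x.2.1.symm x.2.2.symm rfl rfl), fun _ => rfl⟩
  rw [Nat.card_congr e]
  simp only [Nat.card_prod, card_K, card_real]
  ring

theorem card_sJ : Nat.card (sJ K) = qq K ^ 4 := by
  let e : sJ K ≃ K × {y : K // star y = y} × {y : K // star y = y} :=
    ⟨fun x => (x.1.c, ⟨x.1.y, x.1.hy⟩, ⟨x.1.z, x.1.hz⟩),
      fun v => ⟨⟨0, v.2.1, v.1, v.2.2, v.2.1.2, v.2.2.2⟩, rfl⟩,
      fun x => Subtype.ext (U4.ext (mem_sJ.1 x.2).symm rfl rfl rfl), fun _ => rfl⟩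
  rw [Nat.card_congr e]
  simp only [Nat.card_prod, card_K, card_real]
  ring

theorem card_sQ : Nat.card (sQ K) = qq K ^ 5 := by
  let e : sQ K ≃ K × K × {y : K // star y = y} :=
    ⟨fun x => (x.1.a, x.1.c, ⟨x.1.z, x.1.hz⟩),
      fun v => ⟨⟨v.1, 0, v.2.1, v.2.2, by simp, v.2.2.2⟩, rfl⟩,
      fun x => Subtype.ext (U4.ext rfl (mem_sQ.1 x.2).symm rfl rfl), fun _ => rfl⟩
  rw [Nat.card_congr e]
  simp only [Nat.card_prod, card_K, card_real]
  ring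

theorem topP (p : ℕ) [Fact p.Prime] [CharP K p] : IsPGroup p (⊤ : Subgroup (U4 K)) := by
  obtain ⟨n, hn⟩ := exists_qq (K := K) p
  exact (IsPGroup.of_card (n := n * 6) (by rw [card_U4, hn, pow_mul])).to_subgroup ⊤

end Card

/-- Diagonal-field automorphisms (for `s u ≠ 0`): `X ↦ D σ(X) D*`, `D = diag(s u, u)`. -/
def gam [Finite K] (s u : K) (σ : K ≃+* K) (x : U4 K) : U4 K :=
  ⟨s * σ x.a, u * star u * σ x.y, s * u * star u * σ x.c, s * star s * u * star u * σ x.z,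
    by simp only [star_mul', star_star, star_aut, x.hy]; ring,
    by simp only [star_mul', star_star, star_aut, x.hz]; ring⟩

theorem gam_mul [Finite K] (s u : K) (σ : K ≃+* K) (x w : U4 K) :
    gam s u σ (x * w) = gam s u σ x * gam s u σ w := by
  ext <;> simp [gam, star_aut, -mul_eq_mul_left_iff, -mul_eq_mul_right_iff] <;> ring

theorem gam_gam [Finite K] (s u s' u' : K) (γ δ : K ≃+* K) (x : U4 K) :
    gam s u γ (gam s' u' δ x) = gam (s * γ s') (u * γ u') (δ.trans γ) x := by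
  ext <;> simp [gam, star_aut, -mul_eq_mul_left_iff, -mul_eq_mul_right_iff] <;> ring

theorem gam_one [Finite K] (x : U4 K) : gam 1 1 (RingEquiv.refl K) x = x := by
  ext <;> simp [gam]

theorem gam_inv [Finite K] {s u : K} (hs : s ≠ 0) (hu : u ≠ 0) (γ : K ≃+* K) (x : U4 K) :
    gam (γ.symm s⁻¹) (γ.symm u⁻¹) γ.symm (gam s u γ x) = x := by
  rw [gam_gam, ← map_mul, ← map_mul, inv_mul_cancel₀ hs, inv_mul_cancel₀ hu, map_one,
    RingEquiv.self_trans_symm, gam_one]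

/-- The Weyl element normalising `Q`. -/
def w1 (x : U4 K) : U4 K := ⟨x.c, 0, -x.a, x.z - (x.a * star x.c + star x.a * x.c), by simp,
  by simp; ring⟩

/-- The Weyl element normalising `J`. -/
def w2 (x : U4 K) : U4 K := ⟨0, x.z, -star x.c, x.y, x.hz, x.hy⟩

theorem w1_mul {x w : U4 K} (hw : w ∈ sQ K) : w1 (x * w) = w1 x * w1 w := by
  ext <;> simp [w1, mem_sQ.1 hw] <;> ring

theorem w2_mul {x w : U4 K} (hx : x ∈ sJ K) : w2 (x * w) = w2 x * w2 w := by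
  ext <;> simp [w2, mem_sJ.1 hx] <;> ring

/-- Standard fusion systems. -/
structure Std [Finite K] (p : ℕ) (F : FusionSystem (⊤ : Subgroup (U4 K))) : Prop where
  sat : F.IsSaturated p
  gen : ∀ E, F.IsEssential p E → E = sQ K ∨ E = sJ K
  n1 : ∃ τ, F.Iso (sQ K) (sQ K) τ ∧ ∃ x ∈ sZ2 K, τ x ∉ sZ2 K
  n2 : ∃ τ, F.Iso (sJ K) (sJ K) τ ∧ ∃ x ∈ sZ K, τ x ∉ sZ K
  aut : ∀ α, F.Iso ⊤ ⊤ α → ∃ g s u σ, s ≠ 0 ∧ u ≠ 0 ∧ ∀ x, α x = g * gam s u σ x * g⁻¹

/-- The automizer of `Q` is of `SL₂(q)` type, in standard position. -/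
structure W1 [Finite K] (F : FusionSystem (⊤ : Subgroup (U4 K))) : Prop where
  w : F.IsMap (sQ K) w1
  t : ∀ t : K, star t = t → t ≠ 0 → F.IsMap ⊤ (gam t t⁻¹ (RingEquiv.refl K))
  c : ∀ τ, F.Iso (sQ K) (sQ K) τ → (∀ x ∈ sZ2 K, τ x ∈ sZ2 K) ∨
    ∃ g, ∀ x ∈ sZ2 K, (g * τ x * g⁻¹).c = 0

/-- The automizer of `J` is of `L₂(q²)` type, in standard position. -/
structure W2 [Finite K] (F : FusionSystem (⊤ : Subgroup (U4 K))) : Prop where
  w : F.IsMap (sJ K) w2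
  t : ∀ u : K, u ≠ 0 → F.IsMap ⊤ (gam (u ^ 2) u⁻¹ (RingEquiv.refl K))
  c : ∀ τ, F.Iso (sJ K) (sJ K) τ → ((∀ x ∈ sZ K, τ x ∈ sZ K) ∧ ∀ x ∈ sZ2 K, τ x ∈ sZ2 K) ∨
    ∃ g, ∀ x ∈ sZ K, (g * τ x * g⁻¹).c = 0 ∧ (g * τ x * g⁻¹).z = 0

variable [Finite K] {F : FusionSystem (⊤ : Subgroup (U4 K))} {E : Subgroup (U4 K)}

theorem norm_of_cm {g : U4 K} (h : ∀ x ∈ E, cm g x ∈ E) :
    g ∈ Subgroup.normalizer (E : Set (U4 K)) :=
  Subgroup.mem_normalizer_fintype fun x hx => by rw [cj_eq]; exact E.mul_mem hx (h x hx)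

theorem norm_of_le (h : sZ2 K ≤ E) (g : U4 K) : g ∈ Subgroup.normalizer (E : Set (U4 K)) :=
  norm_of_cm fun x _ => h (cm_sZ2 g x)

theorem cent_of_comm (h : F.IsCentric E) {g : U4 K} (hg : ∀ x ∈ E, x * g = g * x) : g ∈ E :=
  h.centralizerIn_le ⟨trivial, Subgroup.mem_centralizer_iff.2 hg⟩

theorem map_cm {τ : Perm (U4 K)} (hτ : F.Iso E E τ) {g x : U4 K} (hg : g ∈ E) (hx : x ∈ E) :
    τ (cm g x) = cm (τ g) (τ x) := by
  rw [cm, cm, hτ.homOn (E.inv_mem hx) (E.mul_mem (E.mul_mem hg hx) (E.inv_mem hg)),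
    hτ.homOn.map_conj hg hx, hτ.homOn.map_inv hx]

theorem map_comm {τ : Perm (U4 K)} (hτ : F.Iso E E τ) {g x : U4 K} (hg : g ∈ E) (hx : x ∈ E)
    (h : g * x = x * g) : τ g * τ x = τ x * τ g := by
  rw [← hτ.homOn hg hx, ← hτ.homOn hx hg, h]

/-- Invariance under `Aut_F(E)`. -/
def Inv (F : FusionSystem (⊤ : Subgroup (U4 K))) (E A : Subgroup (U4 K)) : Prop :=
  ∀ τ, F.Iso E E τ → ∀ x ∈ A, τ x ∈ A

/-- A chain of length five. -/
def ch (A B C D E : Subgroup (U4 K)) : ℕ → Subgroup (U4 K)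
  | 0 => ⊥
  | 1 => A
  | 2 => B
  | 3 => C
  | 4 => D
  | _ + 5 => E

/-- Transport along an automorphism of `S`. -/
theorem exists_tr' (φ : U4 K ≃* U4 K) (F : FusionSystem (⊤ : Subgroup (U4 K))) :
    ∃ F' : FusionSystem (⊤ : Subgroup (U4 K)), L.Transp ⊤ ⊤ φ φ.symm F F' := by
  have t0 : L.PIso (⊤ : Subgroup (U4 K)) ⊤ φ φ.symm :=
    ⟨fun x _ y _ => map_mul φ x y, fun _ _ => trivial, fun _ _ => trivial,
      fun x _ => φ.symm_apply_apply x, fun x _ => φ.apply_symm_apply x⟩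
  exact t0.exists_transp le_rfl F t0.img_self

variable [HF K] {p : ℕ} [Fact p.Prime] [CharP K p]

/-- The chain lemma (repeat subgroups for shorter chains). -/
theorem mem_of_chain (hE : F.IsEssential p E) {A B C D : Subgroup (U4 K)} (hA : A ≤ E) (hB : B ≤ E)
    (hC : C ≤ E) (hD : D ≤ E) (iA : Inv F E A) (iB : Inv F E B) (iC : Inv F E C) (iD : Inv F E D)
    {g : U4 K} (h0 : ∀ x ∈ A, g * x = x * g) (h1 : ∀ x ∈ B, cm g x ∈ A) (h2 : ∀ x ∈ C, cm g x ∈ B)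
    (h3 : ∀ x ∈ D, cm g x ∈ C) (h4 : ∀ x ∈ E, cm g x ∈ D) : g ∈ E := by
  refine hE.isCentric.mem_of_cj_mem_opStab (hE.isRadical (topP p)) trivial
    ((F.iso_cj hE.le trivial (norm_of_cm fun x hx => hD (h4 x hx))).mem_opStab_of_chain (topP p)
    (C := ch A B C D E) (n := 5) (fun i hi => ?_) rfl rfl (fun τ hτ i hi => ?_) fun i hi x hx => ?_)
  · interval_cases i
    exacts [bot_le, hA, hB, hC, hD, le_rfl]
  · interval_cases i
    exacts [fun x hx => by rw [Subgroup.mem_bot.1 hx, hτ.homOn.map_one]; exact one_mem _,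
      iA τ hτ, iB τ hτ, iC τ hτ, iD τ hτ, fun x hx => hτ.mem hx]
  · interval_cases i
    exacts [cm_eq_one.2 (h0 x hx), h1 x hx, h2 x hx, h3 x hx, h4 x hx]

theorem ess_ne_top (hF : F.IsSaturated p) (hE : F.IsEssential p E) : E ≠ ⊤ :=
  (hE.lt hF (topP p)).ne

/-- An automorphism of a normal `E` keeping an `S`-central chain normalises `Aut_S(E)` and extends. -/
theorem ext_of_chain (hF : F.IsSaturated p) {A B C : Subgroup (U4 K)} (hA : A ≤ B) (hB : B ≤ C)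
    (hC : C ≤ E) (h0 : ∀ g, ∀ x ∈ A, g * x = x * g) (h1 : ∀ g, ∀ x ∈ B, cm g x ∈ A)
    (h2 : ∀ g, ∀ x ∈ C, cm g x ∈ B) (h3 : ∀ g, ∀ x ∈ E, cm g x ∈ C) {τ : Perm (U4 K)}
    (hτ : F.Iso E E τ) (iA : ∀ x ∈ A, τ x ∈ A) (iB : ∀ x ∈ B, τ x ∈ B) (iC : ∀ x ∈ C, τ x ∈ C) :
    (∀ g, τ * cj g * τ⁻¹ ∈ innS ⊤ E) ∧ ∃ α, F.Iso ⊤ ⊤ α ∧ ∀ x ∈ E, α x = τ x := by
  have hn : ∀ g, g ∈ Subgroup.normalizer (E : Set (U4 K)) := fun g =>
    norm_of_cm fun x hx => hC (h3 g x hx)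
  have fn := F.isFullyNormalized_of_le_normalizer le_top fun g _ => hn g
  have key : ∀ g, τ * cj g * τ⁻¹ ∈ innS ⊤ E := fun g => by
    have k : ∀ {D D' : Subgroup (U4 K)}, D ≤ E → D' ≤ E → (∀ x ∈ D, τ x ∈ D) →
        (∀ x ∈ D', τ x ∈ D') → (∀ x ∈ D', cm g x ∈ D) → ∀ x ∈ D',
        x⁻¹ * (τ * cj g * τ⁻¹) x ∈ D := fun {D D'} a a' b b' c x hx => by
      have m : τ⁻¹ x ∈ D' := ((mem_setStab_of_finite b') _).1 (by simpa using hx)
      have := b _ (c _ m)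
      rw [cm, hτ.homOn (E.inv_mem (a' m)) (conj_mem_of_mem_normalizer (hn g) (a' m)),
        hτ.homOn.map_inv (a' m)] at this
      simpa using this
    refine H4.Sp.mem_innS_of_chain (fn.isFullyAutomized hF (topP p)) (topP p) (C := ch A A B C E)
      (n := 5) (fun i hi => ?_) (fun i hi => ?_) rfl rfl (fun g _ _ i hi x hx => ?_)
      (hτ.symm.trans (F.iso_cj le_top trivial (hn g)) |>.trans hτ) fun i hi => ?_
    · interval_cases i
      exacts [bot_le, hA.trans (hB.trans hC), hA.trans (hB.trans hC), hB.trans hC, hC, le_rfl]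
    · interval_cases i
      exacts [bot_le, le_rfl, hA, hB, hC]
    · interval_cases i
      exacts [cm_eq_one.2 (h0 g x hx), h1 g x (hA hx), h1 g x hx, h2 g x hx, h3 g x hx]
    · interval_cases i
      exacts [k bot_le (hA.trans (hB.trans hC)) (fun x hx => by
          rw [Subgroup.mem_bot.1 hx, hτ.homOn.map_one]; exact one_mem _) iA
          fun x hx => cm_eq_one.2 (h0 g x hx),
        k (hA.trans (hB.trans hC)) (hA.trans (hB.trans hC)) iA iA fun x hx => h1 g x (hA hx),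
        k (hA.trans (hB.trans hC)) (hB.trans hC) iA iB (h1 g),
        k (hB.trans hC) hC iB iC (h2 g), k hC le_rfl iC (fun x hx => hτ.mem hx) (h3 g)]
  exact ⟨key, H4.Sp.exists_ext_top (fn.isReceptive hF (topP p)) (fun g _ => hn g) hτ
    fun g _ => key g⟩

theorem inv_Z_Q (F : FusionSystem (⊤ : Subgroup (U4 K))) : Inv F (sQ K) (sZ K) := fun τ hτ z hz => by
  obtain ⟨t, rfl⟩ := exists_cm_z (x := xa (1 : K)) one_ne_zero hz
  rw [map_cm hτ (Z2_Q (xc_mem t)) rfl]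
  exact cm_sQ (hτ.mem (Z2_Q (xc_mem t))) (hτ.mem rfl)

/-- An automorphism of `Q` keeping `Z₂` extends to `S`. -/
theorem ext1 (hF : F.IsSaturated p) {τ : Perm (U4 K)} (hτ : F.Iso (sQ K) (sQ K) τ)
    (h : ∀ x ∈ sZ2 K, τ x ∈ sZ2 K) :
    (∀ g, τ * cj g * τ⁻¹ ∈ innS ⊤ (sQ K)) ∧ ∃ α, F.Iso ⊤ ⊤ α ∧ ∀ x ∈ sQ K, α x = τ x :=
  ext_of_chain hF (A := sZ K) (B := sZ K) (C := sZ2 K) le_rfl Z_Z2 Z2_Q (fun g x hx => comm_sZ g hx)
    (fun g x hx => cm_sZ' g (Z_Z2 hx)) (fun g x hx => cm_sZ' g hx) (fun g x _ => cm_sZ2 g x) hτ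
    (inv_Z_Q F τ hτ) (inv_Z_Q F τ hτ) h

/-- An automorphism of `J` keeping `Z` and `Z₂` extends to `S`. -/
theorem ext2 (hF : F.IsSaturated p) {τ : Perm (U4 K)} (hτ : F.Iso (sJ K) (sJ K) τ)
    (h1 : ∀ x ∈ sZ K, τ x ∈ sZ K) (h : ∀ x ∈ sZ2 K, τ x ∈ sZ2 K) :
    (∀ g, τ * cj g * τ⁻¹ ∈ innS ⊤ (sJ K)) ∧ ∃ α, F.Iso ⊤ ⊤ α ∧ ∀ x ∈ sJ K, α x = τ x :=
  ext_of_chain hF (A := sZ K) (B := sZ K) (C := sZ2 K) le_rfl Z_Z2 Z2_J (fun g x hx => comm_sZ g hx)
    (fun g x hx => cm_sZ' g (Z_Z2 hx)) (fun g x hx => cm_sZ' g hx) (fun g x _ => cm_sZ2 g x) hτ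
    h1 h1 h

end Cfsg.Agent.Fu
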