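import Cfsg.Agent.Fu.A
import Cfsg.Agent.U5.E0
import Cfsg.Agent.U5.E3

/-! Essential subgroups of `U4 K` contain `Z₂`. -/

set_option autoImplicit false
set_option linter.unusedSectionVars false
set_option linter.style.haveILetI false

open Equiv
open scoped commutatorElement

namespace Cfsg.Agent.Fu

open Cfsg.Fus Cfsg.FusionSystem Cfsg.Agent.Uf U4

namespace Es

variable {K : Type*} [Field K] [StarRing K] [Finite K] [HF K]
  {F : FusionSystem (⊤ : Subgroup (U4 K))} {E : Subgroup (U4 K)} {τ σ : Perm (U4 K)} {w : U4 K}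

/-- The centre of `E`. -/
def zc (E : Subgroup (U4 K)) : Subgroup (U4 K) := E ⊓ Subgroup.centralizer (E : Set (U4 K))

theorem mem_zc {x : U4 K} : x ∈ zc E ↔ x ∈ E ∧ ∀ e ∈ E, e * x = x * e :=
  and_congr_right fun _ => Subgroup.mem_centralizer_iff

theorem zc_le : zc E ≤ E := inf_le_left

theorem zc_inv : Inv F E (zc E) := fun _ hτ _ hx => mem_zc.2 ⟨hτ.mem hx.1, fun e he => by
  simpa using map_comm hτ (hτ.inv_mem he) hx.1 ((mem_zc.1 hx).2 _ (hτ.inv_mem he))⟩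

theorem cm_left (hτ : F.Iso E E τ) {g x : U4 K} (hg : g ∈ E) (hx : x ∈ E) :
    cm g (τ x) = τ (cm (τ⁻¹ g) x) := by rw [map_cm hτ (hτ.inv_mem hg) hx]; simp

theorem cm_right (hτ : F.Iso E E τ) {g x : U4 K} (hg : g ∈ E) (hx : x ∈ E) :
    cm (τ g) x = τ (cm g (τ⁻¹ x)) := by rw [map_cm hτ hg (hτ.inv_mem hx)]; simp

theorem cm_mem_comm {g x : U4 K} (hg : g ∈ E) (hx : x ∈ E) : cm g x ∈ ⁅E, E⁆ := by
  have := Subgroup.commutator_mem_commutator (E.inv_mem hx) hg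
  rwa [commutatorElement_def, inv_inv, show x⁻¹ * g * x * g⁻¹ = cm g x by simp [cm, mul_assoc]]
    at this

theorem comm_Z2 {e u : U4 K} (hu : u ∈ sZ2 K) :
    e * u = u * e ↔ e.a * star u.c + star e.a * u.c = 0 := by
  simp [comm_iff, hu.1, hu.2]

variable {p : ℕ} [Fact p.Prime] [CharP K p]

theorem Z_le (hE : F.IsEssential p E) : sZ K ≤ E := fun _ hx =>
  cent_of_comm hE.isCentric fun g _ => comm_sZ g hx

/-- the two-step chain lemma -/
theorem ch1 (hE : F.IsEssential p E) {A : Subgroup (U4 K)} (hA : A ≤ E) (iA : Inv F E A) {g : U4 K}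
    (h0 : ∀ x ∈ A, g * x = x * g) (h1 : ∀ x ∈ E, cm g x ∈ A) : g ∈ E :=
  mem_of_chain hE hA hA hA hA iA iA iA iA h0 (fun x hx => h1 x (hA hx)) (fun x hx => h1 x (hA hx))
    (fun x hx => h1 x (hA hx)) h1

/-- the three-step chain lemma -/
theorem ch2 (hE : F.IsEssential p E) {A B : Subgroup (U4 K)} (hA : A ≤ B) (hB : B ≤ E)
    (iA : Inv F E A) (iB : Inv F E B) {g : U4 K} (h0 : ∀ x ∈ A, g * x = x * g)
    (h1 : ∀ x ∈ B, cm g x ∈ A) (h2 : ∀ x ∈ E, cm g x ∈ B) : g ∈ E :=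
  mem_of_chain hE (hA.trans hB) hB hB hB iA iB iB iB h0 h1 (fun x hx => h2 x (hB hx))
    (fun x hx => h2 x (hB hx)) h2

theorem Q_le (hE : F.IsEssential p E) (hQ : E ≤ sQ K) (hZ : sZ K ≤ ⁅E, E⁆) : sQ K ≤ E :=
  fun g hg => ch1 hE E0.comm_le (fun _ hτ _ hx => E0.comm_inv hτ hx) (fun x hx => comm_sZ g
    ((Subgroup.commutator_le.2 fun a ha b hb => by
      have := cm_sQ (hQ hb) (hQ (E.inv_mem ha))
      rwa [cm, inv_inv, ← mul_assoc, ← mul_assoc, ← commutatorElement_def] at this : ⁅E, E⁆ ≤ sZ K) hx))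
    fun x hx => hZ (cm_sQ hg (hQ hx))

theorem case_a (hF : F.IsSaturated p) (hE : F.IsEssential p E) (hc : ∀ e ∈ E, e * w = w * e)
    (ha : w.a ≠ 0) (hy : w.y = 0) : sQ K ≤ E := by
  have hQ : E ≤ sQ K := fun e he => by
    simpa [hy, ha, mem_sQ] using ((comm_iff.1 (hc e he)).1).symm
  obtain ⟨t, ht⟩ := exists_trc ha (star_one K)
  have hx : ∀ s : K, star s = s → xc (s * t) ∈ E → s = 0 := fun s hs h => by
    have := (comm_Z2 (xc_mem _)).1 (hc _ h).symm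
    simp only [xc, star_mul', hs] at this
    linear_combination this - s * ht
  have hC : ∀ g ∈ sQ K, g * w = w * g → g ∈ E := fun g hg hw => by
    by_contra hn
    have h := E0.qo hF (topP p) hE (B := sQ K) (fun s hs => ⟨trivial,
        norm_of_cm fun x hx => Z_le hE (cm_sQ hs (hQ hx))⟩)
      (fun s hs s' hs' x hx => ?_) (b := xc t) (Z2_Q (xc_mem t)) (fun h => ?_)
      (X := {y : K // star y = y}) (Y := Option {y : K // star y = y})
      (fun x => ⟨x.a * star t + star x.a * t, by simp [mul_comm, add_comm]⟩)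
      (fun x _ y _ e => ?_) (fun o => o.elim g fun s => xc (s * t)) (fun o => ?_) fun o o' h => ?_
    · rw [Finite.card_option] at h
      omega
    · rw [cm_def, cm_def, cm_eq_one.2 (comm_sZ _ (cm_sQ hs (hQ hx)))]
      exact one_mem _
    · exact one_ne_zero (hx 1 (star_one K) (by rwa [one_mul]))
    · have e1 : x.a * star t + star x.a * t = y.a * star t + star y.a * t := congrArg Subtype.val e
      rw [cm_def, cm_eq_one.2 ((comm_Z2 (xc_mem t)).2 (by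
        simp only [mul_a, inv_a, star_add, star_neg, xc]; linear_combination e1)).symm]
      exact one_mem _
    · cases o
      exacts [hg, Z2_Q (xc_mem _)]
    · have k : ∀ s : {y : K // star y = y}, (xc (s * t))⁻¹ * g ∉ E := fun s h => by
        have h1 : xc (s * t) * w = w * xc (s * t) := by
          have := hc _ h
          rw [mul_assoc, hw, ← mul_assoc, ← mul_assoc, mul_left_inj, inv_mul_eq_iff_eq_mul,
            ← mul_assoc, eq_mul_inv_iff_mul_eq] at this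
          exact this.symm
        have h2 := (comm_Z2 (xc_mem _)).1 h1.symm
        simp only [xc, star_mul', s.2] at h2
        have h3 : (s : K) = 0 := by linear_combination h2 - s * ht
        rw [h3, zero_mul, show xc (0 : K) = 1 from rfl, inv_one, one_mul] at h
        exact hn h
      rcases o with _ | s <;> rcases o' with _ | s'
      · rfl
      · exact absurd h (k _)
      · exact absurd (by simpa using E.inv_mem h) (k s)
      · have e : (xc (s' * t : K))⁻¹ * xc (s * t : K) = xc ((s - s') * t : K) := by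
          ext <;> simp [xc]
          ring
        exact congrArg some (Subtype.ext (sub_eq_zero.1 (hx _ (by rw [star_sub, s.2, s'.2]) (e ▸ h))))
  refine Q_le hE hQ fun z hz => ?_
  obtain ⟨θ, h0, hθ⟩ := exists_skew (K := K)
  obtain ⟨a, h1⟩ := exists_trc (mul_ne_zero ha h0) (star_one K)
  obtain ⟨c, h2⟩ := exists_trc (t := a * star w.c + star a * w.c) ha (by simp [mul_comm, add_comm])
  have u1 : xc (w.a * θ * -z.z) ∈ E := hC _ (Z2_Q (xc_mem _)) ((comm_Z2 (xc_mem _)).2 (by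
    simp [xc, hθ]; ring)).symm
  have u2 : xa a * xc c ∈ E := hC _ (by simp [mem_sQ, xa, xc]) (by
    simp [comm_iff, xa, xc, hy, h2])
  have := cm_mem_comm u1 u2
  rwa [sZ_eq (cm_sZ (xc_mem _) _) hz (by
    simp only [cm_z, xa, xc, mul_a, star_mul', star_neg, z.hz, hθ, star_zero, add_zero] at h1 ⊢
    linear_combination z.z * h1)] at this

theorem key_b (hc : ∀ e ∈ E, e * w = w * e) (ha : w.a ≠ 0) (hy : w.y ≠ 0) {e : U4 K} (he : e ∈ E) :
    ∃ μ, star μ = μ ∧ e.a = μ * w.a ∧ e.y = μ * w.y :=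
  ⟨e.y / w.y, by simp, by field_simp; linear_combination (comm_iff.1 (hc e he)).1, by field_simp⟩

theorem case_b2 (hE : F.IsEssential p E) (hc : ∀ e ∈ E, e * w = w * e) (ha : w.a ≠ 0)
    (hy : w.y ≠ 0) (h2 : (2 : K) = 0) : sZ2 K ≤ E := fun g hg => by
  refine ch1 hE (A := E ⊓ sZ2 K) inf_le_left (fun τ hτ x hx => ⟨hτ.mem hx.1, ?_⟩)
    (fun x hx => comm_sJ (Z2_J hg) (Z2_J hx.2)) fun x _ => ⟨Z_le hE (cm_sZ hg x), cm_sZ2 g x⟩
  have e1 : x * x = 1 := by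
    ext <;> simp [hx.2.1, hx.2.2, ← two_mul, h2]
  have e2 : τ x * τ x = 1 := by rw [← hτ.homOn hx.1 hx.1, e1, hτ.homOn.map_one]
  obtain ⟨μ, -, m1, m2⟩ := key_b hc ha hy (hτ.mem hx.1)
  have e3 := congrArg U4.c e2
  simp only [mul_c, ← two_mul, h2, zero_mul, zero_add, one_c, m1, m2, mul_eq_zero, ha, hy, or_false,
    or_self] at e3
  exact ⟨by rw [m1, e3, zero_mul], by rw [m2, e3, zero_mul]⟩

/-- Quadratic action. -/
def Qd (E : Subgroup (U4 K)) (σ : Perm (U4 K)) : Prop :=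
  ∀ x ∈ E, σ (x⁻¹ * σ x) = x⁻¹ * σ x

theorem Qd.conj (h : Qd E σ) (hσ : F.Iso E E σ) (hτ : F.Iso E E τ) : Qd E (τ * σ * τ⁻¹) := by
  intro x hx
  obtain ⟨y, hy, rfl⟩ := hτ.exists_eq hx
  simp only [Perm.mul_apply, Perm.coe_inv, Equiv.symm_apply_apply]
  rw [← hτ.homOn.map_inv hy, ← hτ.homOn (inv_mem hy) (hσ.mem hy), Equiv.symm_apply_apply, h y hy]

theorem Qd.fix (hw : w ∈ E) (hc : ∀ e ∈ E, e * w = w * e) (hy : w.y ≠ 0) (h2 : (2 : K) ≠ 0)
    (h : Qd E σ) (hσ : σ ∈ innS ⊤ E) {u : U4 K} (hu : u ∈ E ⊓ sZ2 K) : σ u = u := by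
  obtain ⟨g, -, hn, hg⟩ := mem_innS.1 hσ
  have m : cm g w ∈ E := E.mul_mem (E.inv_mem hw) (conj_mem_of_mem_normalizer hn hw)
  have k := h _ hw
  rw [hg _ hw, cm_def, hg _ m, mul_inv_eq_iff_eq_mul, comm_Z2 (cm_sZ2 g w)] at k
  have k1 := (comm_Z2 (cm_sZ2 g w)).1 (hc _ m).symm
  have k2 : (cm g w).c = 0 := by
    have : 2 * ((cm g w).c * star (cm g w).c) = 0 := by
      have e := cm_c g w
      have e' : star (cm g w).c = star g.a * w.y - star w.a * g.y := by rw [e]; simp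
      linear_combination w.y * k - g.y * k1 + star (cm g w).c * e + (cm g w).c * e'
    simpa [h2] using this
  have k3 := (comm_Z2 hu.2).1 (hc _ hu.1).symm
  rw [cm_c, sub_eq_zero] at k2
  have k4 : star g.a * w.y = star w.a * g.y := by simpa using congrArg star k2
  rw [hg u hu.1, mul_inv_eq_iff_eq_mul, comm_Z2 hu.2]
  exact mul_left_cancel₀ hy (by linear_combination g.y * k3 + star u.c * k2 + u.c * k4)

theorem wcl (hF : F.IsSaturated p) (hE : F.IsEssential p E) (hw : w ∈ E)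
    (hc : ∀ e ∈ E, e * w = w * e) (ha : w.a ≠ 0) (hy : w.y ≠ 0) (h2 : (2 : K) ≠ 0)
    (hτ : F.Iso E E τ) {z : U4 K} (hz : z ∈ sZ K) (hz1 : z ≠ 1) (hd : τ z ∈ sZ2 K) :
    ∀ x ∈ E ⊓ sZ2 K, τ x ∈ E ⊓ sZ2 K := by
  have hJ : ∀ e ∈ E, e ∈ sJ K → e ∈ E ⊓ sZ2 K := fun e he hj => by
    obtain ⟨μ, -, m1, m2⟩ := key_b hc ha hy he
    have : μ = 0 := by simpa [ha] using m1.symm.trans hj
    exact ⟨he, hj, by rw [m2, this, zero_mul]⟩
  obtain ⟨Γ, _, _, _, P, ρ, r1, r2, -, r4, -⟩ := H4.Sp.exists_setup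
    (hE.isFullyNormalized.isFullyAutomized hF (topP p)) (V := Unit) (fun _ => 0)
    (fun _ _ _ _ => rfl) (fun _ => ⟨1, one_mem _, rfl⟩) fun _ _ _ _ _ => rfl
  obtain ⟨t, ht⟩ := r2 τ hτ
  suffices h : ∀ x ∈ E ⊓ sZ2 K, ρ t x ∈ E ⊓ sZ2 K from fun x hx => ht x hx.1 ▸ h x hx
  rw [← ht z (Z_le hE hz)] at hd
  refine Ea.maps_inv fun x hx => ?_
  by_contra hn
  have he := (r1 t).inv_mem hx.1
  obtain ⟨s, hs⟩ := exists_cm_z (fun h => hn (hJ _ he h)) hz
  set e := (ρ t)⁻¹ x with hex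
  set d := ρ t z with hdd
  have dE : d ∈ E := (r1 t).mem (Z_le hE hz)
  let B : Subgroup Γ :=
    { carrier := {γ | ∃ g ∈ sZ2 K, ∀ x ∈ E, ρ γ x = g * x * g⁻¹}
      one_mem' := ⟨1, one_mem _, by simp⟩
      mul_mem' := by
        rintro a b ⟨g, hg, ha⟩ ⟨w, hw, hb⟩
        refine ⟨g * w, mul_mem hg hw, fun x hx => ?_⟩
        rw [map_mul, Perm.mul_apply, ha _ ((r1 b).mem hx), hb x hx]; group
      inv_mem' := by
        rintro a ⟨g, hg, ha⟩
        refine ⟨g⁻¹, inv_mem hg, fun x hx => ?_⟩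
        have := ha _ ((r1 a⁻¹).mem hx)
        rw [← Perm.mul_apply, ← map_mul, mul_inv_cancel, map_one, Perm.one_apply] at this
        rw [this]
        simp only [← this]
        rw [inv_inv, mul_assoc, eq_inv_mul_iff_mul_eq, ← mul_inv_eq_iff_eq_mul, ← this] }
  let H : Subgroup Γ :=
    { carrier := {γ | ρ γ d = d ∧ ∃ n : ℤ, ρ γ x = x * d ^ n}
      one_mem' := ⟨by simp, 0, by simp⟩
      mul_mem' := by
        rintro a b ⟨a1, n, a2⟩ ⟨b1, m, b2⟩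
        refine ⟨by rw [map_mul, Perm.mul_apply, b1, a1], n + m, ?_⟩
        rw [map_mul, Perm.mul_apply, b2, (r1 a).homOn hx.1 (zpow_mem dE m),
          (r1 a).homOn.map_zpow dE, a1, a2, zpow_add, mul_assoc]
      inv_mem' := by
        rintro a ⟨a1, n, a2⟩
        refine ⟨by rw [map_inv, Perm.inv_eq_iff_eq, a1], -n, ?_⟩
        rw [map_inv, Perm.inv_eq_iff_eq, (r1 a).homOn hx.1 (zpow_mem dE _),
          (r1 a).homOn.map_zpow dE, a1, a2, zpow_neg, mul_inv_cancel_right] }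
  have hB : ∀ g ∈ sZ2 K, ∃ a ∈ B, ∀ x ∈ E, ρ a x = g * x * g⁻¹ := fun g hg => by
    obtain ⟨a, ha⟩ := r2 _ (F.iso_cj le_top (Subgroup.mem_top g)
      (norm_of_cm fun x _ => Z_le hE (cm_sZ hg x)))
    exact ⟨a, ⟨g, hg, ha⟩, ha⟩
  have BP : B ≤ P := fun a ⟨g, _, ha⟩ =>
    (r4 a).2 (mem_innS_of_setStab (r1 a).mem_setStab (Subgroup.mem_top g) ha)
  have BQ : ∀ a ∈ B, Qd E (ρ a) := fun a ⟨g, hg, ha⟩ w hw => by
    have m := cm_sZ hg w
    rw [ha w hw, cm_def, ha _ (Z_le hE m), comm_sZ _ m, mul_inv_cancel_right]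
  have BH : B ≤ H := fun a ⟨g, hg, ha⟩ =>
    ⟨by rw [ha d dE, comm_sJ (Z2_J hg) (Z2_J hd), mul_inv_cancel_right],
      0, by rw [ha x hx.1, comm_sJ (Z2_J hg) (Z2_J hx.2), mul_inv_cancel_right, zpow_zero, mul_one]⟩
  obtain ⟨a, aB, ha'⟩ := hB _ (xc_mem s)
  obtain ⟨n, hn'⟩ := P.isPGroup' ⟨a, BP aB⟩
  have s1 : ρ (t * a * t⁻¹) d = d := by
    simp only [map_mul, map_inv, Perm.mul_apply, hdd, Perm.coe_inv, Equiv.symm_apply_apply]
    rw [ha' _ (Z_le hE hz), comm_sZ _ hz, mul_inv_cancel_right]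
  have s2 : ρ (t * a * t⁻¹) x = x * d := by
    simp only [map_mul, map_inv, Perm.mul_apply]
    rw [← hex, ha' e he, cj_eq, hs, (r1 t).homOn he (Z_le hE hz), hex]
    simp [hdd]
  obtain ⟨b, bH, k, k1, k2⟩ := wc P BP (σ := t * a * t⁻¹) (n := n)
    (by rw [conj_pow, show a ^ p ^ n = 1 from congrArg Subtype.val hn']; simp) BH
    ⟨s1, 1, by rw [s2, zpow_one]⟩
  have cj : ∀ a k, Qd E (ρ a) → Qd E (ρ (k * a * k⁻¹)) := fun a k ha => by
    simpa only [map_mul, map_inv] using ha.conj (r1 a) (r1 k)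
  have kY : ∀ u ∈ E ⊓ sZ2 K, ρ k u ∈ E ⊓ sZ2 K := Ea.maps_inv fun u hu => by
    have uE := (r1 k).inv_mem hu.1
    refine hJ _ uE (mem_J_of_comm fun v => ?_)
    obtain ⟨c, cB, hc'⟩ := hB _ (xc_mem v)
    have := (cj c k (BQ c cB)).fix hw hc hy h2 ((r4 _).1 (k1 c cB)) hu
    simp only [map_mul, map_inv, Perm.mul_apply] at this
    rw [hc' _ uE, ← Perm.eq_inv_iff_eq] at this
    exact (mul_inv_eq_iff_eq_mul.1 this).symm
  have f := (cj _ k (cj _ b (cj a t (BQ a aB)))).fix hw hc hy h2 ((r4 _).1 k2) (kY x hx)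
  obtain ⟨b1, j, b2⟩ := inv_mem bH
  rw [map_mul, map_mul, Perm.mul_apply, Perm.mul_apply, map_inv ρ k, Perm.coe_inv,
    Equiv.symm_apply_apply, (ρ k).apply_eq_iff_eq, map_mul, map_mul, Perm.mul_apply,
    Perm.mul_apply, b2, (r1 _).homOn hx.1 (zpow_mem dE _), (r1 _).homOn.map_zpow dE, s1, s2,
    ← Perm.eq_inv_iff_eq, ← map_inv, b2, mul_left_inj, mul_eq_left, hdd,
    ← (r1 t).homOn.map_one, (ρ t).apply_eq_iff_eq] at f
  exact hz1 f

theorem case_b (hF : F.IsSaturated p) (hE : F.IsEssential p E) (hw : w ∈ E)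
    (hc : ∀ e ∈ E, e * w = w * e) (ha : w.a ≠ 0) (hy : w.y ≠ 0) (h2 : (2 : K) ≠ 0) :
    sZ2 K ≤ E := fun g hg => by
  refine ch1 hE (A := E ⊓ sZ2 K) inf_le_left (fun τ hτ => ?_)
    (fun x hx => comm_sJ (Z2_J hg) (Z2_J hx.2)) fun x _ => ⟨Z_le hE (cm_sZ hg x), cm_sZ2 g x⟩
  by_contra hn
  have W := fun {τ} hτ {z} => wcl hF hE hw hc ha hy h2 (τ := τ) hτ (z := z)
  have t2 : ∀ z ∈ sZ K, τ⁻¹ z ∈ sZ2 K → z = 1 := fun z hz h =>
    by_contra fun h1 => hn (Ea.maps_inv (W hτ.symm hz h1 h))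
  have hJ : ∀ e ∈ E, e.y = 0 → e ∈ sZ2 K := fun e he h => by
    obtain ⟨μ, -, m1, m2⟩ := key_b hc ha hy he
    have : μ = 0 := by simpa [hy] using m2.symm.trans h
    exact ⟨by rw [m1, this, zero_mul], h⟩
  have z0 := xz_mem (1 : K) (star_one K)
  have z1 : xz (1 : K) (star_one K) ≠ 1 := fun h => one_ne_zero (congrArg U4.z h)
  have mE := hτ.mem (Z_le hE z0)
  have hzy : (τ (xz 1 (star_one K))).y ≠ 0 := fun h => hn (W hτ z0 z1 (hJ _ mE h))
  obtain ⟨μ, m0, m1, m2⟩ := key_b hc ha hy mE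
  have hμ : μ ≠ 0 := fun h => hzy (by rw [m2, h, zero_mul])
  obtain ⟨θ, h0, hθ⟩ := exists_skew (K := K)
  have hC : ∀ u ∈ sZ2 K, w.a * star u.c + star w.a * u.c = 0 → u ∈ E := fun u hu h =>
    cent_of_comm hE.isCentric fun e he => (comm_Z2 hu).2 (by
      obtain ⟨ν, n0, n1, -⟩ := key_b hc ha hy he
      rw [n1, star_mul', n0]; linear_combination ν * h)
  have hn' : ∀ t, ∀ x ∈ E, cm (xa (w.a * θ) * xc t) x ∈ E := fun t x _ => hC _ (cm_sZ2 _ _) (by
    simp [cm_c, xa, xc, hθ]; ring)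
  let f : sZ K → {y : K // star y = y} := fun z => ⟨(τ⁻¹ z).y, U4.hy _⟩
  have hf : Function.Injective f := fun z z' e => by
    have e' : (τ⁻¹ z).y = (τ⁻¹ z').y := congrArg Subtype.val e
    have m := mul_mem (inv_mem z.2) z'.2
    have := t2 _ m (hJ _ (hτ.inv_mem (Z_le hE m)) (by
      rw [hτ.symm.homOn (Z_le hE (inv_mem z.2)) (Z_le hE z'.2), hτ.symm.homOn.map_inv (Z_le hE z.2),
        mul_y, inv_y, e', neg_add_cancel]))
    exact Subtype.ext (inv_mul_eq_one.1 this)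
  set v := τ (xz 1 (star_one K)) with hv
  have uE := hn' 0 v mE
  obtain ⟨z, hz⟩ := (hf.bijective_of_nat_card_le (by rw [card_sZ, card_real])).2
    ⟨-(τ⁻¹ (cm (xa (w.a * θ) * xc 0) v)).y, by simp⟩
  have hz' : (τ⁻¹ z).y = -(τ⁻¹ (cm (xa (w.a * θ) * xc 0) v)).y := congrArg Subtype.val hz
  obtain ⟨t, ht⟩ := exists_cm_z (x := v) (by rw [m1]; exact mul_ne_zero hμ ha) z.2
  have e1 : cm (xa (w.a * θ) * xc t) v = cm (xa (w.a * θ) * xc 0) v * z := by
    rw [← ht]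
    ext <;> simp [cm_c, cm_z, xa, xc]
    ring
  have dE := hn' t v mE
  have d2 : τ⁻¹ (cm (xa (w.a * θ) * xc t) v) ∈ sZ2 K := hJ _ (hτ.inv_mem dE) (by
    rw [e1, hτ.symm.homOn uE (Z_le hE z.2), mul_y, hz', add_neg_cancel])
  set g' := xa (w.a * θ) * xc t with hg'
  have i1 := (hτ.trans (F.iso_cj le_top (Subgroup.mem_top g') (norm_of_cm (hn' t)))).trans hτ.symm
  have k := W i1 z0 z1 (by
    rw [Perm.mul_apply, Perm.mul_apply, cj_apply, cj_eq, hτ.symm.homOn mE dE]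
    exact mul_mem (by simpa [hv] using Z_Z2 z0) d2) _ ⟨hτ.inv_mem dE, d2⟩
  have m3 := cm_sZ' g' (cm_sZ2 g' v)
  rw [Perm.mul_apply, Perm.mul_apply, perm_apply_inv_self, cj_apply, cj_eq,
    hτ.symm.homOn dE (Z_le hE m3)] at k
  have k2 := (comm_Z2 (cm_sZ2 g' v)).1 (cm_eq_one.1 (t2 _ m3 (by
    simpa using mul_mem (inv_mem d2) k.2)))
  simp only [cm_c, hg', xa, xc, mul_a, mul_y, add_zero, mul_zero, sub_zero, star_mul', hθ, v.hy] at k2
  have : 2 * (w.a * star w.a * (θ * θ) * v.y) = 0 := by linear_combination -k2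
  simp [h2, ha, h0, hzy] at this

theorem Z2_le (hF : F.IsSaturated p) (hE : F.IsEssential p E) : sZ2 K ≤ E := by
  by_cases h : ∀ x ∈ zc E, x.a = 0
  · exact fun g hg => ch1 hE zc_le zc_inv (fun x hx => comm_sJ (Z2_J hg) (h x hx)) fun x _ =>
      mem_zc.2 ⟨Z_le hE (cm_sZ hg x), fun y _ => comm_sZ y (cm_sZ hg x)⟩
  push Not at h
  obtain ⟨w, hw, ha⟩ := h
  obtain ⟨hw, hc⟩ := mem_zc.1 hw
  by_cases hy : w.y = 0
  · exact Z2_Q.trans (case_a hF hE hc ha hy)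
  by_cases h2 : (2 : K) = 0
  exacts [case_b2 hE hc ha hy h2, case_b hF hE hw hc ha hy h2]

end Es

end Cfsg.Agent.Fu
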