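import Cfsg.Agent.Fu.E1

/-! The essential subgroups of `U4 K`. -/

set_option autoImplicit false
set_option linter.unusedSectionVars false
set_option linter.style.haveILetI false

open Equiv
open scoped commutatorElement

namespace Cfsg.Agent.Fu

open Cfsg.Fus Cfsg.FusionSystem Cfsg.Agent.Uf U4

namespace Es

variable {K : Type*} [Field K] [StarRing K] [Finite K] [HF K]
  {F : FusionSystem (⊤ : Subgroup (U4 K))} {E : Subgroup (U4 K)} {τ : Perm (U4 K)} {e e' : U4 K}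
  {p : ℕ} [Fact p.Prime] [CharP K p]

theorem inv_Z (h2 : sZ2 K ≤ E) (he : e ∈ E) (ha : e.a ≠ 0) (i2 : Inv F E (sZ2 K)) :
    Inv F E (sZ K) := fun τ hτ z hz => by
  obtain ⟨t, rfl⟩ := exists_cm_z ha hz
  rw [map_cm hτ (h2 (xc_mem t)) he]
  exact cm_sZ (i2 τ hτ _ (xc_mem t)) _

theorem not_inv (hF : F.IsSaturated p) (hE : F.IsEssential p E) (he : e ∈ E) (ha : e.a ≠ 0)
    (i2 : Inv F E (sZ2 K)) : False :=
  ess_ne_top hF hE (eq_top_iff.2 fun g _ => ch2 hE Z_Z2 (Z2_le hF hE)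
    (inv_Z (Z2_le hF hE) he ha i2) i2 (fun _ hx => comm_sZ g hx) (fun _ hx => cm_sZ' g hx)
    fun x _ => cm_sZ2 g x)

theorem inv_Z2 {A : Subgroup (U4 K)} (h2 : sZ2 K ≤ E) (hA : sZ K ≤ A) (iA : Inv F E A)
    (h : ∀ w ∈ E, (∀ x ∈ E, cm w x ∈ A) → w ∈ sZ2 K) : Inv F E (sZ2 K) := fun τ hτ w hw =>
  h _ (hτ.mem (h2 hw)) fun x hx => by
    rw [cm_right hτ (h2 hw) hx]; exact iA τ hτ _ (hA (cm_sZ hw _))

theorem zc_Z2 (h2 : sZ2 K ≤ E) (he : e ∈ E) (ha : e.a ≠ 0) {w : U4 K} (hw : w ∈ zc E) :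
    w ∈ sZ2 K := by
  have h0 : w.a = 0 := mem_J_of_comm fun t => ((mem_zc.1 hw).2 _ (h2 (xc_mem t))).symm
  exact ⟨h0, by simpa [h0, ha] using (comm_iff.1 ((mem_zc.1 hw).2 e he)).1⟩

theorem Z_zc (hE : F.IsEssential p E) : sZ K ≤ zc E := fun _ hz =>
  mem_zc.2 ⟨Z_le hE hz, fun y _ => comm_sZ y hz⟩

/-- `a(E)` is contained in a real line. -/
theorem line (hF : F.IsSaturated p) (hE : F.IsEssential p E) (he : e ∈ E) (ha : e.a ≠ 0)
    (he' : e' ∈ E) (hy : e'.y ≠ 0) {x : U4 K} (hx : x ∈ E) : ∃ μ, star μ = μ ∧ x.a = μ * e.a := by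
  have h2 := Z2_le hF hE
  have ha' := star_ne_zero.2 ha
  refine ⟨x.a / e.a, ?_, by field_simp⟩
  rw [star_div₀, div_eq_div_iff ha' ha]
  by_contra hn
  refine not_inv hF hE he ha (inv_Z2 h2 (Z_zc hE) zc_inv fun w _ h => ?_)
  have k : ∀ u ∈ E, w.a * u.y = u.a * w.y := fun u hu => by
    have m := h u hu
    have h3 := (comm_Z2 (cm_sZ2 w u)).1 ((mem_zc.1 m).2 e he)
    have h4 := (comm_Z2 (cm_sZ2 w u)).1 ((mem_zc.1 m).2 x hx)
    rw [← sub_eq_zero, ← cm_c]
    exact (mul_eq_zero.1 (by linear_combination e.a * h4 - x.a * h3 :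
      (cm w u).c * (star x.a * e.a - x.a * star e.a) = 0)).resolve_right (sub_ne_zero.2 hn)
  have y0 : w.y = 0 := by
    by_contra y0
    have k1 := k e he
    have k2 := k x hx
    have k3 := congrArg star k1
    have k4 := congrArg star k2
    simp only [star_mul', U4.hy] at k3 k4
    exact hn (mul_left_cancel₀ (mul_ne_zero y0 y0) (by
      linear_combination (-star x.a * w.y) * k1 - w.a * e.y * k4 + star e.a * w.y * k2 + w.a * x.y * k3))
  exact ⟨by simpa [y0, hy] using k e' he', y0⟩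

theorem mem_zc' (h2 : sZ2 K ≤ E) (hl : ∀ x ∈ E, ∃ μ, star μ = μ ∧ x.a = μ * e.a) {u : U4 K}
    (hu : u ∈ sZ2 K) (h : e.a * star u.c + star e.a * u.c = 0) : u ∈ zc E :=
  mem_zc.2 ⟨h2 hu, fun x hx => (comm_Z2 hu).2 (by
    obtain ⟨μ, m0, m1⟩ := hl x hx
    rw [m1, star_mul', m0]; linear_combination μ * h)⟩

theorem odd_case (hF : F.IsSaturated p) (hE : F.IsEssential p E) (he : e ∈ E) (ha : e.a ≠ 0)
    (he' : e' ∈ E) (hy : e'.y ≠ 0) (t2 : (2 : K) ≠ 0) : False := by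
  have h2 := Z2_le hF hE
  have hl := fun x => line hF hE he ha he' hy (x := x)
  by_cases hp : ∀ u ∈ E, ∀ v ∈ E, u.a * v.y = v.a * u.y
  · have hZ : ⁅E, E⁆ ≤ sZ K := Subgroup.commutator_le.2 fun a ha b hb => by
      have : cm b a⁻¹ ∈ sZ K := ⟨cm_a _ _, cm_y _ _, by rw [cm_c, hp b hb _ (E.inv_mem ha), sub_self]⟩
      rwa [cm, inv_inv, ← mul_assoc, ← mul_assoc, ← commutatorElement_def] at this
    have iZ : Inv F E (sZ K) := fun τ hτ z hz => by
      obtain ⟨t, rfl⟩ := exists_cm_z ha hz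
      exact hZ (E0.comm_inv hτ (cm_mem_comm (h2 (xc_mem t)) he))
    obtain ⟨θ, h0, hθ⟩ := exists_skew (K := K)
    obtain ⟨μ, m0, m1⟩ := hl _ (ch2 hE (Z_zc hE) zc_le iZ zc_inv (g := xa (e.a * θ))
      (fun _ hx => comm_sZ _ hx) (fun _ hx => cm_sZ' _ (zc_Z2 h2 he ha hx)) fun x _ =>
        mem_zc' h2 hl (cm_sZ2 _ x) (by simp [cm_c, xa, hθ]; ring))
    have : θ = μ := mul_left_cancel₀ ha (m1.trans (mul_comm _ _))
    rw [this, m0] at hθ
    exact mul_ne_zero t2 (this ▸ h0) (by linear_combination hθ)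
  push Not at hp
  obtain ⟨u, hu, v, hv, hne⟩ := hp
  refine not_inv hF hE he ha (inv_Z2 h2 (Z_zc hE) zc_inv fun w hw h => ?_)
  have k : ∀ x ∈ E, w.a * x.y = x.a * w.y := fun x hx => by
    have h3 := (comm_Z2 (cm_sZ2 w x)).1 ((mem_zc.1 (h x hx)).2 e he)
    obtain ⟨μ, m0, m1⟩ := hl w hw
    obtain ⟨ν, n0, n1⟩ := hl x hx
    simp only [cm_c, m1, n1, star_sub, star_mul', m0, n0, U4.hy] at h3
    have : 2 * (e.a * star e.a) * (μ * x.y - ν * w.y) = 0 := by linear_combination h3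
    have : μ * x.y - ν * w.y = 0 := by simpa [t2, ha] using this
    rw [m1, n1]; linear_combination e.a * this
  have a0 : w.a = 0 := (mul_eq_zero.1 (by linear_combination u.a * k v hv - v.a * k u hu :
    w.a * (u.a * v.y - v.a * u.y) = 0)).resolve_right (sub_ne_zero.2 hne)
  exact ⟨a0, by simpa [a0, ha] using k e he⟩

theorem inv_J (hJ : sJ K ≤ E) (ha : e.a ≠ 0) (hl : ∀ x ∈ E, ∃ μ, star μ = μ ∧ x.a = μ * e.a)
    (t2 : (2 : K) = 0) : Inv F E (sJ K) := fun τ hτ x hx => by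
  by_contra hn
  have e1 : x * x = 1 := by
    ext <;> simp [mem_sJ.1 hx, ← two_mul, t2]
  have e2 : τ x * τ x = 1 := by rw [← hτ.homOn (hJ hx) (hJ hx), e1, hτ.homOn.map_one]
  have a0 : (τ x).a ≠ 0 := hn
  have y0 : (τ x).y = 0 := by simpa [← two_mul, t2, a0] using congrArg U4.c e2
  have c0 : (τ x).a * star (τ x).c + star (τ x).a * (τ x).c = 0 := by
    simpa [← two_mul, t2, y0, add_assoc] using congrArg U4.z e2
  obtain ⟨μ, m0, m1⟩ := hl _ (hτ.mem (hJ hx))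
  have hμ : μ ≠ 0 := fun h => a0 (by rw [m1, h, zero_mul])
  have ha' := star_ne_zero.2 ha
  have k : ∀ j : sJ K, (τ j).y = 0 ∧ star ((τ j).a / e.a) = (τ j).a / e.a ∧
      star ((τ j).c / e.a) = (τ j).c / e.a := fun j => by
    obtain ⟨k1, k2⟩ := comm_iff.1 (map_comm hτ (hJ hx) (hJ j.2) (comm_sJ hx j.2))
    obtain ⟨ν, n0, n1⟩ := hl _ (hτ.mem (hJ j.2))
    have y1 : (τ j).y = 0 := by simpa [y0, a0] using k1
    refine ⟨y1, by simp [n1, ha, n0], ?_⟩
    rw [star_div₀, div_eq_div_iff ha' ha]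
    simp only [m1, n1, y0, y1, star_mul', m0, n0] at k2 c0
    exact mul_left_cancel₀ (mul_ne_zero hμ hμ) (by
      linear_combination μ * k2 + ν * c0 - μ * μ * star e.a * (τ j).c * t2)
  have := Nat.card_le_card_of_injective (fun j : sJ K =>
    ((⟨_, (k j).2.1⟩, ⟨_, (k j).2.2⟩, ⟨(τ j).z, U4.hz _⟩) : {y : K // star y = y} ×
      {y : K // star y = y} × {y : K // star y = y})) fun j j' h => by
    simp only [Prod.mk.injEq, Subtype.mk.injEq, div_left_inj' ha] at h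
    exact Subtype.ext (τ.injective (U4.ext h.1 ((k j).1.trans (k j').1.symm) h.2.1 h.2.2))
  simp only [card_sJ, Nat.card_prod, card_real] at this
  have h1 := one_lt_qq (K := K)
  have h3 : 0 < qq K * (qq K * qq K) := by positivity
  nlinarith

theorem even_case (hF : F.IsSaturated p) (hE : F.IsEssential p E) (he : e ∈ E) (ha : e.a ≠ 0)
    (he' : e' ∈ E) (hy : e'.y ≠ 0) (t2 : (2 : K) = 0) : qq K = 2 ∧ E = sJx e.a := by
  have h2 := Z2_le hF hE
  have hl := fun x => line hF hE he ha he' hy (x := x)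
  have hJ : sJ K ≤ E := fun g hg => ch1 hE zc_le zc_inv
    (fun x hx => comm_sJ hg (Z2_J (zc_Z2 h2 he ha hx))) fun x hx => mem_zc' h2 hl (cm_sZ2 _ x) (by
      obtain ⟨μ, m0, m1⟩ := hl x hx
      simp only [cm_c, mem_sJ.1 hg, m1, star_sub, star_mul', m0, U4.hy, star_zero]
      linear_combination (-μ * e.a * star e.a * g.y) * t2)
  have hA : ∀ α, star α = α → xa (α * e.a) ∈ E := fun α hα => ch1 hE zc_le zc_inv
    (fun x hx => (comm_Z2 (zc_Z2 h2 he ha hx)).2 (by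
      have := (comm_Z2 (zc_Z2 h2 he ha hx)).1 ((mem_zc.1 hx).2 e he)
      simp only [xa, star_mul', hα]; linear_combination α * this))
    fun x _ => mem_zc' h2 hl (cm_sZ2 _ x) (by
      simp only [cm_c, xa, star_sub, star_mul', hα, U4.hy, star_zero]
      linear_combination (α * e.a * star e.a * x.y) * t2)
  have iJ : Inv F E (sJ K) := inv_J hJ ha hl t2
  have h01 : ∀ α : K, star α = α → α = 0 ∨ α = 1 := fun α hα => by
    by_contra hn
    push Not at hn
    refine not_inv hF hE he ha fun τ hτ x hx => ⟨iJ τ hτ x hx.1, ?_⟩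
    have r : ∀ β γ β' γ' : K, (hβ : star β = β) → (hγ : star γ = γ) → (hβ' : star β' = β') →
        (hγ' : star γ' = γ') → β * γ = β' * γ' →
        cm (τ (xc (β * x.c))) (τ (xa (γ * e.a))) = cm (τ (xc (β' * x.c))) (τ (xa (γ' * e.a))) :=
      fun β γ β' γ' hβ hγ hβ' hγ' h => by
        rw [← map_cm hτ (h2 (xc_mem _)) (hA _ hγ), ← map_cm hτ (h2 (xc_mem _)) (hA _ hγ')]
        congr 1
        ext <;> simp [cm_c, cm_z, xa, xc, hβ, hγ, hβ', hγ']
        linear_combination (-(e.a * star x.c) - star e.a * x.c) * h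
    have hα2 : star (α * α) = α * α := by simp [hα]
    have r1 := r 1 α α 1 (star_one K) hα hα (star_one K) (by ring)
    have r2 := r α α (α * α) 1 hα hα hα2 (star_one K) (by ring)
    have r3 := r 1 (α * α) (α * α) 1 (star_one K) hα2 hα2 (star_one K) (by ring)
    obtain ⟨A1, s1, a1⟩ := hl _ (hτ.mem (hA 1 (star_one K)))
    obtain ⟨Aa, sa, aa⟩ := hl _ (hτ.mem (hA α hα))
    obtain ⟨A2, s2, a2⟩ := hl _ (hτ.mem (hA _ hα2))
    have j0 : (τ (xc (1 * x.c))).a = 0 := iJ τ hτ _ (Z2_J (xc_mem _))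
    have j1 : (τ (xc (α * x.c))).a = 0 := iJ τ hτ _ (Z2_J (xc_mem _))
    have j2 : (τ (xc (α * α * x.c))).a = 0 := iJ τ hτ _ (Z2_J (xc_mem _))
    have nj : ∀ u ∈ E, (τ u).a = 0 → u.a = 0 := fun u _ h => by simpa [mem_sJ] using iJ _ hτ.symm _ h
    have n1 : A1 ≠ 0 := fun h => ha (by
      simpa [xa] using nj _ (hA 1 (star_one K)) (by rw [a1, h, zero_mul]))
    have n2 : A2 ≠ A1 := fun h => by
      have m1 := hA 1 (star_one K)
      have := nj _ (mul_mem (inv_mem m1) (hA _ hα2)) (by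
        rw [hτ.homOn (inv_mem m1) (hA _ hα2), hτ.homOn.map_inv m1, mul_a, inv_a, a1, a2, h,
          neg_add_cancel])
      simp only [xa, mul_a, inv_a] at this
      have : (α - 1) ^ 2 * e.a = 0 := by linear_combination this + (e.a - α * e.a) * t2
      simp [ha, sub_eq_zero, hn.2] at this
    have n3 : A2 ≠ 0 := fun h => mul_ne_zero (mul_ne_zero hn.1 hn.1) ha (by
      simpa [xa] using nj _ (hA _ hα2) (by rw [a2, h, zero_mul]))
    have y0 : (τ (xc (1 * x.c))).y = 0 := by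
      have c1 := congrArg U4.c r1
      have c2 := congrArg U4.c r2
      have c3 := congrArg U4.c r3
      have z1 := congrArg U4.z r1
      have z2 := congrArg U4.z r2
      have z3 := congrArg U4.z r3
      simp only [cm_c, cm_z, j0, j1, j2, a1, aa, a2, star_mul', s1, sa, s2, star_zero, zero_mul,
        mul_zero, zero_sub, zero_add, add_zero, sub_zero, neg_inj] at c1 c2 c3 z1 z2 z3
      generalize (τ (xc (1 * x.c))).y = y0, (τ (xc (α * x.c))).y = y1,
        (τ (xc (α * α * x.c))).y = y2, (τ (xc (1 * x.c))).c = c0, (τ (xc (α * x.c))).c = d1,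
        (τ (xc (α * α * x.c))).c = d2 at *
      by_contra y0n
      have f1 : Aa * y0 = A1 * y1 := mul_left_cancel₀ ha (by linear_combination c1)
      have f2 : Aa * y1 = A1 * y2 := mul_left_cancel₀ ha (by linear_combination c2)
      have f3 : A2 * y0 = A1 * y2 := mul_left_cancel₀ ha (by linear_combination c3)
      have f4 : A2 * A1 = Aa * Aa := mul_right_cancel₀ y0n (by
        linear_combination A1 * f3 - A1 * f2 - Aa * f1)
      have f5 : A1 * A2 * (A2 - A1) * (e.a * star e.a) * y0 = 0 := by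
        grind
      simp [n1, n3, sub_eq_zero, n2, ha, y0n] at f5
    have ex : x = xc (1 * x.c) * xz x.z x.hz := by ext <;> simp [xc, xz, hx.1, hx.2]
    rw [ex, hτ.homOn (h2 (xc_mem _)) (h2 (Z_Z2 (xz_mem _ _))), mul_y, y0, zero_add]
    exact (zc_Z2 h2 he ha (zc_inv τ hτ _ (Z_zc hE (xz_mem _ _)))).2
  refine ⟨?_, le_antisymm (fun x hx => ?_) fun x ⟨n, hx⟩ => ?_⟩
  · rw [← card_real, Nat.card_eq_two_iff]
    refine ⟨⟨0, star_zero K⟩, ⟨1, star_one K⟩, by simp, Set.eq_univ_of_forall fun v => ?_⟩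
    simpa [Subtype.ext_iff] using h01 v.1 v.2
  · obtain ⟨μ, m0, m1⟩ := hl x hx
    rcases h01 μ m0 with rfl | rfl
    exacts [⟨0, by simpa using m1⟩, ⟨1, by simpa using m1⟩]
  · have m := hA n (by simp)
    simpa using mul_mem m (hJ (show (xa (n * e.a))⁻¹ * x ∈ sJ K by simp [mem_sJ, xa, hx]))

end Es

open Es

variable {K : Type*} [Field K] [StarRing K] [Finite K] [HF K]
  {F : FusionSystem (⊤ : Subgroup (U4 K))} {E : Subgroup (U4 K)} {p : ℕ} [Fact p.Prime] [CharP K p]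

theorem ess (hF : F.IsSaturated p) (hE : F.IsEssential p E) :
    E = sQ K ∨ E = sJ K ∨ (qq K = 2 ∧ ∃ t ≠ 0, E = sJx t) := by
  by_cases hJ : E ≤ sJ K
  · exact .inr (.inl (le_antisymm hJ fun g hg =>
      cent_of_comm hE.isCentric fun x hx => comm_sJ (hJ hx) hg))
  obtain ⟨e, he, ha⟩ := SetLike.not_le_iff_exists.1 hJ
  by_cases hQ : E ≤ sQ K
  · refine .inl (le_antisymm hQ (Q_le hE hQ fun z hz => ?_))
    obtain ⟨t, rfl⟩ := exists_cm_z ha hz
    exact cm_mem_comm (Z2_le hF hE (xc_mem t)) he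
  obtain ⟨e', he', hy⟩ := SetLike.not_le_iff_exists.1 hQ
  by_cases t2 : (2 : K) = 0
  · obtain ⟨h1, h2⟩ := even_case hF hE he ha he' hy t2
    exact .inr (.inr ⟨h1, e.a, ha, h2⟩)
  · exact (odd_case hF hE he ha he' hy t2).elim

end Cfsg.Agent.Fu
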