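import Cfsg.Agent.Fu.S
import Cfsg.Agent.U5.L1

/-! The action of `Aut_F(Q)` on `Q/Z`: conjugates of `Z₂/Z` meet trivially. -/

set_option autoImplicit false
set_option linter.unusedSectionVars false
set_option linter.style.haveILetI false

namespace Cfsg.Agent.Fu.L1

open Cfsg.Agent.Uf (HF wc exists_skew real_of indep dec_real mem_of_norm)

variable {K : Type*} [Field K] [StarRing K]

/-- The commutator form. -/
def bf (v w : K × K) : K := v.1 * star w.2 + star v.1 * w.2 - w.1 * star v.2 - star w.1 * v.2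
/-- The squaring form. -/
def hq (v : K × K) : K := v.1 * star v.2 + star v.1 * v.2
/-- The action of `S`. -/
def sS (t : K) (v : K × K) : K × K := (v.1, v.2 + t * v.1)

theorem bf_real (v w : K × K) : star (bf v w) = bf v w := by simp [bf]; ring
theorem bf_sS {t : K} (h : star t = t) (v w : K × K) : bf (sS t v) (sS t w) = bf v w := by
  simp [bf, sS, h]; ring
theorem bf_smul {r : K} (h : star r = r) (v w : K × K) : bf (r • v) w = r * bf v w := by
  simp [bf, h]; ring
theorem bf_smul' {r : K} (h : star r = r) (v w : K × K) : bf v (r • w) = r * bf v w := by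
  simp [bf, h]; ring
theorem bf_add (v v' w : K × K) : bf (v + v') w = bf v w + bf v' w := by simp [bf]; ring
theorem bf_add' (v w w' : K × K) : bf v (w + w') = bf v w + bf v w' := by simp [bf]; ring
theorem bf_sub (v v' w : K × K) : bf (v - v') w = bf v w - bf v' w := by simp [bf]; ring
theorem bf_sub' (v w w' : K × K) : bf v (w - w') = bf v w - bf v w' := by simp [bf]; ring
theorem bf_swap (v w : K × K) : bf v w = -bf w v := by simp [bf]; ring
theorem bf_self (v : K × K) : bf v v = 0 := by simp [bf]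
theorem bf_W {v w : K × K} (h : v.1 = 0) (h' : w.1 = 0) : bf v w = 0 := by simp [bf, h, h']

theorem span2 {l w : K × K} (hl : l.1 = 0) (hw : w.1 = 0) (h : w.2 * star l.2 - star w.2 * l.2 ≠ 0)
    {u : K × K} (hu : u.1 = 0) : ∃ r s : K, star r = r ∧ star s = s ∧ u = r • l + s • w := by
  have h' : star w.2 * l.2 - w.2 * star l.2 ≠ 0 := fun e => h (by linear_combination -e)
  refine ⟨(w.2 * star u.2 - star w.2 * u.2) / (w.2 * star l.2 - star w.2 * l.2),
    (u.2 * star l.2 - star u.2 * l.2) / (w.2 * star l.2 - star w.2 * l.2), ?_, ?_,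
    Prod.ext (by simp [hl, hw, hu]) ?_⟩
  · simp only [star_div₀, star_sub, star_mul', star_star]; rw [div_eq_div_iff h' h]; ring
  · simp only [star_div₀, star_sub, star_mul', star_star]; rw [div_eq_div_iff h' h]; ring
  · simp only [Prod.snd_add, Prod.smul_snd, smul_eq_mul]; field_simp; ring

variable [Finite K] [HF K]

theorem W_of_perp {v : K × K} (h : ∀ u : K × K, u.1 = 0 → bf v u = 0) : v.1 = 0 :=
  eq_zero_of_tr fun e => by simpa [bf] using h (0, e) rfl

theorem bf_nd {v : K × K} (h : ∀ u, bf v u = 0) : v = 0 :=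
  Prod.ext (W_of_perp fun u _ => h u) (eq_zero_of_tr fun e => by
    have := h (e, 0)
    simp only [bf, star_zero] at this
    linear_combination -this)

theorem exists_bf {v : K × K} (h : v ≠ 0) : ∃ w, bf v w = 1 := by
  obtain ⟨u, hu⟩ : ∃ u, bf v u ≠ 0 := by
    by_contra H
    push Not at H
    exact h (bf_nd H)
  exact ⟨(bf v u)⁻¹ • u, by rw [bf_smul' (by rw [star_inv₀, bf_real]), inv_mul_cancel₀ hu]⟩

variable {Γ : Type*} [Group Γ] [Finite Γ] [DistribMulAction Γ (K × K)] {p : ℕ} [Fact p.Prime]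
  [CharP K p]

/-- The hypotheses on the automizer of `Q`. -/
structure Su (K : Type*) [Field K] [StarRing K] [DistribMulAction Γ (K × K)]
    (P : Sylow p Γ) : Prop where
  form : ∀ s ∈ (P : Subgroup Γ), ∃ t : K, star t = t ∧ ∀ v : K × K, s • v = sS t v
  surj : ∀ t : K, star t = t → ∃ s ∈ (P : Subgroup Γ), ∀ v : K × K, s • v = sS t v
  iso : ∀ g : Γ, ∃ φ : K → K, ∀ v w : K × K, bf (g • v) (g • w) = φ (bf v w)
  sq : (2 : K) = 0 → ∀ g : Γ, ∃ φ : K → K, ∀ v : K × K, hq (g • v) = φ (hq v)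
  ker : ∀ g : Γ, (∀ v : K × K, g • v = v) → g ∈ (P : Subgroup Γ)
  nrm : ∀ g : Γ, (∀ v : K × K, v.1 = 0 → (g • v).1 = 0) → g ∈ Subgroup.normalizer (P : Set Γ)

/-- The conjugate of the nilpotent map `(a, c) ↦ (0, a)`. -/
def NN (g : Γ) (v : K × K) : K × K := g • ((0 : K), (g⁻¹ • v).1)

theorem NN_mem (g : Γ) (v : K × K) : (g⁻¹ • NN g v).1 = 0 := by simp [NN]
theorem NN_add (g : Γ) (v w : K × K) : NN g (v + w) = NN g v + NN g w := by
  rw [NN, NN, NN, ← smul_add, smul_add g⁻¹]; simp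
theorem NN_eq_zero {g : Γ} {v : K × K} : NN g v = 0 ↔ (g⁻¹ • v).1 = 0 := by
  rw [NN, smul_eq_zero_iff_eq]; simp

theorem stab_inv {g : Γ} (hg : ∀ v : K × K, v.1 = 0 → (g • v).1 = 0) (v : K × K) (hv : v.1 = 0) :
    (g⁻¹ • v).1 = 0 := by
  obtain ⟨c, hc⟩ := (Finite.injective_iff_surjective (f := fun c : K => (g • ((0 : K), c)).2)).1
    (fun a b e => by
      simpa using MulAction.injective g
        (Prod.ext ((hg (0, a) rfl).trans (hg (0, b) rfl).symm) e)) v.2
  rw [show v = g • ((0 : K), c) from Prod.ext (hv.trans (hg _ rfl).symm) hc.symm, inv_smul_smul]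

namespace Su

variable {P : Sylow p Γ} (h : Su K P)
include h

theorem perp (g : Γ) {v w : K × K} (e : bf v w = 0) : bf (g • v) (g • w) = 0 := by
  obtain ⟨φ, hφ⟩ := h.iso g
  rw [hφ, e, ← bf_self (0 : K × K), ← hφ, bf_self, bf_self]

theorem perp' (g : Γ) {v w : K × K} (hv : (g⁻¹ • v).1 = 0) (hw : (g⁻¹ • w).1 = 0) : bf v w = 0 := by
  simpa using h.perp g (bf_W hv hw)

theorem isom (g : Γ) {s : Γ} (hs : s ∈ (P : Subgroup Γ)) (v w : K × K) :
    bf ((g * s * g⁻¹) • v) ((g * s * g⁻¹) • w) = bf v w := by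
  obtain ⟨φ, hφ⟩ := h.iso g
  obtain ⟨t, ht, e⟩ := h.form s hs
  rw [mul_smul, mul_smul, mul_smul, mul_smul, hφ, e, e, bf_sS ht, ← hφ, smul_inv_smul,
    smul_inv_smul]

theorem semi (g : Γ) {r : K} (hr : star r = r) :
    ∃ r' : K, star r' = r' ∧ ∀ v : K × K, g • r • v = r' • g • v := by
  obtain ⟨φ, hφ⟩ := h.iso g
  obtain ⟨w1, h1⟩ := exists_bf (v := ((1 : K), (0 : K))) (by simp)
  have p1 : φ 1 ≠ 0 := fun e => one_ne_zero (α := K) (by
    have := h.perp g⁻¹ ((hφ _ _).trans (h1 ▸ e))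
    rwa [inv_smul_smul, inv_smul_smul, h1] at this)
  have s1 : ∀ t, star t = t → star (φ t) = φ t := fun t ht => by
    rw [← mul_one t, ← h1, ← bf_smul ht, ← hφ, bf_real]
  refine ⟨φ r / φ 1, by rw [star_div₀, s1 r hr, s1 1 (star_one K)], fun v => ?_⟩
  by_cases v0 : v = 0
  · simp [v0]
  obtain ⟨w, hw⟩ := exists_bf v0
  refine sub_eq_zero.1 (bf_nd fun u => ?_)
  have hs : star (bf (g • v) u / φ 1) = bf (g • v) u / φ 1 := by
    rw [star_div₀, bf_real, s1 1 (star_one K)]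
  have e1 : bf (g • v) (u - (bf (g • v) u / φ 1) • g • w) = 0 := by
    rw [bf_sub', bf_smul' hs, hφ v w, hw, div_mul_cancel₀ _ p1, sub_self]
  have e2 := h.perp g (v := r • v) ((bf_smul hr _ _).trans (by
    have := h.perp g⁻¹ e1
    rw [inv_smul_smul] at this
    rw [this, mul_zero]))
  rw [smul_inv_smul, bf_sub', bf_smul' hs, hφ, bf_smul hr, hw, mul_one] at e2
  rw [bf_sub, bf_smul (by rw [star_div₀, s1 r hr, s1 1 (star_one K)])]
  linear_combination e2

theorem conj (g : Γ) {b : K} (hb : star b = b) :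
    ∃ s ∈ (P : Subgroup Γ), ∀ v : K × K, (g * s * g⁻¹) • v = v + b • NN g v := by
  obtain ⟨t, ht, e⟩ := h.semi g⁻¹ hb
  obtain ⟨s, hs, e'⟩ := h.surj t ht
  refine ⟨s, hs, fun v => ?_⟩
  rw [mul_smul, mul_smul, e', ← eq_inv_smul_iff, smul_add, e, NN, inv_smul_smul]
  ext <;> simp [sS]

theorem NN_smul (g : Γ) {r : K} (hr : star r = r) (v : K × K) : NN g (r • v) = r • NN g v := by
  obtain ⟨t, ht, e⟩ := h.semi g⁻¹ hr
  rw [NN, ← eq_inv_smul_iff, e, e, NN, inv_smul_smul]
  simp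

theorem NN_sym (g : Γ) (v w : K × K) : bf (NN g v) w = -bf v (NN g w) := by
  obtain ⟨s, hs, e⟩ := h.conj g (star_one K)
  have := h.isom g hs v w
  rw [e, e, one_smul, one_smul, bf_add, bf_add', bf_add', h.perp' g (NN_mem g v) (NN_mem g w)] at this
  linear_combination this

theorem NN_an (h2 : (2 : K) ≠ 0) (g : Γ) {v : K × K} (e : bf v (NN g v) = 0) : (g⁻¹ • v).1 = 0 := by
  have := h.perp g⁻¹ e
  rw [NN, inv_smul_smul] at this
  simp only [bf, star_zero, zero_mul, sub_zero] at this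
  simpa [h2] using (show 2 * ((g⁻¹ • v).1 * star (g⁻¹ • v).1) = 0 by linear_combination this)

theorem NN_alt (h2 : (2 : K) = 0) (g : Γ) (v : K × K) : bf v (NN g v) = 0 := by
  have := h.perp g (v := g⁻¹ • v) (w := (0, (g⁻¹ • v).1)) (by
    simp only [bf, star_zero]; linear_combination (g⁻¹ • v).1 * star (g⁻¹ • v).1 * h2)
  rwa [smul_inv_smul] at this

theorem triv {y : Γ} (hy : ∀ v : K × K, (y ^ p) • v = v) {e f : K × K} (he : y • e = e)
    (hf : y • f = f) (hb : bf e f ≠ 0) (v : K × K) : y • v = v := by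
  obtain ⟨n, hn⟩ := P.isPGroup' ⟨_, h.ker _ hy⟩
  obtain ⟨c, hc⟩ := H6.exists_conj_elt_mem_sylow (x := y) (k := n + 1) (by
    rw [pow_succ', pow_mul]; exact congrArg Subtype.val hn) P
  obtain ⟨t, -, e1⟩ := h.form _ hc
  have k : ∀ u : K × K, y • u = u → t * (c • u).1 = 0 := fun u hu => by
    have := e1 (c • u)
    rw [mul_smul, mul_smul, inv_smul_smul, hu] at this
    simpa [sS] using congrArg Prod.snd this
  have t0 : t = 0 := by
    by_contra t0
    exact hb (h.perp' c⁻¹ (by simpa [t0] using k e he) (by simpa [t0] using k f hf))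
  have := e1 (c • v)
  rw [mul_smul, mul_smul, inv_smul_smul] at this
  exact MulAction.injective c (this.trans (by simp [sS, t0]))

theorem cl2 (h2 : (2 : K) = 0) {g : Γ} {l : K × K} (l0 : l ≠ 0) (hl : l.1 = 0)
    (hl' : (g⁻¹ • l).1 = 0) (v : K × K) (hv : v.1 = 0) : (g • v).1 = 0 := by
  obtain ⟨s, hs, e⟩ := h.conj g (star_one K)
  have l2 : l.2 ≠ 0 := fun e => l0 (Prod.ext hl e)
  obtain ⟨t, -, e1⟩ := h.form _ (mem_of_norm hs (h.nrm (g * s * g⁻¹) fun w hw => by
    rw [e, one_smul, Prod.fst_add, hw, zero_add]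
    by_cases h0 : w.2 * star l.2 - star w.2 * l.2 = 0
    · obtain ⟨r, hr, e2⟩ := real_of l2 h0
      rw [show w = r • l from Prod.ext (by simp [hw, hl]) e2, h.NN_smul g hr, NN_eq_zero.2 hl']
      simp
    · refine W_of_perp fun u hu => ?_
      obtain ⟨a, b, ha, hb, rfl⟩ := span2 hl hw h0 hu
      rw [bf_add', bf_smul' ha, bf_smul' hb, h.perp' g (NN_mem g w) hl', bf_swap, h.NN_alt h2]
      simp))
  simpa using stab_inv (g := g⁻¹) (fun w hw => NN_eq_zero.1 (by
    have := (e w).symm.trans (e1 w)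
    rw [one_smul, show sS t w = w by ext <;> simp [sS, hw]] at this
    simpa using this)) v hv

theorem clo (h2 : (2 : K) ≠ 0) {t : K} (ht : star t = t) (t0 : t ≠ 0) (t2 : t ^ 2 ≠ 1) {g : Γ}
    {l : K × K} (l0 : l ≠ 0) (hl : l.1 = 0) (hl' : (g⁻¹ • l).1 = 0) (v : K × K) (hv : v.1 = 0) :
    (g • v).1 = 0 := by
  by_contra a0
  obtain ⟨e1, he1⟩ : ∃ e1 : K × K, e1 = (0, (g • v).1) := ⟨_, rfl⟩
  have w1 : e1.1 = 0 := by rw [he1]
  have n1 : (g⁻¹ • e1).1 ≠ 0 := fun e => a0 (by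
    have := h.perp' g (v := g • v) (by simpa using hv) e
    simp only [bf, he1, star_zero, zero_mul, sub_zero] at this
    simpa [h2] using (show 2 * ((g • v).1 * star (g • v).1) = 0 by linear_combination this))
  obtain ⟨e2, he2⟩ : ∃ e2, e2 = NN g e1 := ⟨_, rfl⟩
  have b12 : bf e1 e2 ≠ 0 := fun e => n1 (h.NN_an h2 g (he2 ▸ e))
  have n2 : NN g e2 = 0 := NN_eq_zero.2 (he2 ▸ NN_mem g e1)
  have nl : NN g l = 0 := NN_eq_zero.2 hl'
  have bl2 : bf l e2 = 0 := h.perp' g hl' (he2 ▸ NN_mem g e1)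
  have ind : e1.2 * star l.2 - star e1.2 * l.2 ≠ 0 := fun e => by
    obtain ⟨r, hr, e3⟩ := real_of (fun e => l0 (Prod.ext hl e)) e
    exact b12 (by rw [show e1 = r • l from Prod.ext (by simp [w1, hl]) e3, bf_smul hr, bl2, mul_zero])
  have onl : ∀ u : K × K, u.1 = 0 → bf u e2 = 0 → ∃ r, star r = r ∧ u = r • l := fun u hu e => by
    obtain ⟨a, b, ha, hb, rfl⟩ := span2 hl w1 ind hu
    rw [bf_add, bf_smul ha, bf_smul hb, bl2, mul_zero, zero_add] at e
    exact ⟨a, ha, by simp [(mul_eq_zero.1 e).resolve_right b12]⟩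
  obtain ⟨γ, hγ, g2⟩ : ∃ γ, star γ = γ ∧ e2.1 = γ * e1.2 := by
    obtain ⟨a, b, ha, hb, e⟩ := span2 hl' hv (u := g⁻¹ • e2) (fun e => a0 (by
      obtain ⟨r, hr, e3⟩ := real_of (fun e => l0 ((smul_eq_zero_iff_eq g⁻¹).1 (Prod.ext hl' e))) e
      obtain ⟨r', -, e4⟩ := h.semi g hr
      rw [show v = r • g⁻¹ • l from Prod.ext (by simp [hv, hl']) e3, e4]
      simp [hl])) (he2 ▸ NN_mem g e1)
    obtain ⟨a', -, e4⟩ := h.semi g ha
    obtain ⟨b', hb', e5⟩ := h.semi g hb
    refine ⟨b', hb', ?_⟩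
    rw [← smul_inv_smul g e2, e, smul_add, e4, e5, he1]
    simp [hl]
  have e12 : e1.2 ≠ 0 := by rw [he1]; exact a0
  have γ0 : γ ≠ 0 := fun e => b12 (bf_W w1 (by rw [g2, e, zero_mul]))
  obtain ⟨u, hu⟩ := exists_bf l0
  obtain ⟨e3, he3⟩ : ∃ e3, e3 = u - (bf u e2 / bf e1 e2) • e1 + (bf u e1 / bf e1 e2) • e2 := ⟨_, rfl⟩
  have r1 : star (bf u e2 / bf e1 e2) = bf u e2 / bf e1 e2 := by rw [star_div₀, bf_real, bf_real]
  have r2 : star (bf u e1 / bf e1 e2) = bf u e1 / bf e1 e2 := by rw [star_div₀, bf_real, bf_real]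
  have b31 : bf e3 e1 = 0 := by
    rw [he3, bf_add, bf_sub, bf_smul r1, bf_smul r2, bf_self, bf_swap e2]; field_simp; ring
  have b32 : bf e3 e2 = 0 := by
    rw [he3, bf_add, bf_sub, bf_smul r1, bf_smul r2, bf_self]; field_simp; ring
  have b3l : bf l e3 = 1 := by
    rw [he3, bf_add', bf_sub', bf_smul' r1, bf_smul' r2, hu, bf_W hl w1, bl2]; ring
  have N1 : ∀ v : K × K, NN (1 : Γ) v = (0, v.1) := fun v => by simp [NN]
  have N2 : NN (1 : Γ) e2 = γ • e1 := by rw [N1, g2]; ext <;> simp [w1]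
  obtain ⟨β, hβ, n3⟩ := onl (NN (1 : Γ) e3) (by rw [N1]) (by
    rw [h.NN_sym, N2, bf_smul' hγ, b31]; simp)
  have β0 : β ≠ 0 := fun e => by
    rw [e, zero_smul, NN_eq_zero, inv_one, one_smul] at n3
    rw [bf_W hl n3] at b3l
    exact zero_ne_one b3l
  -- vectors orthogonal to `l`, `e₁`, `e₂` are multiples of `l`
  have orth : ∀ w : K × K, bf w l = 0 → bf w e1 = 0 → bf w e2 = 0 → ∃ r, star r = r ∧ w = r • l :=
    fun w a b c => onl w (W_of_perp fun u hu => by
      obtain ⟨x, y, hx, hy, rfl⟩ := span2 hl w1 ind hu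
      rw [bf_add', bf_smul' hx, bf_smul' hy, a, b]; simp) c
  obtain ⟨β', hβ', n3'⟩ := orth (NN g e3) (h.perp' g (NN_mem g e3) hl')
    (by rw [h.NN_sym, ← he2, b32, neg_zero]) (by rw [h.NN_sym, n2]; simp [bf])
  have key : ∀ a : K, star a = a → a ≠ 0 → a * β + -2 / (a * γ) * β' = 0 := fun a ha a0 => by
    obtain ⟨b, hb'⟩ : ∃ b, b = -2 / (a * γ) := ⟨_, rfl⟩
    have hb : star b = b := by simp [hb', ha, hγ]
    have hab : a * b * γ = -2 := by rw [hb']; field_simp
    obtain ⟨s, hs, f1⟩ := h.conj 1 ha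
    obtain ⟨s', hs', f2⟩ := h.conj g hb
    obtain ⟨x, hx⟩ : ∃ x, x = 1 * s * 1⁻¹ * (g * s' * g⁻¹) := ⟨_, rfl⟩
    have xb : ∀ v w : K × K, bf (x • v) (x • w) = bf v w := fun v w => by
      rw [hx, mul_smul _ _ v, mul_smul _ _ w, h.isom 1 hs, h.isom g hs']
    have xe : ∀ v : K × K, x • v = v + b • NN g v + a • (NN (1 : Γ) v + b • NN (1 : Γ) (NN g v)) :=
      fun v => by rw [hx, mul_smul, f1, f2, NN_add, h.NN_smul 1 hb]
    have xs : ∀ r : K, star r = r → ∀ v : K × K, x • r • v = r • x • v := fun r hr v => by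
      simp only [xe, h.NN_smul _ hr, smul_add, smul_comm r]
    have N0 : ∀ w : K × K, w.1 = 0 → NN (1 : Γ) w = 0 := fun w hw => by rw [N1, hw]; rfl
    have x1 : x • e1 = b • e2 - e1 := by
      rw [xe, ← he2, N0 _ w1, N2]
      ext <;> simp
      · linear_combination e1.1 * hab
      · linear_combination e1.2 * hab
    have x2 : x • e2 = e2 + (a * γ) • e1 := by rw [xe, n2, N2, N0 0 rfl]; simp [mul_smul]
    have xl : x • l = l := by rw [xe, nl, N0 _ hl, N0 0 rfl]; simp
    have x3 : x • e3 = e3 + (a * β + b * β') • l := by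
      rw [xe, n3, n3', h.NN_smul 1 hβ', N0 _ hl]
      ext <;> simp <;> ring
    have y1 : x • x • e1 = -e1 := by
      rw [x1, smul_sub, xs _ hb, x1, x2]
      ext <;> simp
      · linear_combination e1.1 * hab
      · linear_combination e1.2 * hab
    have y2 : x • x • e2 = -e2 := by
      rw [x2, smul_add, xs _ (by simp [ha, hγ]), x1, x2]
      ext <;> simp
      · linear_combination e2.1 * hab
      · linear_combination e2.2 * hab
    have z1 : (x * x * x * x) • e1 = e1 := by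
      simp only [mul_smul]; rw [y1, smul_neg, smul_neg, y1, neg_neg]
    have z2 : (x * x * x * x) • e2 = e2 := by
      simp only [mul_smul]; rw [y2, smul_neg, smul_neg, y2, neg_neg]
    have zl : (x * x * x * x) • l = l := by simp only [mul_smul, xl]
    have zb : ∀ v w : K × K, bf ((x * x * x * x) • v) ((x * x * x * x) • w) = bf v w := fun v w => by
      simp only [mul_smul, xb]
    have hr : star (a * β + b * β') = a * β + b * β' := by simp [ha, hb, hβ, hβ']
    have := h.triv (y := x * x * x * x) (fun v => by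
      obtain ⟨r, hr, e⟩ := orth ((x * x * x * x) • v - v) (by rw [bf_sub, ← zl, zb, zl, sub_self])
        (by rw [bf_sub, ← z1, zb, z1, sub_self]) (by rw [bf_sub, ← z2, zb, z2, sub_self])
      have k : ∀ n : ℕ, (x * x * x * x) ^ n • v = v + (n * r) • l := fun n => by
        induction n with
        | zero => simp
        | succ n ih =>
          have hn : star (n * r) = n * r := by simp [hr]
          rw [pow_succ', mul_smul, ih, smul_add, eq_add_of_sub_eq e]
          simp only [mul_smul _ x, xs _ hn, xl]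
          ext <;> simp <;> ring
      rw [k, CharP.cast_eq_zero]; simp) z1 z2 b12 e3
    simp only [mul_smul, x3, smul_add, xs _ hr, xl, add_assoc, ← add_smul, add_eq_left,
      smul_eq_zero, l0, or_false] at this
    rw [← hb']
    exact (mul_eq_zero.1 (show 2 * (2 * (a * β + b * β')) = 0 by linear_combination this)).elim
      (fun e => (h2 e).elim) fun e => (mul_eq_zero.1 e).resolve_left h2
  have k1 := key 1 (star_one K) one_ne_zero
  have k2 := key t ht t0
  field_simp at k1 k2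
  exact t2 (mul_right_cancel₀ (mul_ne_zero β0 γ0) (by linear_combination k2 - k1))

end Su

end Cfsg.Agent.Fu.L1
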