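import Cfsg.Agent.Fu.L1a

/-! The action of `Aut_F(Q)` on `Q/Z`: the group generated by two Sylow subgroups. -/

set_option autoImplicit false
set_option linter.unusedSectionVars false
set_option linter.style.haveILetI false

namespace Cfsg.Agent.Fu.L1

open Cfsg.Agent.Uf (HF wc exists_skew real_of indep dec_real mem_of_norm)

variable {K : Type*} [Field K] [StarRing K]

/-- Change of coordinates. -/
def Gm (β : K) (v : K × K) : K × K := (v.1, v.2 + β * star v.1)
/-- A real-linear self-adjoint map. -/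
def lam (r κ c : K) : K := r * c + κ * star c
/-- The opposite unipotent elements. -/
def lo (r κ b : K) (v : K × K) : K × K := (v.1 + b * lam r κ v.2, v.2)

theorem Gm_Gm (β : K) (v : K × K) : Gm β (Gm (-β) v) = v := by ext <;> simp [Gm]
theorem Gm_inj {β : K} {v w : K × K} (h : Gm β v = Gm β w) : v = w := by
  simp only [Gm, Prod.mk.injEq] at h
  exact Prod.ext h.1 (by have := h.2; rw [h.1] at this; exact add_right_cancel this)
theorem Gm_W (β : K) {v : K × K} (h : v.1 = 0) : Gm β v = v := by ext <;> simp [Gm, h]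
theorem Gm_sS (β t : K) (v : K × K) : Gm β (sS t v) = sS t (Gm β v) := by
  ext <;> simp [Gm, sS]; ring

/-- Maps induced by `Γ`, in the new coordinates. -/
def In (Γ : Type*) [SMul Γ (K × K)] (β : K) (f : K × K → K × K) : Prop :=
  ∃ g : Γ, ∀ v, g • Gm β v = Gm β (f v)

variable [Finite K] [HF K] {Γ : Type*} [Group Γ] [Finite Γ] [DistribMulAction Γ (K × K)] {p : ℕ}
  [Fact p.Prime] [CharP K p] {β : K} {f f' : K × K → K × K}

theorem In.comp (h : In Γ β f) (h' : In Γ β f') : In Γ β fun v => f (f' v) := by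
  obtain ⟨g, e⟩ := h
  obtain ⟨g', e'⟩ := h'
  exact ⟨g * g', fun v => by rw [mul_smul, e', e]⟩

theorem In.congr (h : In Γ β f) (e : ∀ v, f v = f' v) : In Γ β f' := (funext e : f = f') ▸ h

namespace Su

variable {P : Sylow p Γ} (h : Su K P)
include h

theorem in_sS {t : K} (ht : star t = t) : In Γ β (sS t) := by
  obtain ⟨s, -, e⟩ := h.surj t ht
  exact ⟨s, fun v => by rw [e, Gm_sS]⟩

theorem in_nrm (hf : In Γ β f) (h1 : ∀ c, (f (0, c)).1 = 0) :
    ∃ ρ, star ρ = ρ ∧ ∀ v, f (sS 1 v) = sS ρ (f v) := by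
  obtain ⟨g, e⟩ := hf
  obtain ⟨s, hs, e1⟩ := h.surj 1 (star_one K)
  obtain ⟨ρ, hρ, e2⟩ := h.form _ ((Subgroup.mem_normalizer_iff.1 (h.nrm g fun v hv => by
    rw [← Gm_W β hv, e, show v = (0, v.2) from Prod.ext hv rfl]; exact h1 _) s).1 hs)
  refine ⟨ρ, hρ, fun v => Gm_inj (β := β) ?_⟩
  rw [← e, Gm_sS, Gm_sS, ← e1, ← e, ← e2, mul_smul, mul_smul, inv_smul_smul]

variable (hc : (2 : K) = 0 ∨ ∃ t : K, star t = t ∧ t ≠ 0 ∧ t ^ 2 ≠ 1)
include hc

theorem cl {g : Γ} (hg : ¬ ∀ v : K × K, v.1 = 0 → (g • v).1 = 0) {v : K × K} (hv : v.1 = 0)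
    (h1 : (g • v).1 = 0) : v = 0 := by
  by_contra v0
  have l0 : g • v ≠ 0 := fun e => v0 ((smul_eq_zero_iff_eq g).1 e)
  by_cases h2 : (2 : K) = 0
  · exact hg (h.cl2 h2 l0 h1 (by simpa using hv))
  · obtain ⟨t, ht, t0, t2⟩ := hc.resolve_left h2
    exact hg (h.clo h2 ht t0 t2 l0 h1 (by simpa using hv))

theorem in_cl (hf : In Γ β f) : (∀ c, (f (0, c)).1 = 0) ∨ ∀ c, (f (0, c)).1 = 0 → c = 0 := by
  obtain ⟨g, e⟩ := hf
  have e1 : ∀ c, (g • ((0 : K), c)).1 = (f (0, c)).1 := fun c => by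
    conv_lhs => rw [← Gm_W β (v := (0, c)) rfl, e]
    rfl
  refine (em _).imp_right fun hn c h0 => congrArg Prod.snd (h.cl hc (g := g) (v := (0, c))
    (fun hg => hn fun c => (e1 c).symm.trans (hg _ rfl)) rfl ((e1 c).trans h0))

theorem graph {g : Γ} (hg : ¬ ∀ v : K × K, v.1 = 0 → (g • v).1 = 0) : ∃ s ∈ (P : Subgroup Γ),
    ∃ β : K, ∀ v : K × K, ((s * g)⁻¹ • v).1 = 0 ↔ v.2 = β * star v.1 := by
  have inj : Function.Injective fun c : K => (g • ((0 : K), c)).1 := fun a b e => by
    have := h.cl hc hg (v := (0, a) - (0, b)) (by simp) (by rw [smul_sub]; exact sub_eq_zero.2 e)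
    simpa [sub_eq_zero] using this
  choose e he using Finite.injective_iff_surjective.1 inj
  have key : ∀ a c, (g • ((0 : K), c)).1 = a → c = e a := fun a c h1 => inj (h1.trans (he a).symm)
  obtain ⟨α, β, hψ⟩ := dec_real (f := fun a => (g • ((0 : K), e a)).2) (fun a b => by
    rw [← key (a + b) (e a + e b) (by
      rw [← he a, ← he b, ← Prod.fst_add, ← smul_add]; simp [he]), ← Prod.snd_add, ← smul_add]
    simp) fun r a hr => by
    obtain ⟨t, -, e1⟩ := h.semi g⁻¹ hr
    have e2 : g • ((0 : K), t * e a) = r • g • ((0 : K), e a) := by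
      rw [← eq_inv_smul_iff, e1]; simp
    rw [← key (r * a) (t * e a) (by rw [e2]; simp [he]), e2]
    rfl
  have hα : star α = α := by
    refine sub_eq_zero.1 (eq_zero_of_tr fun a => ?_)
    have := h.perp g (bf_W (v := (0, e (star a))) (w := (0, e 1)) rfl rfl)
    simp only [bf, he, hψ, star_add, star_mul', star_star, star_one, star_sub] at this ⊢
    linear_combination this
  obtain ⟨s, hs, e1⟩ := h.surj (-α) (by simp [hα])
  have e2 : ∀ a, (s * g) • ((0 : K), e a) = (a, β * star a) := fun a => by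
    rw [mul_smul, e1]; ext <;> simp [sS, he, hψ]
  refine ⟨s, hs, β, fun v => ⟨fun hv => ?_, fun hv => ?_⟩⟩
  · have := e2 (g • ((0 : K), ((s * g)⁻¹ • v).2)).1
    rw [← key _ _ rfl, show ((0 : K), ((s * g)⁻¹ • v).2) = (s * g)⁻¹ • v from Prod.ext hv.symm rfl,
      smul_inv_smul] at this
    rw [this]
  · rw [show v = (v.1, β * star v.1) from Prod.ext rfl hv, ← e2, inv_smul_smul]

omit hc in
theorem opp {g : Γ} (hg : ∀ v : K × K, (g⁻¹ • v).1 = 0 ↔ v.2 = β * star v.1) :
    ∃ r κ : K, star r = r ∧ (∀ c, lam r κ c = 0 → c = 0) ∧ ((2 : K) = 0 → β = 0 ∧ κ = 0) ∧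
      ∀ b, star b = b → In Γ β (lo r κ b) := by
  obtain ⟨r, κ, e⟩ := dec_real (f := fun c : K => (NN g (0, c)).1)
    (fun a b => by rw [← Prod.fst_add, ← NN_add]; simp)
    fun r a hr => by rw [show ((0 : K), r * a) = r • ((0 : K), a) by simp, h.NN_smul g hr]; rfl
  have e1 : ∀ v, NN g (Gm β v) = Gm β (lam r κ v.2, 0) := fun v => by
    have e2 : (NN g (Gm β v)).1 = lam r κ v.2 := by
      rw [show Gm β v = (0, v.2) + (v.1, β * star v.1) by ext <;> simp [Gm], NN_add,
        NN_eq_zero.2 ((hg (v.1, β * star v.1)).2 rfl), add_zero, e, lam]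
    refine Prod.ext e2 ?_
    rw [(hg _).1 (NN_mem g _), e2]; simp [Gm]
  have hr : star r = r := by
    refine sub_eq_zero.1 (eq_zero_of_tr fun a => ?_)
    have := h.NN_sym g (Gm β (0, 1)) (Gm β (0, a))
    rw [e1, e1] at this
    simp only [bf, Gm, lam, star_add, star_mul', star_star, star_one, star_sub, star_zero]
      at this ⊢
    linear_combination -this
  have hin : ∀ b, star b = b → ∃ s ∈ (P : Subgroup Γ), ∀ v,
      (g * s * g⁻¹) • Gm β v = Gm β (lo r κ b v) := fun b hb => by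
    obtain ⟨s, hs, e2⟩ := h.conj g hb
    exact ⟨s, hs, fun v => by rw [e2, e1]; ext <;> simp [Gm, lo, hb]; ring⟩
  refine ⟨r, κ, hr, fun c h0 => ?_, fun h2 => ?_, fun b hb => (hin b hb).elim fun s hs => ⟨_, hs.2⟩⟩
  · have := e1 (0, c)
    rw [h0, Gm_W β (v := (0, 0)) rfl] at this
    simpa [Gm] using (hg _).1 (NN_eq_zero.1 this)
  obtain ⟨φ, hφ⟩ := h.sq h2 g
  have sq0 : ∀ d : K, (∀ a, d * star a ^ 2 + star d * a ^ 2 = 0) → d = 0 := fun d hd =>
    eq_zero_of_tr fun a => by
      obtain ⟨b, rfl⟩ := (Finite.injective_iff_surjective (f := fun b : K => b ^ 2)).1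
        (fun x y e => sub_eq_zero.1 (pow_eq_zero_iff two_ne_zero |>.1
          (show (x - y) ^ 2 = 0 by linear_combination e + (y ^ 2 - x * y) * h2))) a
      simpa using hd b
  have hβ : β = 0 := sq0 β fun a => by
    have e2 := hφ (g⁻¹ • (a, β * star a))
    have e3 := hφ 0
    rw [smul_inv_smul, show hq (g⁻¹ • (a, β * star a)) = hq 0 by simp [hq, (hg (a, β * star a)).2 rfl], ← e3] at e2
    simp only [hq, smul_zero, star_mul', star_star, Prod.fst_zero, Prod.snd_zero, star_zero] at e2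
    linear_combination e2
  refine ⟨hβ, sq0 κ fun c => ?_⟩
  obtain ⟨s, hs, e2⟩ := hin 1 (star_one K)
  obtain ⟨t, ht, e3⟩ := h.form s hs
  have e4 : hq ((g * s * g⁻¹) • Gm β (0, c)) = hq (Gm β (0, c)) := by
    rw [mul_smul, mul_smul, hφ, e3, ← smul_inv_smul g (Gm β (0, c)), hφ, inv_smul_smul]
    congr 1
    simp only [hq, sS, star_add, star_mul', ht]
    linear_combination t * (g⁻¹ • Gm β (0, c)).1 * star (g⁻¹ • Gm β (0, c)).1 * h2
  rw [e2] at e4
  simp only [hβ, hq, Gm, lo, lam, star_add, star_mul', star_star, hr, star_zero, star_one] at e4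
  linear_combination e4 - r * c * star c * h2

theorem kappa (h2 : (2 : K) ≠ 0) {r κ : K} (hr : star r = r) (inj : ∀ c, lam r κ c = 0 → c = 0)
    (hl : ∀ b, star b = b → In Γ β (lo r κ b)) : κ = 0 := by
  by_contra κ0
  have ns : ∀ x y : K, (∀ c, x * lam r κ c = y * c) → x = 0 := fun x y e =>
    (mul_eq_zero.1 (indep (A := x * r - y) (B := x * κ) fun c => by
      have := e c
      rw [lam] at this
      linear_combination this).2).resolve_right κ0
  have key : ∀ a : K, star a = a → a ≠ 0 →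
      a * (2 * r) = -4 ∨ 2 + a * (2 * r) - a ^ 2 * (κ * star κ - r ^ 2) = 0 := fun a ha a0 => by
    have i1 := ((hl 1 (star_one K)).comp (h.in_sS ha)).comp (hl 1 (star_one K))
    have inj2 : ∀ c, 2 * c + a * lam r κ c = 0 → c = 0 := fun c e => by
      refine ((h.in_cl hc i1).resolve_left fun e1 => a0 (ns a (-2) fun c => ?_)) c ?_
      · have := inj (2 * c + a * lam r κ c) (by
          have := e1 c
          simp only [lo, sS, lam, star_add, star_mul', star_star, ha, hr, star_ofNat, star_one,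
            star_zero] at this ⊢
          linear_combination this)
        linear_combination this
      · have := congrArg (lam r κ) e
        simp only [lo, sS, lam, star_add, star_mul', star_star, ha, hr, star_ofNat, star_zero,
          star_one] at this ⊢
        linear_combination this
    obtain ⟨D, hD⟩ : ∃ D, D = 4 + 2 * a * (2 * r) - a ^ 2 * (κ * star κ - r ^ 2) := ⟨_, rfl⟩
    have D0 : D ≠ 0 := fun e => a0 (ns a (2 + a * (2 * r)) fun c => by
      have := inj2 ((2 + a * (2 * r)) * c - a * lam r κ c) (by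
        simp only [lam, star_add, star_sub, star_mul', star_star, ha, hr, star_ofNat]
        linear_combination c * e - c * hD)
      linear_combination -this)
    have sD : star D = D := by simp [hD, ha, hr, mul_comm κ]
    obtain ⟨μ, hμ⟩ : ∃ μ, μ = 2 + a * (2 * r) - a ^ 2 * (κ * star κ - r ^ 2) := ⟨_, rfl⟩
    have sμ : star μ = μ := by simp [hμ, ha, hr, mul_comm κ]
    refine or_iff_not_imp_right.2 fun μ0 => ?_
    rw [← hμ] at μ0
    obtain ⟨s, hs⟩ : ∃ s, s = a / D := ⟨_, rfl⟩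
    obtain ⟨b, hb⟩ : ∃ b, b = D / μ := ⟨_, rfl⟩
    have ss : star s = s := by simp [hs, ha, sD]
    have sb : star b = b := by simp [hb, sμ, sD]
    have e1 : s * D = a := by rw [hs]; field_simp
    have e2 : b * μ = D := by rw [hb]; field_simp
    obtain ⟨ρ, hρ, e⟩ := h.in_nrm (((hl (-b) (by simp [sb])).comp (h.in_sS (t := -s)
      (by simp [ss]))).comp i1) fun c => by
        simp only [lo, sS, lam, star_add, star_mul', star_star, ha, hr, ss, star_neg, star_zero,
          star_one]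
        rw [hs, hb]
        field_simp
        rw [hD, hμ]
        ring
    have := ns (4 * a + a ^ 2 * (2 * r)) (ρ * b ^ 2 - 4 - a ^ 2 * (κ * star κ - r ^ 2)) fun c => by
      have e3 := congrArg Prod.snd (e (2 * c + a * lam r κ c, 0))
      simp only [lo, sS, lam, star_add, star_mul', star_star, ha, hr, ss, star_neg, star_zero,
        star_one, star_ofNat] at e3 ⊢
      rw [hs, hb] at e3
      rw [hb]
      field_simp at e3 ⊢
      rw [hD, hμ] at e3 ⊢
      linear_combination e3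
    exact mul_left_cancel₀ a0 (by linear_combination this)
  obtain ⟨t, ht, t0, t2⟩ := hc.resolve_left h2
  have k2 : ∀ a : K, star a = a → a ≠ 0 →
      (a * r) ^ 2 = 4 ∨ r = 0 ∧ a ^ 2 * (κ * star κ - r ^ 2) = 2 := fun a ha a0 => by
    rcases key a ha a0 with e | e <;> rcases key (-a) (by simp [ha]) (neg_ne_zero.2 a0) with e' | e'
    · exact (pow_ne_zero 3 h2 (by linear_combination e + e')).elim
    · exact Or.inl (mul_left_cancel₀ (pow_ne_zero 2 h2) (by linear_combination (a * (2 * r) - 4) * e))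
    · exact Or.inl (mul_left_cancel₀ (pow_ne_zero 2 h2) (by
        linear_combination (-a * (2 * r) - 4) * e'))
    · exact Or.inr ⟨mul_left_cancel₀ (mul_ne_zero (pow_ne_zero 2 h2) a0) (by
        linear_combination e - e'), mul_left_cancel₀ h2 (by linear_combination -e - e')⟩
  have h4 : (4 : K) ≠ 0 := fun e => pow_ne_zero 2 h2 (by linear_combination e)
  rcases k2 1 (star_one K) one_ne_zero with e | ⟨e, e1⟩ <;> rcases k2 t ht t0 with e' | ⟨e', e1'⟩
  · exact t2 (mul_left_cancel₀ h4 (by linear_combination e' - t ^ 2 * e))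
  · exact h4 (by rw [← e, e']; ring)
  · exact h4 (by rw [← e', e]; ring)
  · exact t2 (mul_left_cancel₀ h2 (by linear_combination e1' - t ^ 2 * e1))

theorem main {g : Γ} (hg : ¬ ∀ v : K × K, v.1 = 0 → (g • v).1 = 0) : ∃ β : K,
    ((2 : K) = 0 → β = 0) ∧ (∃ s ∈ (P : Subgroup Γ), ∀ v : K × K, v.1 = 0 →
      ((s * g) • v).2 = β * star ((s * g) • v).1) ∧
    ∀ t : K, star t = t → t ≠ 0 → In Γ β fun v => (t * v.2, -v.1 / t) := by
  obtain ⟨s, hs, β, e⟩ := h.graph hc hg
  obtain ⟨r, κ, hr, inj, h2, hl⟩ := h.opp e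
  obtain rfl : κ = 0 := (em _).elim (fun e => (h2 e).2) fun e => h.kappa hc e hr inj hl
  have r0 : r ≠ 0 := fun e => one_ne_zero (inj 1 (by simp [lam, e]))
  refine ⟨β, fun e => (h2 e).1, ⟨s, hs, fun v hv => (e _).1 (by rwa [inv_smul_smul])⟩,
    fun t ht t0 => (((hl (t / r) (by simp [ht, hr])).comp (h.in_sS (t := -t⁻¹)
      (by simp [ht]))).comp (hl (t / r) (by simp [ht, hr]))).congr fun v => ?_⟩
  ext <;> simp [lo, sS, lam] <;> field_simp <;> ring

end Su

end Cfsg.Agent.Fu.L1
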