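import Cfsg.Agent.Fu.L2b

/-! Normalising the automizer of `J`. -/

set_option autoImplicit false
set_option linter.unusedSectionVars false
set_option linter.style.haveILetI false

open Equiv

namespace Cfsg.Agent.Fu

open Cfsg.Fus Cfsg.FusionSystem Cfsg.Agent.Uf U4

variable {K : Type*} [Field K] [StarRing K] [Finite K] [HF K] {p : ℕ} [Fact p.Prime] [CharP K p]
  {F F' : FusionSystem (⊤ : Subgroup (U4 K))} {τ σ : Perm (U4 K)} {φ : U4 K ≃* U4 K}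

theorem tr_iso (t : L.Transp ⊤ ⊤ φ φ.symm F F') {P : Subgroup (U4 K)} (hP : ∀ x, φ x ∈ P ↔ x ∈ P)
    (hτ : F.Iso P P τ) : F'.Iso P P (φ.toEquiv * τ * φ.toEquiv⁻¹) := by
  have e : img φ P = P := le_antisymm
    (fun y hy => by
      obtain ⟨x, hx, rfl⟩ := (t.piso.hom.mono le_top).mem_img.1 hy
      exact (hP x).2 hx)
    fun y hy => by
      obtain ⟨x, rfl⟩ := φ.surjective y
      exact mem_img_of_mem _ ((hP x).1 hy)
  have := t.map hτ.isMap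
  rw [e] at this
  exact IsMap.iso_self this fun x hx => (hP _).2 (hτ.mem ((hP _).1 (by simpa using hx)))

theorem Std.isMap_gam (h : Std p F) (hσ : F.Iso ⊤ ⊤ σ) : ∃ g s u γ, s ≠ 0 ∧ u ≠ 0 ∧
    (∀ x, σ x = g * gam s u γ x * g⁻¹) ∧ F.IsMap ⊤ (gam s u γ) := by
  obtain ⟨g, s, u, γ, hs, hu, e⟩ := h.aut σ hσ
  refine ⟨g, s, u, γ, hs, hu, e,
    (hσ.trans (F.iso_cj le_rfl (g := g⁻¹) trivial (norm_of_le le_top _))).isMap.congr fun x _ => ?_⟩
  rw [Perm.mul_apply, e, cj_apply]; group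

/-- Transport of standard systems. -/
theorem Std.transp (h : Std p F) (t : L.Transp ⊤ ⊤ φ φ.symm F F') (ha : ∀ x, (φ x).a = x.a)
    (hy : ∀ x, (φ x).y = x.y) (hZ : ∀ x, φ x ∈ sZ K ↔ x ∈ sZ K)
    (hg : ∀ s u γ, s ≠ 0 → u ≠ 0 → F.IsMap ⊤ (gam s u γ) →
      ∀ x, φ (gam s u γ x) = gam s u γ (φ x)) : Std p F' := by
  have hQ : ∀ x, φ x ∈ sQ K ↔ x ∈ sQ K := fun x => by rw [mem_sQ, hy, mem_sQ]
  have hJ : ∀ x, φ x ∈ sJ K ↔ x ∈ sJ K := fun x => by rw [mem_sJ, ha, mem_sJ]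
  have h2 : ∀ x, φ x ∈ sZ2 K ↔ x ∈ sZ2 K := fun x => by rw [mem_sZ2, ha, hy, mem_sZ2]
  have key : ∀ E P : Subgroup (U4 K), (∀ x, φ x ∈ P ↔ x ∈ P) → img φ.symm E = P → E = P :=
    fun E P hP e => by
      ext x
      obtain ⟨x, rfl⟩ := φ.surjective x
      rw [hP, ← e, (t.symm.piso.hom.mono le_top).mem_img]
      exact ⟨fun hx => ⟨_, hx, by simp⟩, by rintro ⟨y, hy, rfl⟩; simpa using hy⟩
  refine ⟨t.isSaturated h.sat, fun E hE => (h.gen _ (t.symm.isEssential hE)).imp (key E _ hQ)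
    (key E _ hJ), ?_, ?_, fun α hα => ?_⟩
  · obtain ⟨τ, hτ, x, hx, e⟩ := h.n1
    exact ⟨_, tr_iso t hQ hτ, φ x, (h2 x).2 hx, fun m => e ((h2 _).1 (by simpa using m))⟩
  · obtain ⟨τ, hτ, x, hx, e⟩ := h.n2
    exact ⟨_, tr_iso t hJ hτ, φ x, (hZ x).2 hx, fun m => e ((hZ _).1 (by simpa using m))⟩
  · obtain ⟨g, s, u, γ, hs, hu, e, m⟩ := h.isMap_gam
      (tr_iso (φ := φ.symm) (P := ⊤) t.symm (fun _ => Iff.rfl) hα)
    refine ⟨φ g, s, u, γ, hs, hu, fun x => ?_⟩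
    obtain ⟨x, rfl⟩ := φ.surjective x
    rw [← hg s u γ hs hu m, ← map_inv, ← map_mul, ← map_mul, ← e]
    simp

theorem three_lt {t : K} (ht : star t = t) (h0 : t ≠ 0) (h1 : t ^ 2 ≠ 1) : 3 < qq K := by
  classical
  have a1 : t ≠ 1 := fun e => h1 (by simp [e])
  have a2 : t ≠ -1 := fun e => h1 (by simp [e])
  obtain ⟨s, hs, s0, s1, s2⟩ : ∃ s : K, star s = s ∧ s ≠ 0 ∧ s ≠ 1 ∧ s ≠ t := by
    by_cases h : (-1 : K) = 1
    · exact ⟨t + 1, by simp [ht], fun e => a2 (by linear_combination e), by simpa, by simp⟩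
    · exact ⟨-1, by simp, by simp, h, a2.symm⟩
  have := Nat.card_le_card_of_injective (β := selfAdjoint K)
    (![⟨0, star_zero K⟩, ⟨1, star_one K⟩, ⟨t, ht⟩, ⟨s, hs⟩] : Fin 4 → _) (by
      intro i j
      fin_cases i <;> fin_cases j <;>
        simp [Subtype.ext_iff, *, h0.symm, a1.symm, s0.symm, s1.symm, s2.symm])
  exact (by simpa [qq] using this : 4 ≤ qq K)

namespace L2

theorem cm_xa (a : K) {x : U4 K} (hx : x ∈ sJ K) : (cm (xa a) x).c = a * x.y ∧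
    (cm (xa a) x).z = a * star x.c + star a * x.c + a * star a * x.y := by
  simp [cm_c, cm_z, xa, mem_sJ.1 hx]

theorem c_zero (h : Std p F) (hτ : F.Iso (sJ K) (sJ K) τ) (hk : ¬ Kp τ)
    (hc : ∀ c, (τ⁻¹ (xc c)).y = 0) {z : U4 K} (hz : z ∈ sZ K) : (τ z).c = 0 := by
  by_cases hy : (τ z).y = 0
  · rw [eq_one h hτ hk hz hy, hτ.homOn.map_one, one_c]
  by_contra h0
  obtain ⟨e, e1, e2⟩ := exists_eps (K := K)
  obtain ⟨c1, c2⟩ := cm_xa ((τ z).c * (e - 1) / (τ z).y) (hτ.mem (Z_J hz))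
  refine cm_not h hτ hz hy (a := (τ z).c * (e - 1) / (τ z).y) (by simp [h0, hy, sub_ne_zero, e2]) ?_
  rw [← hc (cm _ _).c]
  congr 2
  refine U4.ext (cm_a _ _) (cm_y _ _) rfl (c2.trans ?_)
  simp only [star_div₀, star_mul', star_sub, star_one, U4.hy, xc]
  field_simp
  linear_combination (τ z).c * star (τ z).c * e1

theorem nk_cj (hk : ¬ Kp τ) (g : U4 K) : ¬ Kp (cj g * τ) := fun k =>
  hk (by simpa using (kp_cj g).inv.mul k)

theorem exists_gam {s u : K} {γ : K ≃+* K} (h : Std p F) (m : F.IsMap ⊤ (gam s u γ)) :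
    ∃ ρ, F.Iso (sJ K) (sJ K) ρ ∧ Kp ρ ∧ ∀ x, ρ x = gam s u γ x := by
  obtain ⟨ρ, r1, r2⟩ := m.exists_perm
  have i := aut_J h (r1.iso_self fun _ _ => trivial)
  exact ⟨ρ, (r1.mono le_top).iso_self fun x hx => (i.2 x).2 hx, i.1, fun x => r2 x trivial⟩

theorem big (h : Std p F) (h1 : W1 F) {t : K} (ht : star t = t) (h0 : t ≠ 0) (h2 : t ^ 2 ≠ 1) :
    ∃ τ, SP F τ := by
  obtain ⟨τ0, i0, z0, hz0, k0⟩ := h.n2
  have nk0 : ¬ Kp τ0 := fun k => k0 (k.1 _ hz0)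
  obtain ⟨ρ, r1, r2, r3⟩ := exists_gam h (h1.t t ht h0)
  obtain ⟨b, hb⟩ := two h (i0.trans r1) (fun k => nk0 (by simpa using r2.inv.mul k)) i0 nk0
  have a1 : t - 1 ≠ 0 := fun e => h2 (by rw [sub_eq_zero.1 e]; simp)
  obtain ⟨τ, hτ⟩ : ∃ τ, τ = cj (xa (b / (t - 1))) * τ0 := ⟨_, rfl⟩
  have i : F.Iso (sJ K) (sJ K) τ := hτ ▸ i0.trans (iso_J _)
  have nk : ¬ Kp τ := hτ ▸ nk_cj nk0 _
  have k : Kp (τ⁻¹ * (ρ * τ)) := by
    convert hb using 1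
    refine Equiv.ext fun x => ?_
    simp only [hτ, mul_inv_rev, Perm.mul_apply, cj_apply, cj_inv_apply, r3, gam_mul]
    congr 1
    have e1 : gam t t⁻¹ (RingEquiv.refl K) (xa (b / (t - 1))) = xa (b / (t - 1)) * xa b := by
      ext <;> simp [gam, xa]; field_simp; ring
    have e2 : gam t t⁻¹ (RingEquiv.refl K) (xa (b / (t - 1)))⁻¹ =
        (xa b)⁻¹ * (xa (b / (t - 1)))⁻¹ := by
      ext <;> simp [gam, xa]; field_simp; ring
    rw [e1, e2]; group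
  have ti : t⁻¹ - 1 ≠ 0 := fun e => a1 (by field_simp at e; linear_combination -e)
  have hc : ∀ c, (τ⁻¹ (xc c)).y = 0 := fun c => by
    obtain ⟨z, hz⟩ := Finite.injective_iff_surjective.1 (lz_inj' h i nk)
      (-lc i.symm (c / (t⁻¹ - 1)))
    have m : xc (c / (t⁻¹ - 1)) * xz z.1 z.2 ∈ sZ2 K := mul_mem (xc_mem _) (Z_Z2 (xz_mem _ _))
    have e1 : (τ⁻¹ (xc (c / (t⁻¹ - 1)) * xz z.1 z.2)).y = 0 := by
      rw [i.symm.homOn rfl rfl]
      exact congrArg Subtype.val (add_eq_zero_iff_eq_neg'.2 hz)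
    have e2 := (k.2 _ ⟨i.symm.mem (Z2_J m), e1⟩).2
    rw [Perm.mul_apply, Perm.mul_apply, perm_apply_inv_self, r3,
      show gam t t⁻¹ (RingEquiv.refl K) (xc (c / (t⁻¹ - 1)) * xz z.1 z.2) =
        xc c * (xc (c / (t⁻¹ - 1)) * xz z.1 z.2) by
        generalize hd : c / (t⁻¹ - 1) = d
        rw [← div_mul_cancel₀ c ti, hd]
        ext <;> simp [gam, xc, xz, ht] <;> field_simp; ring,
      i.symm.homOn rfl (Z2_J m), mul_y, e1, add_zero] at e2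
    exact e2
  refine ⟨τ, i, fun z hz => ⟨c_zero h i nk hc hz, ?_⟩, hc⟩
  have t2 : t⁻¹ * t⁻¹ - 1 ≠ 0 := fun e => h2 (by field_simp at e; linear_combination -e)
  obtain ⟨w, hw, e⟩ := surj_y h i nk (y := (τ z).y / (t⁻¹ * t⁻¹ - 1)) (by simp [ht])
  have m := k.1 w hw
  have e1 := eq_one h i nk (mul_mem (mul_mem (inv_mem hz) (inv_mem hw)) m)
  have e2 : τ (z⁻¹ * w⁻¹ * (τ⁻¹ * (ρ * τ)) w) = (τ z)⁻¹ * (τ w)⁻¹ * gam t t⁻¹ (.refl K) (τ w) := by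
    rw [i.homOn (Z_J (mul_mem (inv_mem hz) (inv_mem hw))) (Z_J m),
      i.homOn (Z_J (inv_mem hz)) (Z_J (inv_mem hw)), i.homOn.map_inv (Z_J hz),
      i.homOn.map_inv (Z_J hw), ← r3]
    simp
  have e3 := congrArg U4.z (e2.symm.trans ((congrArg τ (e1 (by
    rw [e2]; simp [gam, ht, e]; field_simp; ring))).trans i.homOn.map_one))
  have m1 : (τ z).a = 0 := i.mem (Z_J hz)
  have m2 : (τ w).a = 0 := i.mem (Z_J hw)
  simp [gam, ht, m1, m2] at e3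
  field_simp at e3
  linear_combination -e3

/-- The central automorphism `z ↦ z + β y`. -/
def th (β : K) (hβ : star β = β) : U4 K ≃* U4 K where
  toFun x := ⟨x.a, x.y, x.c, x.z + β * x.y, x.hy, by simp [hβ]⟩
  invFun x := ⟨x.a, x.y, x.c, x.z - β * x.y, x.hy, by simp [hβ]⟩
  left_inv x := by ext <;> simp
  right_inv x := by ext <;> simp
  map_mul' x w := by ext <;> simp; ring

theorem alg3 {l n : K} (h1 : l = 0 ∨ l = 1 ∨ l = -1) (h2 : n = 0 ∨ n = 1 ∨ n = -1) (a : n ≠ 0)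
    (b : l + n ≠ 0) (c : -l + n ≠ 0) : l = 0 := by
  rcases h1 with e | rfl | rfl <;> rcases h2 with rfl | rfl | rfl <;> simp_all

theorem small_c (h : Std p F) (hr : ∀ t : K, star t = t → t = 0 ∨ t = 1 ∨ t = -1)
    (i : F.Iso (sJ K) (sJ K) τ) (nk : ¬ Kp τ) {z : U4 K} (mz : z ∈ sZ K) (hy : (τ z).y ≠ 0)
    (mc : (τ z).c = 0) (c : K) : (τ⁻¹ (xc c)).y = 0 := by
  by_cases c0 : c = 0
  · rw [c0, show xc (0 : K) = 1 from rfl, i.symm.homOn.map_one, one_y]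
  obtain ⟨n, hn⟩ : ∃ n : selfAdjoint K, (n : K) = c * star c / (τ z).y :=
    ⟨⟨_, by simp [selfAdjoint.mem_iff, mul_comm]⟩, rfl⟩
  have key : ∀ d : K, d ≠ 0 → d * star d = c * star c → (lc i.symm d : K) + lz i.symm n ≠ 0 :=
    fun d d0 e => by
      have := cm_not h i mz hy (a := d / (τ z).y) (div_ne_zero d0 hy)
      obtain ⟨c1, c2⟩ := cm_xa (d / (τ z).y) (i.mem (Z_J mz))
      have e2 : (⟨_, (cm (xa (d / (τ z).y)) (τ z)).hz⟩ : selfAdjoint K) = n :=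
        Subtype.ext (c2.trans (by rw [mc, hn, ← e]; simp; field_simp))
      rwa [y_Z2 i.symm (cm_sZ2 _ _), c1, div_mul_cancel₀ _ hy, e2] at this
  have k2 := key (-c) (neg_ne_zero.2 c0) (by simp)
  rw [map_neg, AddSubgroup.coe_neg] at k2
  refine alg3 (hr _ (lc i.symm c).2) (hr _ (lz i.symm n).2) (fun e => ?_) (key c c0 rfl) k2
  have := (injective_iff_map_eq_zero _).1 (lz_inj' h i nk) n (Subtype.ext e)
  rw [this] at hn
  simpa [c0, hy] using hn.symm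

theorem small (h : Std p F) (hr : ∀ t : K, star t = t → t = 0 ∨ t = 1 ∨ t = -1) :
    ∃ F' : FusionSystem (⊤ : Subgroup (U4 K)), Std p F' ∧ (∃ τ, SP F' τ) ∧
      (F'.IsRealizable p → F.IsRealizable p) := by
  obtain ⟨τ0, i0, z0, hz0, k0⟩ := h.n2
  have nk0 : ¬ Kp τ0 := fun k => k0 (k.1 _ hz0)
  obtain ⟨z, hz⟩ : ∃ z : U4 K, z = xz 1 (star_one K) := ⟨_, rfl⟩
  have mz : z ∈ sZ K := hz ▸ xz_mem _ _
  have y0 : (τ0 z).y ≠ 0 := fun e => one_ne_zero (α := K)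
    (congrArg U4.z (hz.symm.trans (eq_one h i0 nk0 mz e)))
  obtain ⟨τ, hτ⟩ : ∃ τ, τ = cj (xa (-(τ0 z).c / (τ0 z).y)) * τ0 := ⟨_, rfl⟩
  have i : F.Iso (sJ K) (sJ K) τ := hτ ▸ i0.trans (iso_J _)
  have nk : ¬ Kp τ := hτ ▸ nk_cj nk0 _
  have hy : (τ z).y ≠ 0 := by rw [hτ, Perm.mul_apply, cj_apply, cj_y]; exact y0
  have ma : (τ z).a = 0 := i.mem (Z_J mz)
  have mc : (τ z).c = 0 := by
    rw [hτ, Perm.mul_apply, cj_apply, cj_c, mem_sJ.1 (i0.mem (Z_J mz))]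
    simp [xa, y0]
  obtain ⟨β, hβ⟩ : ∃ β, β = -(τ z).z / (τ z).y := ⟨_, rfl⟩
  have sβ : star β = β := by simp [hβ]
  have hZ : ∀ w ∈ sZ K, (τ w).c = 0 ∧ (τ w).z + β * (τ w).y = 0 := fun w hw => by
    rcases hr _ w.hz with e | e | e
    · simp [sZ_eq hw (one_mem _) e, i.homOn.map_one]
    · rw [sZ_eq hw mz (by rw [e, hz]; rfl)]
      simp [mc, hβ, hy]
    · rw [sZ_eq hw (inv_mem mz) (by simp [e, hz, xz]), i.homOn.map_inv (Z_J mz)]
      simp [ma, mc, hβ, hy]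
  have hc := small_c h hr i nk mz hy mc
  obtain ⟨F', t⟩ := exists_tr' (th β sβ) F
  refine ⟨F', h.transp t (fun _ => rfl) (fun _ => rfl) (fun _ => Iff.rfl) fun s u γ hs hu m x => ?_,
    ⟨_, tr_iso t (fun _ => Iff.rfl) i, fun w hw => ?_, fun c => ?_⟩, t.symm.isRealizable'⟩
  · obtain ⟨ρ, r1, r2, r3⟩ := exists_gam h m
    obtain ⟨a, ha⟩ := two h (i.trans r1) (fun k => nk (by simpa using r2.inv.mul k)) i nk
    obtain ⟨e1, e2⟩ := hZ _ (ha.1 z mz)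
    have hγ : ∀ t, star t = t → γ t = t := fun t ht => by
      rcases hr t ht with e | e | e <;> simp [e]
    simp only [Perm.mul_apply, perm_apply_inv_self, cj_apply, cj_c, cj_z, cj_y, r3, gam, xa, ma, mc,
      map_zero, mul_zero, zero_add, sub_zero, zero_mul, hγ _ (τ z).hy, hγ _ (τ z).hz, star_zero,
      add_zero] at e1 e2
    obtain rfl : a = 0 := by simpa [hu, hy] using e1
    have e3 : s * star s * β = β := mul_left_cancel₀ (mul_ne_zero (mul_ne_zero hu (star_ne_zero.2 hu)) hy)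
      (by
        have e4 : β * (τ z).y = -(τ z).z := by rw [hβ]; field_simp
        linear_combination -e2 + (s * star s * u * star u) * e4)
    ext <;> simp only [th, gam, MulEquiv.coe_mk, Equiv.coe_fn_mk, map_add, map_mul, hγ _ sβ]
    linear_combination -(u * star u * γ x.y) * e3
  · have e : (th β sβ).toEquiv⁻¹ w = w := by
      rw [Perm.inv_eq_iff_eq]; ext <;> simp [th, hw.2.1]
    rw [Perm.mul_apply, Perm.mul_apply, e]
    exact hZ w hw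
  · have e : (th β sβ).toEquiv⁻¹ (xc c) = xc c := by
      rw [Perm.inv_eq_iff_eq]; ext <;> simp [th, xc]
    rw [mul_inv_rev, mul_inv_rev, inv_inv, Perm.mul_apply, Perm.mul_apply, e]
    exact hc c

end L2

theorem l2 (h : Std p F) (hq : qq K ≤ 3 ∨ W1 F) : ∃ F' : FusionSystem (⊤ : Subgroup (U4 K)),
    Std p F' ∧ W2 F' ∧ (F'.IsRealizable p → F.IsRealizable p) := by
  by_cases H : ∃ t : K, star t = t ∧ t ≠ 0 ∧ t ^ 2 ≠ 1
  · obtain ⟨t, ht, h0, h2⟩ := H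
    obtain ⟨τ, s⟩ := L2.big h (hq.resolve_left (not_le.2 (three_lt ht h0 h2))) ht h0 h2
    exact ⟨F, h, s.w2 h, id⟩
  · push Not at H
    obtain ⟨F', h', ⟨τ, s⟩, r⟩ := L2.small h fun t ht => (em (t = 0)).imp_right fun h0 =>
      mul_self_eq_one_iff.1 (sq t ▸ H t ht h0)
    exact ⟨F', h', s.w2 h', r⟩

end Cfsg.Agent.Fu
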