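import Cfsg.Agent.Fu.L1b
import Cfsg.Agent.Fu.L2c

/-! The automizer of `Q`. -/

set_option autoImplicit false
set_option linter.unusedSectionVars false
set_option linter.style.haveILetI false

open Equiv

namespace Cfsg.Agent.Fu

open Cfsg.Fus Cfsg.FusionSystem U4
open Cfsg.Agent.Uf (HF qq indep dec_real one_lt_qq)

variable {K : Type*} [Field K] [StarRing K] [Finite K] [HF K] {p : ℕ} [Fact p.Prime] [CharP K p]
  {F : FusionSystem (⊤ : Subgroup (U4 K))} {τ ω : Perm (U4 K)}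

namespace L1

/-- The image in `Q/Z`. -/
def pi1 (x : U4 K) : K × K := (x.a, x.c)

/-- A section. -/
def el (v : K × K) : U4 K := ⟨v.1, 0, v.2, 0, by simp, by simp⟩

theorem cm_z_Q {g x : U4 K} (hg : g ∈ sQ K) (hx : x ∈ sQ K) : (cm g x).z = bf (pi1 g) (pi1 x) := by
  simp [cm_z, bf, pi1, mem_sQ.1 hg, mem_sQ.1 hx]

theorem pi1_cj (g : U4 K) {x : U4 K} (hx : x ∈ sQ K) : pi1 (g * x * g⁻¹) = sS (-g.y) (pi1 x) := by
  ext <;> simp [pi1, sS, mem_sQ.1 hx]; ring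

theorem iso_Q (g : U4 K) : F.Iso (sQ K) (sQ K) (cj g) := F.iso_cj le_top trivial (norm_of_le Z2_Q g)

theorem Z_of {x : U4 K} (hx : x ∈ sQ K) (h : pi1 x = 0) : x ∈ sZ K :=
  ⟨congrArg Prod.fst h, hx, congrArg Prod.snd h⟩

theorem fa_Q (hF : F.IsSaturated p) : F.IsFullyAutomized p (sQ K) :=
  (F.isFullyNormalized_of_le_normalizer le_top fun g _ => norm_of_le Z2_Q g).isFullyAutomized hF
    (topP p)

theorem fix_Z (hτ : F.Iso (sQ K) (sQ K) τ)
    (h : ∀ x ∈ sQ K, ∀ y ∈ sQ K, bf (pi1 (τ x)) (pi1 (τ y)) = bf (pi1 x) (pi1 y)) {z : U4 K}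
    (hz : z ∈ sZ K) : τ z = z := by
  refine sZ_eq (inv_Z_Q F τ hτ z hz) hz ?_
  obtain ⟨t, rfl⟩ := exists_cm_z (x := xa (1 : K)) one_ne_zero hz
  rw [map_cm hτ (g := xc t) rfl rfl, cm_z_Q (hτ.mem (x := xc t) rfl) (hτ.mem (x := xa 1) rfl),
    h (xc t) rfl (xa 1) rfl, cm_z_Q rfl rfl]

theorem inn (hF : F.IsSaturated p) (hτ : F.Iso (sQ K) (sQ K) τ)
    (h : ∀ x ∈ sQ K, pi1 (τ x) = pi1 x) : τ ∈ innS ⊤ (sQ K) := by
  refine H4.Sp.mem_innS_of_chain (fa_Q hF) (topP p) (C := ch (sZ K) (sZ2 K) (sQ K) (sQ K) (sQ K))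
    (n := 3) (fun i hi => ?_) (fun i hi => ?_) rfl rfl (fun g _ _ i hi x hx => ?_) hτ
    fun i hi x hx => ?_
  · interval_cases i
    exacts [bot_le, Z_Q, Z2_Q, le_rfl]
  · interval_cases i
    exacts [bot_le, Z_Z2, Z2_Q]
  · interval_cases i
    exacts [cm_eq_one.2 (comm_sZ g hx), cm_sZ' g hx, cm_sZ2 g x]
  have k : ∀ x ∈ sQ K, x⁻¹ * τ x ∈ sZ K := fun x hx => by
    have e := h x hx
    simp only [pi1, Prod.mk.injEq] at e
    simp [mem_sZ, e.1, e.2, mem_sQ.1 hx, mem_sQ.1 (hτ.mem hx)]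
  interval_cases i
  exacts [by rw [fix_Z hτ (fun x hx y hy => by rw [h x hx, h y hy]) hx]; simp [ch],
    k x (Z2_Q hx), Z_Z2 (k x hx)]

theorem core (hF : F.IsSaturated p) (hc : (2 : K) = 0 ∨ ∃ t : K, star t = t ∧ t ≠ 0 ∧ t ^ 2 ≠ 1)
    (hτ : F.Iso (sQ K) (sQ K) τ) (hn : ¬ ∀ x ∈ sZ2 K, τ x ∈ sZ2 K) : ∃ β : K,
    ((2 : K) = 0 → β = 0) ∧ (∃ g, ∀ x ∈ sZ2 K, (g * τ x * g⁻¹).c = β * star (g * τ x * g⁻¹).a) ∧
    ∀ t : K, star t = t → t ≠ 0 → ∃ ω, F.Iso (sQ K) (sQ K) ω ∧ ∀ x ∈ sQ K, ∀ v,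
      pi1 x = Gm β v → pi1 (ω x) = Gm β (t * v.2, -v.1 / t) := by
  obtain ⟨Γ, _, _, _, P, ρ, r1, r2, -, r4, r5⟩ := H4.Sp.exists_setup (fa_Q hF) pi1
    (fun x hx y hy => by ext <;> simp [pi1, mem_sQ.1 hy]) (fun v => ⟨el v, rfl, rfl⟩)
    fun τ hτ x hx h0 => by
      have := inv_Z_Q F τ hτ x (Z_of hx h0)
      exact Prod.ext this.1 this.2.2
  have st : ∀ a : Γ, (∀ v : K × K, v.1 = 0 → (a • v).1 = 0) → ∀ x ∈ sZ2 K, ρ a x ∈ sZ2 K :=
    fun a ha x hx => by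
      have := ha (pi1 x) hx.1
      rw [r5 a x hx.2] at this
      exact ⟨this, (r1 a).mem hx.2⟩
  have r6 : ∀ a : Γ, ∀ v, a • v = pi1 (ρ a (el v)) := fun a v => r5 a (el v) rfl
  have su : Su K P := ⟨fun s hs => ?_, fun t ht => ?_, fun a => ?_, fun h2 a => ?_, fun a ha => ?_,
    fun a ha => ?_⟩
  · obtain ⟨a, ha⟩ := r2 τ hτ
    obtain ⟨β, b1, ⟨s, hs, e⟩, e'⟩ := su.main hc (g := a) fun hg => hn fun x hx => by
      rw [← ha x hx.2]; exact st a hg x hx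
    obtain ⟨g, -, -, c⟩ := mem_innS.1 ((r4 s).1 hs)
    refine ⟨β, b1, ⟨g, fun x hx => ?_⟩, fun t ht t0 => ?_⟩
    · have := e (pi1 x) hx.1
      rwa [r5 _ x hx.2, map_mul, Perm.mul_apply, ha x hx.2, c _ (hτ.mem hx.2)] at this
    · obtain ⟨b, hb⟩ := e' t ht t0
      exact ⟨ρ b, r1 b, fun x hx v e => by rw [← r5 b x hx, e, hb]⟩
  · obtain ⟨g, -, -, c⟩ := mem_innS.1 ((r4 s).1 hs)
    exact ⟨-g.y, by simp, fun v => by rw [r6, c _ rfl, pi1_cj g rfl]; rfl⟩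
  · obtain ⟨a, ha⟩ := r2 _ (iso_Q (xy (-t) (by simp [ht])))
    exact ⟨a, (r4 a).2 (mem_innS.2 ⟨_, trivial, norm_of_le Z2_Q _, ha⟩), fun v => by
      rw [r6, ha _ rfl, cj_apply, pi1_cj _ rfl]; simp [xy, pi1, el]⟩
  · classical
    refine ⟨fun t => if ht : star t = t then (ρ a (xz t ht)).z else 0, fun v w => ?_⟩
    simp only []
    rw [r6, r6, dif_pos (bf_real v w), ← cm_z_Q ((r1 a).mem rfl) ((r1 a).mem rfl),
      ← map_cm (r1 a) rfl rfl, sZ_eq (cm_sQ (g := el v) (x := el w) rfl rfl) (xz_mem _ (bf_real v w))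
        (cm_z_Q rfl rfl)]
  · classical
    have s : ∀ v : K × K, star (hq v) = hq v := fun v => by simp [hq, add_comm, mul_comm]
    have k : ∀ x ∈ sQ K, x * x = xz (hq (pi1 x) + 2 * x.z) (by simp [s]) := fun x hx => by
      ext <;> simp [xz, mem_sQ.1 hx, hq, pi1, ← two_mul, h2]
    refine ⟨fun t => if ht : star t = t then (ρ a (xz t ht)).z else 0, fun v => ?_⟩
    have e := congrArg U4.z (((r1 a).homOn (x := el v) (y := el v) rfl rfl).trans
      (k _ ((r1 a).mem rfl)))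
    simp only []
    rw [r6, dif_pos (s v), show xz (hq v) (s v) = el v * el v by
      rw [k _ rfl]; ext <;> simp [xz, el, pi1], e]
    simp [xz, h2]
  · exact (r4 a).2 (inn hF (r1 a) fun x hx => by rw [← r5 a x hx, ha])
  · refine Subgroup.mem_normalizer_fintype fun s hs => (r4 _).2 ?_
    obtain ⟨g, -, -, c⟩ := mem_innS.1 ((r4 s).1 hs)
    refine mem_of_congr (fixP_le_innS _ _) ((ext1 hF (r1 a) (st a ha)).1 g) fun x hx => ?_
    simp only [map_mul, map_inv, Perm.mul_apply]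
    rw [c _ ((r1 a).inv_mem hx), cj_apply]

/-- The deviation of `ω` from `w1`. -/
def dv (ω : Perm (U4 K)) (v : K × K) : K := (ω (el v)).z - (w1 (el v)).z

theorem dv_eq (hω : F.Iso (sQ K) (sQ K) ω) (h : ∀ x ∈ sQ K, pi1 (ω x) = (x.c, -x.a)) {x : U4 K}
    (hx : x ∈ sQ K) : (ω x).z = (w1 x).z + dv ω (pi1 x) := by
  have e : x = el (pi1 x) * xz x.z x.hz := by ext <;> simp [el, pi1, xz, mem_sQ.1 hx]
  conv_lhs => rw [e, hω.homOn rfl rfl, fix_Z hω (fun x hx y hy => by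
    rw [h x hx, h y hy]; simp [bf, pi1]; ring) (xz_mem _ _)]
  simp [dv, w1, el, pi1, xz]; ring

theorem dv_add (hω : F.Iso (sQ K) (sQ K) ω) (h : ∀ x ∈ sQ K, pi1 (ω x) = (x.c, -x.a))
    (v w : K × K) : dv ω (v + w) = dv ω v + dv ω w := by
  have e := dv_eq hω h (x := el v * el w) (mul_mem rfl rfl)
  have e1 := h (el v) rfl
  have e2 := h (el w) rfl
  simp only [pi1, Prod.mk.injEq] at e1 e2
  rw [hω.homOn rfl rfl, mul_z, e1.1, e2.2, mem_sQ.1 (hω.mem (x := el w) rfl), dv_eq hω h rfl,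
    dv_eq hω h rfl, show pi1 (el v * el w) = v + w by ext <;> simp [pi1, el]] at e
  simp only [w1, el, pi1, mul_a, mul_c, mul_z, star_add, star_neg, mul_zero, add_zero] at e
  linear_combination -e

theorem lift (hω : F.Iso (sQ K) (sQ K) ω) (h : ∀ x ∈ sQ K, pi1 (ω x) = (x.c, -x.a))
    (hl : ∀ r v, star r = r → dv ω (r • v) = r * dv ω v) : F.IsMap (sQ K) w1 := by
  have s : ∀ v, star (dv ω v) = dv ω v := fun v => by simp [dv]
  have rep : ∀ f : K → K, (∀ a, star (f a) = f a) → (∀ x y, f (x + y) = f x + f y) →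
      (∀ r x, star r = r → f (r * x) = r * f x) → ∃ α, ∀ a, f a = α * a + star α * star a :=
    fun f h0 h1 h2 => by
      obtain ⟨α, β, e⟩ := dec_real h1 h2
      have := (indep (A := star β - α) (B := star α - β) fun a => by
        have := h0 a
        simp only [e, star_add, star_mul', star_star] at this
        linear_combination this).2
      exact ⟨α, fun a => by rw [e, sub_eq_zero.1 this]⟩
  obtain ⟨α, e1⟩ := rep (fun a => dv ω (a, 0)) (fun _ => s _)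
    (fun a b => by rw [← dv_add hω h]; simp) fun r a hr => by rw [← hl r _ hr]; simp
  obtain ⟨β, e2⟩ := rep (fun a => dv ω (0, a)) (fun _ => s _)
    (fun a b => by rw [← dv_add hω h]; simp) fun r a hr => by rw [← hl r _ hr]; simp
  refine (hω.trans (iso_Q (el (star α, star β)))).isMap.congr fun x hx => ?_
  have e := h x hx
  simp only [pi1, Prod.mk.injEq] at e
  have m : (ω x).y = 0 := hω.mem hx
  rw [Perm.mul_apply, cj_apply]
  refine U4.ext (by rw [cj_a, e.1]; rfl) (by rw [cj_y, m]; rfl)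
    (by rw [cj_c, e.2, m]; simp [w1, el]) ?_
  rw [cj_z, e.1, e.2, m, dv_eq hω h hx, show pi1 x = (x.a, 0) + (0, x.c) by simp [pi1],
    dv_add hω h, e1, e2]
  simp [el]; ring

theorem real_two (h2 : qq K = 2) {t : K} (ht : star t = t) : t = 0 ∨ t = 1 := by
  obtain ⟨y, -, hy⟩ := (Nat.card_eq_two_iff' (0 : selfAdjoint K)).1 h2
  refine (em _).imp_right fun h0 => congrArg Subtype.val ((hy ⟨t, ht⟩ fun e =>
    h0 (congrArg Subtype.val e)).trans (hy ⟨1, star_one K⟩ fun e =>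
      one_ne_zero (congrArg Subtype.val e)).symm)

theorem lin_two (hω : F.Iso (sQ K) (sQ K) ω) (h : ∀ x ∈ sQ K, pi1 (ω x) = (x.c, -x.a)) {r : K}
    (hr : r = 0 ∨ r = 1) (v : K × K) : dv ω (r • v) = r * dv ω v := by
  rcases hr with rfl | rfl
  · simpa using dv_add hω h 0 0
  · simp

theorem Gm_zero (v : K × K) : Gm 0 v = v := by simp [Gm]

end L1

open L1

theorem l1two (hF : F.IsSaturated p) (h2 : qq K = 2)
    (n1 : ∃ τ, F.Iso (sQ K) (sQ K) τ ∧ ∃ x ∈ sZ2 K, τ x ∉ sZ2 K) : F.IsMap (sQ K) w1 ∧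
    ∀ τ, F.Iso (sQ K) (sQ K) τ → (∀ x ∈ sZ2 K, τ x ∈ sZ2 K) ∨
      ∃ g, ∀ x ∈ sZ2 K, (g * τ x * g⁻¹).c = 0 := by
  have c2 : (2 : K) = 0 := by
    rcases real_two h2 (t := -1) (by simp) with e | e
    · simp at e
    · linear_combination -e
  refine ⟨?_, fun τ hτ => or_iff_not_imp_left.2 fun hn => ?_⟩
  · obtain ⟨τ, hτ, x, hx, hx'⟩ := n1
    obtain ⟨β, b1, -, b3⟩ := core hF (Or.inl c2) hτ fun hn => hx' (hn x hx)
    obtain ⟨ω, i, e⟩ := b3 1 (star_one K) one_ne_zero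
    have e' : ∀ x ∈ sQ K, pi1 (ω x) = (x.c, -x.a) := fun x hx => by
      simpa [b1 c2, Gm_zero, pi1] using e x hx (pi1 x) (by rw [b1 c2, Gm_zero])
    exact lift i e' fun r v hr => lin_two i e' (real_two h2 hr) v
  · obtain ⟨β, b1, ⟨g, b2⟩, -⟩ := core hF (Or.inl c2) hτ hn
    exact ⟨g, fun x hx => by rw [b2 x hx, b1 c2, zero_mul]⟩

theorem l1 (h : Std p F) (h3 : qq K ≠ 3) : W1 F := by
  have hc : (2 : K) = 0 ∨ ∃ t : K, star t = t ∧ t ≠ 0 ∧ t ^ 2 ≠ 1 := by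
    by_contra H
    push Not at H
    have h1 : (1 : K) ≠ -1 := fun e => H.1 (by linear_combination e)
    refine h3 ((Nat.card_eq_of_bijective (![0, ⟨1, star_one K⟩, ⟨-1, by
      simp [selfAdjoint.mem_iff]⟩] : Fin 3 → selfAdjoint K) ⟨fun i j => ?_, fun t => ?_⟩).symm.trans
      (by simp))
    · fin_cases i <;> fin_cases j <;> simp [Subtype.ext_iff, h1, h1.symm]
    · by_cases t0 : t.1 = 0
      · exact ⟨0, Subtype.ext t0.symm⟩
      rcases mul_self_eq_one_iff.1 (sq t.1 ▸ H.2 t.1 t.2 t0) with e | e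
      exacts [⟨1, Subtype.ext e.symm⟩, ⟨2, Subtype.ext e.symm⟩]
  have key : ∀ τ, F.Iso (sQ K) (sQ K) τ → (¬ ∀ x ∈ sZ2 K, τ x ∈ sZ2 K) →
      (∃ g, ∀ x ∈ sZ2 K, (g * τ x * g⁻¹).c = 0) ∧ (∃ ω, F.Iso (sQ K) (sQ K) ω ∧
        ∀ x ∈ sQ K, pi1 (ω x) = (x.c, -x.a)) ∧
      ∀ t : K, star t = t → t ≠ 0 → F.IsMap ⊤ (gam t t⁻¹ (RingEquiv.refl K)) := fun τ hτ hn => by
    obtain ⟨β, b1, ⟨g, b2⟩, b3⟩ := core h.sat hc hτ hn
    have k : ∀ t : K, star t = t → t ≠ 0 → β * (t ^ 2 - 1) = 0 ∧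
        F.IsMap ⊤ (gam t t⁻¹ (RingEquiv.refl K)) := fun t ht t0 => by
      obtain ⟨ω, i, e⟩ := b3 (-1) (by simp) (by simp)
      obtain ⟨ω', i', e'⟩ := b3 t ht t0
      have e1 : ∀ x ∈ sQ K, ∀ v, pi1 x = Gm β v → pi1 ((ω' * ω) x) = Gm β (t * v.1, v.2 / t) :=
        fun x hx v hv => by
          rw [Perm.mul_apply, e' _ (i.mem hx) _ (e x hx v hv)]; simp [div_neg, neg_div]
      obtain ⟨-, α, a1, a2⟩ := ext1 h.sat (i.trans i') fun x hx => ⟨by
        simpa [Gm, pi1] using congrArg Prod.fst (e1 x hx.2 (0, x.c) (by simp [Gm, pi1, hx.1])),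
        (i.trans i').mem hx.2⟩
      obtain ⟨g, s, u, γ, hs, hu, e2, m⟩ := h.isMap_gam a1
      have e3 : ∀ v : K × K, (s * γ v.1, s * u * star u * γ (v.2 + β * star v.1) - s * γ v.1 * g.y) =
          Gm β (t * v.1, v.2 / t) := fun v => by
        rw [← e1 (el (Gm β v)) rfl v rfl, ← a2 _ rfl, e2]
        ext <;> simp [pi1, gam, el, Gm]; ring
      have e4 : ∀ a, s * γ a = t * a := fun a => congrArg Prod.fst (e3 (a, 0))
      obtain rfl : s = t := by simpa using e4 1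
      have e5 : ∀ a, γ a = a := fun a => mul_left_cancel₀ hs (e4 a)
      have e6 : u * star u = s⁻¹ * s⁻¹ := by
        have := congrArg Prod.snd (e3 (0, 1))
        simp [Gm] at this
        field_simp at this ⊢
        exact this
      refine ⟨?_, m.congr fun x _ => ?_⟩
      · have := (indep (A := -(s * g.y)) (B := s * u * star u * β - β * s) fun a => by
          have := congrArg Prod.snd (e3 (a, 0))
          simp only [Gm, e5, star_mul', ht] at this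
          linear_combination this).2
        rw [mul_assoc s, e6] at this
        field_simp at this
        linear_combination -this
      · ext <;> simp only [gam, e5, RingEquiv.refl_apply, star_inv₀, ht, mul_assoc _ u, e6] <;> ring
    obtain rfl : β = 0 := hc.elim b1 fun ⟨t, ht, t0, t2⟩ =>
      (mul_eq_zero.1 (k t ht t0).1).resolve_right (sub_ne_zero.2 t2)
    obtain ⟨ω, i, e⟩ := b3 1 (star_one K) one_ne_zero
    exact ⟨⟨g, fun x hx => by rw [b2 x hx, zero_mul]⟩, ⟨ω, i, fun x hx => by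
      simpa [Gm_zero, pi1] using e x hx (pi1 x) (Gm_zero _).symm⟩, fun t ht t0 => (k t ht t0).2⟩
  obtain ⟨τ, hτ, x, hx, hx'⟩ := h.n1
  obtain ⟨-, ⟨ω, i, e⟩, hT⟩ := key τ hτ fun hn => hx' (hn x hx)
  refine ⟨lift i e fun r v hr => ?_, hT, fun τ hτ => or_iff_not_imp_left.2 fun hn => (key τ hτ hn).1⟩
  by_cases H : r = 0 ∨ r = 1
  · exact lin_two i e H v
  push Not at H
  obtain ⟨ρ, r1, r2⟩ := (hT r hr H.1).exists_perm
  have r3 : F.Iso (sQ K) (sQ K) ρ := (r1.mono le_top).iso_self fun x hx => by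
    rw [r2 x trivial]; simp [mem_sQ, gam, mem_sQ.1 hx]
  have r4 : ∀ x, pi1 (ρ x) = (r * x.a, r⁻¹ * x.c) := fun x => by
    rw [r2 x trivial]; simp [pi1, gam, hr, H.1]
  have tr : ∀ x ∈ sQ K, pi1 ((ρ * (ω * (ρ * ω⁻¹))) x) = pi1 x := fun x hx => by
    obtain ⟨x, rfl⟩ := ω.surjective x
    have m := (i.mem_iff x).1 hx
    have e2 := e _ (r3.mem m)
    have e3 := r4 x
    simp only [pi1, Prod.mk.injEq] at e2 e3
    simp only [Perm.mul_apply, perm_inv_apply_self]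
    rw [r4, e _ m, e2.1, e2.2, e3.1, e3.2]
    simp [H.1]
  obtain ⟨g, -, -, e1⟩ := mem_innS.1 (inn h.sat (((i.symm.trans r3).trans i).trans r3) tr)
  have gy : g.y = 0 := by
    have := tr (xa 1) rfl
    rw [e1 _ rfl, pi1_cj g rfl] at this
    simpa [sS, pi1, xa] using this
  have r0 := H.1
  have e2 : ∀ v : K × K, dv ω (r * v.1, r⁻¹ * v.2) - dv ω v = bf (pi1 g) (v.2, -v.1) := fun v => by
    have e3 := congrArg U4.z (e1 _ (i.mem (x := el v) rfl))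
    have e4 := e (el v) rfl
    simp only [pi1, Prod.mk.injEq] at e4
    simp only [Perm.mul_apply, perm_inv_apply_self] at e3
    rw [r2 _ trivial, cj_z, e4.1, e4.2, mem_sQ.1 (i.mem (x := el v) rfl), dv_eq i e rfl] at e3
    simp only [gam, RingEquiv.refl_apply] at e3
    rw [dv_eq i e (r3.mem rfl), r4, r2 _ trivial] at e3
    simp only [gam, w1, el, pi1, bf, star_mul', star_inv₀, hr, star_neg, RingEquiv.refl_apply, gy]
      at e3 ⊢
    generalize dv ω (r * v.1, r⁻¹ * v.2) = d at e3 ⊢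
    field_simp at e3
    linear_combination e3
  have a1 : r - 1 ≠ 0 := sub_ne_zero.2 H.2
  have a2 : r⁻¹ - 1 ≠ 0 := fun e => a1 (by field_simp at e; linear_combination -e)
  have e3 : ∀ v : K × K, dv ω v = bf (pi1 g) (v.2 / (r⁻¹ - 1), -(v.1 / (r - 1))) := fun v => by
    rw [← e2 (v.1 / (r - 1), v.2 / (r⁻¹ - 1)), eq_sub_iff_add_eq, ← dv_add i e]
    congr 1
    generalize hd : v.2 / (r⁻¹ - 1) = d
    ext
    · simp; field_simp; ring
    · simp only [Prod.snd_add]; rw [← div_mul_cancel₀ v.2 a2, hd]; ring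
  rw [e3, e3, ← bf_smul' hr]
  simp [mul_div_assoc]

end Cfsg.Agent.Fu
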