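import Cfsg.Agent.Fu.S2

/-! The automizer of `J`: trivial intersection and double transitivity. -/

set_option autoImplicit false
set_option linter.unusedSectionVars false
set_option linter.style.haveILetI false

open Equiv

namespace Cfsg.Agent.Fu

open Cfsg.Fus Cfsg.FusionSystem Cfsg.Agent.Uf U4

variable {K : Type*} [Field K] [StarRing K] [Finite K] [HF K] {p : ℕ} [Fact p.Prime] [CharP K p]
  {F : FusionSystem (⊤ : Subgroup (U4 K))} {τ σ : Perm (U4 K)}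

namespace L2

/-- Keeps `Z` and `Z₂`. -/
def Kp (τ : Perm (U4 K)) : Prop := (∀ x ∈ sZ K, τ x ∈ sZ K) ∧ ∀ x ∈ sZ2 K, τ x ∈ sZ2 K

theorem Kp.mul (h : Kp τ) (h' : Kp σ) : Kp (τ * σ) :=
  ⟨fun x hx => h.1 _ (h'.1 x hx), fun x hx => h.2 _ (h'.2 x hx)⟩

theorem Kp.inv (h : Kp τ) : Kp τ⁻¹ :=
  ⟨fun x hx => ((mem_setStab_of_finite h.1) _).1 (by simpa using hx),
    fun x hx => ((mem_setStab_of_finite h.2) _).1 (by simpa using hx)⟩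

theorem Kp.congr (h : Kp τ) (e : ∀ x ∈ sJ K, σ x = τ x) : Kp σ :=
  ⟨fun x hx => e x (Z_J hx) ▸ h.1 x hx, fun x hx => e x (Z2_J hx) ▸ h.2 x hx⟩

theorem kp_cj (g : U4 K) : Kp (cj g) :=
  ⟨fun x hx => ⟨by simp [hx.1], by simp [hx.2.1], by simp [hx.1, hx.2.1, hx.2.2]⟩,
    fun x hx => ⟨by simp [hx.1], by simp [hx.2]⟩⟩

theorem iso_J (g : U4 K) : F.Iso (sJ K) (sJ K) (cj g) := F.iso_cj le_top trivial (norm_of_le Z2_J g)

theorem fn_J : F.IsFullyNormalized (sJ K) :=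
  F.isFullyNormalized_of_le_normalizer le_top fun g _ => norm_of_le Z2_J g

theorem aut_J (h : Std p F) (hσ : F.Iso ⊤ ⊤ σ) : Kp σ ∧ ∀ x, σ x ∈ sJ K ↔ x ∈ sJ K := by
  obtain ⟨g, s, u, γ, hs, hu, e⟩ := h.aut σ hσ
  refine ⟨⟨fun x hx => ?_, fun x hx => ?_⟩, fun x => ?_⟩ <;> rw [e]
  · exact (kp_cj g).1 _ ⟨by simp [gam, hx.1], by simp [gam, hx.2.1], by simp [gam, hx.2.2]⟩
  · exact (kp_cj g).2 _ ⟨by simp [gam, hx.1], by simp [gam, hx.2]⟩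
  · simp [mem_sJ, gam, hs]

theorem ti (h : Std p F) (hτ : F.Iso (sJ K) (sJ K) τ) {g g' : U4 K} (ha : g.a ≠ 0)
    (e : ∀ x ∈ sJ K, τ (g * x * g⁻¹) = g' * τ x * g'⁻¹) : Kp τ := by
  obtain ⟨ρ, r1, r2⟩ := (fn_J.isReceptive h.sat (topP p)).exists_ext_of_le hτ
    (T := Subgroup.zpowers g) (fun k _ => ⟨trivial, norm_of_le Z2_J k⟩) (by
      rintro _ ⟨n, rfl⟩
      have : τ * cj g * τ⁻¹ ∈ innS ⊤ (sJ K) := mem_innS.2 ⟨g', trivial, norm_of_le Z2_J g',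
        fun x hx => by simpa using e _ (hτ.inv_mem hx)⟩
      simpa [map_zpow] using (innS ⊤ (sJ K)).zpow_mem this n)
  have key := h.sat.alperin_ind (topP p) (M := fun P σ => sJ K ≤ P → (∃ g ∈ P, g.a ≠ 0) →
    ∃ α, F.Iso ⊤ ⊤ α ∧ ∀ x ∈ P, σ x = α x) ?_ ?_ ?_ r1 le_sup_left
    ⟨g, Subgroup.mem_sup_right (Subgroup.mem_zpowers g), ha⟩
  · obtain ⟨α, a1, a2⟩ := key
    exact (aut_J h a1).1.congr fun x hx => by rw [← r2 x hx, a2 x (Subgroup.mem_sup_left hx)]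
  · rintro R σ (rfl | hR) hσ h1 ⟨k, k1, k2⟩
    · exact ⟨σ, hσ, fun _ _ => rfl⟩
    · rcases h.gen R hR with rfl | rfl
      · exact (one_ne_zero (α := K) (h1 (x := xy 1 (star_one K)) rfl)).elim
      · exact (k2 k1).elim
  · rintro P R σ τ - h1 h2 h3 h4 ⟨k, k1, k2⟩
    obtain ⟨α, a1, a2⟩ := h1 (h4.trans h2) ⟨k, h2 k1, k2⟩
    exact ⟨α, a1, fun x hx => (h3 x hx).trans (a2 x (h2 hx))⟩
  · rintro P Q σ τ - - h1 h2 h3 h4 ⟨k, k1, k2⟩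
    obtain ⟨α, a1, a2⟩ := h1 h4 ⟨k, k1, k2⟩
    have j := (aut_J h a1).2
    obtain ⟨β, b1, b2⟩ := h2 (fun x hx => by
      obtain ⟨x, rfl⟩ := α.surjective x
      rw [← a2 x (h4 ((j x).1 hx))]
      exact h3 x (h4 ((j x).1 hx))) ⟨σ k, h3 k k1, fun e => k2 ((j k).1 (a2 k k1 ▸ e))⟩
    exact ⟨β * α, a1.trans b1, fun x hx => by
      rw [Perm.mul_apply, b2 _ (h3 x hx), a2 x hx, Perm.mul_apply]⟩

theorem syl (h : Std p F) (H : Subgroup (Perm (U4 K))) (h1 : ∀ g, cj g ∈ H)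
    (h2 : ∀ σ ∈ H, ∀ σ' : Perm (U4 K), F.Iso (sJ K) (sJ K) σ' → (∀ x ∈ sJ K, σ' x = σ x) → σ' ∈ H)
    (hτ : F.Iso (sJ K) (sJ K) τ) {g : U4 K} (ha : g.a ≠ 0) (h3 : τ * cj g * τ⁻¹ ∈ H) :
    ∃ k ∈ H, Kp (k * τ) := by
  obtain ⟨Γ, _, _, _, P, ρ, r1, r2, r3, r4, -⟩ := H4.Sp.exists_setup
    (fn_J.isFullyAutomized h.sat (topP p)) (V := Unit) (fun _ => 0) (fun _ _ _ _ => rfl)
    (fun _ => ⟨1, one_mem _, rfl⟩) fun _ _ _ _ _ => rfl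
  obtain ⟨t, ht⟩ := r2 τ hτ
  obtain ⟨c, hc⟩ := r2 _ (iso_J g)
  have hP : (P : Subgroup Γ) ≤ H.comap ρ := fun a ha => by
    obtain ⟨k, -, -, e⟩ := mem_innS.1 ((r4 a).1 ha)
    exact h2 _ (h1 k) _ (r1 a) e
  have ht' : ∀ x ∈ sJ K, ρ t⁻¹ x = τ⁻¹ x := fun x hx => by
    rw [map_inv, Perm.inv_eq_iff_eq, ht _ (hτ.inv_mem hx)]; simp
  obtain ⟨n, hn⟩ := P.isPGroup' ⟨c, (r4 c).2 (mem_innS.2 ⟨g, trivial, norm_of_le Z2_J g, hc⟩)⟩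
  obtain ⟨k, hk⟩ := H6.exists_conj_elt_mem_sylow (G := H.comap ρ) (x := ⟨t * c * t⁻¹,
    h2 _ h3 _ (r1 _) fun x hx => by
      simp only [map_mul, Perm.mul_apply]
      rw [ht' x hx, hc _ (hτ.inv_mem hx), ht _ ((iso_J (F := F) g).mem (hτ.inv_mem hx))]⟩) (k := n)
    (Subtype.ext (by
      rw [Subgroup.coe_pow, conj_pow, show c ^ p ^ n = 1 from congrArg Subtype.val hn]; simp))
    (P.subtype hP)
  obtain ⟨g', -, -, e⟩ := mem_innS.1 ((r4 _).1 hk)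
  refine ⟨ρ k, k.2, ti h (hτ.trans (r1 k)) ha (g' := g') fun x hx => ?_⟩
  have m := (hτ.trans (r1 k)).mem hx
  rw [← e _ m]
  change _ = ρ ((k : Γ) * (t * c * t⁻¹) * (k : Γ)⁻¹) _
  simp only [map_mul, Perm.mul_apply, map_inv, perm_inv_apply_self]
  rw [← map_inv, ht' _ (hτ.mem hx), perm_inv_apply_self, hc x hx,
    ht _ ((iso_J (F := F) g).mem hx), cj_apply]

theorem exists_perp (c : K) : ∃ a : K, a ≠ 0 ∧ a * star c + star a * c = 0 := by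
  obtain ⟨θ, h0, hθ⟩ := exists_skew (K := K)
  by_cases hc : c = 0
  · exact ⟨1, one_ne_zero, by simp [hc]⟩
  · exact ⟨θ * c, mul_ne_zero h0 hc, by rw [star_mul', hθ]; ring⟩

theorem one (h : Std p F) (hτ : F.Iso (sJ K) (sJ K) τ) {z : U4 K} (hz : z ∈ sZ K)
    (h2 : τ z ∈ sZ2 K) : τ z ∈ sZ K := by
  obtain ⟨a, a0, ha⟩ := exists_perp (τ z).c
  obtain ⟨k, k1, k2⟩ := syl h (MulAction.stabilizer _ z)
    (fun g => show g * z * g⁻¹ = z by rw [comm_sZ g hz]; simp)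
    (fun σ hσ σ' _ e => (e z (Z_J hz)).trans hσ) hτ.symm (g := xa a) a0 (by
      change τ⁻¹ (xa a * τ z * (xa a)⁻¹) = z
      rw [(comm_iff (x := xa a) (w := τ z)).2 (by simp [xa, h2.1, h2.2, ha])]
      simp)
  have := k2.inv.1 z hz
  rwa [mul_inv_rev, inv_inv, Perm.mul_apply, show k⁻¹ z = z from (inv_mem k1 : k⁻¹ ∈ _)] at this

/-- The `y`-coordinate of the image of `x_c`. -/
def lc (hτ : F.Iso (sJ K) (sJ K) τ) : K →+ selfAdjoint K :=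
  AddMonoidHom.mk' (fun c => ⟨(τ (xc c)).y, (τ (xc c)).hy⟩) fun a b => Subtype.ext (by
    rw [show xc (a + b) = xc a * xc b by ext <;> simp [xc], hτ.homOn rfl rfl]; rfl)

/-- The `y`-coordinate of the image of `x_z`. -/
def lz (hτ : F.Iso (sJ K) (sJ K) τ) : selfAdjoint K →+ selfAdjoint K :=
  AddMonoidHom.mk' (fun t => ⟨(τ (xz t.1 t.2)).y, (τ (xz t.1 t.2)).hy⟩) fun a b => Subtype.ext (by
    rw [show xz (a + b).1 (a + b).2 = xz a.1 a.2 * xz b.1 b.2 by ext <;> simp [xz],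
      hτ.homOn rfl rfl]; rfl)

theorem y_Z2 (hτ : F.Iso (sJ K) (sJ K) τ) {x : U4 K} (hx : x ∈ sZ2 K) :
    (τ x).y = lc hτ x.c + lz hτ ⟨x.z, x.hz⟩ := by
  conv_lhs => rw [show x = xc x.c * xz x.z x.hz by ext <;> simp [xc, xz, hx.1, hx.2],
    hτ.homOn rfl rfl]
  rfl

theorem y_cj (hτ : F.Iso (sJ K) (sJ K) τ) (g : U4 K) {x : U4 K} (hx : x ∈ sJ K) :
    (τ (g * x * g⁻¹)).y = (τ x).y + (τ (cm g x)).y := by
  rw [cj_eq, hτ.homOn hx (Z2_J (cm_sZ2 g x)), mul_y]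

theorem kp_of_Z (h : Std p F) (hτ : F.Iso (sJ K) (sJ K) τ) (hZ : ∀ x ∈ sZ K, τ x ∈ sZ K) : Kp τ := by
  refine ⟨hZ, fun x hx => ⟨hτ.mem (Z2_J hx), ?_⟩⟩
  by_contra h0
  obtain ⟨f, f0, a, a0, hf⟩ := cw3 p ((selfAdjoint K).subtype.comp (lc hτ)) h0
  let H : Subgroup (Perm (U4 K)) :=
    { carrier := {σ | σ ∈ setStab (sJ K) ∧ ∀ x ∈ sJ K, f (σ x).y = f x.y}
      one_mem' := ⟨one_mem _, fun _ _ => rfl⟩
      mul_mem' := fun {a b} ha hb => ⟨mul_mem ha.1 hb.1, fun x hx =>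
        (ha.2 _ ((hb.1 x).2 hx)).trans (hb.2 x hx)⟩
      inv_mem' := fun {a} ha => ⟨inv_mem ha.1, fun x hx => by
        simpa using (ha.2 _ ((inv_mem ha.1 x).2 hx)).symm⟩ }
  obtain ⟨k, k1, k2⟩ := syl h H (fun g => ⟨(iso_J (F := F) g).mem_iff, fun x _ => by simp⟩)
    (fun σ hσ σ' i e => ⟨i.mem_iff, fun x hx => e x hx ▸ hσ.2 x hx⟩) hτ (g := xa a) a0
    ⟨((hτ.symm.trans (iso_J _)).trans hτ).mem_iff, fun w hw => by
      have m := hτ.inv_mem hw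
      rw [Perm.mul_apply, Perm.mul_apply, cj_apply, y_cj hτ _ m, y_Z2 hτ (cm_sZ2 _ _), cm_c,
        show (lz hτ _ : K) = 0 from (hZ _ (xz_mem _ _)).2.1, mem_sJ.1 m]
      simpa [xa] using hf _ (τ⁻¹ w).hy⟩
  have := k1.2 _ (hτ.mem (Z2_J hx))
  rw [show (k (τ x)).y = 0 from (k2.2 x hx).2, map_zero] at this
  exact f0 this.symm

theorem exists_y (h : Std p F) (hτ : F.Iso (sJ K) (sJ K) τ) (hk : ¬ Kp τ) :
    ∃ z ∈ sZ K, (τ z).y ≠ 0 := by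
  by_contra H
  push Not at H
  exact hk (kp_of_Z h hτ fun x hx => one h hτ hx ⟨hτ.mem (Z_J hx), H x hx⟩)

theorem cm_not (h : Std p F) (hτ : F.Iso (sJ K) (sJ K) τ) {z : U4 K} (hz : z ∈ sZ K)
    (hy : (τ z).y ≠ 0) {a : K} (ha : a ≠ 0) : (τ⁻¹ (cm (xa a) (τ z))).y ≠ 0 := fun e => by
  have m := hτ.mem (Z_J hz)
  have i := (hτ.trans (iso_J (xa a))).trans hτ.symm
  have h1 := one h i hz ⟨i.mem (Z_J hz), by
    rw [Perm.mul_apply, Perm.mul_apply, cj_apply, y_cj hτ.symm _ m, e]; simpa using hz.2.1⟩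
  have e1 : τ (z⁻¹ * (τ⁻¹ * (cj (xa a) * τ)) z) = cm (xa a) (τ z) := by
    rw [hτ.homOn (inv_mem (Z_J hz)) (Z_J h1), hτ.homOn.map_inv (Z_J hz)]; simp [cm]
  have h2 := one h hτ (mul_mem (inv_mem hz) h1) (e1 ▸ cm_sZ2 _ _)
  rw [e1] at h2
  have := h2.2.2
  rw [cm_c, mem_sJ.1 m] at this
  simp [xa, ha, hy] at this

/-- The linear part of `a ↦ [x_a, x]`. -/
def ll (hτ : F.Iso (sJ K) (sJ K) τ) (x : U4 K) : K →+ selfAdjoint K :=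
  AddMonoidHom.mk' (fun a => lc hτ (a * x.y) + lz hτ ⟨a * star x.c + star a * x.c, by
    simp [selfAdjoint.mem_iff, add_comm, mul_comm]⟩) fun a b => by
    rw [add_mul, map_add, add_add_add_comm, ← (lz hτ).map_add]
    congr 2
    exact Subtype.ext (by simp; ring)

theorem y_cm (hτ : F.Iso (sJ K) (sJ K) τ) (a : K) {x : U4 K} (hx : x ∈ sJ K) :
    (τ (cm (xa a) x)).y = (lz hτ (nr a ⟨x.y, x.hy⟩) + ll hτ x a : selfAdjoint K) := by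
  rw [y_Z2 hτ (cm_sZ2 _ _), ← AddSubgroup.coe_add]
  congr 1
  rw [ll, AddMonoidHom.mk'_apply, add_left_comm, ← map_add]
  congr 2
  · simp [cm_c, xa, mem_sJ.1 hx]
  · exact Subtype.ext (by simp [cm_z, xa, mem_sJ.1 hx, nr]; ring)

theorem lz_inj' (h : Std p F) (hτ : F.Iso (sJ K) (sJ K) τ) (hk : ¬ Kp τ) :
    Function.Injective (lz hτ.symm) := by
  by_contra H
  obtain ⟨z, hz, hy⟩ := exists_y h hτ hk
  obtain ⟨a, a0, ha⟩ := cw2 p _ H (ll hτ.symm (τ z)) ⟨_, (τ z).hy⟩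
  exact cm_not h hτ hz hy a0 (by rw [y_cm hτ.symm a (hτ.mem (Z_J hz)), ha]; rfl)

theorem lz_inj (h : Std p F) (hτ : F.Iso (sJ K) (sJ K) τ) (hk : ¬ Kp τ) :
    Function.Injective (lz hτ) :=
  lz_inj' h hτ.symm fun k => hk (by simpa using k.inv)

theorem eq_one (h : Std p F) (hτ : F.Iso (sJ K) (sJ K) τ) (hk : ¬ Kp τ) {z : U4 K} (hz : z ∈ sZ K)
    (hy : (τ z).y = 0) : z = 1 := by
  have e : xz z.z z.hz = z := sZ_eq (xz_mem _ _) hz rfl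
  have := (injective_iff_map_eq_zero _).1 (lz_inj h hτ hk) ⟨z.z, z.hz⟩ (Subtype.ext (e ▸ hy))
  exact sZ_eq hz (one_mem _) (congrArg Subtype.val this)

theorem surj_y (h : Std p F) (hτ : F.Iso (sJ K) (sJ K) τ) (hk : ¬ Kp τ) {y : K} (hy : star y = y) :
    ∃ z ∈ sZ K, (τ z).y = y := by
  obtain ⟨t, ht⟩ := Finite.injective_iff_surjective.1 (lz_inj h hτ hk) ⟨y, hy⟩
  exact ⟨_, xz_mem t.1 t.2, congrArg Subtype.val ht⟩

theorem two (h : Std p F) (hτ : F.Iso (sJ K) (sJ K) τ) (hk : ¬ Kp τ)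
    (hσ : F.Iso (sJ K) (sJ K) σ) (hk' : ¬ Kp σ) : ∃ a, Kp (σ⁻¹ * (cj (xa a) * τ)) := by
  obtain ⟨z, hz, hy⟩ := exists_y h hτ hk
  have m := hτ.mem (Z_J hz)
  obtain ⟨a, ha⟩ := cw1 p _ (lz_inj' h hσ hk') (ll hσ.symm (τ z)) (y := ⟨_, (τ z).hy⟩)
    (fun e => hy (congrArg Subtype.val e)) (-⟨_, (σ⁻¹ (τ z)).hy⟩)
  refine ⟨a, by_contra fun k => hy ?_⟩
  rw [eq_one h ((hτ.trans (iso_J _)).trans hσ.symm) k hz (by
    rw [Perm.mul_apply, Perm.mul_apply, cj_apply, y_cj hσ.symm _ m, y_cm hσ.symm a m, ha]; simp),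
    hτ.homOn.map_one, one_y]

end L2

end Cfsg.Agent.Fu
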