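import Cfsg.Agent.Fu.L2a

/-! The automizer of `J` in standard position. -/

set_option autoImplicit false
set_option linter.unusedSectionVars false
set_option linter.style.haveILetI false

open Equiv

namespace Cfsg.Agent.Fu

open Cfsg.Fus Cfsg.FusionSystem Cfsg.Agent.Uf U4

variable {K : Type*} [Field K] [StarRing K] [Finite K] [HF K] {p : ℕ} [Fact p.Prime] [CharP K p]
  {F : FusionSystem (⊤ : Subgroup (U4 K))} {τ σ : Perm (U4 K)}

namespace L2

/-- Standard position of a conjugate of `Z`. -/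
structure SP (F : FusionSystem (⊤ : Subgroup (U4 K))) (τ : Perm (U4 K)) : Prop where
  iso : F.Iso (sJ K) (sJ K) τ
  z : ∀ z ∈ sZ K, (τ z).c = 0 ∧ (τ z).z = 0
  c : ∀ c, (τ⁻¹ (xc c)).y = 0

theorem SP.nk (s : SP F τ) : ¬ Kp τ := fun k => by
  have m := k.1 _ (xz_mem (1 : K) (star_one K))
  have := sZ_eq m (one_mem _) (s.z _ (xz_mem _ _)).2
  rw [← s.iso.homOn.map_one, τ.apply_eq_iff_eq] at this
  exact one_ne_zero (α := K) (congrArg U4.z this)

theorem SP.wc (h : Std p F) (s : SP F τ) (hσ : F.Iso (sJ K) (sJ K) σ) :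
    Kp σ ∨ ∃ a, ∀ x ∈ sZ K, (xa a * σ x * (xa a)⁻¹).c = 0 ∧ (xa a * σ x * (xa a)⁻¹).z = 0 := by
  refine (em _).imp_right fun k => ?_
  obtain ⟨a, ha⟩ := two h hσ k s.iso s.nk
  exact ⟨a, fun x hx => by
    simpa only [Perm.mul_apply, perm_apply_inv_self, cj_apply] using s.z _ (ha.1 x hx)⟩

theorem SP.cone (h : Std p F) (s : SP F τ) (hσ : F.Iso (sJ K) (sJ K) σ) {x : U4 K}
    (hx : x ∈ sZ K) : (σ x).c * star (σ x).c = (σ x).y * (σ x).z := by
  rcases s.wc h hσ with k | ⟨a, ha⟩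
  · simp [(k.1 x hx).2.1, (k.1 x hx).2.2]
  obtain ⟨h1, h2⟩ := ha x hx
  have m : (σ x).a = 0 := hσ.mem (Z_J hx)
  rw [cj_c] at h1
  rw [cj_z] at h2
  simp only [xa, m, zero_mul, star_zero, sub_zero] at h1 h2
  have h3 := congrArg star h1
  simp only [star_add, star_mul', U4.hy, star_zero] at h3
  linear_combination (star (σ x).c) * h1 - (σ x).y * h2 + star a * (σ x).y * h1

theorem SP.ex_y (h : Std p F) (s : SP F τ) (y : K) (hy : star y = y) :
    ∃ z ∈ sZ K, τ z = xy y hy := by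
  obtain ⟨z, hz, e⟩ := surj_y h s.iso s.nk hy
  exact ⟨z, hz, U4.ext (s.iso.mem (Z_J hz)) e (s.z z hz).1 (s.z z hz).2⟩

theorem dec_J {x : U4 K} (hx : x ∈ sJ K) : x = xy x.y x.hy * (xc x.c * xz x.z x.hz) := by
  ext <;> simp [xc, xy, xz, mem_sJ.1 hx]

theorem SP.z2 (h : Std p F) (s : SP F τ) {x : U4 K} (hx : x ∈ sZ2 K) : (τ x).z = 0 := by
  have m := s.iso.mem (Z2_J hx)
  obtain ⟨z, hz, e⟩ := s.ex_y h _ (τ x).hy
  have h1 := congrArg (fun w => (τ⁻¹ w).y) (dec_J m)
  simp only [perm_inv_apply_self] at h1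
  rw [s.iso.symm.homOn rfl (mul_mem rfl rfl), s.iso.symm.homOn rfl rfl, ← e] at h1
  simp only [perm_inv_apply_self, mul_y, hx.2, hz.2.1, s.c, zero_add] at h1
  exact congrArg U4.z (eq_one h s.iso.symm (fun k => s.nk (by simpa using k.inv)) (xz_mem _ _)
    h1.symm)

/-- The opposite unipotent group. -/
def lo (b : K) (x : U4 K) : U4 K := ⟨0, x.y + b * star x.c + star b * x.c + b * star b * x.z,
  x.c + b * x.z, x.z, by simp; ring, x.hz⟩

theorem SP.swap (h : Std p F) (s : SP F τ) : ∃ g, F.Iso (sJ K) (sJ K) g ∧ ∃ (A B C : K)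
    (γ : K ≃+* K), A ≠ 0 ∧ C ≠ 0 ∧ B * star B = A * C ∧
    ∀ x ∈ sJ K, (g x).y = A * γ x.z ∧ (g x).c = B * γ x.c ∧ (g x).z = C * γ x.y := by
  obtain ⟨a, k⟩ := two h s.iso.symm (fun k => s.nk (by simpa using k.inv)) s.iso s.nk
  obtain ⟨g, hg⟩ : ∃ g, g = cj (xa a) * τ⁻¹ := ⟨_, rfl⟩
  rw [← hg] at k
  have i : F.Iso (sJ K) (sJ K) g := hg ▸ s.iso.symm.trans (iso_J _)
  have nk : ¬ Kp g := fun k' => s.nk (by simpa using (k'.mul k.inv))
  have gz : ∀ z ∈ sZ K, (g z).c = 0 ∧ (g z).z = 0 := fun z hz => by simpa using s.z _ (k.1 z hz)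
  have gy : ∀ y hy, g (xy y hy) ∈ sZ K := fun y hy => by
    obtain ⟨z, hz, e⟩ := s.ex_y h y hy
    rw [← e, hg, Perm.mul_apply, perm_inv_apply_self]
    exact (kp_cj _).1 z hz
  have gc : ∀ c, (g (xc c)).y = 0 ∧ (g (xc c)).z = 0 := fun c =>
    ⟨by rw [hg, Perm.mul_apply, cj_apply, cj_y, s.c], by simpa using s.z2 h (k.2 _ (xc_mem c))⟩
  classical
  let A : K → K := fun t => if h : star t = t then (g (xz t h)).y else 0
  let C : K → K := fun t => if h : star t = t then (g (xy t h)).z else 0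
  let B : K →+ K := AddMonoidHom.mk' (fun c => (g (xc c)).c) fun a b => by
    rw [show xc (a + b) = xc a * xc b by ext <;> simp [xc], i.homOn rfl rfl, mul_c,
      mem_sJ.1 (i.mem (x := xc a) rfl)]; simp
  have e : ∀ x ∈ sJ K, (g x).y = A x.z ∧ (g x).c = B x.c ∧ (g x).z = C x.y := fun x hx => by
    have m1 : (g (xc x.c)).a = 0 := i.mem (x := xc x.c) rfl
    obtain ⟨m2, m3, m4⟩ := gy x.y x.hy
    have e0 : g x = g (xy x.y x.hy) * (g (xc x.c) * g (xz x.z x.hz)) := by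
      rw [← i.homOn rfl rfl, ← i.homOn rfl (mul_mem rfl rfl), ← dec_J hx]
    rw [e0]
    simp [A, B, C, m1, m2, m3, m4, gc, gz _ (xz_mem _ _)]
  have cone : ∀ a y, star y = y → B (a * y) * star (B (a * y)) = A (a * star a * y) * C y := by
    intro a y hy
    obtain ⟨z, hz, e1⟩ := s.ex_y h y hy
    have := s.cone h ((s.iso.trans (iso_J (xa a))).trans i) hz
    rw [Perm.mul_apply, Perm.mul_apply, e1] at this
    obtain ⟨e2, e3, e4⟩ := e _ ((iso_J (F := F) (xa a)).mem (x := xy y hy) rfl)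
    rw [e2, e3, e4, cj_apply, cj_c, cj_z, cj_y] at this
    simpa [xa, xy] using this
  have C0 : C 0 = 0 := by simpa [i.homOn.map_one] using (e 1 (one_mem _)).2.2.symm
  have A0 : A 0 = 0 := by simpa [i.homOn.map_one] using (e 1 (one_mem _)).1.symm
  have inj : ∀ x ∈ sJ K, A x.z = 0 → B x.c = 0 → C x.y = 0 → x = 1 := fun x hx a b c => by
    obtain ⟨e2, e3, e4⟩ := e x hx
    exact g.injective (by
      rw [i.homOn.map_one]; exact U4.ext (i.mem hx) (e2.trans a) (e3.trans b) (e4.trans c))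
  have C1 : C 1 ≠ 0 := fun e1 => one_ne_zero (α := K)
    (congrArg U4.y (inj (xy 1 (star_one K)) rfl A0 B.map_zero e1))
  have A1 : A 1 ≠ 0 := fun e1 => one_ne_zero (α := K)
    (congrArg U4.z (inj (xz 1 (star_one K)) rfl e1 B.map_zero C0))
  have AC : ∀ m y, star m = m → star y = y → A (m * y) = A m * (C y / C 1) := fun m y hm hy => by
    by_cases h0 : y = 0
    · simp [h0, A0, C0]
    obtain ⟨a, ha⟩ := HF.nrm (m / y) (by rw [star_div₀, hm, hy])
    have e1 := cone a y hy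
    have e2 := cone (a * y) 1 (star_one K)
    rw [ha, div_mul_cancel₀ _ h0] at e1
    rw [mul_one, e1, star_mul', hy, show a * y * (star a * y) * 1 = a * star a * y * y by ring, ha,
      div_mul_cancel₀ _ h0] at e2
    field_simp
    exact e2.symm
  obtain ⟨γ, g1, g2⟩ := norm_sim B (Finite.injective_iff_bijective.1
    ((injective_iff_map_eq_zero _).2 fun c hc => congrArg U4.c (inj (xc c) rfl A0 hc C0)))
    (m := A 1 * C 1) (ρ := fun y => C y / C 1) (fun s t hs ht => mul_left_cancel₀ A1 (by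
      rw [← AC 1 _ (star_one K) (by rw [star_mul', hs, ht]), one_mul, AC s t hs ht,
        ← mul_assoc, ← AC 1 s (star_one K) hs, one_mul])) (fun s t hs ht => by
      have := (e (xy s hs * xy t ht) (mul_mem rfl rfl)).2.2
      rw [i.homOn rfl rfl, mul_z, (gy s hs).1, (e (xy s hs) rfl).2.2, (e (xy t ht) rfl).2.2] at this
      rw [← add_div]
      congr 1
      simpa [xy] using this.symm) fun a => by
      have := cone a 1 (star_one K)
      rw [mul_one, mul_one, ← one_mul (a * star a), AC 1 _ (star_one K) (by simp [mul_comm])] at this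
      rw [this]; ring
  refine ⟨g, i, A 1, B 1, C 1, γ, A1, C1, by simpa using cone 1 1 (star_one K), fun x hx => ?_⟩
  obtain ⟨e2, e3, e4⟩ := e x hx
  refine ⟨?_, e3.trans (g1 _), ?_⟩
  · rw [e2, g2 _ x.hz, ← AC 1 _ (star_one K) x.hz, one_mul]
  · rw [e4, g2 _ x.hy]; field_simp

theorem SP.lo (h : Std p F) (s : SP F τ) (b : K) : F.IsMap (sJ K) (lo b) := by
  obtain ⟨g, i, A, B, C, γ, a0, c0, hn, e⟩ := s.swap h
  have b0 : B ≠ 0 := fun e => by simp [e, a0, c0] at hn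
  have sC : star C = C := by
    have := (g (xy 1 (star_one K))).hz
    rw [(e _ rfl).2.2] at this
    simpa [xy] using this
  refine ((i.symm.trans (iso_J (xa (γ.symm (b * C / B))))).trans i).isMap.congr fun x hx => ?_
  obtain ⟨x, rfl⟩ := g.surjective x
  have hx' := (i.mem_iff x).1 hx
  have m := (iso_J (F := F) (xa (γ.symm (b * C / B)))).mem hx'
  obtain ⟨e1, e2, e3⟩ := e x hx'
  obtain ⟨f1, f2, f3⟩ := e _ m
  rw [Perm.mul_apply, Perm.mul_apply, perm_inv_apply_self]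
  have hA : A = B * star B / C := by field_simp; exact hn.symm
  have b1 : star B ≠ 0 := star_ne_zero.2 b0
  refine U4.ext (i.mem m).symm ?_ ?_ ?_
  · rw [f1, cj_apply, cj_z]
    simp only [L2.lo, e1, e2, e3, xa, mem_sJ.1 hx', map_add, map_sub, map_mul, ← star_aut,
      RingEquiv.apply_symm_apply, star_mul', star_div₀, sC, star_zero, map_zero, hA]
    field_simp
    ring
  · rw [f2, cj_apply, cj_c]
    simp only [L2.lo, e2, e3, xa, mem_sJ.1 hx', map_add, map_sub, map_mul,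
      RingEquiv.apply_symm_apply, map_zero]
    field_simp
    ring
  · rw [f3, cj_apply, cj_y]
    exact e3

/-- Weyl elements. -/
def wu (u : K) (x : U4 K) : U4 K := ⟨0, u⁻¹ * star u⁻¹ * x.z, -(u * star u⁻¹ * star x.c),
  u * star u * x.y, by simp [mul_comm], by simp [mul_comm]⟩

theorem SP.wu (h : Std p F) (s : SP F τ) {u : K} (hu : u ≠ 0) : F.IsMap (sJ K) (wu u) := by
  have hu' : star u ≠ 0 := star_ne_zero.2 hu
  refine (((iso_J (xa u)).isMap.comp (s.lo h (-star u⁻¹)) fun _ => (iso_J (F := F) _).mem).comp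
    (iso_J (xa u)).isMap fun _ _ => rfl).congr fun x hx => ?_
  simp only [Function.comp_apply, cj_apply]
  ext <;> simp [L2.wu, L2.lo, xa, mem_sJ.1 hx] <;> field_simp <;> ring

theorem SP.w2 (h : Std p F) (s : SP F τ) : W2 F := by
  refine ⟨(s.wu h one_ne_zero).congr fun x _ => by ext <;> simp [L2.wu, Fu.w2], fun u hu => ?_,
    fun σ hσ => (s.wc h hσ).imp_right fun ⟨a, ha⟩ => ⟨_, ha⟩⟩
  have hu' : star u ≠ 0 := star_ne_zero.2 hu
  obtain ⟨ρ, r1, r2⟩ := (((s.wu h (neg_ne_zero.2 one_ne_zero)).comp (s.wu h hu)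
    fun _ _ => rfl).congr (g := gam (u ^ 2) u⁻¹ (RingEquiv.refl K)) fun x hx => by
      ext <;> simp [L2.wu, gam, mem_sJ.1 hx, -mul_eq_mul_left_iff, -mul_eq_mul_right_iff] <;>
        field_simp).exists_perm
  obtain ⟨-, α, a1, a2⟩ := ext2 h.sat (r1.iso_self fun x hx => by
      rw [r2 x hx]; simp [mem_sJ, gam, mem_sJ.1 hx])
    (fun x hx => by rw [r2 x (Z_J hx)]; simp [mem_sZ, gam, hx.1, hx.2.1, hx.2.2])
    fun x hx => by rw [r2 x (Z2_J hx)]; simp [mem_sZ2, gam, hx.1, hx.2]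
  obtain ⟨g, t, v, γ, ht, hv, e⟩ := h.aut α a1
  have e1 := congrArg U4.y ((e _).symm.trans ((a2 (xy 1 (star_one K)) rfl).trans (r2 _ rfl)))
  have e2 := fun c => congrArg U4.c ((e _).symm.trans ((a2 (xc c) rfl).trans (r2 _ rfl)))
  simp only [cj_y, cj_c, gam, xy, xc, map_one, map_zero, mul_one, mul_zero, zero_mul, add_zero,
    sub_zero, RingEquiv.refl_apply] at e1 e2
  have n0 : u⁻¹ * star u⁻¹ ≠ 0 := by simp [hu]
  have e3 : t = u ^ 2 := mul_right_cancel₀ n0 (by
    have := e2 1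
    rw [map_one] at this
    linear_combination this - t * e1)
  have e4 : ∀ c, γ c = c := fun c => mul_left_cancel₀ (mul_ne_zero (pow_ne_zero 2 hu) n0) (by
    have := e2 c
    rw [e3] at this
    linear_combination this - u ^ 2 * γ c * e1)
  refine (a1.trans (F.iso_cj le_rfl (g := g⁻¹) trivial (norm_of_le le_top _))).isMap.congr
    fun x _ => ?_
  rw [Perm.mul_apply, e, cj_apply, show g⁻¹ * (g * gam t v γ x * g⁻¹) * g⁻¹⁻¹ = gam t v γ x by group]
  ext <;> simp only [gam, e3, e4, RingEquiv.refl_apply]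
  · rw [e1]
  · rw [mul_assoc _ v, e1, mul_assoc _ u⁻¹]
  · rw [mul_assoc _ v, e1, mul_assoc _ u⁻¹]

end L2

end Cfsg.Agent.Fu
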