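import Cfsg.Agent.Fu.S

/-! Automorphisms of `S = U4 K` keeping `Q` act on `S / Z₂` like diagonal-field automorphisms. -/

set_option autoImplicit false
set_option linter.unusedSectionVars false
set_option linter.style.haveILetI false

open Equiv

namespace Cfsg.Agent.Fu.N

open Cfsg.Fus Cfsg.FusionSystem Cfsg.Agent.Uf U4

variable {K : Type*} [Field K] [StarRing K] [Finite K] [HF K] {σ : Perm (U4 K)}

theorem hcm (h : HomOn σ ⊤) (g x : U4 K) : σ (cm g x) = cm (σ g) (σ x) := by
  rw [cm, cm, h trivial trivial, h.map_conj trivial trivial, h.map_inv trivial]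

theorem Z2_dec {u : U4 K} (hu : u ∈ sZ2 K) :
    ∃ t, u = cm (xa u.c) (xy 1 (star_one K)) * cm (xc t) (xa 1) := by
  obtain ⟨t, e⟩ := exists_cm_z (x := xa (1 : K)) one_ne_zero
    (z := (cm (xa u.c) (xy 1 (star_one K)))⁻¹ * u) ⟨by simp [hu.1], by simp [hu.2],
      by simp [cm_c, xa, xy, hu.2]⟩
  exact ⟨t, by rw [e, mul_inv_cancel_left]⟩

theorem aut_Z2 (h : HomOn σ ⊤) {x : U4 K} (hx : x ∈ sZ2 K) : σ x ∈ sZ2 K := by
  obtain ⟨t, e⟩ := Z2_dec hx
  rw [e, h trivial trivial, hcm h, hcm h]
  exact mul_mem (cm_sZ2 _ _) (cm_sZ2 _ _)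

theorem aut_Z (h : HomOn σ ⊤) {x : U4 K} (hx : x ∈ sZ K) : σ x ∈ sZ K := by
  obtain ⟨t, rfl⟩ := exists_cm_z (x := xa (1 : K)) one_ne_zero hx
  rw [hcm h]
  exact cm_sZ (aut_Z2 h (xc_mem t)) _

theorem aut_J (h : σ ∈ autStab ⊤) {x : U4 K} (hx : x ∈ sJ K) : σ x ∈ sJ K :=
  mem_J_of_comm fun t => by
    have m := aut_Z2 ((autStab ⊤).inv_mem h).1 (xc_mem t)
    rw [← σ.apply_symm_apply (xc t), ← h.1 trivial trivial, ← h.1 trivial trivial]
    exact congrArg σ (comm_sJ hx (Z2_J m))

theorem aut_J' (h : σ ∈ autStab ⊤) (x : U4 K) : σ x ∈ sJ K ↔ x ∈ sJ K :=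
  ⟨fun m => by simpa using aut_J ((autStab ⊤).inv_mem h) m, aut_J h⟩

open Classical in
/-- `x_y` on all of `K`. -/
noncomputable def ry (t : K) : U4 K := if h : star t = t then xy t h else 1

open Classical in
/-- `x_z` on all of `K`. -/
noncomputable def rz (t : K) : U4 K := if h : star t = t then xz t h else 1

theorem ry_eq {t : K} (h : star t = t) : ry t = xy t h := dif_pos h
theorem rz_eq {t : K} (h : star t = t) : rz t = xz t h := dif_pos h

theorem dec (h : σ ∈ autStab ⊤) (hQ : ∀ x, σ x ∈ sQ K ↔ x ∈ sQ K) :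
    ∃ (s u : K) (γ : K ≃+* K), s ≠ 0 ∧ u ≠ 0 ∧
      ∀ x, (σ x).a = s * γ x.a ∧ (σ x).y = u * star u * γ x.y := by
  have hm : ∀ x w, σ (x * w) = σ x * σ w := fun x w => h.1 trivial trivial
  have hi : ∀ x, σ x⁻¹ = (σ x)⁻¹ := fun x => h.1.map_inv trivial
  have ha : ∀ x, (σ x).a = (σ (xa x.a)).a := fun x => by
    have : (σ ((xa x.a)⁻¹ * x)).a = 0 := aut_J h (show _ = (0 : K) by simp [xa])
    rw [hm, hi, mul_a, inv_a] at this
    linear_combination this
  have hy : ∀ x, (σ x).y = (σ (ry x.y)).y := fun x => by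
    have : (σ ((ry x.y)⁻¹ * x)).y = 0 := (hQ _).2 (show _ = (0 : K) by simp [ry_eq x.hy, xy])
    rw [hm, hi, mul_y, inv_y] at this
    linear_combination this
  have ya : ∀ t, star t = t → (σ (ry t)).a = 0 := fun t ht => aut_J h (by rw [ry_eq ht]; rfl)
  have ay : ∀ t, (σ (xa t)).y = 0 := fun t => (hQ _).2 rfl
  have h2 : ∀ x ∈ sZ2 K, (σ x).c = (σ (xc x.c)).c ∧
      (σ x).z = (σ (xc x.c)).z + (σ (rz x.z)).z := fun x hx => by
    have m := aut_Z h.1 (xz_mem x.z x.hz)
    have m' := aut_Z2 h.1 (xc_mem x.c)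
    have e : σ x = σ (xc x.c) * σ (xz x.z x.hz) := by
      rw [← hm]; congr 1; ext <;> simp [xc, xz, hx.1, hx.2]
    rw [e, rz_eq x.hz]
    simp [m.2.2, m.2.1]
  let A : K →+ K := AddMonoidHom.mk' (fun t => (σ (xa t)).a) fun a b => by
    have := ha (xa a * xa b)
    rw [hm, mul_a] at this
    exact this.symm
  have hA : ∀ t, (σ (xa t)).a = A t := fun _ => rfl
  have iA : Function.Injective A := (injective_iff_map_eq_zero A).2 fun t ht => (aut_J' h _).1 ht
  have A1 : A 1 ≠ 0 := fun e => one_ne_zero (iA (e.trans A.map_zero.symm))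
  set b := (σ (ry 1)).y with hb
  have b0 : b ≠ 0 := fun e => by
    have := (hQ _).1 e
    rw [ry_eq (star_one K)] at this
    exact one_ne_zero (α := K) this
  set ρ : K → K := fun t => (σ (ry t)).y / b with hρ
  have hB : ∀ t, (σ (ry t)).y = b * ρ t := fun t => (mul_div_cancel₀ _ b0).symm
  have r1 : ρ 1 = 1 := div_self b0
  have e1 : ∀ a t, star t = t → (σ (xc (a * t))).c = A a * (b * ρ t) ∧
      (σ (xc (a * t))).z + (σ (rz (a * star a * t))).z = A a * star (σ (ry t)).c +
        star (A a) * (σ (ry t)).c + A a * star (A a) * (b * ρ t) := fun a t ht => by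
    have := h2 _ (cm_sZ2 (xa a) (ry t))
    rw [hcm h.1, cm_c, cm_c, cm_z, cm_z, ya t ht, ay, hA, hB, ry_eq ht] at this
    simp only [xa, xy, star_zero, mul_zero, zero_mul, sub_zero, add_zero, zero_add] at this
    rw [ry_eq ht]
    exact ⟨this.1.symm, this.2.symm⟩
  have hC : ∀ c, (σ (xc c)).c = A c * b := fun c => by simpa [r1] using (e1 c 1 (star_one K)).1
  have sA : ∀ a t, star t = t → A (a * t) = A a * ρ t := fun a t ht => by
    have := (e1 a t ht).1
    rw [hC] at this
    exact mul_right_cancel₀ b0 (by linear_combination this)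
  have rm : ∀ s t, star s = s → star t = t → ρ (s * t) = ρ s * ρ t := fun s t hs ht => by
    have a1 := sA 1 (s * t) (by rw [star_mul', hs, ht])
    have a2 := sA 1 s hs
    rw [one_mul] at a1 a2
    rw [sA s t ht, a2] at a1
    exact mul_left_cancel₀ A1 (by linear_combination -a1)
  have ra : ∀ s t, star s = s → star t = t → ρ (s + t) = ρ s + ρ t := fun s t hs ht => by
    have a1 := sA 1 (s + t) (by rw [star_add, hs, ht])
    rw [mul_add, map_add, sA 1 s hs, sA 1 t ht] at a1
    exact mul_left_cancel₀ A1 (by linear_combination -a1)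
  have rr : ∀ t, star (ρ t) = ρ t := fun t => by
    simp only [hρ, star_div₀, hb, U4.hy]
  have e3 : ∀ a c, (σ (rz (a * star c + star a * c))).z =
      b * (A a * star (A c) + star (A a) * A c) := fun a c => by
    have m := aut_Z2 h.1 (xc_mem c)
    have := (h2 _ (cm_sZ2 (xa a) (xc c))).2
    rw [hcm h.1, cm_c, cm_z, cm_z, m.1, m.2, ay, hA, hC] at this
    simp only [xa, xc, star_zero, mul_zero, zero_mul, sub_zero, add_zero] at this
    rw [show (⟨0, 0, 0, 0, _, _⟩ : U4 K) = 1 from rfl, h.1.map_one, one_z, zero_add, star_mul',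
      show star b = b from (σ _).hy] at this
    linear_combination -this
  set d := (σ (rz 1)).z with hd
  have hD : ∀ t, star t = t → (σ (rz t)).z = d * ρ t := fun t ht => by
    obtain ⟨c, hc⟩ := exists_trc (one_ne_zero (α := K)) (star_one K)
    have a1 := e3 1 c
    have a2 := e3 1 (c * t)
    rw [star_mul', ht, show 1 * (star c * t) + star 1 * (c * t) = (1 * star c + star 1 * c) * t by
      ring, hc, one_mul, sA c t ht, star_mul', rr] at a2
    rw [hc] at a1
    rw [a2, hd, a1]; ring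
  have d0 : d ≠ 0 := fun e => by
    have m := aut_Z h.1 (xz_mem 1 (star_one K))
    rw [hd, rz_eq (star_one K)] at e
    have := σ.injective ((sZ_eq m (one_mem _) e).trans h.1.map_one.symm)
    exact one_ne_zero (α := K) (congrArg U4.z this)
  have key : ∀ a, A a * star (A a) * b = d * ρ (a * star a) := fun a => by
    have na : star (a * star a) = a * star a := by simp [mul_comm]
    by_cases H : ∃ t : K, star t = t ∧ t ≠ 0 ∧ t ≠ 1
    · obtain ⟨t, ht, t0, t1⟩ := H
      have r0 : ρ t ≠ 0 := fun e => t0 (iA (by simpa [e] using sA 1 t ht))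
      have r1' : ρ t - 1 ≠ 0 := sub_ne_zero.2 fun e => t1 (iA (by simpa [e] using sA 1 t ht))
      have k : ∀ a, (ρ t ^ 2 - ρ t) * (A a * star (A a) * b - d * ρ (a * star a)) =
          A a * star ((σ (ry t)).c - ρ t * (σ (ry 1)).c) +
            star (A a) * ((σ (ry t)).c - ρ t * (σ (ry 1)).c) := fun a => by
        have na : star (a * star a) = a * star a := by simp [mul_comm]
        have a1 := (e1 a t ht).2
        have a2 := (e1 (a * t) 1 (star_one K)).2
        rw [mul_one, mul_one, r1, sA a t ht, star_mul', ht, show a * t * (star a * t) =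
          a * star a * t * t by ring, hD _ (by simp [ht, mul_comm]), rm _ _ (by simp [ht, mul_comm]) ht,
          rm _ _ na ht, star_mul', rr] at a2
        rw [hD _ (by simp [ht, mul_comm]), rm _ _ na ht] at a1
        rw [star_sub, star_mul', rr]
        linear_combination a1 - a2
      have a1 := k a
      have a2 := k (a * t)
      rw [sA a t ht, star_mul', star_mul', ht, rr, show a * t * (star a * t) = a * star a * t * t by
        ring, rm _ _ (by simp [ht, mul_comm]) ht, rm _ _ na ht] at a2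
      have : (ρ t * (ρ t - 1)) ^ 2 * (A a * star (A a) * b - d * ρ (a * star a)) = 0 := by
        linear_combination a2 - ρ t * a1
      exact sub_eq_zero.1 ((mul_eq_zero.1 this).resolve_left (pow_ne_zero 2 (mul_ne_zero r0 r1')))
    · push Not at H
      rw [H b (σ _).hy b0, H d (σ _).hz d0]
      by_cases a0 : a = 0
      · have := ra 0 0 (star_zero K) (star_zero K)
        rw [add_zero] at this
        simp [a0, left_eq_add.1 this]
      · have a1 : A a ≠ 0 := fun e => a0 (iA (e.trans A.map_zero.symm))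
        rw [H _ na (by simpa), H (A a * star (A a)) (by simp [mul_comm]) (by simpa), r1]
  obtain ⟨γ, g1, g2⟩ := norm_sim A (Finite.injective_iff_bijective.1 iA) (m := d / b) rm ra fun a => by
    field_simp
    linear_combination key a
  obtain ⟨u, hu⟩ := HF.nrm b (σ _).hy
  refine ⟨A 1, u, γ, A1, fun e => b0 (by rw [← hu, e, zero_mul]), fun x => ⟨?_, ?_⟩⟩
  · rw [ha, hA, g1]
  · rw [hy, hB, hu, g2 _ x.hy]

end Cfsg.Agent.Fu.N
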