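import Cfsg.Agent.Fu.N1
import Cfsg.Agent.Fu.L2a
import Cfsg.Agent.H1.SchurZ

/-! Normalising the automizer of `S = U4 K`. -/

set_option autoImplicit false
set_option linter.unusedSectionVars false
set_option linter.style.haveILetI false

open Equiv
open scoped commutatorElement

namespace Cfsg.Agent.Fu

open Cfsg.Fus Cfsg.FusionSystem Cfsg.Agent.Uf U4 L2

variable {K : Type*} [Field K] [StarRing K] [Finite K] [HF K] {p : ℕ} [hp : Fact p.Prime] [CharP K p]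
  {F : FusionSystem (⊤ : Subgroup (U4 K))} {τ σ : Perm (U4 K)}

namespace N

theorem kp_aut (h : σ ∈ autStab ⊤) : Kp σ := ⟨fun _ => aut_Z h.1, fun _ => aut_Z2 h.1⟩

theorem not_QJ (h : HomOn σ ⊤) : ¬ ∀ x ∈ sQ K, σ x ∈ sJ K := fun H => by
  obtain ⟨t, e⟩ := exists_cm_z (x := xa (1 : K)) one_ne_zero (xz_mem 1 (star_one K))
  have h1 := comm_sJ (H _ (Z2_Q (xc_mem t))) (H (xa 1) rfl)
  rw [← h trivial trivial, ← h trivial trivial, σ.apply_eq_iff_eq, ← cm_eq_one, e] at h1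
  exact one_ne_zero (α := K) (congrArg U4.z h1)

theorem stab_Q (hg : ∀ E, F.IsEssential p E → E = sQ K ∨ E = sJ K) (e1 : F.IsEssential p (sQ K))
    (hσ : F.Iso ⊤ ⊤ σ) (x : U4 K) : σ x ∈ sQ K ↔ x ∈ sQ K := by
  have h := hσ.restrict (R := sQ K) le_top
  rcases hg _ (H4.Sp.essential_img e1 hσ) with e | e <;> rw [e] at h
  · exact h.mem_iff x
  · exact (not_QJ hσ.homOn fun _ hx => h.mem hx).elim

theorem ti (hF : F.IsSaturated p) (hg : ∀ E, F.IsEssential p E → E = sQ K ∨ E = sJ K)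
    (hτ : F.Iso (sJ K) (sJ K) τ) {g g' : U4 K} (ha : g.a ≠ 0)
    (e : ∀ x ∈ sJ K, τ (g * x * g⁻¹) = g' * τ x * g'⁻¹) : Kp τ := by
  obtain ⟨ρ, r1, r2⟩ := (fn_J.isReceptive hF (topP p)).exists_ext_of_le hτ
    (T := Subgroup.zpowers g) (fun k _ => ⟨trivial, norm_of_le Z2_J k⟩) (by
      rintro _ ⟨n, rfl⟩
      have : τ * cj g * τ⁻¹ ∈ innS ⊤ (sJ K) := mem_innS.2 ⟨g', trivial, norm_of_le Z2_J g',
        fun x hx => by simpa using e _ (hτ.inv_mem hx)⟩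
      simpa [map_zpow] using (innS ⊤ (sJ K)).zpow_mem this n)
  have key := hF.alperin_ind (topP p) (M := fun P σ => sJ K ≤ P → (∃ g ∈ P, g.a ≠ 0) →
    ∃ α, F.Iso ⊤ ⊤ α ∧ ∀ x ∈ P, σ x = α x) ?_ ?_ ?_ r1 le_sup_left
    ⟨g, Subgroup.mem_sup_right (Subgroup.mem_zpowers g), ha⟩
  · obtain ⟨α, a1, a2⟩ := key
    exact (kp_aut a1.mem_autStab).congr fun x hx => by
      rw [← r2 x hx, a2 x (Subgroup.mem_sup_left hx)]
  · rintro R σ (rfl | hR) hσ h1 ⟨k, k1, k2⟩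
    · exact ⟨σ, hσ, fun _ _ => rfl⟩
    · rcases hg R hR with rfl | rfl
      · exact (one_ne_zero (α := K) (h1 (x := xy 1 (star_one K)) rfl)).elim
      · exact (k2 k1).elim
  · rintro P R σ τ - h1 h2 h3 h4 ⟨k, k1, k2⟩
    obtain ⟨α, a1, a2⟩ := h1 (h4.trans h2) ⟨k, h2 k1, k2⟩
    exact ⟨α, a1, fun x hx => (h3 x hx).trans (a2 x (h2 hx))⟩
  · rintro P Q σ τ - - h1 h2 h3 h4 ⟨k, k1, k2⟩
    obtain ⟨α, a1, a2⟩ := h1 h4 ⟨k, k1, k2⟩
    have j := aut_J' a1.mem_autStab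
    obtain ⟨β, b1, b2⟩ := h2 (fun x hx => by
      obtain ⟨x, rfl⟩ := α.surjective x
      rw [← a2 x (h4 ((j x).1 hx))]
      exact h3 x (h4 ((j x).1 hx))) ⟨σ k, h3 k k1, fun e => k2 ((j k).1 (a2 k k1 ▸ e))⟩
    exact ⟨β * α, a1.trans b1, fun x hx => by
      rw [Perm.mul_apply, b2 _ (h3 x hx), a2 x hx, Perm.mul_apply]⟩

theorem syl (hF : F.IsSaturated p) (hg : ∀ E, F.IsEssential p E → E = sQ K ∨ E = sJ K)
    (H : Subgroup (Perm (U4 K))) (h1 : ∀ g, cj g ∈ H)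
    (h2 : ∀ σ ∈ H, ∀ σ' : Perm (U4 K), F.Iso (sJ K) (sJ K) σ' → (∀ x ∈ sJ K, σ' x = σ x) → σ' ∈ H)
    (hτ : F.Iso (sJ K) (sJ K) τ) {g : U4 K} (ha : g.a ≠ 0) (h3 : τ * cj g * τ⁻¹ ∈ H) :
    ∃ k ∈ H, Kp (k * τ) := by
  obtain ⟨Γ, _, _, _, P, ρ, r1, r2, r3, r4, -⟩ := H4.Sp.exists_setup
    (fn_J.isFullyAutomized hF (topP p)) (V := Unit) (fun _ => 0) (fun _ _ _ _ => rfl)
    (fun _ => ⟨1, one_mem _, rfl⟩) fun _ _ _ _ _ => rfl
  obtain ⟨t, ht⟩ := r2 τ hτ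
  obtain ⟨c, hc⟩ := r2 _ (iso_J g)
  have hP : (P : Subgroup Γ) ≤ H.comap ρ := fun a ha => by
    obtain ⟨k, -, -, e⟩ := mem_innS.1 ((r4 a).1 ha)
    exact h2 _ (h1 k) _ (r1 a) e
  have ht' : ∀ x ∈ sJ K, ρ t⁻¹ x = τ⁻¹ x := fun x hx => by
    rw [map_inv, Perm.inv_eq_iff_eq, ht _ (hτ.inv_mem hx)]; simp
  obtain ⟨n, hn⟩ := P.isPGroup' ⟨c, (r4 c).2 (mem_innS.2 ⟨g, trivial, norm_of_le Z2_J g, hc⟩)⟩
  obtain ⟨k, hk⟩ := H6.exists_conj_elt_mem_sylow (G := H.comap ρ) (x := ⟨t * c * t⁻¹,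
    h2 _ h3 _ (r1 _) fun x hx => by
      simp only [map_mul, Perm.mul_apply]
      rw [ht' x hx, hc _ (hτ.inv_mem hx), ht _ ((iso_J (F := F) g).mem (hτ.inv_mem hx))]⟩) (k := n)
    (Subtype.ext (by
      rw [Subgroup.coe_pow, conj_pow, show c ^ p ^ n = 1 from congrArg Subtype.val hn]; simp))
    (P.subtype hP)
  obtain ⟨g', -, -, e⟩ := mem_innS.1 ((r4 _).1 hk)
  refine ⟨ρ k, k.2, ti hF hg (hτ.trans (r1 k)) ha (g' := g') fun x hx => ?_⟩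
  have m := (hτ.trans (r1 k)).mem hx
  rw [← e _ m]
  change _ = ρ ((k : Γ) * (t * c * t⁻¹) * (k : Γ)⁻¹) _
  simp only [map_mul, Perm.mul_apply, map_inv, perm_inv_apply_self]
  rw [← map_inv, ht' _ (hτ.mem hx), perm_inv_apply_self, hc x hx,
    ht _ ((iso_J (F := F) g).mem hx), cj_apply]

theorem kp_of_Z (hF : F.IsSaturated p) (hg : ∀ E, F.IsEssential p E → E = sQ K ∨ E = sJ K)
    (hτ : F.Iso (sJ K) (sJ K) τ) (hZ : ∀ x ∈ sZ K, τ x ∈ sZ K) : Kp τ := by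
  refine ⟨hZ, fun x hx => ⟨hτ.mem (Z2_J hx), ?_⟩⟩
  by_contra h0
  obtain ⟨f, f0, a, a0, hf⟩ := cw3 p ((selfAdjoint K).subtype.comp (lc hτ)) (c := (τ x).y) h0
  let H : Subgroup (Perm (U4 K)) :=
    { carrier := {σ | σ ∈ setStab (sJ K) ∧ ∀ x ∈ sJ K, f (σ x).y = f x.y}
      one_mem' := ⟨one_mem _, fun _ _ => rfl⟩
      mul_mem' := fun {a b} ha hb => ⟨mul_mem ha.1 hb.1, fun x hx =>
        (ha.2 _ ((hb.1 x).2 hx)).trans (hb.2 x hx)⟩
      inv_mem' := fun {a} ha => ⟨inv_mem ha.1, fun x hx => by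
        simpa using (ha.2 _ ((inv_mem ha.1 x).2 hx)).symm⟩ }
  obtain ⟨k, k1, k2⟩ := syl hF hg H (fun g => ⟨(iso_J (F := F) g).mem_iff, fun x _ => by simp⟩)
    (fun σ hσ σ' i e => ⟨i.mem_iff, fun x hx => e x hx ▸ hσ.2 x hx⟩) hτ (g := xa a) a0
    ⟨((hτ.symm.trans (iso_J _)).trans hτ).mem_iff, fun w hw => by
      have m := hτ.inv_mem hw
      rw [Perm.mul_apply, Perm.mul_apply, cj_apply, y_cj hτ _ m, y_Z2 hτ (cm_sZ2 _ _), cm_c,
        show (lz hτ _ : K) = 0 from (hZ _ (xz_mem _ _)).2.1, mem_sJ.1 m]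
      simpa [xa] using hf _ (τ⁻¹ w).hy⟩
  have := k1.2 _ (hτ.mem (Z2_J hx))
  rw [show (k (τ x)).y = 0 from (k2.2 x hx).2, map_zero] at this
  exact f0 this.symm

theorem n1_of (hF : F.IsSaturated p) (hE : F.IsEssential p (sQ K)) :
    ∃ τ, F.Iso (sQ K) (sQ K) τ ∧ ∃ x ∈ sZ2 K, τ x ∉ sZ2 K := by
  by_contra H
  push Not at H
  exact ess_ne_top hF hE (top_le_iff.1 fun g _ => mem_of_chain hE Z_Q Z2_Q Z2_Q Z2_Q (inv_Z_Q F) H H H
    (fun x hx => comm_sZ g hx) (fun x hx => cm_sZ' g hx) (fun x _ => cm_sZ2 g x)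
    (fun x _ => cm_sZ2 g x) fun x _ => cm_sZ2 g x)

theorem n2_of (hF : F.IsSaturated p) (hg : ∀ E, F.IsEssential p E → E = sQ K ∨ E = sJ K)
    (hE : F.IsEssential p (sJ K)) : ∃ τ, F.Iso (sJ K) (sJ K) τ ∧ ∃ x ∈ sZ K, τ x ∉ sZ K := by
  by_contra H
  push Not at H
  have H2 : Inv F (sJ K) (sZ2 K) := fun τ hτ => (kp_of_Z hF hg hτ (H τ hτ)).2
  exact ess_ne_top hF hE (top_le_iff.1 fun g _ => mem_of_chain hE Z_J Z2_J Z2_J Z2_J H H2 H2 H2
    (fun x hx => comm_sZ g hx) (fun x hx => cm_sZ' g hx) (fun x _ => cm_sZ2 g x)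
    (fun x _ => cm_sZ2 g x) fun x _ => cm_sZ2 g x)

theorem Z2_le_comm : sZ2 K ≤ commutator (U4 K) := fun u hu => by
  have h0 : ∀ g x : U4 K, cm g x ∈ commutator (U4 K) := fun g x => by
    have := Subgroup.commutator_mem_commutator (Subgroup.mem_top x⁻¹) (Subgroup.mem_top g)
    rwa [commutatorElement_def, inv_inv, show x⁻¹ * g * x * g⁻¹ = cm g x by simp [cm, mul_assoc]]
      at this
  obtain ⟨t, e⟩ := Z2_dec hu
  rw [e]
  exact mul_mem (h0 _ _) (h0 _ _)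

theorem isP_triv : IsPGroup p (trivOn (sZ2 K) ⊤) := fun σ => by
  have hp : IsPGroup p (U4 K) := (topP p).of_equiv Subgroup.topEquiv
  obtain ⟨k, hk⟩ := H1.aut_pow_eq_one_of_frattini hp
    (MulEquiv.mk' σ.1 fun x y => σ.2.1.1 trivial trivial) fun x =>
      H1.commutator_le_frattini_of_isPGroup hp (Z2_le_comm (σ.2.2 x trivial))
  have := congrArg (MulAut.toPerm (U4 K)) hk
  rw [map_pow, map_one] at this
  exact ⟨k, Subtype.ext this⟩

/-- Diagonal-field automorphisms. -/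
def Lam (K : Type*) [Field K] [StarRing K] [Finite K] [HF K] : Subgroup (Perm (U4 K)) where
  carrier := {σ | ∃ s u γ, s ≠ 0 ∧ u ≠ 0 ∧ ∀ x, σ x = gam s u γ x}
  one_mem' := ⟨1, 1, _, one_ne_zero, one_ne_zero, fun x => (gam_one x).symm⟩
  mul_mem' := by
    rintro σ τ ⟨s, u, γ, a, b, e⟩ ⟨s', u', δ, a', b', e'⟩
    exact ⟨s * γ s', u * γ u', δ.trans γ, by simp [a, a'], by simp [b, b'], fun x => by
      rw [Perm.mul_apply, e, e', gam_gam]⟩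
  inv_mem' := by
    rintro σ ⟨s, u, γ, a, b, e⟩
    refine ⟨γ.symm s⁻¹, γ.symm u⁻¹, γ.symm, by simp [a], by simp [b], fun x => ?_⟩
    obtain ⟨x, rfl⟩ := σ.surjective x
    rw [Perm.inv_eq_iff_eq, e x, gam_inv a b, e]

theorem exists_Lam {s u : K} (hs : s ≠ 0) (hu : u ≠ 0) (γ : K ≃+* K) :
    ∃ l ∈ Lam K, ∀ x, l x = gam s u γ x :=
  ⟨Equiv.ofBijective _ (Finite.injective_iff_bijective.1
    (Function.LeftInverse.injective (gam_inv hs hu γ))), ⟨s, u, γ, hs, hu, fun _ => rfl⟩,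
    fun _ => rfl⟩

theorem Lam_le : Lam K ≤ autStab ⊤ := by
  rintro σ ⟨s, u, γ, -, -, e⟩
  exact ⟨fun x _ y _ => by rw [e, e, e, gam_mul], fun _ => Iff.rfl⟩

theorem Lam_disj : trivOn (sZ2 K) ⊤ ⊓ Lam K = ⊥ := by
  refine eq_bot_iff.2 ?_
  rintro σ ⟨h, s, u, γ, -, -, e⟩
  have h1 : ∀ t, s * γ t = t := fun t => by
    have := (h.2 (xa t) trivial).1
    rw [e] at this
    simp only [mul_a, inv_a, gam, xa] at this
    linear_combination this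
  have h2 := (h.2 (xy 1 (star_one K)) trivial).2
  rw [e] at h2
  simp only [mul_y, inv_y, gam, xy, map_one, mul_one] at h2
  obtain rfl : s = 1 := by simpa using h1 1
  have h3 : u * star u = 1 := by linear_combination h2
  obtain rfl : γ = RingEquiv.refl K := RingEquiv.ext fun t => by simpa using h1 t
  exact Equiv.ext fun x => (e x).trans (by ext <;> simp [gam, h3])

theorem norm_triv (h : σ ∈ autStab ⊤) :
    σ ∈ Subgroup.normalizer (trivOn (sZ2 K) ⊤ : Set (Perm (U4 K))) :=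
  mem_normalizer_of_finite fun _ hτ => conj_mem_trivOn hτ h fun _ hx _ => aut_Z2 h.1 hx

theorem innS_conj {ρ : Perm (U4 K)} (hσ : σ ∈ innS ⊤ ⊤) (hρ : ρ ∈ autStab ⊤) :
    ρ * σ * ρ⁻¹ ∈ innS (⊤ : Subgroup (U4 K)) ⊤ := by
  obtain ⟨g, hg, e⟩ := mem_innS_self.1 hσ
  refine mem_innS_self.2 ⟨ρ g, trivial, fun x _ => ?_⟩
  rw [Perm.mul_apply, Perm.mul_apply, e _ trivial, hρ.1.map_conj trivial trivial]
  simp

theorem img_triv (h : σ ∈ trivOn (sZ2 K) ⊤) {P : Subgroup (U4 K)} (hP : sZ2 K ≤ P) :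
    img σ P = P := by
  have k : ∀ x, σ x ∈ P ↔ x ∈ P := fun x => by
    rw [← mul_inv_cancel_left x (σ x), P.mul_mem_cancel_right (hP (h.2 x trivial))]
  ext x
  obtain ⟨x, rfl⟩ := σ.surjective x
  rw [(h.1.1.mono le_top).mem_img]
  exact ⟨by rintro ⟨y, hy, e⟩; exact e ▸ (k y).2 hy, fun hx => ⟨x, (k x).1 hx, rfl⟩⟩

end N

open N

theorem exists_std (hF : F.IsSaturated p) (hg : ∀ E, F.IsEssential p E → E = sQ K ∨ E = sJ K)
    (e1 : F.IsEssential p (sQ K)) (e2 : F.IsEssential p (sJ K)) :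
    ∃ F' : FusionSystem (⊤ : Subgroup (U4 K)), Std p F' ∧ (F'.IsRealizable p → F.IsRealizable p) := by
  have hb : ∀ σ ∈ fixP (⊤ : Subgroup (U4 K)), σ = 1 := fun σ h => Equiv.ext fun x => h x trivial
  have hI : IsPGroup p (innS (⊤ : Subgroup (U4 K)) ⊤) := fun σ =>
    (isPMod_innS (topP p) ⊤ σ.1 σ.2).imp fun k h => Subtype.ext (hb (σ.1 ^ p ^ k) h)
  have hN := isP_triv (K := K) (p := p)
  have h1 := ((F.finMod_stab le_rfl).sylMod_iff_not_dvd (inf_le_left.trans (fixP_le_innS _ _))).1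
    (isFullyAutomized_iff_sylMod.1 (F.isFullyNormalized_top.isFullyAutomized hF (topP p))).2
  have hn : F.stab ⊤ ≤ Subgroup.normalizer (innS (⊤ : Subgroup (U4 K)) ⊤ : Set (Perm (U4 K))) :=
    fun σ hσ => mem_normalizer_of_finite fun x hx => innS_conj hx (F.stab_le_autStab _ hσ)
  obtain ⟨k, hk⟩ := hI.exists_card_eq
  obtain ⟨l, hl⟩ := hN.exists_card_eq
  have ho := (hp.out.coprime_iff_not_dvd).2 h1.2.2
  obtain ⟨D, d1, d2, -, d3⟩ := H1.exists_complement_rel h1.1 hn (hk ▸ ho.pow_left k)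
  have hD : (Nat.card D).Coprime (Nat.card (trivOn (sZ2 K) ⊤)) := hl ▸ d3 ▸ ho.symm.pow_right l
  have hDn : D ≤ Subgroup.normalizer (trivOn (sZ2 K) ⊤ : Set (Perm (U4 K))) := fun σ hσ =>
    norm_triv ((mem_stab le_rfl).1 (d1 hσ)).mem_autStab
  obtain ⟨ω, hω, hc⟩ := H1.exists_conj_le_of_le_sup (N := trivOn (sZ2 K) ⊤)
    (H := Lam K ⊓ (D ⊔ trivOn (sZ2 K) ⊤)) (K := D) (fun σ hσ => norm_triv (Lam_le hσ.1))
    (fun σ hσ => by
      have hσ' := (mem_stab le_rfl).1 (d1 hσ)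
      obtain ⟨s, u, γ, hs, hu, e⟩ := dec hσ'.mem_autStab (stab_Q hg e1 hσ')
      obtain ⟨l, l1, l2⟩ := exists_Lam hs hu γ
      have h2 : σ * l⁻¹ ∈ trivOn (sZ2 K) ⊤ :=
        ⟨mul_mem hσ'.mem_autStab (inv_mem (Lam_le l1)), fun x _ => by
          obtain ⟨x, rfl⟩ := l.surjective x
          rw [Perm.mul_apply, Perm.inv_def, l.symm_apply_apply, l2]
          constructor <;> simp [gam, e]⟩
      rw [← inv_mul_cancel_right σ l]
      refine mul_mem (Subgroup.mem_sup_right h2) (Subgroup.mem_sup_left ⟨l1, ?_⟩)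
      simpa using mul_mem (inv_mem (Subgroup.mem_sup_right h2)) (Subgroup.mem_sup_left hσ))
    (by
      have := H1.relIndex_dvd_card_of_le_sup hDn
        (inf_le_right : Lam K ⊓ (D ⊔ trivOn (sZ2 K) ⊤) ≤ _)
      rw [← Subgroup.inf_relIndex_right, ← inf_assoc, Lam_disj, bot_inf_eq,
        Subgroup.relIndex_bot_left] at this
      exact hD.coprime_dvd_left this) hD (Or.inl (H1.IsPGroup.isSolvable hN))
  have t0 : L.PIso ⊤ ⊤ ω ⇑ω⁻¹ :=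
    ⟨hω.1.1, fun _ _ => trivial, fun _ _ => trivial, fun x _ => ω.symm_apply_apply x,
      fun x _ => ω.apply_symm_apply x⟩
  obtain ⟨F', t⟩ := t0.exists_transp le_rfl F t0.img_self
  have hF' := t.isSaturated hF
  have hg' : ∀ E, F'.IsEssential p E → E = sQ K ∨ E = sJ K := fun E hE =>
    (hg _ (t.symm.isEssential hE)).imp
      (fun e => by rw [← t.img_img' (P' := E) le_top, e, img_triv hω Z2_Q])
      fun e => by rw [← t.img_img' (P' := E) le_top, e, img_triv hω Z2_J]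
  refine ⟨F', ⟨hF', hg', n1_of hF' (img_triv hω Z2_Q ▸ t.isEssential e1),
    n2_of hF' hg' (img_triv hω Z2_J ▸ t.isEssential e2), fun σ hσ => ?_⟩, t.symm.isRealizable'⟩
  have h2 : F.Iso ⊤ ⊤ (ω⁻¹ * σ * ω) := IsMap.iso_self
    (by have := t.map' hσ.isMap; rw [t.img_eq'] at this; exact this) fun _ _ => trivial
  have h3 := h2.mem_stab
  rw [← d2, ← SetLike.mem_coe, Subgroup.coe_mul_of_left_le_normalizer_right _ _ (d1.trans hn)]
    at h3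
  obtain ⟨d, hd, i, hi, e⟩ := h3
  have h4 := (hc (Subgroup.smul_mem_pointwise_smul d _ _ hd)).1
  obtain ⟨g, -, e2⟩ := mem_innS_self.1 (innS_conj (innS_conj hi hω.1) (Lam_le h4))
  obtain ⟨s, u, γ, hs, hu, e'⟩ := h4
  refine ⟨g, s, u, γ, hs, hu, fun x => ?_⟩
  rw [← e', ← e2 _ trivial, ← Perm.mul_apply, MulAut.smul_def, MulAut.conj_apply,
    show i = d⁻¹ * (ω⁻¹ * σ * ω) from eq_inv_mul_of_mul_eq e]
  congr 1
  group

end Cfsg.Agent.Fu
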