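import Cfsg.Agent.H4.Sp4S
import Cfsg.Agent.L.Transport2

/-! S5210, `q = 2`: a decidable model of the Sylow 2-subgroup of `U₄(2)` and finite checks. -/

set_option autoImplicit false
set_option linter.unusedSimpArgs false
set_option synthInstance.maxSize 4096
set_option synthInstance.maxHeartbeats 400000

namespace Cfsg.Agent.Fu.P

abbrev K2 : Type := ZMod 2

@[ext] structure M6 where
  a : K2
  b : K2
  y : K2
  s : K2
  t : K2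
  z : K2
deriving DecidableEq

instance instDecAllM6 (p : M6 → Prop) [DecidablePred p] : Decidable (∀ x, p x) :=
  decidable_of_iff (∀ a b y s t z, p ⟨a, b, y, s, t, z⟩)
    ⟨fun h x => h x.a x.b x.y x.s x.t x.z, fun h _ _ _ _ _ _ => h _⟩

instance instDecExM6 (p : M6 → Prop) [DecidablePred p] : Decidable (∃ x, p x) :=
  decidable_of_iff (∃ a b y s t z, p ⟨a, b, y, s, t, z⟩)
    ⟨fun ⟨_, _, _, _, _, _, h⟩ => ⟨_, h⟩, fun ⟨x, h⟩ => ⟨x.a, x.b, x.y, x.s, x.t, x.z, h⟩⟩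

def M6.eqv : M6 ≃ (K2 × K2 × K2 × K2 × K2 × K2) where
  toFun x := (x.a, x.b, x.y, x.s, x.t, x.z)
  invFun v := ⟨v.1, v.2.1, v.2.2.1, v.2.2.2.1, v.2.2.2.2.1, v.2.2.2.2.2⟩
  left_inv _ := rfl
  right_inv _ := rfl

instance instFiniteM6 : Finite M6 := Finite.of_equiv _ M6.eqv.symm

instance instMulM6 : Mul M6 := ⟨fun x w => ⟨x.a + w.a, x.b + w.b, x.y + w.y, x.s + w.s + x.a * w.y,
  x.t + w.t + x.b * w.y, x.z + w.z + x.a * w.t + x.b * w.s + (x.a + x.b + x.a * x.b) * w.y⟩⟩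
instance instOneM6 : One M6 := ⟨⟨0, 0, 0, 0, 0, 0⟩⟩
instance instInvM6 : Inv M6 := ⟨fun x => ⟨x.a, x.b, x.y, x.s + x.a * x.y, x.t + x.b * x.y,
  x.z + x.a * x.t + x.b * x.s + (x.a + x.b + x.a * x.b) * x.y⟩⟩

section simps
variable (x w : M6)
@[simp] theorem mul_a : (x * w).a = x.a + w.a := rfl
@[simp] theorem mul_b : (x * w).b = x.b + w.b := rfl
@[simp] theorem mul_y : (x * w).y = x.y + w.y := rfl
@[simp] theorem mul_s : (x * w).s = x.s + w.s + x.a * w.y := rfl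
@[simp] theorem mul_t : (x * w).t = x.t + w.t + x.b * w.y := rfl
@[simp] theorem mul_z : (x * w).z =
    x.z + w.z + x.a * w.t + x.b * w.s + (x.a + x.b + x.a * x.b) * w.y := rfl
end simps

theorem h2 : (2 : K2) = 0 := rfl

instance instGroupM6 : Group M6 := Group.ofLeftAxioms
  (fun x y w => by
    ext <;> simp only [mul_a, mul_b, mul_y, mul_s, mul_t, mul_z]
    · ring
    · ring
    · ring
    · ring
    · ring
    · linear_combination (x.a * y.b * w.y + x.b * y.a * w.y) * h2 - (x.a * y.b * w.y + x.b * y.a * w.y) * h2)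
  (by decide +kernel) (by decide +kernel)

theorem card_M6 : Nat.card M6 = 2 ^ 6 := by rw [Nat.card_congr M6.eqv]; simp

theorem isP_M6 : IsPGroup 2 M6 := IsPGroup.of_card card_M6
theorem isP_top : IsPGroup 2 (⊤ : Subgroup M6) := isP_M6.to_subgroup _

def csub (P : M6 → Prop) (h1 : P 1) (hm : ∀ x, P x → ∀ y, P y → P (x * y)) (hi : ∀ x, P x → P x⁻¹) :
    Subgroup M6 where
  carrier := {x | P x}
  one_mem' := h1
  mul_mem' := fun {x y} hx hy => hm x hx y hy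
  inv_mem' := fun {x} hx => hi x hx

def lm (i : Fin 3) (u v : K2) : K2 := if i = 0 then v else if i = 1 then u else u + v

def J : Subgroup M6 := csub (fun x => x.a = 0 ∧ x.b = 0) (by decide) (by decide +kernel) (by decide +kernel)
def Q : Subgroup M6 := csub (fun x => x.y = 0) (by decide) (by decide +kernel) (by decide +kernel)
def Z2 : Subgroup M6 := csub (fun x => x.a = 0 ∧ x.b = 0 ∧ x.y = 0) (by decide) (by decide +kernel)
  (by decide +kernel)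
def Z : Subgroup M6 := csub (fun x => x.a = 0 ∧ x.b = 0 ∧ x.y = 0 ∧ x.s = 0 ∧ x.t = 0) (by decide)
  (by decide +kernel) (by decide +kernel)
def E (i : Fin 3) : Subgroup M6 := csub (fun x => lm i x.a x.b = 0) (by revert i; decide)
  (by revert i; decide +kernel) (by revert i; decide +kernel)
def C (i : Fin 3) : Subgroup M6 := csub (fun x => x.a = 0 ∧ x.b = 0 ∧ x.y = 0 ∧ lm i x.s x.t = 0)
  (by revert i; decide) (by revert i; decide +kernel) (by revert i; decide +kernel)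
def A (i : Fin 3) : Subgroup M6 := csub (fun x => x.y = 0 ∧ lm i x.a x.b = 0 ∧ lm i x.s x.t = 0)
  (by revert i; decide) (by revert i; decide +kernel) (by revert i; decide +kernel)

instance instDJ (x : M6) : Decidable (x ∈ J) := inferInstanceAs (Decidable (x.a = 0 ∧ x.b = 0))
instance instDQ (x : M6) : Decidable (x ∈ Q) := inferInstanceAs (Decidable (x.y = 0))
instance instDZ2 (x : M6) : Decidable (x ∈ Z2) :=
  inferInstanceAs (Decidable (x.a = 0 ∧ x.b = 0 ∧ x.y = 0))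
instance instDZ (x : M6) : Decidable (x ∈ Z) :=
  inferInstanceAs (Decidable (x.a = 0 ∧ x.b = 0 ∧ x.y = 0 ∧ x.s = 0 ∧ x.t = 0))
instance instDE (i : Fin 3) (x : M6) : Decidable (x ∈ E i) := inferInstanceAs (Decidable (lm i x.a x.b = 0))
instance instDC (i : Fin 3) (x : M6) : Decidable (x ∈ C i) :=
  inferInstanceAs (Decidable (x.a = 0 ∧ x.b = 0 ∧ x.y = 0 ∧ lm i x.s x.t = 0))
instance instDA (i : Fin 3) (x : M6) : Decidable (x ∈ A i) :=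
  inferInstanceAs (Decidable (x.y = 0 ∧ lm i x.a x.b = 0 ∧ lm i x.s x.t = 0))

def xab (a b : K2) : M6 := ⟨a, b, 0, 0, 0, 0⟩
def xg (i : Fin 3) : M6 := if i = 0 then xab 1 0 else if i = 1 then xab 0 1 else xab 1 1
def cf (g x : M6) : M6 := g * x * g⁻¹
def wQ (x : M6) : M6 := ⟨x.s, x.t, 0, x.a, x.b, x.z + x.a * x.t + x.b * x.s⟩

def w (i : Fin 3) (e : Bool) (x : M6) : M6 :=
  if i = 0 then (if e then ⟨0, 0, x.y + x.t, x.z, x.t, x.s⟩ else ⟨0, 0, x.t, x.s + x.z, x.y, x.z⟩)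
  else if i = 1 then (if e then ⟨0, 0, x.s, x.y, x.t + x.z, x.z⟩ else ⟨0, 0, x.y + x.s, x.s, x.z, x.t⟩)
  else (if e then ⟨0, 0, x.s + x.t, x.s + x.z, x.y + x.s + x.z, x.z⟩
    else ⟨0, 0, x.s + x.t, x.y + x.t + x.z, x.t + x.z, x.z⟩)

def pw (u : M6) (k : K2) : M6 := if k = 0 then 1 else u
def bt (i : Fin 3) (u : M6) : M6 := u⁻¹ * cf (xg i) u
def ey : M6 := ⟨0, 0, 1, 0, 0, 0⟩
def eq (i : Fin 3) : M6 := if i = 0 then ⟨0, 0, 0, 0, 1, 0⟩ else ⟨0, 0, 0, 1, 0, 0⟩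
def c1 (i : Fin 3) (x : M6) : K2 := if i = 0 then x.t else if i = 1 then x.s else x.s + x.t
def c2 (i : Fin 3) (x : M6) : K2 := if i = 0 then x.s else x.t
def Lf (i : Fin 3) (u v x : M6) : M6 :=
  pw u x.y * pw v (c1 i x) * pw (bt i u) (c2 i x) * pw (bt i v) (x.z + c2 i x)

theorem Lf_self : ∀ i, ∀ x ∈ J, Lf i ey (eq i) x = x := by decide +kernel

abbrev Pres (f : M6 → M6) : Prop := ∀ x ∈ Z2, f x ∈ Z2
abbrev ChT (i : Fin 3) (f : M6 → M6) : Prop := (∀ x ∈ J, x⁻¹ * f x ∈ Z2) ∧ (∀ x ∈ Z2, x⁻¹ * f x ∈ C i) ∧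
  (∀ x ∈ C i, x⁻¹ * f x ∈ Z) ∧ ∀ x ∈ Z, f x = x
abbrev InT (f : M6 → M6) : Prop := ∃ a b, ∀ x ∈ J, f x = cf (xab a b) x

theorem chk1 : ∀ i, ∀ u ∈ J, ∀ v ∈ J, (∀ x ∈ J, Lf i u v x = 1 → x = 1) → Pres (Lf i u v) →
    ChT i (Lf i u v) := by decide +kernel

theorem chk2 : ∀ i, ∀ u ∈ J, ∀ v ∈ J, (∀ x ∈ J, Lf i u v x = 1 → x = 1) → ¬ Pres (Lf i u v) →
    (ChT i (Lf i u v ∘ Lf i u v) → InT (Lf i u v ∘ Lf i u v)) →
    (ChT i (Lf i u v ∘ Lf i u v ∘ Lf i u v) → InT (Lf i u v ∘ Lf i u v ∘ Lf i u v)) →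
    (ChT i ((Lf i u v ∘ cf (xg (i + 1))) ∘ (Lf i u v ∘ cf (xg (i + 1)))) →
      InT ((Lf i u v ∘ cf (xg (i + 1))) ∘ (Lf i u v ∘ cf (xg (i + 1))))) →
    (ChT i ((Lf i u v ∘ cf (xg (i + 1))) ∘ (Lf i u v ∘ cf (xg (i + 1))) ∘ (Lf i u v ∘ cf (xg (i + 1)))) →
      InT ((Lf i u v ∘ cf (xg (i + 1))) ∘ (Lf i u v ∘ cf (xg (i + 1))) ∘ (Lf i u v ∘ cf (xg (i + 1))))) →
    ∃ e a b a' b', ∀ x ∈ J, w i e x = cf (xab a b) (Lf i u v (cf (xab a' b') x)) := by decide +kernel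

theorem chk3 : ∀ i j e e', (i = j ↔ e ≠ e') → ∃ a b,
    (∀ x ∈ J, (w i e ∘ w j e' ∘ cf (xab a b))^[4] x = x) ∧
    ¬ ∀ x ∈ J, (w i e ∘ w j e' ∘ cf (xab a b))^[2] x = x := by decide +kernel

theorem w_J : ∀ i e x, w i e x ∈ J := by decide +kernel
theorem w_comm : ∀ i e, ∀ x ∈ J, w i e (cf (xg i) x) = cf (xg i) (w i e x) := by decide +kernel
theorem w_nc : ∀ i e, ¬ ∀ x ∈ J, w i e (cf (xg (i + 1)) (w i e (cf (xg (i + 1)) x))) =
    cf (xg (i + 1)) (w i e (cf (xg (i + 1)) (w i e x))) := by decide +kernel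
theorem cf_J : ∀ x ∈ J, ∀ g, cf g x ∈ J := by decide +kernel
theorem cf_ab : ∀ x ∈ J, ∀ g, cf g x = cf (xab g.a g.b) x := by decide +kernel
theorem cf_cf : ∀ a b, ∀ x ∈ J, cf (xab a b) (cf (xab a b) x) = x := by decide +kernel
theorem cf_comm : ∀ a b a' b', ∀ x ∈ J, cf (xab a b) (cf (xab a' b') x) = cf (xab a' b') (cf (xab a b) x) := by
  decide +kernel
theorem xg_cf : ∀ i j, ∀ x ∈ J, cf (xg i) (cf (xg j) x) = cf (xg j) (cf (xg i) x) := by decide +kernel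
theorem xg_sq : ∀ i, xg i * xg i = 1 := by decide +kernel
theorem xg_E : ∀ i, xg i ∈ E i ∧ xg i ∉ J := by decide +kernel
theorem cf_E : ∀ i, ∀ u ∈ E i, u ∉ J → ∀ x ∈ J, cf u x = cf (xg i) x := by decide +kernel
theorem ex_E : ∀ u, ∃ i, u ∈ E i := by decide +kernel
theorem mem_Z : ∀ x, x ∈ Z ↔ ∀ g, g * x = x * g := by decide +kernel
theorem mem_Z2 : ∀ x, x ∈ Z2 ↔ ∀ g, x⁻¹ * cf g x ∈ Z := by decide +kernel
theorem mem_J : ∀ x, x ∈ J ↔ ∀ g ∈ Z2, g * x = x * g := by decide +kernel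
theorem mem_C : ∀ i, ∀ u ∈ E i, u ∉ J → ∀ x ∈ J, (x ∈ C i ↔ u * x = x * u) := by decide +kernel
theorem mem_A : ∀ i, ∀ x, x ∈ A i ↔ x ∈ C i ∨ (x ∈ E i ∧ x ∉ J ∧ x * x = 1) := by decide +kernel
theorem J_comm : ∀ x ∈ J, ∀ u ∈ J, x * u = u * x := by decide +kernel
theorem h1_triv : ∀ u v : M6, u⁻¹ * v ∈ J → v ∉ J → u * u = 1 → v * v = 1 → ∃ j ∈ J, cf j u = v := by
  decide +kernel
theorem cm_Z2 : ∀ g x, x⁻¹ * cf g x ∈ Z2 := by decide +kernel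
theorem cm_Z : ∀ x ∈ Z2, ∀ g, x⁻¹ * cf g x ∈ Z := by decide +kernel
theorem cf_Z : ∀ x ∈ Z, ∀ g, cf g x = x := by decide +kernel
theorem cf_A : ∀ i, ∀ x ∈ A i, ∀ g, cf g x ∈ A i := by decide +kernel
theorem cf_Q : ∀ x ∈ Q, ∀ g, cf g x ∈ Q := by decide +kernel
theorem wQ_A : ∀ i, ∀ x ∈ A i, wQ x ∈ A i := by decide +kernel
theorem wQ_wQ : ∀ x ∈ Q, wQ (wQ x) = x := by decide +kernel
theorem idx_Z : ∀ x ∈ Z, x ≠ 1 → ∀ u ∈ Z, u ≠ 1 → x⁻¹ * u = 1 := by decide +kernel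
theorem idx_C : ∀ i, ∀ x ∈ C i, x ∉ Z → ∀ u ∈ C i, u ∉ Z → x⁻¹ * u ∈ Z := by decide +kernel
theorem idx_Z2 : ∀ i, ∀ x ∈ Z2, x ∉ C i → ∀ u ∈ Z2, u ∉ C i → x⁻¹ * u ∈ C i := by decide +kernel
theorem idx_J : ∀ x ∈ J, x ∉ Z2 → ∀ u ∈ J, u ∉ Z2 → x⁻¹ * u ∈ Z2 := by decide +kernel
theorem idx_E : ∀ i, ∀ x ∈ E i, x ∉ J → ∀ u ∈ E i, u ∉ J → x⁻¹ * u ∈ J := by decide +kernel
theorem idx_S : ∀ i x, x ∉ E i → ∀ u, u ∉ E i → x⁻¹ * u ∈ E i := by decide +kernel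
theorem les : ∀ i x, (x ∈ Z → x ∈ C i) ∧ (x ∈ C i → x ∈ Z2) ∧ (x ∈ Z2 → x ∈ J) ∧ (x ∈ J → x ∈ E i) ∧
    (x ∈ A i → x ∈ Q ∧ x ∈ E i) := by decide +kernel

end Cfsg.Agent.Fu.P
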