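import Cfsg.Agent.Fu.P1
import Cfsg.Agent.Rf.B2

/-! S5210, `q = 2`: fusion systems on the model. -/

set_option autoImplicit false
set_option linter.unusedSimpArgs false

open Equiv

namespace Cfsg.Agent.Fu.P
open Cfsg.Fus Cfsg.FusionSystem

abbrev FS : Type := FusionSystem (⊤ : Subgroup M6)

variable {F G : FS} {f g : M6 → M6} {σ τ α : Perm M6} {i j k : Fin 3} {e e' : Bool}

/-- `f` induces an `F`-automorphism of `J`. -/
def Gf (F : FS) (f : M6 → M6) : Prop := F.IsMap J f ∧ ∀ x ∈ J, f x ∈ J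

theorem Gf.comp (hf : Gf F f) (hg : Gf F g) : Gf F (f ∘ g) :=
  ⟨hg.1.comp hf.1 hg.2, fun x hx => hf.2 _ (hg.2 x hx)⟩
theorem Gf.congr (hf : Gf F f) (h : ∀ x ∈ J, g x = f x) : Gf F g :=
  ⟨hf.1.congr h, fun x hx => h x hx ▸ hf.2 x hx⟩
theorem gf_cf (F : FS) (u : M6) : Gf F (cf u) := ⟨F.isMap_cj le_top trivial, fun x hx => cf_J x hx u⟩
theorem gf_iso (h : F.Iso J J σ) : Gf F σ := ⟨h.isMap, fun _ hx => h.mem hx⟩
theorem Gf.iso (hf : Gf F f) : ∃ σ, F.Iso J J σ ∧ ∀ x ∈ J, σ x = f x := by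
  obtain ⟨σ, h1, h2⟩ := hf.1.exists_perm
  exact ⟨σ, h1.iso_self fun x hx => h2 x hx ▸ hf.2 x hx, h2⟩

theorem nJ (u : M6) : u ∈ Subgroup.normalizer (J : Set M6) :=
  mem_normalizer_of_finite fun x hx => cf_J x hx u

theorem fnJ (F : FS) : F.IsFullyNormalized J := F.isFullyNormalized_of_le_normalizer le_top fun u _ => nJ u

def ch (i : Fin 3) : ℕ → Subgroup M6
  | 0 => ⊥
  | 1 => Z
  | 2 => C i
  | 3 => Z2
  | 4 => J
  | 5 => E i
  | _ + 6 => ⊤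

theorem ch_mono (i : Fin 3) : ∀ n < 6, ch i n ≤ ch i (n + 1) := fun n hn => by
  interval_cases n
  exacts [bot_le, fun x => (les i x).1, fun x => (les i x).2.1, fun x => (les i x).2.2.1,
    fun x => (les i x).2.2.2.1, le_top]

theorem ch_cj (i : Fin 3) (u : M6) : ∀ n < 6, ∀ x ∈ ch i (n + 1), x⁻¹ * (u * x * u⁻¹) ∈ ch i n :=
  fun n hn x hx => by
  interval_cases n
  · exact Subgroup.mem_bot.2 (inv_mul_eq_one.2 (cf_Z x hx u).symm)
  · exact cm_Z x ((les i x).2.1 hx) u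
  · exact (les i _).1 (cm_Z x hx u)
  · exact cm_Z2 u x
  · exact (les i _).2.2.1 (cm_Z2 u x)
  · exact (les i _).2.2.2.1 ((les i _).2.2.1 (cm_Z2 u x))

theorem Gf.inT (hF : F.IsSaturated 2) (hf : Gf F f) (h : ChT i f) : InT f := by
  obtain ⟨σ, h1, h2⟩ := hf.iso
  have hJ : ∀ n ≤ 4, ch i n ≤ J := fun n hn => by
    interval_cases n
    exacts [bot_le, fun x h => (les i x).2.2.1 ((les i x).2.1 ((les i x).1 h)),
      fun x h => (les i x).2.2.1 ((les i x).2.1 h), fun x => (les i x).2.2.1, le_rfl]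
  obtain ⟨u, -, -, hu⟩ := mem_innS.1 (H4.Sp.mem_innS_of_chain ((fnJ F).isFullyAutomized hF isP_top)
    isP_top (C := ch i) (n := 4) hJ (fun n hn => ch_mono i n (by omega)) rfl rfl
    (fun u _ _ n hn => ch_cj i u n (by omega)) h1 fun n hn x hx => by
      rw [h2 x (hJ _ hn hx)]
      interval_cases n
      exacts [Subgroup.mem_bot.2 (inv_mul_eq_one.2 (h.2.2.2 x hx).symm), h.2.2.1 x hx, h.2.1 x hx,
        h.1 x hx])
  exact ⟨u.a, u.b, fun x hx => by rw [← h2 x hx, hu x hx, ← cf_ab x hx]; rfl⟩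

theorem Gf.o4 (hF : F.IsSaturated 2) (hf : Gf F f) (h : ∀ x ∈ J, f^[4] x = x) :
    ∀ x ∈ J, f^[2] x = x := by
  obtain ⟨σ, h1, h2⟩ := hf.iso
  have e2 : ∀ x ∈ J, f^[2] x = σ (σ x) := fun x hx => by rw [h2 _ (h1.mem hx), h2 x hx]; rfl
  obtain ⟨χ, c1, c2⟩ := ((fnJ F).isFullyAutomized hF isP_top).exists_conj_elt h1 (k := 2)
    fun x hx => by
      have := h x hx
      rw [show f^[4] x = f^[2] (f^[2] x) from rfl, e2 x hx, e2 _ (h1.mem (h1.mem hx))] at this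
      simpa only [pow_succ, pow_zero, one_mul, Perm.mul_apply, Nat.reduceMul] using this
  obtain ⟨u, -, -, hu⟩ := mem_innS.1 c2
  intro x hx
  have k : ∀ y ∈ J, χ (σ y) = cf (xab u.a u.b) (χ y) := fun y hy => by
    rw [← cf_ab _ (c1.mem hy), cf, ← hu _ (c1.mem hy)]; simp
  rw [e2 x hx, ← χ.apply_eq_iff_eq, k _ (h1.mem hx), k x hx, cf_cf _ _ _ (c1.mem hx)]

theorem conflict (hF : F.IsSaturated 2) (h1 : Gf F (w i e)) (h2 : Gf F (w j e')) (h : i = j ↔ e ≠ e') :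
    False := by
  obtain ⟨a, b, k1, k2⟩ := chk3 i j e e' h
  exact k2 ((h1.comp (h2.comp (gf_cf F _))).o4 hF k1)

/-- `f` commutes with `x_i` on `J`. -/
def Cm (i : Fin 3) (f : M6 → M6) : Prop := ∀ x ∈ J, f (cf (xg i) x) = cf (xg i) (f x)

theorem eq_J : ∀ i, eq i ∈ J := by decide

theorem Gf.lin (hf : Gf F f) (h : Cm i f) : ∀ x ∈ J, Lf i (f ey) (f (eq i)) x = f x := fun x hx => by
  have hh := hf.1.homOn
  have m1 : ey ∈ J := by decide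
  have m2 := eq_J i
  have hb : ∀ u ∈ J, bt i u ∈ J ∧ f (bt i u) = bt i (f u) := fun u hu =>
    ⟨J.mul_mem (J.inv_mem hu) (cf_J u hu _), by
      rw [bt, bt, hh (J.inv_mem hu) (cf_J u hu _), hh.map_inv hu, h u hu]⟩
  have hp : ∀ u ∈ J, ∀ k, pw u k ∈ J ∧ f (pw u k) = pw (f u) k := fun u hu k => by
    unfold pw; split_ifs
    exacts [⟨J.one_mem, hh.map_one⟩, ⟨hu, rfl⟩]
  conv_rhs => rw [← Lf_self i x hx]
  rw [Lf, Lf, hh (J.mul_mem (J.mul_mem (hp _ m1 _).1 (hp _ m2 _).1) (hp _ (hb _ m1).1 _).1)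
    (hp _ (hb _ m2).1 _).1, hh (J.mul_mem (hp _ m1 _).1 (hp _ m2 _).1) (hp _ (hb _ m1).1 _).1,
    hh (hp _ m1 _).1 (hp _ m2 _).1, (hp _ m1 _).2, (hp _ m2 _).2, (hp _ (hb _ m1).1 _).2,
    (hp _ (hb _ m2).1 _).2, (hb _ m1).2, (hb _ m2).2]

theorem Gf.cases (hF : F.IsSaturated 2) (hf : Gf F f) (h : Cm i f) : (Pres f ∧ InT f) ∨
    ∃ e a b a' b', ∀ x ∈ J, w i e x = cf (xab a b) (f (cf (xab a' b') x)) := by
  have hl := hf.lin h
  have hg := hf.congr hl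
  have m1 : f ey ∈ J := hf.2 _ (by decide)
  have m2 : f (eq i) ∈ J := hf.2 _ (eq_J i)
  have hi : ∀ x ∈ J, Lf i (f ey) (f (eq i)) x = 1 → x = 1 := fun x hx e =>
    hg.1.injOn hx J.one_mem (e.trans hg.1.homOn.map_one.symm)
  by_cases hp : Pres (Lf i (f ey) (f (eq i)))
  · obtain ⟨a, b, k⟩ := hg.inT hF (chk1 i _ m1 _ m2 hi hp)
    exact .inl ⟨fun x hx => hl x ((les i x).2.2.1 hx) ▸ hp x hx, a, b, fun x hx => hl x hx ▸ k x hx⟩
  have hx := hg.comp (gf_cf F (xg (i + 1)))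
  obtain ⟨e, a, b, a', b', k⟩ := chk2 i _ m1 _ m2 hi hp ((hg.comp hg).inT hF)
    ((hg.comp (hg.comp hg)).inT hF) ((hx.comp hx).inT hF) ((hx.comp (hx.comp hx)).inT hF)
  exact .inr ⟨e, a, b, a', b', fun x hx => by rw [k x hx, hl _ (cf_J x hx _)]⟩

theorem Gf.ex (hF : F.IsSaturated 2) (hf : Gf F f) (h : Cm i f) : (Pres f ∧ InT f) ∨
    ∃ e, Gf F (w i e) := (hf.cases hF h).imp_right fun ⟨e, _, _, _, _, k⟩ =>
  ⟨e, ((gf_cf F _).comp (hf.comp (gf_cf F _))).congr k⟩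

theorem Gf.to (hF : F.IsSaturated 2) (hf : Gf F f) (h : Cm i f) (h1 : Gf F (w i e)) (h2 : Gf G (w i e)) :
    Gf G f := by
  rcases hf.cases hF h with ⟨-, a, b, k⟩ | ⟨e', a, b, a', b', k⟩
  · exact (gf_cf G _).congr k
  obtain rfl : e = e' := by_contra fun hne => conflict hF h1
    (((gf_cf F _).comp (hf.comp (gf_cf F _))).congr k) ⟨fun _ => hne, fun _ => rfl⟩
  refine ((gf_cf G (xab a b)).comp (h2.comp (gf_cf G (xab a' b')))).congr fun x hx => ?_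
  simp only [Function.comp]
  rw [k _ (cf_J x hx _), cf_cf _ _ x hx, cf_cf _ _ _ (hf.2 x hx)]

theorem transfer (hF : F.IsSaturated 2) (hσ : F.Iso J J σ)
    (h : ∀ x ∈ J, σ (cf (xg i) x) = cf (xg j) (σ x)) (h1 : Gf F (w i e)) : ∃ e', Gf F (w j e') := by
  have k : ∀ f, Gf F f → Cm i f → (∃ a b, ∀ x ∈ J, σ (f x) = cf (xab a b) (σ x)) ∨ ∃ e', Gf F (w j e') :=
    fun f hf hc => ((((gf_iso hσ).comp (hf.comp (gf_iso hσ.symm))).ex hF (i := j) fun x hx => by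
      obtain ⟨x, hx', rfl⟩ := hσ.exists_eq hx
      simp only [Function.comp]
      rw [← h x hx', perm_inv_apply_self, perm_inv_apply_self, hc x hx', h _ (hf.2 x hx')])).imp_left
      fun ⟨_, a, b, k⟩ => ⟨a, b, fun x hx => by simpa using k _ (hσ.mem hx)⟩
  rcases k _ h1 (w_comm i e) with ⟨a, b, k1⟩ | k1
  swap; · exact k1
  rcases k _ ((gf_cf F (xg (i + 1))).comp (h1.comp (gf_cf F (xg (i + 1))))) (fun x hx => by
    simp only [Function.comp]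
    rw [xg_cf _ _ x hx, w_comm i e _ (cf_J x hx _), xg_cf _ _ _ (w_J ..)]) with ⟨a', b', k2⟩ | k2
  swap; · exact k2
  refine (w_nc i e fun x hx => σ.injective ?_).elim
  have k3 := k2 x hx
  have k4 := k2 _ (w_J i e x)
  simp only [Function.comp] at k3 k4
  rw [k1 _ (cf_J _ (w_J ..) _), k3, k4, k1 x hx, cf_comm _ _ _ _ _ (hσ.mem hx)]

theorem fin3 : ∀ i : Fin 3, i ≠ i + 1 ∧ i ≠ i + 2 ∧ i + 1 ≠ i + 2 := by decide

theorem three (hF : F.IsSaturated 2) {e1 e2 e3 : Bool} (h1 : Gf F (w i e1)) (h2 : Gf F (w j e2))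
    (h3 : Gf F (w k e3)) (a : i ≠ j) (b : i ≠ k) (c : j ≠ k) : False := by
  have k1 : e1 ≠ e2 := fun h => conflict hF h1 h2 (by simp [a, h])
  have k2 : e1 ≠ e3 := fun h => conflict hF h1 h3 (by simp [b, h])
  have k3 : e2 ≠ e3 := fun h => conflict hF h2 h3 (by simp [c, h])
  revert k1 k2 k3; cases e1 <;> cases e2 <;> cases e3 <;> simp

theorem not_ess_J (hF : F.IsSaturated 2) (h1 : Gf F (w i e)) : ¬ F.IsEssential 2 J := fun hE => by
  obtain ⟨Y, hY, hS⟩ := hE.exists_strEmb isP_top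
  obtain ⟨τ, hτ, hn⟩ := SetLike.exists_of_lt (hY.le.lt_of_ne hY.ne)
  have hτ := (mem_stab le_top).1 hτ
  have ic := fun u => F.iso_cj le_top (Subgroup.mem_top u) (nJ u)
  have m : ∀ j, cj (xg j) ∈ Y ∧ cj (xg j) ∉ innS J J ∧ cj (xg j) * cj (xg j) = 1 := fun j =>
    ⟨hS (cj_mem_innS trivial (nJ _)), fun h => (xg_E j).2 (hE.isCentric.mem_of_cj_mem_innS trivial h),
      by rw [← map_mul, xg_sq, map_one]⟩
  have key : ∀ j, ∃ e', Gf F (w j e') := fun j => by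
    have r2 : τ * cj (xg i) * τ⁻¹ * (τ * cj (xg i) * τ⁻¹) = 1 := by
      rw [show τ * cj (xg i) * τ⁻¹ * (τ * cj (xg i) * τ⁻¹) = τ * (cj (xg i) * cj (xg i)) * τ⁻¹ by group,
        (m i).2.2]; group
    have ir := hτ.conj (ic (xg i))
    obtain ⟨n, ⟨l, rfl⟩, hn'⟩ := Rf.odd_mul hY (F.finMod_innS le_top) (m j).1 (m j).2.1
      ((m j).2.2 ▸ one_mem _) ir.mem_stab (fun h => hn (hY.mem _ (m i).1 (m i).2.1
        ⟨1, by rw [pow_one, pow_two, (m i).2.2]; exact one_mem _⟩ τ hτ.mem_stab h)) (r2 ▸ one_mem _)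
    obtain ⟨u, hu, hu'⟩ := mem_innS_self.1 hn'
    have ic2 := (ir.trans (ic (xg j))).pow (l + 1)
    have a2 := (m j).2.2
    generalize ha : cj (xg j) = a at *
    generalize hr : τ * cj (xg i) * τ⁻¹ = r at *
    have d1 : a * (a * r) * a⁻¹ = (a * r)⁻¹ := by
      rw [← mul_assoc, a2, one_mul, mul_inv_rev, inv_eq_of_mul_eq_one_right r2]
    have d2 : a * (a * r) ^ (l + 1) = (a * r) ^ (l + 1) * (r * (a * r) ^ (2 * l + 1)) := by
      have d3 : a * (a * r) ^ (l + 1) * a⁻¹ = ((a * r) ^ (l + 1))⁻¹ := by rw [← conj_pow, d1, inv_pow]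
      have d4 : r = a * (a * r) := by rw [← mul_assoc, a2, one_mul]
      have d5 : (a * r) ^ (l + 1) * (a * r) ^ (l + 1) = a * r * (a * r) ^ (2 * l + 1) := by
        rw [← pow_add, ← pow_succ']; congr 1; ring
      generalize (a * r) ^ (l + 1) = c at *
      calc a * c = c * (c⁻¹ * a * c) := by group
        _ = c * (a * (c * c)) := by rw [← d3]; group
        _ = _ := by rw [d5, ← mul_assoc a, ← d4]
    refine transfer hF (hτ.trans ic2) (fun x hx => ?_) h1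
    have := congrArg (fun ρ : Perm M6 => ρ (τ x)) d2
    simp only [Perm.mul_apply] at this
    rw [hu' _ (hτ.mem hx), J_comm u hu _ (hτ.mem hx), mul_inv_cancel_right, ← ha, ← hr] at this
    rw [Perm.mul_apply, Perm.mul_apply, ← ha, ← hr]
    simpa [cf, cj_apply] using this.symm
  obtain ⟨e1, k1⟩ := key (i + 1)
  obtain ⟨e2, k2⟩ := key (i + 2)
  exact three hF h1 k1 k2 (fin3 i).1 (fin3 i).2.1 (fin3 i).2.2

theorem aut_keep (h : F.Iso ⊤ ⊤ α) : (∀ x ∈ Z, α x ∈ Z) ∧ (∀ x ∈ Z2, α x ∈ Z2) ∧ ∀ x ∈ J, α x ∈ J := by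
  have k : ∀ {α}, F.Iso ⊤ ⊤ α → (∀ x ∈ Z, α x ∈ Z) ∧ ∀ x ∈ Z2, α x ∈ Z2 := fun {α} h => by
    have h1 : ∀ x ∈ Z, α x ∈ Z := fun x hx => (mem_Z _).2 fun u => by
      obtain ⟨u, rfl⟩ := α.surjective u
      rw [← h.homOn trivial trivial, ← h.homOn trivial trivial, (mem_Z x).1 hx]
    refine ⟨h1, fun x hx => (mem_Z2 _).2 fun u => ?_⟩
    obtain ⟨u, rfl⟩ := α.surjective u
    rw [cf, ← h.homOn.map_conj trivial trivial, ← h.homOn.map_inv trivial, ← h.homOn trivial trivial]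
    exact h1 _ ((mem_Z2 x).1 hx u)
  refine ⟨(k h).1, (k h).2, fun x hx => (mem_J _).2 fun u hu => ?_⟩
  have := congrArg α ((mem_J x).1 hx _ ((k h.symm).2 u hu))
  rwa [h.homOn trivial trivial, h.homOn trivial trivial, perm_apply_inv_self] at this

theorem step {A B : Subgroup M6} (hA : ∀ x ∈ A, α x ∈ A) (hB : ∀ x ∈ B, α x ∈ B)
    (h : ∀ x ∈ B, x ∉ A → ∀ u ∈ B, u ∉ A → x⁻¹ * u ∈ A) : ∀ x ∈ B, x⁻¹ * α x ∈ A := fun x hx => by
  by_cases ha : x ∈ A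
  exacts [A.mul_mem (A.inv_mem ha) (hA x ha),
    h x hx ha _ (hB x hx) fun hc => ha ((mem_setStab_of_finite hA x).1 hc)]

/-- a `J`-preserving automorphism of `E i` -/
theorem keepC {P : Subgroup M6} (hP : E i ≤ P) (h : F.Iso P P σ) (hJ : ∀ x ∈ J, σ x ∈ J)
    (hx : σ (xg i) ∈ E j) : σ (xg i) ∉ J ∧ (∀ x ∈ J, σ (cf (xg i) x) = cf (xg j) (σ x)) ∧
      ∀ x ∈ C i, σ x ∈ C j := by
  have JP : J ≤ P := fun x hx => hP ((les i x).2.2.2.1 hx)
  have n : σ (xg i) ∉ J := fun hc => (xg_E i).2 ((mem_setStab_of_finite hJ _).1 hc)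
  refine ⟨n, fun x hx' => ?_, fun x hx' => ?_⟩
  · rw [← cf_E j _ hx n _ (hJ x hx'), cf, cf, h.homOn.map_conj (hP (xg_E i).1) (JP hx')]
  · have m := (les i x).2.2.1 ((les i x).2.1 hx')
    rw [mem_C j _ hx n _ (hJ x m), ← h.homOn (hP (xg_E i).1) (JP m), ← h.homOn (JP m) (hP (xg_E i).1),
      (mem_C i _ (xg_E i).1 (xg_E i).2 x m).1 hx']

theorem isoJ {P : Subgroup M6} (hP : J ≤ P) (h : F.Iso P P σ) (hJ : ∀ x ∈ J, σ x ∈ J) : F.Iso J J σ :=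
  (h.isMap.mono hP).iso_self hJ

theorem inner (hF : F.IsSaturated 2)
    (hk : ∀ j, ((∃ e, Gf F (w j e)) ↔ ∃ e, Gf F (w k e)) → j = k) (h : F.Iso ⊤ ⊤ α) :
    ∃ u, ∀ x, α x = u * x * u⁻¹ := by
  obtain ⟨k1, k2, k3⟩ := aut_keep h
  obtain ⟨j, hj⟩ := ex_E (α (xg k))
  obtain ⟨n, c1, c2⟩ := keepC le_top h k3 hj
  have iJ := isoJ le_top h k3
  obtain rfl : j = k := hk j ⟨fun ⟨_, a⟩ => transfer hF iJ.symm (fun x hx => by
    obtain ⟨x, hx', rfl⟩ := iJ.exists_eq hx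
    rw [← c1 x hx', perm_inv_apply_self, perm_inv_apply_self]) a, fun ⟨_, a⟩ => transfer hF iJ c1 a⟩
  have k4 : ∀ x ∈ E j, α x ∈ E j := fun x hx => by
    by_cases m : x ∈ J
    · exact (les j _).2.2.2.1 (k3 x m)
    rw [← mul_inv_cancel_left (xg j) x, h.homOn trivial trivial]
    exact mul_mem hj ((les j _).2.2.2.1 (k3 _ (idx_E j _ (xg_E j).1 (xg_E j).2 x hx m)))
  obtain ⟨u, -, -, hu⟩ := mem_innS.1 (H4.Sp.mem_innS_of_chain (hF.isFullyAutomized_top isP_top)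
    isP_top (C := ch j) (n := 6) (fun _ _ => le_top) (ch_mono j) rfl rfl
    (fun u _ _ => ch_cj j u) h fun n hn => by
      interval_cases n
      exacts [step (fun x hx => by rw [Subgroup.mem_bot.1 hx, h.homOn.map_one]; exact one_mem _) k1
          fun x a b u c d => idx_Z x a b u c d,
        step k1 c2 (idx_C j), step c2 k2 (idx_Z2 j), step k2 k3 idx_J, step k3 k4 (idx_E j),
        step k4 (fun _ _ => trivial) fun x _ a u _ b => idx_S j x a u b])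
  exact ⟨u, fun x => hu x trivial⟩

theorem ext_E (hG : G.IsSaturated 2) (h : F.Iso (E i) (E i) σ) (hJ : ∀ x ∈ J, σ x ∈ J) (hσ : Gf G σ) :
    G.IsMap (E i) σ := by
  have JE : J ≤ E i := fun x => (les i x).2.2.2.1
  have iJ := hσ.1.iso_self hJ
  obtain ⟨τ, t1, t2⟩ := ((fnJ G).isReceptive hG isP_top).exists_ext_of_le iJ (T := E i)
    (fun u _ => ⟨trivial, nJ u⟩) fun u hu => mem_innS.2 ⟨σ u, trivial, nJ _, fun x hx => by
      rw [Perm.mul_apply, Perm.mul_apply, cj_apply, h.homOn.map_conj hu (JE (iJ.inv_mem hx)),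
        perm_apply_inv_self]⟩
  rw [sup_eq_right.2 JE] at t1
  have m := (xg_E i).1
  obtain ⟨u, hu, e⟩ := h1_triv (τ (xg i)) (σ (xg i)) ((mem_J _).2 fun v hv => by
      obtain ⟨x, hx, rfl⟩ := iJ.exists_eq ((les i v).2.2.1 hv)
      have := t2 _ (cf_J x hx (xg i))
      rw [cf, t1.homOn.map_conj m (JE hx), h.homOn.map_conj m (JE hx), t2 x hx] at this
      calc σ x * ((τ (xg i))⁻¹ * σ (xg i)) = (τ (xg i))⁻¹ * (τ (xg i) * σ x * (τ (xg i))⁻¹) * σ (xg i) := by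
            group
        _ = _ := by rw [this]; group)
    (keepC le_rfl h hJ (h.mem m)).1 (by rw [← t1.homOn m m, xg_sq, t1.homOn.map_one])
    (by rw [← h.homOn m m, xg_sq, h.homOn.map_one])
  have k : ∀ x ∈ J, σ x = u * τ x * u⁻¹ := fun x hx => by
    rw [t2 x hx, J_comm u hu _ (hJ x hx), mul_inv_cancel_right]
  refine (t1.comp (G.isMap_cj le_rfl (Subgroup.mem_top u)) fun _ _ => trivial).congr fun x hx => ?_
  show _ = u * τ x * u⁻¹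
  by_cases n : x ∈ J
  · exact k x n
  have n2 := idx_E i _ m (xg_E i).2 x hx n
  rw [← mul_inv_cancel_left (xg i) x, h.homOn m (JE n2), t1.homOn m (JE n2), k _ n2, ← e, cf]
  group

/-- What is known about essential subgroups. -/
def HE : Prop := ∀ F : FS, F.IsSaturated 2 → ∀ P, F.IsEssential 2 P →
  (P = Q ∧ F.IsMap Q wQ ∧ ∀ τ, F.Iso Q Q τ → ∃ α, F.Iso ⊤ ⊤ α ∧
    ((∀ x ∈ Q, τ x = α x) ∨ ∃ u, ∀ x ∈ Q, wQ (u * τ x * u⁻¹) = α x)) ∨ P = J ∨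
  ∃ i, P = E i ∧ (∀ τ, F.Iso P P τ → ∀ x ∈ J, τ x ∈ J) ∧ ∃ τ, F.Iso P P τ ∧ ∃ x ∈ Z2, τ x ∉ Z2

theorem ex_w (hF : F.IsSaturated 2) (h1 : ∀ τ, F.Iso (E i) (E i) τ → ∀ x ∈ J, τ x ∈ J)
    (h2 : ∃ τ, F.Iso (E i) (E i) τ ∧ ∃ x ∈ Z2, τ x ∉ Z2) : ∃ e, Gf F (w i e) := by
  obtain ⟨τ, a, x, b, c⟩ := h2
  exact ((gf_iso (isoJ (fun x => (les i x).2.2.2.1) a (h1 τ a))).ex hF
    (keepC le_rfl a (h1 τ a) (a.mem (xg_E i).1)).2.1).resolve_left fun h => c (h.1 x b)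

theorem le2 (H : HE) (hF : F.IsSaturated 2) (hG : G.IsSaturated 2) (hij : i ≠ j) (a1 : Gf F (w i e))
    (a2 : Gf F (w j e')) (b1 : Gf G (w i e)) (b2 : Gf G (w j e')) (b3 : G.IsMap Q wQ) : F ≤ G := by
  obtain ⟨k, k1, k2, k3⟩ : ∃ k, i ≠ k ∧ j ≠ k ∧ ∀ l, l = i ∨ l = j ∨ l = k := by
    clear a1 a2 b1 b2; revert i j; decide
  have nk : ¬ ∃ e, Gf F (w k e) := fun ⟨_, h⟩ => three hF a1 a2 h hij k1 k2
  have inn := fun α => inner hF (k := k) (α := α) fun l hl => by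
    rcases k3 l with rfl | rfl | rfl
    exacts [(nk (hl.1 ⟨_, a1⟩)).elim, (nk (hl.1 ⟨_, a2⟩)).elim, rfl]
  refine hF.le_of_essential isP_top fun P σ hP hσ => ?_
  rcases hP with rfl | hP
  · obtain ⟨u, hu⟩ := inn σ hσ
    exact (G.isMap_cj le_rfl (Subgroup.mem_top u)).congr fun x _ => hu x
  rcases H F hF P hP with ⟨rfl, -, h⟩ | rfl | ⟨l, rfl, h1, h2⟩
  · obtain ⟨α, c1, c2⟩ := h σ hσ
    obtain ⟨u, hu⟩ := inn α c1
    rcases c2 with c2 | ⟨v, c2⟩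
    · exact (G.isMap_cj le_top (Subgroup.mem_top u)).congr fun x hx => (c2 x hx).trans (hu x)
    refine (((G.isMap_cj le_top (Subgroup.mem_top u)).comp b3 fun x hx => cf_Q x hx u).comp
      (G.isMap_cj le_rfl (Subgroup.mem_top v⁻¹)) fun _ _ => trivial).congr fun x hx => ?_
    simp only [Function.comp, cj_apply]
    rw [← hu, ← c2 x hx, wQ_wQ (v * σ x * v⁻¹) (cf_Q _ (hσ.mem hx) v)]
    group
  · exact (not_ess_J hF a1 hP).elim
  have c := gf_iso (isoJ (fun x => (les l x).2.2.2.1) hσ (h1 σ hσ))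
  have d := (keepC le_rfl hσ (h1 σ hσ) (hσ.mem (xg_E l).1)).2.1
  rcases k3 l with rfl | rfl | rfl
  exacts [ext_E hG hσ (h1 σ hσ) (c.to hF d a1 b1), ext_E hG hσ (h1 σ hσ) (c.to hF d a2 b2),
    (nk (ex_w hF h1 h2)).elim]

theorem two (H : HE) (hF : F.IsSaturated 2) (hc : F.core = ⊥) (hE : F.IsEssential 2 (E i)) :
    F.IsMap Q wQ ∧ ∃ j e e', i ≠ j ∧ e ≠ e' ∧ Gf F (w i e) ∧ Gf F (w j e') := by
  have nn : ∀ {A : Subgroup M6} {x : M6}, x ∈ A → x ≠ 1 → ¬ F.IsNormal A := fun hx h1 h =>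
    h1 (Subgroup.mem_bot.1 (hc ▸ h.le_core hx))
  have ne : ∀ l, E l ≠ Q ∧ E l ≠ J ∧ ∀ l', E l = E l' → l = l' := fun l =>
    ⟨fun h => absurd (h ▸ (les l ey).2.2.2.1 (by decide) : ey ∈ Q) (by decide),
      fun h => (xg_E l).2 (h ▸ (xg_E l).1), fun l' h => by
        have := h ▸ (xg_E l).1
        revert this; clear h; revert l l'; decide⟩
  obtain ⟨e, a1⟩ : ∃ e, Gf F (w i e) := by
    rcases H F hF _ hE with ⟨h, -⟩ | h | ⟨l, h, h1, h2⟩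
    exacts [((ne i).1 h).elim, ((ne i).2.1 h).elim, ex_w hF h1 h2]
  have hQ : F.IsMap Q wQ := by
    by_contra hQ
    refine nn (show ey ∈ J by decide) (by decide) (hF.isNormal_of_essential isP_top fun R hR => ?_)
    rcases hR with rfl | hR
    · exact ⟨le_top, fun τ hτ => (aut_keep hτ).2.2⟩
    rcases H F hF R hR with ⟨-, h, -⟩ | rfl | ⟨l, rfl, h1, -⟩
    exacts [(hQ h).elim, ⟨le_rfl, fun τ hτ x hx => hτ.mem hx⟩, ⟨fun x => (les l x).2.2.2.1, h1⟩]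
  refine ⟨hQ, by_contra fun hn => ?_⟩
  have u1 : ∀ j, (∃ e, Gf F (w j e)) → j = i := fun j ⟨e', h⟩ => by_contra fun hji =>
    hn ⟨j, e, e', Ne.symm hji, fun he => conflict hF a1 h (by simp [he, Ne.symm hji]), a1, h⟩
  have inn := fun α => inner hF (k := i) (α := α) fun l hl => u1 l (hl.2 ⟨e, a1⟩)
  refine nn (show xg i ∈ A i by clear * -; revert i; decide) (fun h => (xg_E i).2 (h ▸ J.one_mem))
    (hF.isNormal_of_essential isP_top fun R hR => ?_)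
  rcases hR with rfl | hR
  · refine ⟨le_top, fun τ hτ x hx => ?_⟩
    obtain ⟨u, hu⟩ := inn τ hτ
    exact hu x ▸ cf_A i x hx u
  rcases H F hF R hR with ⟨rfl, -, h⟩ | rfl | ⟨l, rfl, h1, h2⟩
  · refine ⟨fun x hx => ((les i x).2.2.2.2 hx).1, fun τ hτ x hx => ?_⟩
    have m := ((les i x).2.2.2.2 hx).1
    obtain ⟨α, c1, c2⟩ := h τ hτ
    obtain ⟨u, hu⟩ := inn α c1
    have m2 : α x ∈ A i := hu x ▸ cf_A i x hx u
    rcases c2 with c2 | ⟨v, c2⟩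
    · exact c2 x m ▸ m2
    have := cf_A i _ (wQ_A i _ m2) v⁻¹
    rw [← c2 x m, wQ_wQ (v * τ x * v⁻¹) (cf_Q _ (hτ.mem m) v)] at this
    simpa [cf, mul_assoc] using this
  · exact (not_ess_J hF a1 hR).elim
  obtain rfl := u1 l (ex_w hF h1 h2)
  refine ⟨fun x hx => ((les l x).2.2.2.2 hx).2, fun τ hτ x hx => (mem_A l _).2 ?_⟩
  rcases (mem_A l x).1 hx with c | ⟨c1, c2, c3⟩
  · exact .inl ((keepC le_rfl hτ (h1 τ hτ) (hτ.mem (xg_E l).1)).2.2 x c)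
  · exact .inr ⟨hτ.mem c1, fun h => c2 ((mem_setStab_of_finite (h1 τ hτ) x).1 h), by
      rw [← hτ.homOn c1 c1, c3, hτ.homOn.map_one]⟩

end Cfsg.Agent.Fu.P
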