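import Cfsg.Agent.Fu.P2

/-! S5210, `q = 2`: the fusion system of `GL₄(2)`. -/

set_option autoImplicit false
set_option linter.unusedSimpArgs false
set_option synthInstance.maxSize 4096
set_option synthInstance.maxHeartbeats 400000

open Equiv

namespace Cfsg.Agent.Fu.P
open Cfsg.Fus Cfsg.FusionSystem

theorem fus {U G : Type} [Group U] [Group G] [Finite G] {p : ℕ} [Fact p.Prime] (e : U →* G)
    (he : Function.Injective e) (hU : IsPGroup p U) (hi : ¬ p ∣ e.range.index) :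
    ∃ F : FusionSystem (⊤ : Subgroup U), F.IsSaturated p ∧ F.IsRealizable p ∧
      ∀ P f g, (∀ x ∈ P, e (f x) * g = g * e x) → F.IsMap P f := by
  let ι : (⊤ : Subgroup U) →* G := e.comp (Subgroup.subtype ⊤)
  have hι : ∀ x : U, extFun ι x = e x := fun x => extFun_of_mem ι (Subgroup.mem_top x)
  have hinj : Function.Injective ι := fun a b h => Subtype.ext (he h)
  obtain ⟨θ, t⟩ := L.exists_pIso_of_injective ι hinj
  obtain ⟨F, t'⟩ := t.symm.exists_transp le_rfl (groupFusionSystem ι.range) t.symm.img_self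
  have hG := (L.realized_of_transp t'.symm (ι := ι) fun x => (extFun_coe ι x).symm).1
  have hr : ι.range = e.range := by
    ext y; exact ⟨fun ⟨x, a⟩ => ⟨x, a⟩, fun ⟨x, a⟩ => ⟨⟨x, trivial⟩, a⟩⟩
  have hT : ∃ T : Sylow p G, (T : Subgroup G) = ι.range :=
    ⟨(hU.of_equiv (MonoidHom.ofInjective he)).toSylow hi, hr.symm⟩
  exact ⟨F, L.isSaturated_of_realized hG hT, ⟨G, _, inferInstance, ι, hG, hT⟩, fun P f g h =>
    L.realized_isMap hG le_top (fun _ _ => trivial) (g := g) fun x hx => by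
      rw [hι, hι, eq_mul_inv_iff_mul_eq, h x hx]⟩

abbrev M4 : Type := Matrix (Fin 4) (Fin 4) K2

def mat (x : M6) : M4 := !![1, x.a, x.s, x.z + x.b * x.s + x.s + x.t; 0, 1, x.y, x.t + x.b * x.y;
  0, 0, 1, x.b; 0, 0, 0, 1]

theorem mat_mul (x u : M6) : mat (x * u) = mat x * mat u := by
  ext i j
  fin_cases i <;> fin_cases j <;> simp [mat, Matrix.mul_apply, Fin.sum_univ_four]
  · ring
  · ring
  · linear_combination (x.b * u.s + x.a * u.y + x.b * u.y + x.a * x.b * u.y) * h2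
  · ring
  · linear_combination (x.b * u.y) * h2
  · ring

def ro (x : M6) : M6 := ⟨x.b, x.a + x.b, x.y, x.t, x.s + x.t, x.z⟩
def th (d : K2) (x : M6) : M6 := ⟨x.a, x.b, x.y, x.s, x.t, x.z + d * x.y⟩
def phi (k : Fin 3) (d : K2) (x : M6) : M6 :=
  th d (if k = 0 then x else if k = 1 then ro x else ro (ro x))

theorem ro_mul (x u : M6) : ro (x * u) = ro x * ro u := by
  have h : ∀ b : K2, b * b = b := by decide
  ext <;> simp only [ro, mul_a, mul_b, mul_y, mul_s, mul_t, mul_z]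
  · ring
  · ring
  · linear_combination (-(x.b * u.t) - x.b * u.y) * h2 - u.y * h x.b

theorem phi_mul (k : Fin 3) (d : K2) (x u : M6) : phi k d (x * u) = phi k d x * phi k d u := by
  have h : ∀ x u, th d (x * u) = th d x * th d u := fun x u => by
    ext <;> simp only [th, mul_a, mul_b, mul_y, mul_s, mul_t, mul_z]; ring
  unfold phi; split_ifs <;> simp only [ro_mul, h]

def emb (k : Fin 3) (d : K2) : M6 →* GL (Fin 4) K2 := MonoidHom.toHomUnits
  { toFun := fun x => mat (phi k d x)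
    map_one' := by revert k d; decide +kernel
    map_mul' := fun x u => by rw [phi_mul, mat_mul] }

theorem emb_inj (k : Fin 3) (d : K2) : Function.Injective (emb k d) := by
  have h : ∀ k d x, mat (phi k d x) = 1 → x = 1 := by decide +kernel
  exact (injective_iff_map_eq_one _).2 fun x hx => h k d x (congrArg Units.val hx)

theorem emb_idx (k : Fin 3) (d : K2) : ¬ 2 ∣ (emb k d).range.index := by
  have h := (emb k d).range.card_mul_index
  rw [← Nat.card_congr (MonoidHom.ofInjective (emb_inj k d)).toEquiv, card_M6, Matrix.card_GL_field,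
    ZMod.card] at h
  simp only [Fin.prod_univ_four] at h
  norm_num at h
  omega

def NQ : M4 := !![1, 1, 1, 0; 0, 0, 1, 1; 0, 1, 0, 1; 0, 0, 0, 1]
def NN (k : Fin 3) (i : Fin 3) (e : Bool) : M4 :=
  if k = 0 then
    (if i = 0 then (if e then !![1, 1, 0, 0; 0, 1, 0, 0; 0, 0, 1, 0; 0, 0, 1, 1]
      else !![1, 1, 0, 0; 0, 1, 0, 0; 0, 0, 0, 1; 0, 0, 1, 0])
    else (if e then !![0, 1, 0, 0; 1, 0, 0, 0; 0, 0, 1, 1; 0, 0, 0, 1]
      else !![1, 0, 0, 0; 1, 1, 0, 0; 0, 0, 1, 1; 0, 0, 0, 1]))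
  else if k = 1 then
    (if i = 0 then (if e then !![1, 0, 0, 0; 1, 1, 0, 0; 0, 0, 1, 0; 0, 0, 0, 1]
      else !![0, 1, 0, 0; 1, 0, 0, 0; 0, 0, 1, 0; 0, 0, 0, 1])
    else (if e then !![1, 0, 0, 0; 0, 1, 0, 0; 0, 0, 0, 1; 0, 0, 1, 0]
      else !![1, 1, 0, 0; 0, 1, 0, 0; 0, 0, 0, 1; 0, 0, 1, 0]))
  else
    (if i = 1 then (if e then !![1, 0, 0, 0; 0, 1, 0, 0; 0, 0, 0, 1; 0, 0, 1, 0]
      else !![1, 0, 0, 0; 0, 1, 0, 0; 0, 0, 1, 0; 0, 0, 1, 1])
    else (if e then !![0, 1, 0, 0; 1, 0, 0, 0; 0, 0, 1, 1; 0, 0, 0, 1]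
      else !![0, 1, 0, 0; 1, 0, 0, 0; 0, 0, 1, 0; 0, 0, 0, 1]))

theorem NN_sq : ∀ k i e, NN k i e * NN k i e = 1 := by decide +kernel

theorem chkQ : ∀ k d, ∀ x ∈ Q, mat (phi k d (wQ x)) * NQ = NQ * mat (phi k d x) := by decide +kernel

theorem chkN : ∀ i j e e', i ≠ j → e ≠ e' → ∃ k d,
    (∀ x ∈ J, mat (phi k d (w i e x)) * NN k i e = NN k i e * mat (phi k d x)) ∧
    ∀ x ∈ J, mat (phi k d (w j e' x)) * NN k j e' = NN k j e' * mat (phi k d x) := by decide +kernel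

theorem main (H : HE) {F : FS} (hF : F.IsSaturated 2) (hc : F.core = ⊥) {i : Fin 3}
    (hE : F.IsEssential 2 (E i)) : F.IsRealizable 2 := by
  obtain ⟨hQ, j, e, e', hij, he, a1, a2⟩ := two H hF hc hE
  obtain ⟨k, d, c1, c2⟩ := chkN i j e e' hij he
  obtain ⟨G, g1, g2, g3⟩ := fus (emb k d) (emb_inj k d) isP_M6 (emb_idx k d)
  have b1 : Gf G (w i e) := ⟨g3 _ _ ⟨_, _, NN_sq k i e, NN_sq k i e⟩ fun x hx => Units.ext (c1 x hx),
    fun x _ => w_J i e x⟩
  have b2 : Gf G (w j e') := ⟨g3 _ _ ⟨_, _, NN_sq k j e', NN_sq k j e'⟩ fun x hx => Units.ext (c2 x hx),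
    fun x _ => w_J j e' x⟩
  have nq : NQ * NQ = 1 := by decide +kernel
  have b3 : G.IsMap Q wQ := g3 _ _ ⟨_, _, nq, nq⟩ fun x hx => Units.ext (chkQ k d x hx)
  rwa [eq_of_le_of_ge (le2 H hF g1 hij a1 a2 b1 b2 b3) (le2 H g1 hF hij b1 b2 a1 a2 hQ)]

end Cfsg.Agent.Fu.P
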