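import Cfsg.Agent.Fu.P3
import Cfsg.Agent.Fu.E2
import Cfsg.Agent.Fu.L1c

/-! S5210, `q = 2`: transport to the model. -/

set_option autoImplicit false
set_option linter.unusedSectionVars false
set_option linter.unusedSimpArgs false

open Equiv

namespace Cfsg.Agent.Fu
open Cfsg.Fus Cfsg.FusionSystem Cfsg.Agent.Uf U4

namespace P

theorem tr {U V : Type*} [Group U] [Group V] {e : U ≃* V} {F : FusionSystem (⊤ : Subgroup U)}
    {F' : FusionSystem (⊤ : Subgroup V)} (t : L.Transp ⊤ ⊤ e e.symm F F') {A : Subgroup U}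
    {A' : Subgroup V} (h : ∀ x, e x ∈ A' ↔ x ∈ A) :
    img e A = A' ∧ ∀ f f', F.IsMap A f → (∀ x ∈ A, f' (e x) = e (f x)) → F'.IsMap A' f' := by
  have i : img e A = A' := by
    ext y; rw [t.piso.mem_img le_top]
    exact ⟨fun ⟨x, hx, e⟩ => e ▸ (h x).2 hx, fun hy => ⟨e.symm y, (h _).1 (by simpa using hy), by simp⟩⟩
  exact ⟨i, fun f f' hf k => i ▸ t.map_of_rep hf k⟩

theorem tri {U V : Type*} [Group U] [Group V] [Finite V] {e : U ≃* V} {F : FusionSystem (⊤ : Subgroup U)}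
    {F' : FusionSystem (⊤ : Subgroup V)} (t : L.Transp ⊤ ⊤ e e.symm F F') {A : Subgroup U}
    {A' : Subgroup V} (h : ∀ x, e x ∈ A' ↔ x ∈ A) {σ : Perm U} (hσ : F.Iso A A σ) :
    ∃ σ' : Perm V, F'.Iso A' A' σ' ∧ ∀ x, σ' (e x) = e (σ x) := by
  refine ⟨e.toEquiv.permCongr σ, ((tr t h).2 _ _ hσ.isMap fun x _ => by simp).iso_self fun y hy => ?_,
    fun x => by simp⟩
  obtain ⟨x, rfl⟩ := e.surjective y
  simpa [h] using hσ.mem ((h x).1 hy)

theorem exists_tr {U V : Type*} [Group U] [Group V] (e : U ≃* V) (F : FusionSystem (⊤ : Subgroup U)) :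
    ∃ F' : FusionSystem (⊤ : Subgroup V), L.Transp ⊤ ⊤ e e.symm F F' := by
  have t0 : L.PIso (⊤ : Subgroup U) ⊤ e e.symm :=
    ⟨fun x _ y _ => map_mul e x y, fun _ _ => trivial, fun _ _ => trivial,
      fun x _ => e.symm_apply_apply x, fun x _ => e.apply_symm_apply x⟩
  exact t0.exists_transp le_rfl F t0.img_self

variable {K : Type*} [Field K] [StarRing K] [Finite K] [HF K] [CharP K 2]

theorem exists_e (hq : qq K = 2) : ∃ e : M6 ≃* U4 K, (∀ x, e x ∈ sQ K ↔ x ∈ Q) ∧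
    (∀ x, e x ∈ sJ K ↔ x ∈ J) ∧ (∀ x, e x ∈ sZ2 K ↔ x ∈ Z2) ∧ (∀ x, e (wQ x) = w1 (e x)) ∧
    ∀ t : K, t ≠ 0 → ∃ i, ∀ x, e x ∈ sJx t ↔ x ∈ E i := by
  have t2 : (2 : K) = 0 := CharP.cast_eq_zero K 2
  obtain ⟨ω, hω⟩ := HF.ne (K := K)
  have o1 : star ω = ω + 1 := by
    rcases L1.real_two hq (t := ω + star ω) (by simp [add_comm]) with h | h
    · exact (hω (by linear_combination h - ω * t2)).elim
    · linear_combination h - ω * t2
  have o2 : ω * ω = ω + 1 := by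
    rcases L1.real_two hq (t := ω * star ω) (by simp [mul_comm]) with h | h
    · rcases mul_eq_zero.1 h with h | h
      · exact (hω (by simp [h])).elim
      · exact (hω (by simp [star_eq_zero.1 h])).elim
    · rw [o1] at h; linear_combination h - ω * t2
  let ι : K2 →+* K := ZMod.castHom (dvd_refl 2) K
  have k2 : ∀ a : K2, a = 0 ∨ a = 1 := by decide
  have i1 : ∀ a, star (ι a) = ι a := fun a => by rcases k2 a with rfl | rfl <;> simp
  have i2 : ∀ a, ι a * ι a = ι a := fun a => by rcases k2 a with rfl | rfl <;> simp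
  have i3 : ∀ a, ι a = 0 ↔ a = 0 := fun a => map_eq_zero ι
  have i4 : ∀ a b, ι a + ι b * ω = 0 ↔ a = 0 ∧ b = 0 := fun a b => ⟨fun h => by
    have h1 := congrArg star h
    rw [star_add, star_mul', i1, i1, o1, star_zero] at h1
    have h2 : b = 0 := (i3 b).1 (by linear_combination h1 - h)
    exact ⟨(i3 a).1 (by simpa [h2] using h), h2⟩, fun h => by simp [h.1, h.2]⟩
  let f : M6 →* U4 K := MonoidHom.mk' (fun x => ⟨ι x.a + ι x.b * ω, ι x.y, ι x.s + ι x.t * ω, ι x.z,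
    i1 _, i1 _⟩) fun x u => by
      ext <;> simp only [P.mul_a, P.mul_b, P.mul_y, P.mul_s, P.mul_t, P.mul_z, U4.mul_a, U4.mul_y,
        U4.mul_c, U4.mul_z, map_add, map_mul, star_add, star_mul', i1, o1]
      · ring
      · ring
      · linear_combination (-ι u.y) * i2 x.a - ι u.y * (ω * ω + ω) * i2 x.b -
          (ι u.y * ι x.b + 2 * ι x.b * ι u.t) * o2 -
          (ι x.a * ι u.s + ι x.a * ι u.t * ω + ι x.b * ι u.s * ω + 2 * ι x.b * ι u.t * ω +
            ι x.b * ι u.t + ι x.a * ι x.b * ω * ι u.y + ι x.b * ω * ι u.y) * t2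
  have fi : Function.Injective f := (injective_iff_map_eq_one f).2 fun x hx => by
    have a := (i4 _ _).1 (congrArg U4.a hx)
    have c := (i4 _ _).1 (congrArg U4.c hx)
    exact M6.ext a.1 a.2 ((i3 _).1 (congrArg U4.y hx)) c.1 c.2 ((i3 _).1 (congrArg U4.z hx))
  let e := MulEquiv.ofBijective f (fi.bijective_of_nat_card_le (by rw [card_U4, card_M6, hq]))
  have ea : ∀ x, (e x).a = ι x.a + ι x.b * ω := fun _ => rfl
  refine ⟨e, fun x => i3 _, fun x => i4 _ _, fun x => ((i4 _ _).and (i3 _)).trans and_assoc,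
    fun x => ?_, fun t ht => ?_⟩
  · change f (wQ x) = w1 (f x)
    ext <;> simp only [f, wQ, w1, MonoidHom.mk'_apply, map_add, map_mul, map_zero, star_add, star_mul',
      i1, o1]
    · linear_combination (ι x.a + ι x.b * ω) * t2
    · linear_combination (2 * ι x.b * ι x.t) * o2 + (ι x.a * ι x.s + ι x.a * ι x.t * ω + ι x.b * ι x.s * ω +
        2 * ι x.b * ι x.t * ω + ι x.b * ι x.t + ι x.a * ι x.t + ι x.b * ι x.s) * t2
  · obtain ⟨u, hu⟩ := e.surjective (xa t)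
    have h1 : t = ι u.a + ι u.b * ω := (congrArg U4.a hu).symm
    have h2 : u ∉ J := fun h => ht (h1.trans ((i4 _ _).2 h))
    obtain ⟨i, hi⟩ := ex_E u
    have h3 : ∀ i, ∀ u ∈ E i, u ∉ J → ∀ x : M6, x ∈ E i ↔ ∃ k : K2, x.a + k * u.a = 0 ∧ x.b + k * u.b = 0 := by
      decide +kernel
    refine ⟨i, fun x => ?_⟩
    rw [h3 i u hi h2, mem_sJx, ea, h1]
    refine ⟨fun ⟨n, hn⟩ => ⟨n, (i4 _ _).1 ?_⟩, fun ⟨k, hk⟩ => ⟨k.val, ?_⟩⟩
    · simp only [map_add, map_mul, map_intCast]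
      linear_combination hn + n * (ι u.a + ι u.b * ω) * t2
    · have := (i4 _ _).2 hk
      simp only [map_add, map_mul] at this
      rcases k2 k with rfl | rfl
      · simpa using this
      · simp only [map_one, ZMod.val_one, Nat.cast_one, Int.cast_one] at this ⊢
        linear_combination this - (ι u.a + ι u.b * ω) * t2

theorem he (hq : qq K = 2) : HE := fun F hF R hR => by
  obtain ⟨e, eQ, eJ, eZ, ew, eE⟩ := exists_e hq
  obtain ⟨F', t⟩ := exists_tr e F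
  have s := t.isSaturated hF
  have hE := t.isEssential hR
  have mR : ∀ x, e x ∈ img e R ↔ x ∈ R := fun x => t.piso.apply_mem_img le_top trivial
  have sy : ∀ {A : Subgroup M6} {A' : Subgroup (U4 K)}, (∀ x, e x ∈ A' ↔ x ∈ A) →
      ∀ y, e.symm y ∈ A ↔ y ∈ A' := fun h y => by
    rw [← h, e.apply_symm_apply]
  have t' : L.Transp ⊤ ⊤ e.symm e.symm.symm F' F := t.symm
  rcases ess s hE with h | h | ⟨-, u, hu, h⟩
  · rw [h] at mR hE
    obtain rfl : R = Q := Subgroup.ext fun x => (mR x).symm.trans (eQ x)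
    obtain ⟨l1, l2⟩ := l1two s hq (by
      by_contra hn
      push Not at hn
      exact Es.not_inv s hE (e := xa 1) rfl one_ne_zero hn)
    refine .inl ⟨rfl, (tr t' (sy eQ)).2 _ _ l1 fun x _ => by
      rw [MulEquiv.eq_symm_apply, ew, e.apply_symm_apply], fun τ hτ => ?_⟩
    obtain ⟨τ', a1, a2⟩ := tri t eQ hτ
    have k : ∀ σ, F'.Iso (sQ K) (sQ K) σ → (∀ x ∈ sZ2 K, σ x ∈ sZ2 K) →
        ∃ α, F.Iso ⊤ ⊤ α ∧ ∀ x ∈ Q, e (α x) = σ (e x) := fun σ hσ h => by
      obtain ⟨α, b1, b2⟩ := (ext1 s hσ h).2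
      obtain ⟨α', c1, c2⟩ := tri t' (A' := ⊤) (fun _ => Iff.rfl) b1
      exact ⟨α', c1, fun x hx => by
        rw [← b2 _ ((eQ x).2 hx), ← e.apply_symm_apply (α _), ← c2, e.symm_apply_apply]⟩
    rcases l2 τ' a1 with h | ⟨g, h⟩
    · obtain ⟨α, b1, b2⟩ := k τ' a1 h
      exact ⟨α, b1, .inl fun x hx => e.injective (by rw [b2 x hx, a2])⟩
    obtain ⟨ω, c1, c2⟩ := l1.exists_perm
    have c3 := c1.iso_self fun x hx => by rw [c2 x hx]; rfl
    have c4 := a1.trans (F'.iso_cj le_top (Subgroup.mem_top g) (norm_of_le Z2_Q g))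
    obtain ⟨α, b1, b2⟩ := k _ (c4.trans c3) fun x hx => by
      rw [Perm.mul_apply, c2 _ (c4.mem (Z2_Q hx))]; exact ⟨h x hx, rfl⟩
    refine ⟨α, b1, .inr ⟨e.symm g, fun x hx => e.injective ?_⟩⟩
    rw [b2 x hx, Perm.mul_apply, c2 _ (c4.mem ((eQ x).2 hx)), ew, map_mul, map_mul, map_inv,
      e.apply_symm_apply, ← a2]
    rfl
  · rw [h] at mR
    exact .inr (.inl (Subgroup.ext fun x => (mR x).symm.trans (eJ x)))
  rw [h] at mR hE
  obtain ⟨i, hi⟩ := eE u hu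
  obtain rfl : R = E i := Subgroup.ext fun x => (mR x).symm.trans (hi x)
  have xu : xa u ∈ sJx u := ⟨1, by simp [xa]⟩
  refine .inr (.inr ⟨i, rfl, fun τ hτ x hx => ?_, ?_⟩)
  · obtain ⟨τ', a1, a2⟩ := tri t hi hτ
    rw [← eJ, ← a2]
    exact Es.inv_J (e := xa u) (J_Jx u) hu (fun x ⟨n, hn⟩ => ⟨n, by simp, hn⟩)
      (CharP.cast_eq_zero K 2) τ' a1 _ ((eJ x).2 hx)
  by_contra hn
  push Not at hn
  refine Es.not_inv s hE xu hu fun τ hτ x hx => ?_
  obtain ⟨τ', a1, a2⟩ := tri t' (sy hi) hτ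
  rw [← sy eZ, ← a2]
  exact hn τ' a1 _ ((sy eZ x).2 hx)

end P

variable {K : Type*} [Field K] [StarRing K] [Finite K] [HF K] {p : ℕ} [hp : Fact p.Prime] [CharP K p]
  {F : FusionSystem (⊤ : Subgroup (U4 K))}

theorem real_two (hF : F.IsSaturated p) (h2 : qq K = 2) {t : K} (ht : t ≠ 0)
    (hE : F.IsEssential p (sJx t)) (hc : F.core = ⊥) : F.IsRealizable p := by
  obtain rfl : p = 2 := by
    obtain ⟨n, hn⟩ := exists_qq (K := K) p
    exact ((Nat.Prime.pow_eq_iff Nat.prime_two).1 (hn.symm.trans h2)).1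
  obtain ⟨e, -, -, -, -, eE⟩ := P.exists_e h2
  obtain ⟨i, hi⟩ := eE t ht
  obtain ⟨F', s⟩ := P.exists_tr e.symm F
  have h1 := s.isEssential hE
  rw [(P.tr s (A' := P.E i) fun y => by rw [← hi, e.apply_symm_apply]).1] at h1
  refine s.symm.isRealizable' (P.main (P.he h2) (s.isSaturated hF) ?_ h1)
  rw [← s.img_core, hc, eq_bot_iff]
  intro y hy
  obtain ⟨x, hx, rfl⟩ := (s.piso.mem_img bot_le).1 hy
  rw [Subgroup.mem_bot.1 hx]; exact map_one _

end Cfsg.Agent.Fu
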