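import Cfsg.Agent.Fu.R1
import Cfsg.Agent.U5.R2

/-! Realization of the standard systems over `U4 K`. -/

set_option autoImplicit false
set_option linter.unusedSectionVars false

namespace Cfsg.Agent.Fu

open Matrix Equiv Cfsg.Fus Cfsg.FusionSystem Cfsg.Agent.Uf

universe u

namespace Rz

variable {K : Type u} [Field K] [StarRing K] [Finite K]

/-- `g` is the semilinear map given by `M` and `σ` -/
def Rp (g : Perm (Fin 4 → K)) (M : M4 K) (σ : K ≃+* K) : Prop := ∀ v, g v = M *ᵥ (σ ∘ v)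

theorem Rp.mul {g g' : Perm (Fin 4 → K)} {M M' : M4 K} {σ σ' : K ≃+* K} (h : Rp g M σ) (h' : Rp g' M' σ') :
    Rp (g * g') (M * M'.map σ) (σ'.trans σ) := fun v => by
  rw [Perm.mul_apply, h, h', ← mulVec_mulVec]
  congr 1
  funext i
  exact RingHom.map_mulVec (σ : K →+* K) M' _ i

theorem Rp.uniq {g : Perm (Fin 4 → K)} {M M' : M4 K} {σ σ' : K ≃+* K} (h : Rp g M σ) (h' : Rp g M' σ') : M = M' := by
  have k : ∀ (σ : K ≃+* K) (j : Fin 4), σ ∘ (Pi.single j 1 : Fin 4 → K) = Pi.single j 1 := fun σ j => by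
    funext i
    simp only [Function.comp, Pi.single_apply, apply_ite σ, map_one, map_zero]
  ext i j
  have := congrFun ((h (Pi.single j 1)).symm.trans (h' _)) i
  simpa [k] using this

theorem exists_rp {M : M4 K} (h : M.det ≠ 0) (σ : K ≃+* K) : ∃ g, Rp g M σ :=
  ⟨Equiv.ofBijective (fun v => M *ᵥ (σ ∘ v)) (Finite.injective_iff_bijective.1
    ((mulVec_injective_iff_isUnit.2 ((isUnit_iff_isUnit_det M).2 h.isUnit)).comp σ.injective.comp_left)), fun _ => rfl⟩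

def emb : U4 K →* Perm (Fin 4 → K) := MonoidHom.toHomPerm
  { toFun x := fun v => mat x *ᵥ v
    map_one' := funext fun v => by rw [mat_one, one_mulVec]; rfl
    map_mul' x y := funext fun v => by rw [mat_mul, ← mulVec_mulVec]; rfl }

theorem rp_emb (x : U4 K) : Rp (emb x) (mat x) (RingEquiv.refl K) := fun _ => rfl

theorem emb_inj : Function.Injective (emb : U4 K →* _) := fun x y h => mat_inj ((rp_emb x).uniq (h ▸ rp_emb y))

theorem Rp.conj {g : Perm (Fin 4 → K)} {M : M4 K} {σ : K ≃+* K} (h : Rp g M σ) {x y : U4 K} :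
    emb y * g = g * emb x ↔ mat y * M = M * (mat x).map σ :=
  ⟨fun e => ((rp_emb y).mul h).uniq (e ▸ h.mul (rp_emb x)), fun e => Equiv.ext fun v => by
    rw [h.mul (rp_emb x), ← e]; exact (rp_emb y).mul h v⟩

theorem Rp.pow {g : Perm (Fin 4 → K)} {M : M4 K} (h : Rp g M (RingEquiv.refl K)) (n : ℕ) :
    Rp (g ^ n) (M ^ n) (RingEquiv.refl K) := by
  induction n with
  | zero => exact fun v => by rw [pow_zero, pow_zero, one_mulVec]; rfl
  | succ n ih => rw [pow_succ, pow_succ]; exact ih.mul h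

variable [HF K] {p : ℕ} [Fact p.Prime] [CharP K p] {F : FusionSystem (⊤ : Subgroup (U4 K))}

variable (F) in
/-- the realizing group -/
def HH : Subgroup (Perm (Fin 4 → K)) := H5.Cl.sgOf
  { carrier := {g | ∃ M σ s u, Rp g M σ ∧ Un M ∧ s ≠ 0 ∧ u ≠ 0 ∧ F.IsMap ⊤ (gam s u σ) ∧ M.det = dl s u}
    one_mem' := ⟨1, RingEquiv.refl K, 1, 1, fun v => (one_mulVec v).symm, un_one, one_ne_zero, one_ne_zero,
      (F.isMap_id le_rfl).congr fun x _ => gam_one x, by simp [dl]⟩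
    mul_mem' := fun ⟨M, σ, s, u, h1, h2, h3, h4, h5, h6⟩ ⟨M', σ', s', u', k1, k2, k3, k4, k5, k6⟩ =>
      ⟨_, _, s * σ s', u * σ u', h1.mul k1, h2.mul (k2.map σ), by simp [*], by simp [*],
        (k5.comp h5 fun _ _ => trivial).congr fun x _ => (gam_gam ..).symm, by
          rw [det_mul, h6, show M'.map σ = (σ : K →+* K).mapMatrix M' from rfl, ← RingHom.map_det, k6]
          simp only [dl, RingHom.coe_coe, map_div₀, map_mul, map_pow, star_mul', star_aut]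
          ring⟩ }

theorem mem_HH {g : Perm (Fin 4 → K)} {M : M4 K} (h : Rp g M (RingEquiv.refl K)) (hu : Un M) (hd : M.det = 1) :
    g ∈ HH F := ⟨M, _, 1, 1, h, hu, one_ne_zero, one_ne_zero,
      (F.isMap_id le_rfl).congr fun x _ => gam_one x, by simp [dl, hd]⟩

theorem norm_HH (h1 : W1 F) (h2 : W2 F) {g : Perm (Fin 4 → K)} (hg : g ∈ HH F)
    (h : ∀ y, ∃ x, emb y * g = g * emb x) : ∃ M σ s u w, Rp g M σ ∧ Un M ∧ Tri M ∧ s ≠ 0 ∧ u ≠ 0 ∧
      F.IsMap ⊤ (gam s u σ) ∧ ∀ x, emb (w * gam s u σ x * w⁻¹) * g = g * emb x := by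
  obtain ⟨M, σ, s', u', g1, g2, h3, h4, h5, h6⟩ := hg
  have ht : Tri M := tri_of_norm fun y => (h y).imp fun _ => g1.conj.1
  obtain ⟨s, u, w, k2, k3, rfl⟩ := exists_dec ht g2
  refine ⟨_, σ, s, u, w, g1, g2, ht, k2, k3, ?_, fun x => g1.conj.2 ?_⟩
  · have a1 := star_ne_zero.2 k2
    have a2 := star_ne_zero.2 k3
    have a3 := star_ne_zero.2 h3
    have a4 := star_ne_zero.2 h4
    rw [det_mul, det_mat, det_DD, one_mul, dl, dl] at h6
    have r0 : s / s' * (u / u') ^ 2 ≠ 0 := by simp [*]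
    have r : star (s / s' * (u / u') ^ 2)⁻¹ = (s / s' * (u / u') ^ 2)⁻¹ := by
      simp only [star_inv₀, star_mul', star_pow, star_div₀]
      field_simp at h6 ⊢
      linear_combination h6
    refine (((h5.comp (h2.t (u / u')⁻¹ (by simp [*])) fun _ _ => trivial).comp
      (h2.t _ r0) fun _ _ => trivial).comp (h1.t _ r (inv_ne_zero r0)) fun _ _ => trivial).congr
      fun x _ => ?_
    simp only [Function.comp, gam_gam, RingEquiv.refl_apply]
    change gam s u σ x = gam _ _ σ x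
    congr 1 <;> field_simp
  · rw [mul_assoc (mat w), DD_mat k2 k3, ← mul_assoc, ← mul_assoc, ← mat_mul, ← mat_mul, inv_mul_cancel_right]

end Rz

open Cfsg.Agent.Fu.Rz

variable {K : Type u} [Field K] [StarRing K] [Finite K] [HF K] {p : ℕ} [Fact p.Prime] [CharP K p]
  {F : FusionSystem (⊤ : Subgroup (U4 K))}

theorem real_std (h : Std p F) (h1 : W1 F) (h2 : W2 F) :
    ∃ F' : FusionSystem (⊤ : Subgroup (U4 K)), F'.IsSaturated p ∧ F'.IsRealizable p ∧
      (∀ α, F'.Iso ⊤ ⊤ α ↔ F.Iso ⊤ ⊤ α) ∧ W1 F' ∧ W2 F' := by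
  have cj' : ∀ {f : U4 K → U4 K} (w : U4 K), F.IsMap ⊤ f → F.IsMap ⊤ fun x => w * f x * w⁻¹ := fun w hf =>
    hf.comp (F.isMap_cj le_rfl (Subgroup.mem_top w)) fun _ _ => trivial
  obtain ⟨F', f1, f2, f3⟩ := Uf.Rz.exists_fus (p := p) emb emb_inj
    ((topP (K := K) p).of_equiv Subgroup.topEquiv) (HH F)
    (fun x => mem_HH (rp_emb x) (un_mat x) (det_mat x)) fun g hg hn ⟨k, hk⟩ => by
      obtain ⟨M, σ, s, u, w, h1, h2, h3, h4, h5, h6, h7⟩ := norm_HH h1 h2 hg hn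
      obtain ⟨α, a1, a2⟩ := (cj' w h6).exists_perm
      have a3 : ∀ (n : ℕ) x, emb ((α ^ n) x) * g ^ n = g ^ n * emb x := fun n => by
        induction n with
        | zero => simp
        | succ n ih =>
          intro x
          rw [pow_succ, Perm.mul_apply, pow_succ, ← mul_assoc, ih, mul_assoc, a2 x trivial, h7, mul_assoc]
      obtain ⟨v, -, hv⟩ := mem_innS_self.1 (h.sat.mem_innS_top (topP p) (a1.iso_self fun _ _ => trivial) (k := k)
        fun x _ => emb_inj (by simpa [hk] using a3 (p ^ k) x))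
      have a4 : ∀ t, s * σ t = t := fun t => by
        simpa [gam, xa] using congrArg U4.a ((a2 (xa t) trivial).symm.trans (hv _ trivial))
      obtain rfl : s = 1 := by simpa using a4 1
      obtain rfl : σ = RingEquiv.refl K := RingEquiv.ext fun t => by simpa using a4 t
      obtain ⟨x, rfl⟩ := exists_of_pow (p := p) h3 h2 (k := k) ((h1.pow _).uniq (σ' := RingEquiv.refl K) fun v => by
        rw [hk, one_mulVec]; rfl)
      exact ⟨x, Equiv.ext fun v => (h1 v).symm⟩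
  have up : ∀ α, F.Iso ⊤ ⊤ α → F'.Iso ⊤ ⊤ α := fun α hα => by
    obtain ⟨w, s, u, σ, h1, h2, h3⟩ := h.aut α hα
    have hd : (mat w * DD s u).det = dl s u := by rw [det_mul, det_mat, det_DD, one_mul]
    obtain ⟨g, hg⟩ := exists_rp (M := mat w * DD s u) (by simp [hd, dl, h1, h2]) σ
    refine ((f3 _ _).2 ⟨g, ⟨_, σ, s, u, hg, (un_mat w).mul (un_DD h1 h2), h1, h2,
      (cj' w⁻¹ hα.isMap).congr fun x _ => by rw [h3]; group, hd⟩, fun x _ => hg.conj.2 ?_⟩).iso_self fun _ _ => trivial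
    rw [h3, mul_assoc (mat w), DD_mat h1 h2, ← mul_assoc, ← mul_assoc, ← mat_mul, ← mat_mul, inv_mul_cancel_right]
  have up' : ∀ {f : U4 K → U4 K}, F.IsMap ⊤ f → F'.IsMap ⊤ f := fun hf => by
    obtain ⟨α, a, b⟩ := hf.exists_perm
    exact (up α (a.iso_self fun _ _ => trivial)).isMap.congr fun x hx => (b x hx).symm
  refine ⟨F', f1, f2, fun α => ⟨fun hα => ?_, up α⟩, ⟨?_, fun t a b => up' (h1.t t a b), fun τ t => ?_⟩,
    ?_, fun t a => up' (h2.t t a), fun τ t => ?_⟩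
  · obtain ⟨g, hg, e⟩ := (f3 _ _).1 hα.isMap
    obtain ⟨M, σ, s, u, w, -, -, -, -, -, h6, h7⟩ := norm_HH h1 h2 hg fun y =>
      ⟨α⁻¹ y, by simpa using e (α⁻¹ y) trivial⟩
    exact ((cj' w h6).congr fun x _ => emb_inj (mul_right_cancel
      ((e x trivial).trans (h7 x).symm))).iso_self fun _ _ => trivial
  · obtain ⟨g, hg⟩ := exists_rp (det_N1 (K := K) ▸ one_ne_zero) (RingEquiv.refl K)
    exact (f3 (sQ K) w1).2 ⟨g, mem_HH hg un_N1 det_N1, fun x hx => hg.conj.2 (N1_mat hx).symm⟩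
  · obtain ⟨g, ⟨M, σ, -, -, a, b, -⟩, e⟩ := (f3 _ _).1 t.isMap
    exact w1c b (fun x hx => ⟨t.mem hx, a.conj.1 (e x hx)⟩) fun y hy => ⟨_, t.inv_mem hy, by simp⟩
  · obtain ⟨g, hg⟩ := exists_rp (det_N2 (K := K) ▸ one_ne_zero) (RingEquiv.refl K)
    exact (f3 (sJ K) w2).2 ⟨g, mem_HH hg un_N2 det_N2, fun x hx => hg.conj.2 (N2_mat hx).symm⟩
  · obtain ⟨g, ⟨M, σ, -, -, a, b, -⟩, e⟩ := (f3 _ _).1 t.isMap
    exact w2c b (fun x hx => ⟨t.mem hx, a.conj.1 (e x hx)⟩) fun y hy => ⟨_, t.inv_mem hy, by simp⟩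

end Cfsg.Agent.Fu
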