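import Cfsg.Agent.Fu.TF2
import Cfsg.Agent.Fu.E2

/-! The case `q = 3`: realisation inside `Co0`. -/

set_option autoImplicit false
set_option linter.unusedSimpArgs false
set_option linter.unusedSectionVars false

namespace Cfsg.Agent.Fu.T

open Equiv Cfsg.Agent.Co.A Cfsg.Agent.Uf Cfsg.Spor Cfsg.Fus Cfsg.FusionSystem

theorem exists_fus' {U G : Type*} [Group U] [Group G] [Finite G] {p : ℕ} [Fact p.Prime] (e : U →* G)
    (he : Function.Injective e) (H : Subgroup G) (hs : L.IsSylowIn p e.range H) :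
    ∃ F : FusionSystem (⊤ : Subgroup U), F.IsSaturated p ∧ F.IsRealizable p ∧
      ∀ P f, F.IsMap P f ↔ ∃ g ∈ H, ∀ x ∈ P, g * e x * g⁻¹ = e (f x) := by
  have hm : ∀ x, e x ∈ H := fun x => hs.1 ⟨x, rfl⟩
  let ι : (⊤ : Subgroup U) →* H := (e.codRestrict H hm).comp (Subgroup.subtype ⊤)
  have hι : ∀ x : U, ((extFun ι x : H) : G) = e x := fun x => by
    rw [extFun_of_mem ι (Subgroup.mem_top x)]; rfl
  have hinj : Function.Injective ι := fun a b h => Subtype.ext (he (congrArg Subtype.val h))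
  obtain ⟨θ, t⟩ := L.exists_pIso_of_injective ι hinj
  obtain ⟨F, t'⟩ := t.symm.exists_transp le_rfl (groupFusionSystem ι.range) t.symm.img_self
  have hG := (L.realized_of_transp t'.symm (ι := ι) fun x => (extFun_coe ι x).symm).1
  have hr : ι.range.map H.subtype = e.range := by
    ext y
    exact ⟨fun ⟨_, ⟨x, a⟩, b⟩ => ⟨x, by rw [← b, ← a]; rfl⟩,
      fun ⟨x, a⟩ => ⟨_, ⟨⟨x, trivial⟩, rfl⟩, a⟩⟩
  have hT : L.IsSylowIn p ι.range ⊤ := ⟨le_top, (hr ▸ hs.isPGroup :).of_equiv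
    (Subgroup.equivMapOfInjective _ _ H.subtype_injective).symm,
    fun Q hQ hl _ => Subgroup.map_injective H.subtype_injective (by
      rw [hr]; exact hs.maximal _ (hQ.map _) (hr ▸ Subgroup.map_mono hl) (Subgroup.map_subtype_le Q))⟩
  refine ⟨F, L.isSaturated_of_realized hG (L.isSylowIn_top_iff.1 hT), L.isRealizable_of_realized hG hT,
    fun P f => ⟨fun hf => ?_, fun ⟨g, hg, h⟩ => L.realized_isMap hG le_top (fun _ _ => trivial)
      (g := ⟨g, hg⟩) fun x hx => Subtype.ext ?_⟩⟩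
  · obtain ⟨g, hg⟩ := L.realized_exists_conj hG hf
    exact ⟨g, g.2, fun x hx => by simpa [hι] using (congrArg Subtype.val (hg x hx)).symm⟩
  · simpa [hι] using (h x hx).symm

variable {K : Type*} [Field K] [StarRing K] [Finite K] [HF K] {e : S6 ≃* U4 K}
  {F F' : FusionSystem (⊤ : Subgroup (U4 K))}

theorem leJ {p : ℕ} [Fact p.Prime] [CharP K p] (hF : F.IsSaturated p)
    (hc : ∀ τ, F.Iso (sJ K) (sJ K) τ → ((∀ x ∈ sZ K, τ x ∈ sZ K) ∧ ∀ x ∈ sZ2 K, τ x ∈ sZ2 K) ∨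
      ∃ g, ∀ x ∈ sZ K, (g * τ x * g⁻¹).c = 0 ∧ (g * τ x * g⁻¹).z = 0)
    (hS : ∀ α, F.Iso ⊤ ⊤ α → F'.Iso ⊤ ⊤ α) (w : F.IsMap (sJ K) w2) (w' : F'.IsMap (sJ K) w2)
    {τ : Perm (U4 K)} (t : F.Iso (sJ K) (sJ K) τ) : F'.IsMap (sJ K) τ := by
  have k : ∀ τ, F.Iso (sJ K) (sJ K) τ → (∀ x ∈ sZ K, τ x ∈ sZ K) → F'.IsMap (sJ K) τ :=
    fun τ t a => by
      rcases hc τ t with c | ⟨g, c⟩
      · obtain ⟨-, α, b, d⟩ := ext2 hF t c.1 c.2
        exact ((hS α b).isMap.mono le_top).congr fun x hx => (d x hx).symm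
      · have z := xz_mem (1 : K) (star_one K)
        have := (c _ z).2
        rw [comm_sZ g (a _ z), mul_inv_cancel_right] at this
        have := τ.injective ((sZ_eq (a _ z) (one_mem _) this).trans t.homOn.map_one.symm)
        exact absurd (congrArg U4.z this) one_ne_zero
  rcases hc τ t with c | ⟨g, c⟩
  · exact k τ t c.1
  obtain ⟨ω, a, b⟩ := w.exists_perm
  have m : ∀ x ∈ sJ K, ω x ∈ sJ K := fun x hx => by rw [b x hx]; rfl
  have n := norm_of_le (Z2_J (K := K)) g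
  have i := (t.trans (F.iso_cj le_top trivial n)).trans (a.iso_self m)
  have j := (k _ i fun x hx => by
    rw [Perm.mul_apply, Perm.mul_apply, cj_apply,
      b _ (conj_mem_of_mem_normalizer n (t.mem (Z_J hx)))]
    exact ⟨rfl, (c x hx).2, by simp only [w2, (c x hx).1]; simp⟩).iso_of_setStab i.mem_setStab
  exact ((j.trans ((w'.congr b).iso_self m).symm).trans
    (F'.iso_cj le_top trivial n).symm).isMap.congr fun x _ => by simp

namespace Iso6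

theorem w2c [TL] (h : Iso6 e) {g : Co0} {τ : Perm (U4 K)} (t : F.Iso (sJ K) (sJ K) τ)
    (hg : ∀ x ∈ sJ K, g * jj e x * g⁻¹ = jj e (τ x)) :
    ((∀ x ∈ sZ K, τ x ∈ sZ K) ∧ ∀ x ∈ sZ2 K, τ x ∈ sZ2 K) ∨
      ∃ g, ∀ x ∈ sZ K, (g * τ x * g⁻¹).c = 0 ∧ (g * τ x * g⁻¹).z = 0 := by
  have hg' : ∀ x ∈ sJ K, g⁻¹ * jj e x * g = jj e (τ⁻¹ x) := fun x hx => by
    have := hg _ (t.inv_mem hx)
    rw [perm_apply_inv_self] at this; rw [← this]; group
  have s1 : ∀ j ∈ J4, Sing j → Sing (e.symm (τ (e j))) := fun j hj =>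
    TL.sing g (fun j hj => ⟨_, h.j'.2 (t.inv_mem (h.j.2 hj)), by
      rw [jj_symm, ← hg' _ (h.j.2 hj), jj_e]⟩) j hj _ (h.j'.2 (t.mem (h.j.2 hj))) (by
      rw [jj_symm, ← hg _ (h.j.2 hj), jj_e])
  have s2 : ∀ j ∈ J4, Sing (e.symm (τ (e j))) → Sing j := fun j hj =>
    TL.sing g⁻¹ (fun j hj => ⟨_, h.j'.2 (t.mem (h.j.2 hj)), by
      rw [jj_symm, ← hg _ (h.j.2 hj), jj_e, inv_inv]⟩) _ (h.j'.2 (t.mem (h.j.2 hj))) j hj (by
      rw [jj_symm, ← hg _ (h.j.2 hj), jj_e]; group)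
  have an : ∀ q s : Co.K3, 0 = q ^ 2 + s ^ 2 → q = 0 ∧ s = 0 := by decide
  let z0 : S6 := ⟨1, 0, 0, 0, 0, 0⟩
  have z0J : z0 ∈ J4 := ⟨rfl, rfl⟩
  have zc : ∀ x ∈ sZ K, x = 1 ∨ x = e z0 ∨ x = (e z0)⁻¹ := fun x hx => by
    obtain ⟨x, rfl⟩ := e.surjective x
    have := mem_Z1.1 (h.z1.1 hx)
    rcases (by decide : ∀ k : Co.K3, k = 0 ∨ k = 1 ∨ k = -1) x.p with c | c | c
    · exact .inl (by rw [← map_one e]; congr 1; ext <;> simp [this, c])
    · exact .inr (.inl (by congr 1; ext <;> simp [this, c, z0]))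
    · exact .inr (.inr (by rw [← map_inv]; congr 1; ext <;> simp [this, c, z0]))
  have red : ∀ A : Subgroup (U4 K), τ (e z0) ∈ A → ∀ x ∈ sZ K, τ x ∈ A := fun A a x hx => by
    rcases zc x hx with rfl | rfl | rfl
    · rw [t.homOn.map_one]; exact A.one_mem
    · exact a
    · rw [t.homOn.map_inv (h.j.2 z0J)]; exact A.inv_mem a
  have a0 := s1 z0 z0J (by simp [Sing, z0])
  have aJ := mem_J4.1 (h.j'.2 (t.mem (h.j.2 z0J)))
  obtain ⟨b, hb⟩ := e.surjective (τ (e z0))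
  rw [← hb, e.symm_apply_apply] at a0 aJ
  by_cases bu : b.u = 0
  · have := an b.q b.s (by rw [← a0, bu, mul_zero])
    have kz := red (sZ K) (hb ▸ h.z1.2 ⟨this.1, this.2, bu, aJ⟩)
    refine .inl ⟨kz, fun x hx => ⟨t.mem (Z2_J hx), by_contra fun yu => ?_⟩⟩
    obtain ⟨x, rfl⟩ := e.surjective x
    obtain ⟨c, hc⟩ := e.surjective (τ (e x))
    rw [← hc, h.y] at yu
    obtain ⟨z, hz⟩ := e.surjective (τ⁻¹ (e ⟨(c.q ^ 2 + c.s ^ 2) / c.u - c.p, 0, 0, 0, 0, 0⟩))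
    have zZ : e z ∈ sZ K := (mem_setStab_of_finite kz _).1 (by
      rw [hz, perm_apply_inv_self]; exact h.z1.2 (by simp))
    have cJ := mem_J4.1 (h.j.1 (hc ▸ t.mem (Z2_J hx)))
    have := s2 (x * z) (h.j.1 (by rw [map_mul]; exact (sJ K).mul_mem (Z2_J hx) (Z_J zZ))) (by
      rw [map_mul, t.homOn (Z2_J hx) (Z_J zZ), hz, perm_apply_inv_self, ← hc, ← map_mul,
        e.symm_apply_apply]
      simp [Sing, cJ, yu])
    have xa := (h.a x).1 hx.1; have xu := (h.y x).1 hx.2; have zz := mem_Z1.1 (h.z1.1 zZ)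
    simp only [Sing, mu_p, mu_q, mu_s, mu_u, xu, zz, add_zero, mul_zero] at this
    have := an _ _ this
    exact yu (mem_Z1.1 (h.z1.1 (hc ▸ kz _ (h.z1.2 ⟨this.1, this.2, xu, xa⟩)))).2.2.1
  · refine .inr ⟨e ⟨0, 0, 0, 0, -b.q * b.u, -b.s * b.u⟩, fun x hx => ?_⟩
    let A : Subgroup (U4 K) := { carrier := {x | x.a = 0 ∧ x.c = 0 ∧ x.z = 0}
                                 one_mem' := by simp
                                 mul_mem' := by rintro x w ⟨a, b, c⟩ ⟨a', b', c'⟩; simp [*]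
                                 inv_mem' := by rintro x ⟨a, b, c⟩; simp [*] }
    refine (red (A.comap (MulAut.conj _).toMonoidHom) ?_ x hx).2
    show _ ∧ _
    rw [← hb, MulEquiv.coe_toMonoidHom, MulAut.conj_apply, ← map_inv, ← map_mul, ← map_mul, h.a, h.c,
      h.z]
    rw [Sing] at a0
    simp only [mu_p, mu_q, mu_s, mu_u, mu_a, mu_z, iv_p, iv_q, iv_s, iv_u, iv_a, iv_z, aJ]
    revert a0 bu
    generalize b.p = p, b.q = q, b.s = s, b.u = u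
    revert p q s u; decide +kernel

theorem NS_NQ (h : Iso6 e) : NS ≤ NQ := fun n hn => by
  choose γ hγ using mem_NS.1 hn
  refine mem_NQ.2 fun x hx => ⟨γ x, ?_, hγ x⟩
  have hm : ∀ a b, γ (a * b) = γ a * γ b := fun a b => ι_inj (by
    rw [map_mul, ← hγ, ← hγ, ← hγ, map_mul]; group)
  have h1 : ∀ a, γ a = 1 ↔ a = 1 := fun a => ⟨fun c => ι_inj (by
    have := hγ a; rw [c, map_one] at this; simpa using this), fun c => ι_inj (by
    rw [← hγ, c]; simp)⟩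
  have k2 : ∀ a : S6, a.u = 0 → a.a = 0 → a.z = 0 → (γ a).u = 0 ∧ (γ a).a = 0 ∧ (γ a).z = 0 :=
    fun a u b c => by
      have := keepZ2 hn (x := e a) (y := e (γ a)) ⟨(h.a a).2 ⟨b, c⟩, (h.y a).2 u⟩
        (by rw [jj_e, jj_e, hγ])
      exact ⟨(h.y _).1 this.2, (h.a _).1 this.1⟩
  have cube : ∀ a : S6, a * a * a = 1 ↔ (a.a ^ 2 + a.z ^ 2) * a.u = 0 := fun a => by
    simp only [S6.ext_iff, mu_p, mu_q, mu_s, mu_u, mu_a, mu_z, on_p, on_q, on_s, on_u, on_a, on_z]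
    generalize a.p = p, a.q = q, a.s = s, a.u = u, a.a = b, a.z = z
    revert p q s u b z; decide +kernel
  have c3 := (cube (γ x)).1 (by rw [← hm, ← hm, h1, cube, mem_Q5.1 hx, mul_zero])
  by_contra yu
  have an : ∀ q s : Co.K3, q ^ 2 + s ^ 2 = 0 → q = 0 ∧ s = 0 := by decide
  have aj := an _ _ ((mul_eq_zero.1 c3).resolve_right yu)
  have cm : ∀ w : S6, w.u = 0 → w.a = 0 → w.z = 0 → x * w = w * x := fun w a b c => by
    have := k2 w a b c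
    rw [← mul_inv_eq_one, ← h1, hm, ← mul_left_inj (γ (w * x)), mul_assoc, ← hm, inv_mul_cancel,
      (h1 1).2 rfl, mul_one, one_mul, hm, hm]
    ext <;> simp [this, aj, add_comm]
  have c1 := congrArg S6.p (cm ⟨0, 1, 0, 0, 0, 0⟩ rfl rfl rfl)
  have c2 := congrArg S6.p (cm ⟨0, 0, 1, 0, 0, 0⟩ rfl rfl rfl)
  have t : (2 : Co.K3) ≠ 0 := by decide
  simp [t] at c1 c2
  exact yu (k2 x hx c1 c2).1

end Iso6

theorem real_three' [TL] [GN] [CL] [CharP K 3] (h3 : qq K = 3) (hF : Std 3 F) (h2 : W2 F) :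
    F.IsRealizable 3 := by
  haveI := finite_Co0
  obtain ⟨e, h⟩ := exists_iso6 h3
  obtain ⟨d, hd, rep, kl⟩ := GN.d
  obtain ⟨w, hw, wL⟩ := GN.w
  obtain ⟨X, xL, xK, xα, xβ⟩ := CL.out d _ rep kl (h.kh hF (h.d_mem h2 hd))
  have NK := Iso6.N_le (e := e) hF
  let G : Subgroup Co0 :=
    { carrier := {g | ∃ n ∈ Ind e F ⊤, ∀ x ∈ X, hm g x = hm n x}
      one_mem' := ⟨1, Subgroup.one_mem _, fun _ _ => rfl⟩
      mul_mem' := by
        rintro g g' ⟨n, a, b⟩ ⟨n', a', b'⟩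
        exact ⟨n * n', Subgroup.mul_mem _ a a', fun x hx => by
          rw [hm_mul, hm_mul, b' x hx, b _ (xK _ (NK a') x hx)]⟩
      inv_mem' := by
        rintro g ⟨n, a, b⟩
        refine ⟨n⁻¹, Subgroup.inv_mem _ a, fun x hx => ?_⟩
        have := b _ (xK _ (NK (Subgroup.inv_mem _ a)) x hx)
        rw [← hm_mul n, mul_inv_cancel, hm_one] at this
        conv_lhs => rw [← this, ← hm_mul, inv_mul_cancel, hm_one] }
  have NG : Ind e F ⊤ ≤ G := fun n a => ⟨n, a, fun _ _ => rfl⟩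
  have GN' : ∀ g ∈ G, g ∈ NS → g ∈ Ind e F ⊤ := by
    rintro g ⟨n, a, b⟩ c
    have s := NS.mul_mem (NS.inv_mem (Iso6.N_NS a)) c
    simpa using Subgroup.mul_mem _ a (h.star1 hF (xβ _ (h.NS_NQ s) s fun x hx => by
      rw [hm_mul, b x hx, ← hm_mul, inv_mul_cancel, hm_one]) s)
  have rg : (jj e).range = ι.range := by
    ext y; exact ⟨fun ⟨x, a⟩ => ⟨_, a⟩, fun ⟨x, a⟩ => ⟨e x, (jj_e x).trans a⟩⟩
  have sN : (jj e).range ≤ Ind e F ⊤ := fun _ ⟨x, a⟩ => a ▸ jj_Ind (nT x)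
  have pS : IsPGroup 3 (jj e).range := by
    rw [MonoidHom.range_eq_map]; exact (topP 3).map _
  have syl : L.IsSylowIn 3 (jj e).range G := ⟨sN.trans NG, pS, fun Q hQ a b => by
    by_contra hne
    exact (H8.lt_inf_normalizer_of_isPGroup hQ (lt_of_le_of_ne a (Ne.symm hne))).not_ge
      fun g hg => h.star2 hF (GN' g (b hg.1) (by rw [NS, ← rg]; exact hg.2))
        (H5.Cl.PE.of_mem hQ hg.1)⟩
  have cj : ∀ g : Co0, (∀ s, g * ι s * g⁻¹ ∈ Ind e F (sQ K) ⊓ G) →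
      ∃ k ∈ Ind e F (sQ K) ⊓ G, k * g ∈ NS := fun g hg => by
    obtain ⟨k, a, b⟩ := L.IsSylowIn.exists_conj_mem (L.IsSylowIn.of_le syl
      (le_inf (sN.trans NK) syl.1) inf_le_right) (pS.map (MulAut.conj g).toMonoidHom) (by
        rintro _ ⟨_, ⟨x, rfl⟩, rfl⟩; exact hg (e.symm x))
    refine ⟨k, a, (mem_NS' (e := e)).2 fun x => ?_⟩
    obtain ⟨y, c⟩ := b _ ⟨_, ⟨x, rfl⟩, rfl⟩
    exact ⟨y, by rw [c]; simp [mul_assoc]⟩
  have KG : Ind e F (sQ K) ≤ G := fun k hk => by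
    obtain ⟨m, a, b⟩ := cj k fun s => ⟨Subgroup.mul_mem _ (Subgroup.mul_mem _ hk (NK (sN ⟨e s, jj_e s⟩))) (Subgroup.inv_mem _ hk),
      1, Subgroup.one_mem _, fun x hx => by
        rw [hm_mul, hm_mul, GN.fixL s _ (xL _ (xK _ (Subgroup.inv_mem _ hk) x hx)), ← hm_mul, mul_inv_cancel]⟩
    simpa using Subgroup.mul_mem _ (Subgroup.inv_mem _ a.2) (NG (h.star1 hF (Subgroup.mul_mem _ a.1 hk) b))
  have GK : ∀ g ∈ G, g ∈ NQ → g ∈ Ind e F (sQ K) := fun g hg hq => by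
    obtain ⟨m, a, b⟩ := cj g fun s => ⟨xα g hq (fun x hx => by
      obtain ⟨n, a, b⟩ := Subgroup.inv_mem _ hg
      rw [b x hx]; exact xK _ (NK a) x hx) s,
      Subgroup.mul_mem _ (Subgroup.mul_mem _ hg (syl.1 ⟨e s, jj_e s⟩)) (Subgroup.inv_mem _ hg)⟩
    simpa using Subgroup.mul_mem _ (Subgroup.inv_mem _ a.1) (NK (GN' _ (Subgroup.mul_mem _ a.2 hg) b))
  obtain ⟨F', s', r', m'⟩ := exists_fus' (jj e) jj_inj G syl
  have S1 : ∀ α, F.Iso ⊤ ⊤ α → F'.Iso ⊤ ⊤ α := fun α a => by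
    obtain ⟨n, b⟩ := h.all_ind hF a
    exact ((m' _ _).2 ⟨n, NG ⟨α, a, fun x _ => b x⟩, fun x _ => b x⟩).iso_self fun _ _ => trivial
  have S2 : ∀ α, F'.Iso ⊤ ⊤ α → F.Iso ⊤ ⊤ α := fun α a => by
    obtain ⟨g, b, c⟩ := (m' _ _).1 a.isMap
    obtain ⟨β, i, j⟩ := GN' g b (mem_NS'.2 fun x => ⟨_, c x trivial⟩)
    exact i.congr fun x _ => jj_inj ((c x trivial).symm.trans (j x trivial))
  have w' : F'.IsMap (sJ K) w2 := (m' _ _).2 ⟨w, ⟨1, Subgroup.one_mem _, fun x hx => wL x (xL x hx)⟩,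
    fun x hx => by
      obtain ⟨x, rfl⟩ := e.surjective x
      rw [← h.w, jj_e, jj_e, hw x (h.j.1 hx)]⟩
  rw [eq_of_le_of_ge (hF.sat.le_of_essential (topP 3) (E := F') ?_)
    (s'.le_of_essential (topP 3) ?_)]
  · exact r'
  · rintro P σ (rfl | hP) a
    · exact (S1 σ a).isMap
    rcases hF.gen P hP with rfl | rfl
    · obtain ⟨k, b⟩ := h.sur' a
      exact (m' _ _).2 ⟨k, KG ⟨σ, a, b⟩, b⟩
    · exact leJ hF.sat h2.c S1 h2.w w' a
  · rintro P σ (rfl | hP) a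
    · exact (S2 σ a).isMap
    rcases ess s' hP with rfl | rfl | c
    · obtain ⟨g, b, c⟩ := (m' _ _).1 a.isMap
      obtain ⟨β, i, j⟩ := GK g b (h.nq.2 fun x hx => ⟨_, a.mem hx, c x hx⟩)
      exact i.isMap.congr fun x hx => jj_inj ((c x hx).symm.trans (j x hx))
    · refine leJ s' (fun τ t => ?_) S2 w' h2.w a
      obtain ⟨g, -, c⟩ := (m' _ _).1 t.isMap
      exact h.w2c t c
    · omega

theorem real_three [TL] [GN] [CL] {p : ℕ} [Fact p.Prime] [CharP K p] (h3 : qq K = 3)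
    (h : Std p F) (h2 : W2 F) : F.IsRealizable p := by
  obtain rfl := p_eq_three (p := p) h3
  exact real_three' h3 h h2

end Cfsg.Agent.Fu.T
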