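import Cfsg.Agent.Fu.E2
import Cfsg.Agent.Fu.L1c
import Cfsg.Agent.Fu.N2
import Cfsg.Agent.Fu.R2
import Cfsg.Agent.Fu.TF3

/-! Uniqueness of standard systems and the assembly. -/

set_option autoImplicit false
set_option linter.unusedSectionVars false
set_option linter.style.haveILetI false

open Equiv

namespace Cfsg.Agent.Fu

open Cfsg.Fus Cfsg.FusionSystem U4
open Cfsg.Agent.Uf (HF qq one_lt_qq)

universe u

variable {K : Type u} [Field K] [StarRing K] [Finite K] [HF K] {p : ℕ} [Fact p.Prime] [CharP K p]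
  {F G : FusionSystem (⊤ : Subgroup (U4 K))}

theorem leQ (hF : F.IsSaturated p) (h1 : W1 F) (hA : ∀ α, F.Iso ⊤ ⊤ α → G.Iso ⊤ ⊤ α)
    (b1 : G.IsMap (sQ K) w1) {τ : Perm (U4 K)} (t : F.Iso (sQ K) (sQ K) τ) : G.IsMap (sQ K) τ := by
  have k : ∀ τ, F.Iso (sQ K) (sQ K) τ → (∀ x ∈ sZ2 K, τ x ∈ sZ2 K) → G.IsMap (sQ K) τ :=
    fun τ t a => by
      obtain ⟨-, α, b, d⟩ := ext1 hF t a
      exact ((hA α b).isMap.mono le_top).congr fun x hx => (d x hx).symm
  rcases h1.c τ t with c | ⟨g, c⟩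
  · exact k τ t c
  obtain ⟨ω, a, b⟩ := h1.w.exists_perm
  have m : ∀ x ∈ sQ K, ω x ∈ sQ K := fun x hx => by rw [b x hx]; rfl
  have n := norm_of_le (Z2_Q (K := K)) g
  have i := (t.trans (F.iso_cj le_top trivial n)).trans (a.iso_self m)
  have j := (k _ i fun x hx => by
    rw [Perm.mul_apply, Perm.mul_apply, cj_apply,
      b _ (conj_mem_of_mem_normalizer n (t.mem (Z2_Q hx)))]
    exact ⟨c x hx, rfl⟩).iso_of_setStab i.mem_setStab
  exact ((j.trans ((b1.congr b).iso_self m).symm).trans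
    (G.iso_cj le_top trivial n).symm).isMap.congr fun x _ => by simp

theorem not_ess_Jx (hF : F.IsSaturated p) (h2 : W2 F) (hq : qq K = 2) {t : K} (ht : t ≠ 0) :
    ¬ F.IsEssential p (sJx t) := fun hE => by
  have c2 : (2 : K) = 0 := by
    rcases L1.real_two hq (t := -1) (by simp) with e | e
    · simp at e
    · linear_combination -e
  have m : xa t ∈ sJx t := ⟨1, by simp [xa]⟩
  have iJ : Inv F (sJx t) (sJ K) := Es.inv_J (e := xa t) (J_Jx t) ht
    (fun x ⟨n, hn⟩ => ⟨n, by simp, hn⟩) c2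
  refine Es.not_inv hF hE m ht fun τ hτ x hx => ?_
  have i : F.Iso (sJ K) (sJ K) τ := (hτ.isMap.mono (J_Jx t)).iso_self (iJ τ hτ)
  rcases h2.c τ i with c | ⟨g, c⟩
  · exact c.2 x hx
  have z := xz_mem (1 : K) (star_one K)
  have z2 := Es.zc_Z2 (Z2_J.trans (J_Jx t)) m ht (Es.zc_inv τ hτ _ (Es.Z_zc hE z))
  obtain ⟨c1, c2⟩ := c _ z
  have e : g * τ (xz 1 (star_one K)) * g⁻¹ = 1 :=
    U4.ext (by simp [z2.1]) (by simp [z2.2]) c1 c2
  have := τ.injective ((mul_inv_eq_one.1 e |> mul_eq_left.1).trans i.homOn.map_one.symm)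
  exact absurd (congrArg U4.z this) one_ne_zero

theorem le_std (hF : F.IsSaturated p) (h1 : W1 F) (h2 : W2 F)
    (hA : ∀ α, F.Iso ⊤ ⊤ α → G.Iso ⊤ ⊤ α) (b1 : G.IsMap (sQ K) w1) (b2 : G.IsMap (sJ K) w2) :
    F ≤ G := by
  refine hF.le_of_essential (topP p) fun P σ hP hσ => ?_
  rcases hP with rfl | hP
  · exact (hA σ hσ).isMap
  rcases ess hF hP with rfl | rfl | ⟨hq, t, ht, rfl⟩
  · exact leQ hF h1 hA b1 hσ
  · exact T.leJ hF h2.c hA h2.w b2 hσ
  · exact (not_ess_Jx hF h2 hq ht hP).elim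

theorem gen_real (h : Std p F) (h1 : W1 F) (h2 : W2 F) : F.IsRealizable p := by
  obtain ⟨G, s, r, a, b1, b2⟩ := real_std h h1 h2
  rwa [Cfsg.FusionSystem.eq_of_le_of_ge (le_std h.sat h1 h2 (fun α => (a α).2) b1.w b2.w)
    (le_std s b1 b2 (fun α => (a α).1) h1.w h2.w)]

theorem real_of_one (hF : F.IsSaturated p) {Q : Subgroup (U4 K)} (hQ : F.IsEssential p Q)
    (h : ∀ E, F.IsEssential p E → E = Q) : F.IsRealizable p := by
  have hn : F.IsNormal Q := hF.isNormal_of_essential (topP p) fun R hR => by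
    rcases hR with rfl | hR
    · refine ⟨le_top, fun τ hτ x hx => ?_⟩
      have := (hτ.restrict (le_top (a := Q))).mem hx
      rwa [h _ (H4.Sp.essential_img hQ hτ)] at this
    · rw [h R hR]; exact ⟨le_rfl, fun τ hτ x hx => hτ.mem hx⟩
  exact H4.Sp.isRealizable_of_constrained (topP p) ⟨hF, Q, hn, hQ.isCentric⟩

theorem both_or (hF : F.IsSaturated p) (hg : ∀ E, F.IsEssential p E → E = sQ K ∨ E = sJ K) :
    F.IsRealizable p ∨ F.IsEssential p (sQ K) ∧ F.IsEssential p (sJ K) := by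
  by_cases e1 : F.IsEssential p (sQ K) <;> by_cases e2 : F.IsEssential p (sJ K)
  · exact Or.inr ⟨e1, e2⟩
  · exact Or.inl (real_of_one hF e1 fun E hE => (hg E hE).resolve_right fun e => e2 (e ▸ hE))
  · exact Or.inl (real_of_one hF e2 fun E hE => (hg E hE).resolve_left fun e => e1 (e ▸ hE))
  · have hn := hF.isNormal_top (topP p) fun R hR => by
      rcases hg R hR with rfl | rfl
      exacts [e1 hR, e2 hR]
    exact Or.inl (H4.Sp.isRealizable_of_constrained (topP p)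
      ⟨hF, ⊤, hn, hn.stronglyClosed.weaklyClosed.isCentric le_top⟩)

theorem main [T.TL] [T.GN] [T.CL] (hF : F.IsSaturated p)
    (P2 : qq K = 2 → ∀ t : K, t ≠ 0 → F.IsEssential p (sJx t) → F.IsRealizable p) :
    F.IsRealizable p := by
  by_cases H : qq K = 2 ∧ ∃ t : K, t ≠ 0 ∧ F.IsEssential p (sJx t)
  · obtain ⟨h2, t, ht, hE⟩ := H
    exact P2 h2 t ht hE
  have hg : ∀ E, F.IsEssential p E → E = sQ K ∨ E = sJ K := fun E hE =>
    (ess hF hE).imp_right fun h => h.resolve_right fun ⟨h2, t, ht, e⟩ => H ⟨h2, t, ht, e ▸ hE⟩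
  refine (both_or hF hg).elim id fun ⟨e1, e2⟩ => ?_
  obtain ⟨F1, h1, r1⟩ := exists_std hF hg e1 e2
  obtain ⟨F2, h2, w, r2⟩ := l2 h1 ((le_or_gt (qq K) 3).imp_right fun h => l1 h1 h.ne')
  refine r1 (r2 ?_)
  by_cases h3 : qq K = 3
  · exact T.real_three h3 h2 w
  · exact gen_real h2 (l1 h2 h3) w

end Cfsg.Agent.Fu
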