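import Cfsg.Agent.Fu.A
import Cfsg.Agent.H5.Flag

/-! The matrices of `U4 K`; the normalizer in the unitary group. -/

set_option autoImplicit false
set_option linter.unusedSectionVars false
set_option linter.unusedSimpArgs false

namespace Cfsg.Agent.Fu.Rz

open Matrix U4 Cfsg.Agent.Uf

variable {K : Type*} [Field K] [StarRing K]

abbrev M4 (K : Type*) := Matrix (Fin 4) (Fin 4) K

theorem all4 {P : Fin 4 → Prop} : (∀ i, P i) ↔ P 0 ∧ P 1 ∧ P 2 ∧ P 3 :=
  ⟨fun h => ⟨h 0, h 1, h 2, h 3⟩, fun ⟨a, b, c, d⟩ i => by fin_cases i <;> assumption⟩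

theorem mul4 (M N : M4 K) (i j : Fin 4) :
    (M * N) i j = M i 0 * N 0 j + M i 1 * N 1 j + M i 2 * N 2 j + M i 3 * N 3 j := by
  rw [Matrix.mul_apply, Fin.sum_univ_four]

theorem one4 : (1 : M4 K) = !![1, 0, 0, 0; 0, 1, 0, 0; 0, 0, 1, 0; 0, 0, 0, 1] := by
  ext i j
  fin_cases i <;> fin_cases j <;> rfl

def mat (x : U4 K) : M4 K :=
  !![1, x.a, x.c, x.z - x.c * star x.a;
     0, 1, x.y, star x.c - x.y * star x.a;
     0, 0, 1, -star x.a;
     0, 0, 0, 1]

theorem mat_mul (x w : U4 K) : mat (x * w) = mat x * mat w := by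
  simp only [← Matrix.ext_iff, all4, mul4, one4, map_apply, of_apply, cons_val, mul_zero, zero_mul, mul_one, one_mul, add_zero, zero_add, star_zero, star_one, map_zero, map_one, true_and, and_true, star_neg, star_add, star_sub, star_mul', star_star, neg_zero, neg_neg, map_neg, map_add, map_sub, map_mul, sub_zero, zero_sub, mul_neg, neg_mul, sub_self, mat, mul_a, mul_c, mul_y, mul_z, w.hy, x.hy]
  refine ⟨⟨?_, ?_, ?_⟩, ⟨?_, ?_⟩, ?_⟩ <;> ring

theorem mat_one : mat (1 : U4 K) = 1 := by
  simp only [← Matrix.ext_iff, all4, mul4, one4, map_apply, of_apply, cons_val, mul_zero, zero_mul, mul_one, one_mul, add_zero, zero_add, star_zero, star_one, map_zero, map_one, true_and, and_true, star_neg, star_add, star_sub, star_mul', star_star, neg_zero, neg_neg, map_neg, map_add, map_sub, map_mul, sub_zero, zero_sub, mul_neg, neg_mul, sub_self, mat, one_a, one_c, one_y, one_z]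

theorem mat_inj {x w : U4 K} (h : mat x = mat w) : x = w := by
  simp only [← Matrix.ext_iff, all4, mul4, one4, map_apply, of_apply, cons_val, mul_zero, zero_mul, mul_one, one_mul, add_zero, zero_add, star_zero, star_one, map_zero, map_one, true_and, and_true, star_neg, star_add, star_sub, star_mul', star_star, neg_zero, neg_neg, map_neg, map_add, map_sub, map_mul, sub_zero, zero_sub, mul_neg, neg_mul, sub_self, mat] at h
  obtain ⟨⟨a, c, z⟩, ⟨y, -⟩, -⟩ := h
  exact U4.ext a y c (by rw [a, c] at z; linear_combination z)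

def JJ (K : Type*) [Field K] : M4 K := !![0, 0, 0, 1; 0, 0, 1, 0; 0, -1, 0, 0; -1, 0, 0, 0]

/-- unitary matrices -/
def Un (M : M4 K) : Prop := M * JJ K * Mᴴ = JJ K

theorem Un.mul {M N : M4 K} (h : Un M) (h' : Un N) : Un (M * N) := by
  rw [Un, conjTranspose_mul, mul_assoc M N, mul_assoc M, ← mul_assoc _ Nᴴ, h', ← mul_assoc, h]

theorem un_one : Un (1 : M4 K) := by simp [Un]

theorem JJ_mul (M N : M4 K) (i j : Fin 4) : (M * JJ K * Nᴴ) i j = M i 0 * star (N j 3) +
    M i 1 * star (N j 2) - M i 2 * star (N j 1) - M i 3 * star (N j 0) := by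
  simp only [← Matrix.ext_iff, all4, mul4, one4, map_apply, of_apply, cons_val, mul_zero, zero_mul, mul_one, one_mul, add_zero, zero_add, star_zero, star_one, map_zero, map_one, true_and, and_true, star_neg, star_add, star_sub, star_mul', star_star, neg_zero, neg_neg, map_neg, map_add, map_sub, map_mul, sub_zero, zero_sub, mul_neg, neg_mul, sub_self, JJ, conjTranspose_apply]
  ring

theorem un_iff {M : M4 K} : Un M ↔ ∀ i j, M i 0 * star (M j 3) + M i 1 * star (M j 2) -
    M i 2 * star (M j 1) - M i 3 * star (M j 0) = JJ K i j := by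
  rw [Un, ← Matrix.ext_iff]
  simp only [JJ_mul]

theorem un_mat (x : U4 K) : Un (mat x) := by
  simp only [← Matrix.ext_iff, all4, mul4, one4, map_apply, of_apply, cons_val, mul_zero, zero_mul, mul_one, one_mul, add_zero, zero_add, star_zero, star_one, map_zero, map_one, true_and, and_true, star_neg, star_add, star_sub, star_mul', star_star, neg_zero, neg_neg, map_neg, map_add, map_sub, map_mul, sub_zero, zero_sub, mul_neg, neg_mul, sub_self, un_iff, mat, JJ, x.hy, x.hz]
  repeat' constructor
  all_goals ring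

theorem Un.map [Finite K] {M : M4 K} (h : Un M) (σ : K ≃+* K) : Un (M.map σ) := un_iff.2 fun i j => by
  simp only [map_apply, star_aut, ← map_mul, ← map_add, ← map_sub, un_iff.1 h i j]
  revert i j
  simp only [← Matrix.ext_iff, all4, mul4, one4, map_apply, of_apply, cons_val, mul_zero, zero_mul, mul_one, one_mul, add_zero, zero_add, star_zero, star_one, map_zero, map_one, true_and, and_true, star_neg, star_add, star_sub, star_mul', star_star, neg_zero, neg_neg, map_neg, map_add, map_sub, map_mul, sub_zero, zero_sub, mul_neg, neg_mul, sub_self, JJ]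

/-- diagonal unitary matrices -/
def DD (s u : K) : M4 K := !![s * u, 0, 0, 0; 0, u, 0, 0; 0, 0, 1 / star u, 0;
  0, 0, 0, 1 / (star s * star u)]

theorem un_DD {s u : K} (hs : s ≠ 0) (hu : u ≠ 0) : Un (DD s u) := by
  have := star_ne_zero.2 hs
  have := star_ne_zero.2 hu
  simp only [← Matrix.ext_iff, all4, mul4, one4, map_apply, of_apply, cons_val, mul_zero, zero_mul, mul_one, one_mul, add_zero, zero_add, star_zero, star_one, map_zero, map_one, true_and, and_true, star_neg, star_add, star_sub, star_mul', star_star, neg_zero, neg_neg, map_neg, map_add, map_sub, map_mul, sub_zero, zero_sub, mul_neg, neg_mul, sub_self, un_iff, DD, JJ, star_div₀]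
  refine ⟨?_, ?_, ?_, ?_⟩ <;> field_simp

theorem DD_mul (s u s' u' : K) : DD s u * DD s' u' = DD (s * s') (u * u') := by
  simp only [← Matrix.ext_iff, all4, mul4, one4, map_apply, of_apply, cons_val, mul_zero, zero_mul, mul_one, one_mul, add_zero, zero_add, star_zero, star_one, map_zero, map_one, true_and, and_true, star_neg, star_add, star_sub, star_mul', star_star, neg_zero, neg_neg, map_neg, map_add, map_sub, map_mul, sub_zero, zero_sub, mul_neg, neg_mul, sub_self, DD]
  refine ⟨?_, ?_, ?_⟩ <;> ring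

theorem DD_one : DD (1 : K) 1 = 1 := by simp only [← Matrix.ext_iff, all4, mul4, one4, map_apply, of_apply, cons_val, mul_zero, zero_mul, mul_one, one_mul, add_zero, zero_add, star_zero, star_one, map_zero, map_one, true_and, and_true, star_neg, star_add, star_sub, star_mul', star_star, neg_zero, neg_neg, map_neg, map_add, map_sub, map_mul, sub_zero, zero_sub, mul_neg, neg_mul, sub_self, DD, div_one]

theorem DD_mat [Finite K] {s u : K} (hs : s ≠ 0) (hu : u ≠ 0) (σ : K ≃+* K) (x : U4 K) :
    DD s u * (mat x).map σ = mat (gam s u σ x) * DD s u := by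
  have := star_ne_zero.2 hs
  have := star_ne_zero.2 hu
  simp only [← Matrix.ext_iff, all4, mul4, one4, map_apply, of_apply, cons_val, mul_zero, zero_mul, mul_one, one_mul, add_zero, zero_add, star_zero, star_one, map_zero, map_one, true_and, and_true, star_neg, star_add, star_sub, star_mul', star_star, neg_zero, neg_neg, map_neg, map_add, map_sub, map_mul, sub_zero, zero_sub, mul_neg, neg_mul, sub_self, DD, mat, gam, star_aut]
  refine ⟨⟨?_, ?_, ?_⟩, ⟨?_, ?_⟩, ?_⟩ <;> field_simp

/-- upper triangular matrices -/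
def Tri (M : M4 K) : Prop := ∀ i j, j < i → M i j = 0

theorem tri_iff {M : M4 K} : Tri M ↔ M 1 0 = 0 ∧ M 2 0 = 0 ∧ M 3 0 = 0 ∧ M 2 1 = 0 ∧ M 3 1 = 0 ∧
    M 3 2 = 0 := by
  refine ⟨fun t => ?_, fun ⟨_, _, _, _, _, _⟩ i j hij => ?_⟩
  · refine ⟨?_, ?_, ?_, ?_, ?_, ?_⟩ <;> exact t _ _ (by decide)
  · fin_cases i <;> fin_cases j <;> first | assumption | exact absurd hij (by decide)

theorem tri_DD (s u : K) : Tri (DD s u) := by simp only [← Matrix.ext_iff, all4, mul4, one4, map_apply, of_apply, cons_val, mul_zero, zero_mul, mul_one, one_mul, add_zero, zero_add, star_zero, star_one, map_zero, map_one, true_and, and_true, star_neg, star_add, star_sub, star_mul', star_star, neg_zero, neg_neg, map_neg, map_add, map_sub, map_mul, sub_zero, zero_sub, mul_neg, neg_mul, sub_self, tri_iff, DD]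

theorem Tri.det {M : M4 K} (h : Tri M) : M.det = M 0 0 * M 1 1 * M 2 2 * M 3 3 := by
  rw [det_of_isUpperTriangular h, Fin.prod_univ_four]

theorem det_mat (x : U4 K) : (mat x).det = 1 := by
  rw [Tri.det (by simp only [← Matrix.ext_iff, all4, mul4, one4, map_apply, of_apply, cons_val, mul_zero, zero_mul, mul_one, one_mul, add_zero, zero_add, star_zero, star_one, map_zero, map_one, true_and, and_true, star_neg, star_add, star_sub, star_mul', star_star, neg_zero, neg_neg, map_neg, map_add, map_sub, map_mul, sub_zero, zero_sub, mul_neg, neg_mul, sub_self, tri_iff, mat])]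
  simp only [← Matrix.ext_iff, all4, mul4, one4, map_apply, of_apply, cons_val, mul_zero, zero_mul, mul_one, one_mul, add_zero, zero_add, star_zero, star_one, map_zero, map_one, true_and, and_true, star_neg, star_add, star_sub, star_mul', star_star, neg_zero, neg_neg, map_neg, map_add, map_sub, map_mul, sub_zero, zero_sub, mul_neg, neg_mul, sub_self, mat]

/-- the determinant of `DD s u` -/
def dl (s u : K) : K := s * u ^ 2 / (star s * star u ^ 2)

theorem det_DD (s u : K) : (DD s u).det = dl s u := by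
  rw [(tri_DD s u).det, dl]
  simp only [← Matrix.ext_iff, all4, mul4, one4, map_apply, of_apply, cons_val, mul_zero, zero_mul, mul_one, one_mul, add_zero, zero_add, star_zero, star_one, map_zero, map_one, true_and, and_true, star_neg, star_add, star_sub, star_mul', star_star, neg_zero, neg_neg, map_neg, map_add, map_sub, map_mul, sub_zero, zero_sub, mul_neg, neg_mul, sub_self, DD]
  ring

theorem tri_of_norm {M : M4 K} {σ : K ≃+* K}
    (h : ∀ y : U4 K, ∃ x : U4 K, mat y * M = M * (mat x).map σ) : Tri M := by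
  obtain ⟨x, h1⟩ := h (xa 1)
  obtain ⟨w, h2⟩ := h (xy 1 (star_one K))
  simp only [← Matrix.ext_iff, all4, mul4, one4, map_apply, of_apply, cons_val, mul_zero, zero_mul, mul_one, one_mul, add_zero, zero_add, star_zero, star_one, map_zero, map_one, true_and, and_true, star_neg, star_add, star_sub, star_mul', star_star, neg_zero, neg_neg, map_neg, map_add, map_sub, map_mul, sub_zero, zero_sub, mul_neg, neg_mul, sub_self, mat, xa, xy] at h1 h2
  obtain ⟨⟨a00, -⟩, -, ⟨a20, a21, a22, -⟩, -⟩ := h1
  obtain ⟨-, ⟨b10, b11, -⟩, -⟩ := h2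
  have a30 : M 3 0 = 0 := by linear_combination -a20
  have a10 : M 1 0 = 0 := by linear_combination a00
  have a20' : M 2 0 = 0 := by linear_combination b10
  have a31 : M 3 1 = 0 := by rw [a20'] at a21; linear_combination -a21
  have a21' : M 2 1 = 0 := by rw [a10] at b11; linear_combination b11
  have a32 : M 3 2 = 0 := by rw [a20', a21'] at a22; linear_combination -a22
  exact tri_iff.2 ⟨a10, a20', a30, a21', a31, a32⟩

theorem Tri.mul {M N : M4 K} (h : Tri M) (h' : Tri N) : Tri (M * N) ∧ ∀ i, (M * N) i i = M i i * N i i := by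
  refine ⟨BlockTriangular.mul (b := id) h h', fun i => ?_⟩
  rw [Matrix.mul_apply, Finset.sum_eq_single i (fun j _ hj => ?_) (by simp)]
  rcases lt_or_gt_of_ne hj with e | e
  · rw [h i j e, zero_mul]
  · rw [h' j i e, mul_zero]

theorem Tri.pow {M : M4 K} (h : Tri M) (n : ℕ) : Tri (M ^ n) ∧ ∀ i, (M ^ n) i i = M i i ^ n := by
  induction n with
  | zero => exact ⟨fun i j e => by rw [pow_zero, one_apply_ne e.ne'], fun i => by simp⟩
  | succ n ih => exact ⟨pow_succ M n ▸ (ih.1.mul h).1, fun i => by rw [pow_succ, (ih.1.mul h).2, ih.2, pow_succ]⟩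

theorem exists_mat {M : M4 K} (h : Tri M) (hu : Un M) (h0 : M 0 0 = 1) (h1 : M 1 1 = 1) :
    ∃ x, M = mat x := by
  have e := un_iff.1 hu
  obtain ⟨z1, z2, z3, z4, z5, z6⟩ := tri_iff.1 h
  simp only [← Matrix.ext_iff, all4, mul4, one4, map_apply, of_apply, cons_val, mul_zero, zero_mul, mul_one, one_mul, add_zero, zero_add, star_zero, star_one, map_zero, map_one, true_and, and_true, star_neg, star_add, star_sub, star_mul', star_star, neg_zero, neg_neg, map_neg, map_add, map_sub, map_mul, sub_zero, zero_sub, mul_neg, neg_mul, sub_self, JJ, h0, h1, z1, z2, z3, z4, z5, z6, neg_inj] at e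
  obtain ⟨⟨e00, -⟩, ⟨e10, e11, -⟩, ⟨e20, e21⟩, e30⟩ := e
  refine ⟨⟨M 0 1, M 1 2, M 0 2, M 0 3 + M 0 2 * star (M 0 1), by linear_combination e11, by
    rw [star_add, star_mul', star_star]; linear_combination e00⟩, ?_⟩
  simp only [← Matrix.ext_iff, all4, mul4, one4, map_apply, of_apply, cons_val, mul_zero, zero_mul, mul_one, one_mul, add_zero, zero_add, star_zero, star_one, map_zero, map_one, true_and, and_true, star_neg, star_add, star_sub, star_mul', star_star, neg_zero, neg_neg, map_neg, map_add, map_sub, map_mul, sub_zero, zero_sub, mul_neg, neg_mul, sub_self, mat, h0, h1, z1, z2, z3, z4, z5, z6, e21, e30]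
  rw [e21] at e20
  exact ⟨by ring, by linear_combination -e10, by linear_combination -e20⟩

theorem exists_dec {M : M4 K} (h : Tri M) (hu : Un M) :
    ∃ s u x, s ≠ 0 ∧ u ≠ 0 ∧ M = mat x * DD s u := by
  have e := un_iff.1 hu
  obtain ⟨z1, z2, z3, z4, z5, z6⟩ := tri_iff.1 h
  have e03 := e 0 3
  have e12 := e 1 2
  simp only [← Matrix.ext_iff, all4, mul4, one4, map_apply, of_apply, cons_val, mul_zero, zero_mul, mul_one, one_mul, add_zero, zero_add, star_zero, star_one, map_zero, map_one, true_and, and_true, star_neg, star_add, star_sub, star_mul', star_star, neg_zero, neg_neg, map_neg, map_add, map_sub, map_mul, sub_zero, zero_sub, mul_neg, neg_mul, sub_self, JJ, z1, z2, z3, z4, z5, z6] at e03 e12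
  have n0 := left_ne_zero_of_mul_eq_one e03
  have n1 := left_ne_zero_of_mul_eq_one e12
  have k := h.mul (tri_DD (M 0 0 / M 1 1)⁻¹ (M 1 1)⁻¹)
  obtain ⟨x, hx⟩ := exists_mat k.1 (hu.mul (un_DD (inv_ne_zero (div_ne_zero n0 n1)) (inv_ne_zero n1)))
    (by rw [k.2]; simp only [← Matrix.ext_iff, all4, mul4, one4, map_apply, of_apply, cons_val, mul_zero, zero_mul, mul_one, one_mul, add_zero, zero_add, star_zero, star_one, map_zero, map_one, true_and, and_true, star_neg, star_add, star_sub, star_mul', star_star, neg_zero, neg_neg, map_neg, map_add, map_sub, map_mul, sub_zero, zero_sub, mul_neg, neg_mul, sub_self, DD]; field_simp) (by rw [k.2]; simp only [← Matrix.ext_iff, all4, mul4, one4, map_apply, of_apply, cons_val, mul_zero, zero_mul, mul_one, one_mul, add_zero, zero_add, star_zero, star_one, map_zero, map_one, true_and, and_true, star_neg, star_add, star_sub, star_mul', star_star, neg_zero, neg_neg, map_neg, map_add, map_sub, map_mul, sub_zero, zero_sub, mul_neg, neg_mul, sub_self, DD]; field_simp)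
  refine ⟨M 0 0 / M 1 1, M 1 1, x, div_ne_zero n0 n1, n1, ?_⟩
  rw [← hx, mul_assoc, DD_mul, inv_mul_cancel₀ n1, inv_mul_cancel₀ (div_ne_zero n0 n1), DD_one, mul_one]

theorem exists_of_pow {p : ℕ} [Fact p.Prime] [CharP K p] {M : M4 K} (h : Tri M) (hu : Un M) {k : ℕ}
    (hk : M ^ p ^ k = 1) : ∃ x, M = mat x := by
  have : ∀ i, M i i = 1 := fun i => H5.Cl.eq_one_of_pow (p := p) (k := k) (by rw [← (h.pow _).2, hk, one_apply_eq])
  exact exists_mat h hu (this 0) (this 1)

def N1 (K : Type*) [Field K] : M4 K := !![1, 0, 0, 0; 0, 0, 1, 0; 0, -1, 0, 0; 0, 0, 0, 1]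
def N2 (K : Type*) [Field K] : M4 K := !![0, 1, 0, 0; -1, 0, 0, 0; 0, 0, 0, -1; 0, 0, 1, 0]

theorem un_N1 : Un (N1 K) := by simp only [← Matrix.ext_iff, all4, mul4, one4, map_apply, of_apply, cons_val, mul_zero, zero_mul, mul_one, one_mul, add_zero, zero_add, star_zero, star_one, map_zero, map_one, true_and, and_true, star_neg, star_add, star_sub, star_mul', star_star, neg_zero, neg_neg, map_neg, map_add, map_sub, map_mul, sub_zero, zero_sub, mul_neg, neg_mul, sub_self, un_iff, N1, JJ]
theorem un_N2 : Un (N2 K) := by simp only [← Matrix.ext_iff, all4, mul4, one4, map_apply, of_apply, cons_val, mul_zero, zero_mul, mul_one, one_mul, add_zero, zero_add, star_zero, star_one, map_zero, map_one, true_and, and_true, star_neg, star_add, star_sub, star_mul', star_star, neg_zero, neg_neg, map_neg, map_add, map_sub, map_mul, sub_zero, zero_sub, mul_neg, neg_mul, sub_self, un_iff, N2, JJ]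
theorem un_JJ : Un (JJ K) := by simp only [← Matrix.ext_iff, all4, mul4, one4, map_apply, of_apply, cons_val, mul_zero, zero_mul, mul_one, one_mul, add_zero, zero_add, star_zero, star_one, map_zero, map_one, true_and, and_true, star_neg, star_add, star_sub, star_mul', star_star, neg_zero, neg_neg, map_neg, map_add, map_sub, map_mul, sub_zero, zero_sub, mul_neg, neg_mul, sub_self, un_iff, JJ]
theorem det_N1 : (N1 K).det = 1 := by simp [N1, det_succ_row_zero, Fin.sum_univ_succ, Fin.succAbove]
theorem det_N2 : (N2 K).det = 1 := by simp [N2, det_succ_row_zero, Fin.sum_univ_succ, Fin.succAbove]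
theorem det_JJ : (JJ K).det = 1 := by
  simp [JJ, det_succ_row_zero, Fin.sum_univ_succ, Fin.succAbove]
  norm_num

theorem N1_mat {x : U4 K} (hx : x ∈ sQ K) : N1 K * mat x = mat (w1 x) * N1 K := by
  simp only [← Matrix.ext_iff, all4, mul4, one4, map_apply, of_apply, cons_val, mul_zero, zero_mul, mul_one, one_mul, add_zero, zero_add, star_zero, star_one, map_zero, map_one, true_and, and_true, star_neg, star_add, star_sub, star_mul', star_star, neg_zero, neg_neg, map_neg, map_add, map_sub, map_mul, sub_zero, zero_sub, mul_neg, neg_mul, sub_self, N1, mat, w1, mem_sQ.1 hx]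
  ring

theorem N2_mat {x : U4 K} (hx : x ∈ sJ K) : N2 K * mat x = mat (w2 x) * N2 K := by
  simp only [← Matrix.ext_iff, all4, mul4, one4, map_apply, of_apply, cons_val, mul_zero, zero_mul, mul_one, one_mul, add_zero, zero_add, star_zero, star_one, map_zero, map_one, true_and, and_true, star_neg, star_add, star_sub, star_mul', star_star, neg_zero, neg_neg, map_neg, map_add, map_sub, map_mul, sub_zero, zero_sub, mul_neg, neg_mul, sub_self, N2, mat, w2, mem_sJ.1 hx]

theorem w1c {M : M4 K} {σ : K ≃+* K} {τ : U4 K → U4 K} (hu : Un M)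
    (h : ∀ x ∈ sQ K, τ x ∈ sQ K ∧ mat (τ x) * M = M * (mat x).map σ)
    (hs : ∀ y ∈ sQ K, ∃ x ∈ sQ K, τ x = y) :
    (∀ x ∈ sZ2 K, τ x ∈ sZ2 K) ∨ ∃ g, ∀ x ∈ sZ2 K, (g * τ x * g⁻¹).c = 0 := by
  obtain ⟨x1, a, b⟩ := hs (xa 1) rfl
  obtain ⟨x2, c, d⟩ := hs (xc 1) rfl
  have h1 := (h _ a).2; have h2 := (h _ c).2; have h3 := (h (xc 1) rfl).2
  rw [b] at h1; rw [d] at h2
  simp only [← Matrix.ext_iff, all4, mul4, one4, map_apply, of_apply, cons_val, mul_zero, zero_mul, mul_one, one_mul, add_zero, zero_add, star_zero, star_one, map_zero, map_one, true_and, and_true, star_neg, star_add, star_sub, star_mul', star_star, neg_zero, neg_neg, map_neg, map_add, map_sub, map_mul, sub_zero, zero_sub, mul_neg, neg_mul, sub_self, mat, xa, xc] at h1 h2 h3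
  have a10 : M 1 0 = 0 := by linear_combination h1.1.1
  have a30 : M 3 0 = 0 := by linear_combination -h1.2.2.1.1
  have a20 : M 2 0 = 0 := by linear_combination h2.1.1
  have a31 : M 3 1 = 0 := by linear_combination -h3.2.2.2.2
  have k : ∀ x ∈ sZ2 K, (τ x).a * M 1 1 + (τ x).c * M 2 1 = 0 := fun x hx => by
    have := congrFun (congrFun (h x hx.2).2 0) 1
    simp only [← Matrix.ext_iff, all4, mul4, one4, map_apply, of_apply, cons_val, mul_zero, zero_mul, mul_one, one_mul, add_zero, zero_add, star_zero, star_one, map_zero, map_one, true_and, and_true, star_neg, star_add, star_sub, star_mul', star_star, neg_zero, neg_neg, map_neg, map_add, map_sub, map_mul, sub_zero, zero_sub, mul_neg, neg_mul, sub_self, mat, hx.1, a31] at this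
    linear_combination this
  have e11 := un_iff.1 hu 1 1; have e22 := un_iff.1 hu 2 2; have e12 := un_iff.1 hu 1 2
  have e21 := un_iff.1 hu 2 1
  simp only [← Matrix.ext_iff, all4, mul4, one4, map_apply, of_apply, cons_val, mul_zero, zero_mul, mul_one, one_mul, add_zero, zero_add, star_zero, star_one, map_zero, map_one, true_and, and_true, star_neg, star_add, star_sub, star_mul', star_star, neg_zero, neg_neg, map_neg, map_add, map_sub, map_mul, sub_zero, zero_sub, mul_neg, neg_mul, sub_self, JJ, a10, a20] at e11 e22 e12 e21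
  by_cases z : M 2 1 = 0
  · refine .inl fun x hx => ⟨?_, (h x hx.2).1⟩
    simp only [← Matrix.ext_iff, all4, mul4, one4, map_apply, of_apply, cons_val, mul_zero, zero_mul, mul_one, one_mul, add_zero, zero_add, star_zero, star_one, map_zero, map_one, true_and, and_true, star_neg, star_add, star_sub, star_mul', star_star, neg_zero, neg_neg, map_neg, map_add, map_sub, map_mul, sub_zero, zero_sub, mul_neg, neg_mul, sub_self, z] at e12
    simpa [z, left_ne_zero_of_mul_eq_one e12] using k x hx
  · have z' := star_ne_zero.2 z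
    refine .inr ⟨xy (-(M 1 1 / M 2 1)) (by
      rw [star_neg, star_div₀, neg_inj, div_eq_div_iff z' z]
      linear_combination -(star (M 1 1) * M 2 1) * e12 - M 1 1 * star (M 2 1) * e21 +
        M 1 1 * star (M 1 1) * e22 + M 2 1 * star (M 2 1) * e11), fun x hx => ?_⟩
    rw [cj_c]
    simp only [xy]
    field_simp
    linear_combination k x hx

theorem w2c [Finite K] {M : M4 K} {σ : K ≃+* K} {τ : U4 K → U4 K} (hu : Un M)
    (h : ∀ x ∈ sJ K, τ x ∈ sJ K ∧ mat (τ x) * M = M * (mat x).map σ)
    (hs : ∀ y ∈ sJ K, ∃ x ∈ sJ K, τ x = y) :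
    ((∀ x ∈ sZ K, τ x ∈ sZ K) ∧ ∀ x ∈ sZ2 K, τ x ∈ sZ2 K) ∨
      ∃ g, ∀ x ∈ sZ K, (g * τ x * g⁻¹).c = 0 ∧ (g * τ x * g⁻¹).z = 0 := by
  obtain ⟨x1, a, b⟩ := hs (xz 1 (star_one K)) rfl
  obtain ⟨x2, c, d⟩ := hs (xy 1 (star_one K)) rfl
  have h1 := (h _ a).2; have h2 := (h _ c).2
  rw [b] at h1; rw [d] at h2
  simp only [← Matrix.ext_iff, all4, mul4, one4, map_apply, of_apply, cons_val, mul_zero, zero_mul, mul_one, one_mul, add_zero, zero_add, star_zero, star_one, map_zero, map_one, true_and, and_true, star_neg, star_add, star_sub, star_mul', star_star, neg_zero, neg_neg, map_neg, map_add, map_sub, map_mul, sub_zero, zero_sub, mul_neg, neg_mul, sub_self, mat, xz, xy, mem_sJ.1 a, mem_sJ.1 c] at h1 h2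
  have a30 : M 3 0 = 0 := by linear_combination h1.1.1
  have a31 : M 3 1 = 0 := by linear_combination h1.1.2.1
  have a20 : M 2 0 = 0 := by linear_combination h2.2.1.1
  have a21 : M 2 1 = 0 := by linear_combination h2.2.1.2.1
  have k : ∀ x ∈ sZ2 K, (τ x).z = M 0 0 * star (M 0 0) * σ x.z + M 0 0 * star (M 0 1) * σ x.c +
      M 0 1 * star (M 0 0) * σ (star x.c) ∧ (τ x).c = M 0 0 * star (M 1 0) * σ x.z +
      M 0 0 * star (M 1 1) * σ x.c + M 0 1 * star (M 1 0) * σ (star x.c) ∧
      (τ x).y = M 1 0 * star (M 1 0) * σ x.z + M 1 0 * star (M 1 1) * σ x.c +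
      M 1 1 * star (M 1 0) * σ (star x.c) := fun x hx => by
    have e : mat (τ x) * JJ K = M * (mat x).map σ * JJ K * Mᴴ := by
      rw [← (h x hx.1).2, mul_assoc (mat _), mul_assoc (mat _), hu]
    have e1 := congrFun (congrFun e 0) 0; have e2 := congrFun (congrFun e 0) 1
    have e3 := congrFun (congrFun e 1) 1
    rw [JJ_mul] at e1 e2 e3
    have u1 := un_iff.1 hu 0 0; have u2 := un_iff.1 hu 0 1; have u3 := un_iff.1 hu 1 1
    simp only [← Matrix.ext_iff, all4, mul4, one4, map_apply, of_apply, cons_val, mul_zero, zero_mul, mul_one, one_mul, add_zero, zero_add, star_zero, star_one, map_zero, map_one, true_and, and_true, star_neg, star_add, star_sub, star_mul', star_star, neg_zero, neg_neg, map_neg, map_add, map_sub, map_mul, sub_zero, zero_sub, mul_neg, neg_mul, sub_self, mat, JJ, hx.1, hx.2, mem_sJ.1 (h x hx.1).1] at e1 e2 e3 u1 u2 u3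
    exact ⟨by linear_combination -u1 - e1, by linear_combination -u2 - e2, by linear_combination -u3 - e3⟩
  by_cases z : M 1 0 = 0
  · exact .inl ⟨fun x hx => ⟨(h x hx.1).1, by simp [(k x (Z_Z2 hx)).2.2, z],
      by simp [(k x (Z_Z2 hx)).2.1, z, hx.2.2]⟩, fun x hx => ⟨(h x hx.1).1, by simp [(k x hx).2.2, z]⟩⟩
  · have z' := star_ne_zero.2 z
    refine .inr ⟨xa (-(M 0 0 / M 1 0)), fun x hx => ?_⟩
    obtain ⟨k1, k2, k3⟩ := k x (Z_Z2 hx)
    rw [cj_c, cj_z, k1, k2, k3]
    simp only [← Matrix.ext_iff, all4, mul4, one4, map_apply, of_apply, cons_val, mul_zero, zero_mul, mul_one, one_mul, add_zero, zero_add, star_zero, star_one, map_zero, map_one, true_and, and_true, star_neg, star_add, star_sub, star_mul', star_star, neg_zero, neg_neg, map_neg, map_add, map_sub, map_mul, sub_zero, zero_sub, mul_neg, neg_mul, sub_self, xa, hx.2.2, star_div₀, star_aut, x.hz, mem_sJ.1 (h x hx.1).1]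
    constructor <;> field_simp <;> ring

end Cfsg.Agent.Fu.Rz
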