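import Cfsg.Agent.Fu.R1
import Cfsg.Agent.H4.L3Mat

/-! The Sylow subgroup of `PSU₄(q)` is `U4 K`. -/

set_option autoImplicit false
set_option linter.unusedSectionVars false
set_option linter.unusedSimpArgs false

namespace Cfsg.Agent.Fu

open Matrix U4 Cfsg.Agent.Fu.Rz Cfsg.Agent.Uf

namespace Rz

variable {K : Type*} [Field K] [StarRing K]

theorem mem_SU {q : ℕ} (hs : ∀ x : K, star x = x ^ q) {g : Matrix.SpecialLinearGroup (Fin 4) K} :
    g ∈ SU 4 K q ↔ g.1 * g.1ᴴ = 1 := by
  have k : ∀ u v : Fin 4 → K, hermForm 4 K q u v = star v ⬝ᵥ u := fun u v => by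
    simp only [hermForm, dotProduct, Pi.star_apply, hs, mul_comm]
  change (∀ u v, hermForm 4 K q (g.1 *ᵥ u) (g.1 *ᵥ v) = hermForm 4 K q u v) ↔ _
  simp only [k, star_mulVec, dotProduct_mulVec, vecMul_vecMul]
  rw [mul_eq_one_comm]
  refine ⟨fun h => Matrix.ext fun i j => ?_, fun h u v => by rw [h, vecMul_one]⟩
  simpa [one_apply, Pi.single_apply, eq_comm] using h (Pi.single j 1) (Pi.single i 1)

theorem exists_Q [HF K] : ∃ (Q R : M4 K) (θ : K), Q * R = 1 ∧ Q * Qᴴ = θ • JJ K ∧ θ ≠ 0 := by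
  obtain ⟨a, ha⟩ := HF.nrm (K := K) (-1) (by simp)
  obtain ⟨y, hy⟩ := exists_tr (K := K) (t := -1) (by simp)
  obtain ⟨θ, h0, hθ⟩ := exists_skew (K := K)
  have h : (!![1, a, 0, 0; 0, 0, 1, a; 0, 0, -θ * y, θ * a * star y; -θ * y, θ * a * star y, 0, 0] : M4 K) *
      (!![1, a, 0, 0; 0, 0, 1, a; 0, 0, -θ * y, θ * a * star y; -θ * y, θ * a * star y, 0, 0] : M4 K)ᴴ =
      θ • JJ K := by
    simp only [← Matrix.ext_iff, all4, mul4, one4, map_apply, of_apply, cons_val, mul_zero, zero_mul, mul_one, one_mul, add_zero, zero_add, star_zero, star_one, map_zero, map_one, true_and, and_true, star_neg, star_add, star_sub, star_mul', star_star, neg_zero, neg_neg, map_neg, map_add, map_sub, map_mul, sub_zero, zero_sub, mul_neg, neg_mul, sub_self, JJ, conjTranspose_apply, Matrix.smul_apply, smul_eq_mul, hθ]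
    refine ⟨⟨?_, ?_⟩, ⟨?_, ?_⟩, ⟨?_, ?_⟩, ?_, ?_⟩
    · linear_combination ha
    · linear_combination θ * hy - θ * y * ha
    · linear_combination ha
    · linear_combination θ * hy - θ * y * ha
    · linear_combination -θ * hy + θ * star y * ha
    · linear_combination -θ * θ * y * star y * ha
    · linear_combination -θ * hy + θ * star y * ha
    · linear_combination -θ * θ * y * star y * ha
  have k : θ • JJ K * ((-θ⁻¹) • JJ K) = 1 := by
    simp only [← Matrix.ext_iff, all4, mul4, one4, map_apply, of_apply, cons_val, mul_zero, zero_mul, mul_one, one_mul, add_zero, zero_add, star_zero, star_one, map_zero, map_one, true_and, and_true, star_neg, star_add, star_sub, star_mul', star_star, neg_zero, neg_neg, map_neg, map_add, map_sub, map_mul, sub_zero, zero_sub, mul_neg, neg_mul, sub_self, JJ, Matrix.smul_apply, smul_eq_mul, mul_inv_cancel₀ h0]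
  exact ⟨_, _, θ, by rw [← mul_assoc, h, k], h, h0⟩

theorem Un.smul {M : M4 K} (θ : K) (h : Un M) : M * (θ • JJ K) * Mᴴ = θ • JJ K := by
  rw [Matrix.mul_smul, Matrix.smul_mul, h]

theorem sylow_equiv [Finite K] [HF K] {p q : ℕ} [Fact p.Prime] [CharP K p] (hs : ∀ x : K, star x = x ^ q)
    (T : Sylow p (PSU 4 K q)) : Nonempty ((T : Subgroup (PSU 4 K q)) ≃* U4 K) := by
  obtain ⟨Q, R, θ, h1, h2, h0⟩ := exists_Q (K := K)
  have h1' := mul_eq_one_comm.1 h1
  have h3 : R * (θ • JJ K) * Rᴴ = 1 := by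
    rw [← h2, ← mul_assoc, h1', one_mul, ← conjTranspose_mul, h1', conjTranspose_one]
  have k1 : ∀ M : M4 K, (R * M * Q).det = M.det := fun M => by
    rw [det_mul_comm, ← mul_assoc, h1, one_mul]
  have k2 : ∀ M : M4 K, Un M → R * M * Q * (R * M * Q)ᴴ = 1 := fun M hM => by
    rw [conjTranspose_mul, conjTranspose_mul, mul_assoc _ Q, ← mul_assoc Q, h2, mul_assoc R, ← mul_assoc M,
      ← mul_assoc (M * _), hM.smul, ← mul_assoc, h3]
  have k3 : ∀ M N : M4 K, R * M * Q * (R * N * Q) = R * (M * N) * Q := fun M N => by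
    rw [mul_assoc R N, mul_assoc _ Q, ← mul_assoc Q, h1, one_mul]; simp only [mul_assoc]
  have k4 : ∀ {M N : M4 K}, R * M * Q = R * N * Q → M = N := fun {M N} e => by
    have := congrArg (fun X => Q * X * R) e
    simpa only [← mul_assoc, h1, one_mul, mul_assoc _ Q R, mul_one] using this
  let el : ∀ M : M4 K, Un M → M.det = 1 → SU 4 K q := fun M hM hd =>
    ⟨⟨R * M * Q, (k1 M).trans hd⟩, (mem_SU hs).2 (k2 M hM)⟩
  let ι : U4 K →* SU 4 K q := MonoidHom.mk' (fun x => el _ (un_mat x) (det_mat x)) fun x y =>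
    Subtype.ext (Subtype.ext ((congrArg (R * · * Q) (mat_mul x y)).trans (k3 _ _).symm))
  have hι : Function.Injective ((QuotientGroup.mk' (Subgroup.center (SU 4 K q))).comp ι) := by
    refine (injective_iff_map_eq_one _).2 fun x hx => mat_inj ?_
    have e : mat x * JJ K = JJ K * mat x := k4 ((k3 _ _).symm.trans ((congrArg (fun g : SU 4 K q => g.1.1)
      (Subgroup.mem_center_iff.1 ((QuotientGroup.eq_one_iff _).1 hx) (el _ un_JJ det_JJ))).symm.trans (k3 _ _)))
    simp only [← Matrix.ext_iff, all4, mul4, one4, map_apply, of_apply, cons_val, mul_zero, zero_mul, mul_one, one_mul, add_zero, zero_add, star_zero, star_one, map_zero, map_one, true_and, and_true, star_neg, star_add, star_sub, star_mul', star_star, neg_zero, neg_neg, map_neg, map_add, map_sub, map_mul, sub_zero, zero_sub, mul_neg, neg_mul, sub_self, mat, JJ, one_a, one_c, one_y, one_z, neg_eq_zero] at e ⊢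
    obtain ⟨⟨e1, e2, e3⟩, ⟨e5, e6, -⟩, ⟨e8, -⟩, -⟩ := e
    exact ⟨⟨e3, e2, e1⟩, ⟨e6, e5⟩, by simp [e3]⟩
  have hP : IsPGroup p (U4 K) := (topP (K := K) p).of_equiv Subgroup.topEquiv
  have hS : L.IsSylowIn p ι.range ⊤ := by
    refine H5.Cl.isSylowIn_of_normalizer (hP.of_surjective _ ι.rangeRestrict_surjective) fun g hg ⟨k, hk⟩ => ?_
    have e : R * (Q * g.1.1 * R) * Q = g.1.1 := by
      simp only [← mul_assoc, h1', one_mul, mul_assoc _ R Q, mul_one]
    have hu : Un (Q * g.1.1 * R) := by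
      refine smul_right_injective _ h0 ?_
      show θ • (_ * JJ K * _) = θ • JJ K
      rw [← Matrix.smul_mul, ← Matrix.mul_smul, conjTranspose_mul, conjTranspose_mul, mul_assoc _ R, mul_assoc (Q * _), ← mul_assoc (R * _), h3,
        one_mul, mul_assoc Q, ← mul_assoc g.1.1, (mem_SU hs).1 g.2, one_mul, h2]
    obtain ⟨x, hx⟩ := exists_of_pow (p := p) (k := k) (tri_of_norm (σ := RingEquiv.refl K) fun y => by
      obtain ⟨x, hx⟩ := (Subgroup.mem_normalizer_iff.1 (inv_mem hg) _).1 ⟨y, rfl⟩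
      have : ι y * g = g * ι x := by rw [hx]; group
      refine ⟨x, k4 ?_⟩
      rw [← k3 (mat y), ← k3 (Q * g.1.1 * R), e]
      exact congrArg (fun g : SU 4 K q => g.1.1) this) hu (k4 (by
        have : ∀ n : ℕ, R * (Q * g.1.1 * R) ^ n * Q = (g ^ n).1.1 := fun n => by
          induction n with
          | zero => rw [pow_zero, pow_zero, mul_one, h1']; rfl
          | succ n ih => rw [pow_succ, ← k3, ih, e, pow_succ]; rfl
        rw [this, hk, mul_one, h1']; rfl))
    exact ⟨x, Subtype.ext (Subtype.ext (by rw [← e, hx]; rfl))⟩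
  refine ⟨(T.equiv (hS.toSylowTop.mapSurjective (QuotientGroup.mk'_surjective _))).trans
    ((MulEquiv.subgroupCongr ?_).trans (MonoidHom.ofInjective hι).symm)⟩
  rw [MonoidHom.range_comp]
  rfl

end Rz

theorem exists_equiv {K : Type*} [Field K] [Fintype K] {p q : ℕ} [Fact p.Prime] [CharP K p]
    (hK : Fintype.card K = q ^ 2) (T : Sylow p (PSU 4 K q)) :
    ∃ (_ : StarRing K) (_ : HF K), Nonempty ((T : Subgroup (PSU 4 K q)) ≃* U4 K) := by
  classical
  obtain ⟨σ, hσ⟩ := H4.exists_frob hK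
  have h1 : 1 < q := by
    have := Fintype.one_lt_card (α := K)
    rw [hK] at this
    exact (Nat.one_lt_pow_iff two_ne_zero).1 this
  letI : StarRing K :=
    { star := σ
      star_involutive := fun x => by rw [hσ, hσ, ← pow_mul, ← sq, ← hK, FiniteField.pow_card]
      star_mul := fun x y => (map_mul σ x y).trans (mul_comm _ _)
      star_add := map_add σ }
  have : HF K := ⟨?_, fun t ht => ?_⟩
  · exact ⟨_, this, sylow_equiv hσ T⟩
  · by_contra! h
    obtain ⟨g, hg⟩ := IsCyclic.exists_generator (α := Kˣ)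
    have ho : orderOf g = q ^ 2 - 1 := by
      rw [orderOf_eq_card_of_forall_mem_zpowers hg, Nat.card_eq_fintype_card, Fintype.card_units, hK]
    have h2 : g ^ (q - 1) = 1 := by
      refine mul_right_cancel (b := g) (Units.ext ?_)
      rw [← pow_succ, Nat.sub_add_cancel h1.le, one_mul, Units.val_pow_eq_pow_val, ← hσ]
      exact h g
    have h3 := Nat.le_of_dvd (by omega) (ho ▸ orderOf_dvd_of_pow_eq_one h2)
    have : q < q ^ 2 := by nlinarith
    omega
  · rcases eq_or_ne t 0 with rfl | h0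
    · exact ⟨0, zero_mul _⟩
    obtain ⟨c, -, hc⟩ := H4.exists_norm_eq hK h0 (hσ t ▸ ht)
    exact ⟨c, (congrArg (c * ·) (hσ c)).trans hc⟩

end Cfsg.Agent.Fu
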