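import Cfsg.Agent.Fu.A

/-! Norm similitudes are semilinear; a Chevalley-Warning lemma. -/

set_option autoImplicit false
set_option linter.unusedSectionVars false
set_option linter.style.haveILetI false

namespace Cfsg.Agent.Fu

open Cfsg.Agent.Uf

variable {K : Type*} [Field K] [StarRing K] [Finite K] [HF K]

theorem eq_zero_of_tr {d : K} (h : ∀ e, d * star e + star d * e = 0) : d = 0 := by
  by_contra hd
  obtain ⟨c, hc⟩ := exists_trc hd (star_one K)
  exact one_ne_zero (hc.symm.trans (h c))

theorem exists_dec2 : ∃ x : K, ∀ a : K, ∃ s t : K, star s = s ∧ star t = t ∧ a = s + t * x := by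
  obtain ⟨x, hx⟩ := HF.ne (K := K)
  have h : x - star x ≠ 0 := sub_ne_zero.2 hx.symm
  have h' : star x - x ≠ 0 := sub_ne_zero.2 hx
  refine ⟨x, fun a => ⟨a - (a - star a) / (x - star x) * x, (a - star a) / (x - star x), ?_, ?_,
    by ring⟩⟩
  · simp only [star_sub, star_mul', star_div₀, star_star]
    field_simp
    ring
  · simp only [star_sub, star_div₀, star_star]
    field_simp
    ring

/-- An element of norm one different from `1`. -/
theorem exists_eps : ∃ e : K, e * star e = 1 ∧ e ≠ 1 := by
  obtain ⟨x, hx⟩ := HF.ne (K := K)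
  have h0 : x ≠ 0 := by rintro rfl; simp at hx
  have h1 : star x ≠ 0 := star_ne_zero.2 h0
  refine ⟨star x / x, ?_, fun h => hx (by field_simp at h; exact h)⟩
  rw [star_div₀, star_star]; field_simp

theorem norm_sim (B : K →+ K) (hB : Function.Bijective B) {m : K} {ρ : K → K}
    (hm : ∀ s t, star s = s → star t = t → ρ (s * t) = ρ s * ρ t)
    (ha : ∀ s t, star s = s → star t = t → ρ (s + t) = ρ s + ρ t)
    (h : ∀ a, B a * star (B a) = m * ρ (a * star a)) :
    ∃ σ : K ≃+* K, (∀ a, B a = B 1 * σ a) ∧ ∀ t, star t = t → σ t = ρ t := by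
  have b0 : B 1 ≠ 0 := fun e => one_ne_zero (hB.1 (e.trans B.map_zero.symm))
  have b1 : star (B 1) ≠ 0 := star_ne_zero.2 b0
  have h1 := h 1
  rw [star_one, mul_one] at h1
  have r1 : ρ 1 = 1 := by
    have := hm 1 1 (star_one K) (star_one K)
    rw [mul_one] at this
    exact mul_left_cancel₀ (a := ρ 1) (fun e => by simp [e, b0] at h1) (by rw [← this, mul_one])
  rw [r1, mul_one] at h1
  set f : K → K := fun a => B a / B 1 with hf
  have fB : ∀ a, B a = B 1 * f a := fun a => (mul_div_cancel₀ _ b0).symm
  have fa : ∀ a b, f (a + b) = f a + f b := fun a b => by simp only [hf, map_add, add_div]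
  have f1 : f 1 = 1 := div_self b0
  have n : ∀ a, f a * star (f a) = ρ (a * star a) := fun a => by
    have := h a
    rw [← h1, fB a, star_mul'] at this
    exact mul_left_cancel₀ (mul_ne_zero b0 b1) (by linear_combination this)
  have pol : ∀ a b, f a * star (f b) + star (f a) * f b = ρ (a * star b + star a * b) := fun a b => by
    have e := n (a + b)
    rw [show (a + b) * star (a + b) = a * star a + (b * star b + (a * star b + star a * b)) by
      simp; ring, ha _ _ (by simp [mul_comm]) (by simp [mul_comm, add_comm]),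
      ha _ _ (by simp [mul_comm]) (by simp [mul_comm, add_comm]), ← n, ← n, fa, star_add] at e
    linear_combination e
  have rr : ∀ t, star t = t → star (ρ t) = ρ t := fun t ht => by
    obtain ⟨b, rfl⟩ := HF.nrm t ht
    rw [← n]; simp [mul_comm]
  have sc : ∀ t a, star t = t → f (t * a) = ρ t * f a := fun t a ht => by
    refine sub_eq_zero.1 (eq_zero_of_tr fun e => ?_)
    obtain ⟨b, hb⟩ := hB.2 (B 1 * e)
    have e1 : f b = e := by rw [hf]; simp only [hb]; field_simp
    have e2 := pol (t * a) b
    rw [show t * a * star b + star (t * a) * b = t * (a * star b + star a * b) by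
      rw [star_mul', ht]; ring, hm _ _ ht (by simp [mul_comm, add_comm]), ← pol, e1] at e2
    rw [star_sub, star_mul', rr t ht]
    linear_combination e2
  have re : ∀ t, star t = t → f t = ρ t := fun t ht => by simpa [f1] using sc t 1 ht
  have sq : ∀ a, f (a * a) = f a * f a := fun a => by
    have e1 := fa (a * a) (a * star a)
    have e2 := pol a 1
    rw [show a * a + a * star a = (a * star 1 + star a * 1) * a by simp; ring,
      sc _ _ (by simp [add_comm]), ← e2, re (a * star a) (by simp [mul_comm]), ← n, f1] at e1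
    simp only [star_one] at e1
    linear_combination -e1
  obtain ⟨x, hx⟩ := exists_dec2 (K := K)
  let σ : K →+* K :=
    { toFun := f
      map_one' := f1
      map_zero' := by simp [hf]
      map_add' := fa
      map_mul' := fun a b => by
        obtain ⟨s, t, hs, ht, rfl⟩ := hx a
        obtain ⟨s', t', hs', ht', rfl⟩ := hx b
        rw [show (s + t * x) * (s' + t' * x) = s * s' + (s * (t' * x) + (t * (s' * x) +
          t * (t' * (x * x)))) by ring]
        simp only [fa, sc, hs, ht, hs', ht', sq, re]
        ring }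
  exact ⟨RingEquiv.ofBijective σ (Finite.injective_iff_bijective.1 σ.injective), fB, re⟩

open MvPolynomial in
/-- Chevalley-Warning for a bilinear map. -/
theorem cw_bilin {k V W : Type*} [Field k] [Finite k] [AddCommGroup V] [Module k V]
    [AddCommGroup W] [Module k W] [Module.Finite k V] [Module.Finite k W] (B : V →ₗ[k] V →ₗ[k] W)
    (h : 2 * Module.finrank k W < Module.finrank k V) : ∃ v, v ≠ 0 ∧ B v v = 0 := by
  classical
  haveI := Fintype.ofFinite k
  obtain ⟨p, _⟩ := CharP.exists k
  obtain ⟨-, hp, -⟩ := FiniteField.card k p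
  let b := Module.finBasis k V
  let c := Module.finBasis k W
  let f : Fin (Module.finrank k W) → MvPolynomial (Fin (Module.finrank k V)) k := fun l =>
    ∑ i, ∑ j, C (c.repr (B (b i) (b j)) l) * X i * X j
  have hd : ∀ l, (f l).totalDegree ≤ 2 := fun l =>
    (totalDegree_finsetSum_le fun i _ => totalDegree_finsetSum_le fun j _ =>
      (totalDegree_mul _ _).trans (by
        have := totalDegree_mul (C (c.repr (B (b i) (b j)) l) : MvPolynomial _ k) (X i)
        simp only [totalDegree_C, totalDegree_X] at this ⊢
        omega))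
  have he : ∀ (x : Fin (Module.finrank k V) → k) l,
      eval x (f l) = c.repr (B (∑ i, x i • b i) (∑ i, x i • b i)) l := fun x l => by
    simp only [f, map_sum, map_mul, eval_C, eval_X, LinearMap.sum_apply, map_smul,
      LinearMap.smul_apply, Finsupp.coe_finsetSum, Finset.sum_apply, Finsupp.smul_apply,
      smul_eq_mul, Finset.mul_sum]
    rw [Finset.sum_comm]
    exact Finset.sum_congr rfl fun i _ => Finset.sum_congr rfl fun j _ => by ring
  have key := char_dvd_card_solutions_of_fintype_sum_lt p (f := f) (by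
    refine lt_of_le_of_lt (Finset.sum_le_sum fun l _ => hd l) ?_
    simpa [mul_comm] using h)
  by_contra H
  push Not at H
  have : Fintype.card {x : Fin (Module.finrank k V) → k // ∀ l, eval x (f l) = 0} = 1 := by
    refine Fintype.card_eq_one_iff.2 ⟨⟨0, fun l => by rw [he]; simp⟩, fun x => Subtype.ext ?_⟩
    by_contra h0
    refine H (∑ i, x.1 i • b i) (fun e => h0 (funext fun i =>
      Fintype.linearIndependent_iff.1 b.linearIndependent _ e i)) (c.repr.injective ?_)
    ext l
    rw [← he, x.2 l]; simp
  rw [Fintype.card_eq_nat_card] at this key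
  exact hp.one_lt.ne' (Nat.dvd_one.1 (this ▸ key))

/-- `N(a) y + ℓ(a) = d` is solvable. -/
theorem cw (p : ℕ) [Fact p.Prime] [CharP K p] (l : K →+ K) (hl : ∀ a, star (l a) = l a) {y d : K}
    (hy : star y = y) (h0 : y ≠ 0) (hd : star d = d) : ∃ a, a * star a * y + l a = d := by
  letI := ZMod.algebra K p
  let W : Submodule (ZMod p) K := AddSubgroup.toZModSubmodule p (selfAdjoint K)
  obtain ⟨W', hW⟩ := W.exists_isCompl
  let π : K →ₗ[ZMod p] W := W.projectionOnto W' hW
  have hπ : ∀ t, star t = t → (π t : K) = t := fun t ht =>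
    congrArg Subtype.val (Submodule.projectionOnto_apply_left hW ⟨t, ht⟩)
  have hs : ∀ w : ZMod p, star (algebraMap (ZMod p) K w) = algebraMap (ZMod p) K w := fun w => by
    obtain ⟨n, rfl⟩ := ZMod.natCast_zmod_surjective w
    simp
  let B0 : K × ZMod p →+ K × ZMod p →+ K := AddMonoidHom.mk' (fun v => AddMonoidHom.mk'
    (fun w => v.1 * star w.1 * y + l v.1 * algebraMap _ K w.2 - d * algebraMap _ K (v.2 * w.2))
    fun a b => by simp [mul_add]; ring) fun a b => by ext <;> simp <;> ring
  let B : (K × ZMod p) →ₗ[ZMod p] (K × ZMod p) →ₗ[ZMod p] W :=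
    (AddMonoidHom.mk' (fun v => π ∘ₗ (B0 v).toZModLinearMap p) fun a b =>
      LinearMap.ext fun w => by simp).toZModLinearMap p
  have hB : ∀ v w, B v w = π (B0 v w) := fun _ _ => rfl
  obtain ⟨v, v0, hv⟩ := cw_bilin B (by
    have h1 := Module.natCard_eq_pow_finrank (K := ZMod p) (V := K)
    have h2 := Module.natCard_eq_pow_finrank (K := ZMod p) (V := W)
    have h3 : Nat.card W = qq K := rfl
    rw [card_K, ← h3, h2, ← pow_mul] at h1
    have := Nat.pow_right_injective (Finite.one_lt_card (α := ZMod p)) h1
    rw [Module.finrank_prod, Module.finrank_self]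
    omega)
  have e : v.1 * star v.1 * y + l v.1 * algebraMap _ K v.2 - d * algebraMap _ K (v.2 * v.2) = 0 := by
    have := congrArg Subtype.val hv
    rwa [hB, hπ _ (by simp [B0, hy, hl, hd, hs, mul_comm])] at this
  have hw : v.2 ≠ 0 := fun e2 => v0 (Prod.ext (by simpa [e2, h0] using e) e2)
  have hw' : algebraMap (ZMod p) K v.2 ≠ 0 := by simpa using hw
  refine ⟨v.2⁻¹ • v.1, ?_⟩
  rw [show l (v.2⁻¹ • v.1) = v.2⁻¹ • l v.1 from map_smul (l.toZModLinearMap p) _ _,
    Algebra.smul_def, Algebra.smul_def, star_mul', hs, map_inv₀]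
  rw [map_mul] at e
  field_simp
  linear_combination e

end Cfsg.Agent.Fu
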