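import Cfsg.Agent.Fu.S

/-! Chevalley-Warning lemmas for the norm form. -/

set_option autoImplicit false
set_option linter.unusedSectionVars false
set_option linter.style.haveILetI false

namespace Cfsg.Agent.Fu

open Cfsg.Agent.Uf

open MvPolynomial in
theorem cw_gen {k V W : Type*} [Field k] [Finite k] [AddCommGroup V] [Module k V]
    [AddCommGroup W] [Module k W] [Module.Finite k V] [Module.Finite k W] (B : V →ₗ[k] V →ₗ[k] W)
    (L : V →ₗ[k] W) (h : 2 * Module.finrank k W < Module.finrank k V) :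
    ∃ v, v ≠ 0 ∧ B v v + L v = 0 := by
  classical
  haveI := Fintype.ofFinite k
  obtain ⟨p, _⟩ := CharP.exists k
  obtain ⟨-, hp, -⟩ := FiniteField.card k p
  let b := Module.finBasis k V
  let c := Module.finBasis k W
  let f : Fin (Module.finrank k W) → MvPolynomial (Fin (Module.finrank k V)) k := fun l =>
    ∑ i, ∑ j, C (c.repr (B (b i) (b j)) l) * X i * X j + ∑ i, C (c.repr (L (b i)) l) * X i
  have h1 : ∀ (r : k) i, (C r * X i : MvPolynomial (Fin (Module.finrank k V)) k).totalDegree ≤ 1 :=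
    fun r i => by simpa using totalDegree_mul (C r : MvPolynomial _ k) (X i)
  have hd : ∀ l, (f l).totalDegree ≤ 2 := fun l => (totalDegree_add _ _).trans (max_le
    (totalDegree_finsetSum_le fun i _ => totalDegree_finsetSum_le fun j _ =>
      (totalDegree_mul _ _).trans (by
        have := h1 (c.repr (B (b i) (b j)) l) i
        simp only [totalDegree_X]
        omega)) (totalDegree_finsetSum_le fun i _ => (h1 _ i).trans one_le_two))
  have he : ∀ (x : Fin (Module.finrank k V) → k) l, eval x (f l) =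
      c.repr (B (∑ i, x i • b i) (∑ i, x i • b i) + L (∑ i, x i • b i)) l := fun x l => by
    simp only [f, map_sum, map_mul, map_add, eval_C, eval_X, LinearMap.sum_apply, map_smul,
      LinearMap.smul_apply, Finsupp.coe_finsetSum, Finset.sum_apply, Finsupp.smul_apply,
      smul_eq_mul, Finset.mul_sum, Finsupp.add_apply]
    rw [Finset.sum_comm]
    congr 1
    · exact Finset.sum_congr rfl fun i _ => Finset.sum_congr rfl fun j _ => by ring
    · exact Finset.sum_congr rfl fun i _ => by ring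
  have key := char_dvd_card_solutions_of_fintype_sum_lt p (f := f) (by
    refine lt_of_le_of_lt (Finset.sum_le_sum fun l _ => hd l) ?_
    simpa [mul_comm] using h)
  by_contra H
  push Not at H
  have : Fintype.card {x : Fin (Module.finrank k V) → k // ∀ l, eval x (f l) = 0} = 1 := by
    refine Fintype.card_eq_one_iff.2 ⟨⟨0, fun l => by rw [he]; simp⟩, fun x => Subtype.ext ?_⟩
    by_contra h0
    refine H (∑ i, x.1 i • b i) (fun e => h0 (funext fun i =>
      Fintype.linearIndependent_iff.1 b.linearIndependent _ e i)) (c.repr.injective ?_)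
    ext l
    rw [← he, x.2 l]; simp
  rw [Fintype.card_eq_nat_card] at this key
  exact hp.one_lt.ne' (Nat.dvd_one.1 (this ▸ key))

variable {K : Type*} [Field K] [StarRing K] [Finite K] [HF K]

theorem exists_ret : ∃ π : K →+ selfAdjoint K, ∀ t, star t = t → (π t : K) = t := by
  obtain ⟨x, hx⟩ := HF.ne (K := K)
  have h : x - star x ≠ 0 := sub_ne_zero.2 hx.symm
  have h' : star x - x ≠ 0 := sub_ne_zero.2 hx
  refine ⟨AddMonoidHom.mk' (fun a => ⟨a - (a - star a) / (x - star x) * x, ?_⟩) fun a b =>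
    Subtype.ext ?_, fun t ht => by simp [ht]⟩
  · simp only [selfAdjoint.mem_iff, star_sub, star_mul', star_div₀, star_star]
    field_simp
    ring
  · simp only [star_add, AddSubgroup.coe_add]; ring

/-- The real number `N(a) y`. -/
def nr (a : K) (y : selfAdjoint K) : selfAdjoint K :=
  ⟨a * star a * y, by
    rw [selfAdjoint.mem_iff, star_mul', star_mul', star_star, selfAdjoint.mem_iff.1 y.2]; ring⟩

variable (p : ℕ) [Fact p.Prime] [CharP K p]

section Gen
variable {V R : Type*} [AddCommGroup V] [Module (ZMod p) V] [Finite V] [AddCommGroup R]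
  [Module (ZMod p) R] [Finite R]

theorem rank_two (h : Nat.card V = Nat.card R ^ 2) :
    Module.finrank (ZMod p) V = 2 * Module.finrank (ZMod p) R := by
  have h1 := Module.natCard_eq_pow_finrank (K := ZMod p) (V := V)
  have h2 := Module.natCard_eq_pow_finrank (K := ZMod p) (V := R)
  rw [h, h2, ← pow_mul] at h1
  have : _ = _ := Nat.pow_right_injective (Finite.one_lt_card (α := ZMod p)) h1
  omega

include p in
theorem cw2g (h : Nat.card V = Nat.card R ^ 2) (μ : R →+ R) (hμ : ¬ Function.Injective μ)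
    (l : V →+ R) (b : V →+ V →+ R) : ∃ a, a ≠ 0 ∧ μ (b a a) + l a = 0 := by
  let m := AddMonoidHom.toZModLinearMap p μ
  have hr : LinearMap.range m ≠ ⊤ := fun h =>
    hμ (Finite.injective_iff_surjective.2 (LinearMap.range_eq_top.1 h))
  obtain ⟨f, f0, hf⟩ := Submodule.exists_le_ker_of_lt_top _ (lt_top_iff_ne_top.2 hr)
  let g := f ∘ₗ l.toZModLinearMap p
  let B0 : LinearMap.ker g →+ LinearMap.ker g →+ LinearMap.ker f := AddMonoidHom.mk'
    (fun v => AddMonoidHom.mk' (fun w => ⟨μ (b v.1 w.1), hf ⟨_, rfl⟩⟩) fun a b =>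
      Subtype.ext (by simp)) fun a b => AddMonoidHom.ext fun w => Subtype.ext (by simp)
  let B : LinearMap.ker g →ₗ[ZMod p] LinearMap.ker g →ₗ[ZMod p] LinearMap.ker f :=
    (AddMonoidHom.mk' (fun v => (B0 v).toZModLinearMap p) fun a b =>
      LinearMap.ext fun w => by simp).toZModLinearMap p
  let L : LinearMap.ker g →ₗ[ZMod p] LinearMap.ker f :=
    (l.toZModLinearMap p).restrict fun x hx => hx
  obtain ⟨v, v0, hv⟩ := cw_gen B L (by
    have h1 := rank_two p h
    have h2 := g.finrank_range_add_finrank_ker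
    have h3 := f.finrank_range_add_finrank_ker
    have h4 := (LinearMap.range g).finrank_le
    rw [Module.Dual.range_eq_top_of_ne_zero f0, finrank_top] at h3
    rw [Module.finrank_self] at h3 h4
    omega)
  exact ⟨v.1, fun h => v0 (Subtype.ext h), congrArg Subtype.val hv⟩

theorem cw3g [Nontrivial V] (h : Nat.card V = Nat.card R ^ 2) (b : V →+ R →+ V) {c : V}
    (hc : c ≠ 0) : ∃ f : V →+ ZMod p, f c ≠ 0 ∧ ∃ a, a ≠ 0 ∧ ∀ y, f (b a y) = 0 := by
  obtain ⟨f, hf⟩ : ∃ f : Module.Dual (ZMod p) V, f c ≠ 0 := by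
    by_contra H
    push Not at H
    exact hc ((Module.forall_dual_apply_eq_zero_iff (ZMod p) _).1 H)
  let B : V →ₗ[ZMod p] Module.Dual (ZMod p) R :=
    (AddMonoidHom.mk' (fun a => f ∘ₗ (b a).toZModLinearMap p) fun a b =>
      LinearMap.ext fun w => by simp).toZModLinearMap p
  have h1 := rank_two p h
  have h2 : 0 < Module.finrank (ZMod p) V := Module.finrank_pos
  obtain ⟨a, ha, a0⟩ := (Submodule.ne_bot_iff _).1 (LinearMap.ker_ne_bot_of_finrank_lt (f := B) (by
    rw [Subspace.dual_finrank_eq]; omega))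
  exact ⟨f.toAddMonoidHom, hf, a, a0, fun y => LinearMap.congr_fun ha y⟩

end Gen

include p in
theorem cw1 (μ : selfAdjoint K →+ selfAdjoint K) (hμ : Function.Injective μ)
    (l : K →+ selfAdjoint K) {y : selfAdjoint K} (h0 : y ≠ 0) (d : selfAdjoint K) :
    ∃ a, μ (nr a y) + l a = d := by
  let e := AddEquiv.ofBijective μ (Finite.injective_iff_bijective.1 hμ)
  obtain ⟨a, ha⟩ := cw p ((selfAdjoint K).subtype.comp (e.symm.toAddMonoidHom.comp l))
    (fun a => (e.symm (l a)).2) y.2 (fun h => h0 (Subtype.ext h)) (e.symm d).2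
  refine ⟨a, e.symm.injective ?_⟩
  rw [map_add, show μ (nr a y) = e (nr a y) from rfl, e.symm_apply_apply]
  exact Subtype.ext ha

theorem psmul (x : selfAdjoint K) : p • x = 0 :=
  Subtype.ext (by rw [AddSubgroup.coe_nsmul, nsmul_eq_mul, CharP.cast_eq_zero, zero_mul]; rfl)

include p in
theorem cw2 (μ : selfAdjoint K →+ selfAdjoint K) (hμ : ¬ Function.Injective μ)
    (l : K →+ selfAdjoint K) (y : selfAdjoint K) : ∃ a, a ≠ 0 ∧ μ (nr a y) + l a = 0 := by
  letI := ZMod.algebra K p
  obtain ⟨π, hπ⟩ := exists_ret (K := K)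
  obtain ⟨a, a0, h⟩ := @cw2g p _ K (selfAdjoint K) _ _ _ _ (AddCommGroup.zmodModule (psmul p)) _
    card_K μ hμ l (AddMonoidHom.mk' (fun v => AddMonoidHom.mk' (fun w => π (v * star w * y))
      fun a b => by simp [mul_add, add_mul]) fun a b => AddMonoidHom.ext fun w => by simp [add_mul])
  refine ⟨a, a0, ?_⟩
  rw [← (Subtype.ext (hπ _ (nr a y).2) : π (a * star a * y) = nr a y)]
  exact h

include p in
theorem cw3 (l : K →+ K) {c : K} (hc : c ≠ 0) : ∃ f : K →+ ZMod p, f c ≠ 0 ∧
    ∃ a, a ≠ 0 ∧ ∀ y, star y = y → f (l (a * y)) = 0 := by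
  letI := ZMod.algebra K p
  obtain ⟨f, hf, a, a0, h⟩ := @cw3g p _ K (selfAdjoint K) _ _ _ _
    (AddCommGroup.zmodModule (psmul p)) _ _ card_K (AddMonoidHom.mk' (fun v => AddMonoidHom.mk'
      (fun w : selfAdjoint K => l (v * w)) fun a b => by simp [mul_add]) fun a b =>
      AddMonoidHom.ext fun w => by simp [add_mul]) c hc
  exact ⟨f, hf, a, a0, fun y hy => h ⟨y, hy⟩⟩

end Cfsg.Agent.Fu
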