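import Cfsg.Agent.Co.A5

/-! The case `q = 3`: model of a Sylow 3-subgroup of `U₄(3)` and its embedding into `Co0`. -/

set_option autoImplicit false

namespace Cfsg.Agent.Fu.T

open Cfsg.Agent.Co Cfsg.Agent.Co.A Cfsg.Spor

/-- Hermitian matrices `[[p, q + i s], [q - i s, u]]` over `F₉` extended by `a + i z`. -/
@[ext] structure S6 where
  p : K3
  q : K3
  s : K3
  u : K3
  a : K3
  z : K3
deriving DecidableEq

def S6.equivFun : S6 ≃ (K3 × K3 × K3 × K3 × K3 × K3) where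
  toFun x := (x.p, x.q, x.s, x.u, x.a, x.z)
  invFun y := ⟨y.1, y.2.1, y.2.2.1, y.2.2.2.1, y.2.2.2.2.1, y.2.2.2.2.2⟩
  left_inv _ := rfl
  right_inv _ := rfl

instance instFintypeS6 : Fintype S6 := Fintype.ofEquiv _ S6.equivFun.symm

instance instMulS6 : Mul S6 := ⟨fun x y =>
  ⟨x.p + y.p + 2 * x.a * y.q + 2 * x.z * y.s + (x.a ^ 2 + x.z ^ 2) * y.u,
   x.q + y.q + x.a * y.u, x.s + y.s + x.z * y.u, x.u + y.u, x.a + y.a, x.z + y.z⟩⟩
instance instOneS6 : One S6 := ⟨⟨0, 0, 0, 0, 0, 0⟩⟩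
instance instInvS6 : Inv S6 := ⟨fun x =>
  ⟨-x.p + 2 * x.a * x.q + 2 * x.z * x.s - (x.a ^ 2 + x.z ^ 2) * x.u,
   -x.q + x.a * x.u, -x.s + x.z * x.u, -x.u, -x.a, -x.z⟩⟩

section simps
variable (x y : S6)
@[simp] theorem mu_p : (x * y).p =
    x.p + y.p + 2 * x.a * y.q + 2 * x.z * y.s + (x.a ^ 2 + x.z ^ 2) * y.u := rfl
@[simp] theorem mu_q : (x * y).q = x.q + y.q + x.a * y.u := rfl
@[simp] theorem mu_s : (x * y).s = x.s + y.s + x.z * y.u := rfl
@[simp] theorem mu_u : (x * y).u = x.u + y.u := rfl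
@[simp] theorem mu_a : (x * y).a = x.a + y.a := rfl
@[simp] theorem mu_z : (x * y).z = x.z + y.z := rfl
@[simp] theorem on_p : (1 : S6).p = 0 := rfl
@[simp] theorem on_q : (1 : S6).q = 0 := rfl
@[simp] theorem on_s : (1 : S6).s = 0 := rfl
@[simp] theorem on_u : (1 : S6).u = 0 := rfl
@[simp] theorem on_a : (1 : S6).a = 0 := rfl
@[simp] theorem on_z : (1 : S6).z = 0 := rfl
@[simp] theorem iv_p : x⁻¹.p =
    -x.p + 2 * x.a * x.q + 2 * x.z * x.s - (x.a ^ 2 + x.z ^ 2) * x.u := rfl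
@[simp] theorem iv_q : x⁻¹.q = -x.q + x.a * x.u := rfl
@[simp] theorem iv_s : x⁻¹.s = -x.s + x.z * x.u := rfl
@[simp] theorem iv_u : x⁻¹.u = -x.u := rfl
@[simp] theorem iv_a : x⁻¹.a = -x.a := rfl
@[simp] theorem iv_z : x⁻¹.z = -x.z := rfl
end simps

instance instGroupS6 : Group S6 := Group.ofLeftAxioms
  (fun x y w => by ext <;> simp <;> ring)
  (fun x => by ext <;> simp)
  (fun x => by ext <;> simp <;> ring)

theorem card_S6 : Nat.card S6 = 3 ^ 6 := by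
  rw [Nat.card_congr S6.equivFun]; simp

theorem isP_S6 : IsPGroup 3 S6 := IsPGroup.of_card card_S6

/-- A subgroup given by a predicate. -/
def cs6 (P : S6 → Prop) (h1 : P 1 := by simp)
    (hm : ∀ x y, P x → P y → P (x * y) := by intro x y; simp +contextual)
    (hi : ∀ x, P x → P x⁻¹ := by intro x; simp +contextual) : Subgroup S6 where
  carrier := {x | P x}
  one_mem' := h1
  mul_mem' := fun {x y} hx hy => hm x y hx hy
  inv_mem' := fun {x} hx => hi x hx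

def J4 : Subgroup S6 := cs6 fun x => x.a = 0 ∧ x.z = 0
@[simp] theorem mem_J4 {x : S6} : x ∈ J4 ↔ x.a = 0 ∧ x.z = 0 := Iff.rfl
def Q5 : Subgroup S6 := cs6 fun x => x.u = 0
@[simp] theorem mem_Q5 {x : S6} : x ∈ Q5 ↔ x.u = 0 := Iff.rfl
def J3 : Subgroup S6 := cs6 fun x => x.u = 0 ∧ x.a = 0 ∧ x.z = 0
@[simp] theorem mem_J3 {x : S6} : x ∈ J3 ↔ x.u = 0 ∧ x.a = 0 ∧ x.z = 0 := Iff.rfl
def Z1 : Subgroup S6 := cs6 fun x => x.q = 0 ∧ x.s = 0 ∧ x.u = 0 ∧ x.a = 0 ∧ x.z = 0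
@[simp] theorem mem_Z1 {x : S6} :
    x ∈ Z1 ↔ x.q = 0 ∧ x.s = 0 ∧ x.u = 0 ∧ x.a = 0 ∧ x.z = 0 := Iff.rfl

/-- singular vectors of `J4` (determinant zero) -/
def Sing (j : S6) : Prop := j.p * j.u = j.q ^ 2 + j.s ^ 2

/-- the embedding into the Sylow subgroup of `Co1` -/
def emb : S6 →* Sy := MonoidHom.mk' (fun x => ⟨x.p, x.q, x.u, x.s, 0, x.u, x.a, 0, x.z⟩)
  fun x y => by ext <;> simp; ring

theorem emb_apply (x : S6) : emb x = ⟨x.p, x.q, x.u, x.s, 0, x.u, x.a, 0, x.z⟩ := rfl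

/-- the embedding into `Co0` -/
noncomputable def ι : S6 →* Co0 := io.comp emb

theorem ι_apply (x : S6) : ι x = io (emb x) := rfl

theorem io_injective : Function.Injective io := fun _ _ h =>
  gd.inj (congrArg (QuotientGroup.mk' _) h)

theorem ι_inj : Function.Injective ι := fun x y h => by
  have := io_injective h
  simp only [emb_apply, Sy.ext_iff] at this
  ext <;> tauto

/-- the first three Eisenstein coordinates -/
abbrev Mv : Type := Fin 3 → Ei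

/-- lattice vectors supported on the first three coordinates -/
def InM (x : leechLattice) : Prop := ∀ i : Fin 12, 3 ≤ i.val → Pl x i = 0

/-- the sum of the coordinates is divisible by `θ` -/
def InU (v : Mv) : Prop := 3 ∣ (v 0 + v 1 + v 2).re + (v 0 + v 1 + v 2).im

/-- `x` has coordinates `24 v` -/
def Crd (x : leechLattice) (v : Mv) : Prop :=
  InM x ∧ ∀ i : Fin 3, Pl x (i.castLE (by decide)) = 24 * v i

/-- Lattice lemmas. -/
class TL : Prop where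
  c3 : ∀ g : Co0, (∀ j ∈ J3, g * ι j = ι j * g) → ∃ j ∈ Co.J, Pm (g * (io j)⁻¹)
  sing : ∀ g : Co0, (∀ j ∈ J4, ∃ j' ∈ J4, g⁻¹ * ι j * g = ι j') →
    ∀ j ∈ J4, ∀ j' ∈ J4, g * ι j * g⁻¹ = ι j' → Sing j → Sing j'
  shape : ∀ x, InM x → ∃ v, InU v ∧ Crd x v
  vec : ∀ v, InU v → ∃ x, Crd x v

end Cfsg.Agent.Fu.T
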