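import Cfsg.Agent.Fu.T0

/-! The case `q = 3`: interface for the normaliser of `3^{1+4}` in `Co0`. -/

set_option autoImplicit false

namespace Cfsg.Agent.Fu.T

open Cfsg.Agent.Co Cfsg.Agent.Co.A Cfsg.Spor Cfsg.Agent.H4

/-- the normaliser of `Q` -/
def NQ : Subgroup Co0 := Subgroup.normalizer (Q5.map ι : Set Co0)
/-- the normaliser of `S` -/
def NS : Subgroup Co0 := Subgroup.normalizer (ι.range : Set Co0)

theorem mem_NQ {g : Co0} : g ∈ NQ ↔ ∀ x ∈ Q5, ∃ y ∈ Q5, g * ι x * g⁻¹ = ι y := by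
  haveI := finite_Co0
  refine ⟨fun h x hx => ?_, fun h => Subgroup.mem_normalizer_fintype ?_⟩
  · obtain ⟨y, hy, e⟩ := (h (ι x)).1 ⟨x, hx, rfl⟩
    exact ⟨y, hy, e.symm⟩
  · rintro _ ⟨x, hx, rfl⟩
    obtain ⟨y, hy, e⟩ := h x hx
    exact ⟨y, hy, e.symm⟩

theorem mem_NS {g : Co0} : g ∈ NS ↔ ∀ x, ∃ y, g * ι x * g⁻¹ = ι y := by
  haveI := finite_Co0
  refine ⟨fun h x => ?_, fun h => Subgroup.mem_normalizer_fintype ?_⟩
  · obtain ⟨y, e⟩ := (h (ι x)).1 ⟨x, rfl⟩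
    exact ⟨y, e.symm⟩
  · rintro _ ⟨x, rfl⟩
    obtain ⟨y, e⟩ := h x
    exact ⟨y, e.symm⟩

/-- supported on the coordinates `1, 2` -/
def InL (x : leechLattice) : Prop := ∀ i : Fin 12, i ≠ 1 → i ≠ 2 → Pl x i = 0
/-- supported on the coordinate `0` -/
def P0 (x : leechLattice) : Prop := ∀ i : Fin 12, i ≠ 0 → Pl x i = 0

/-- an automorphism of `Q` -/
structure AutQ (τ : S6 → S6) : Prop where
  mem : ∀ x ∈ Q5, τ x ∈ Q5
  mul : ∀ x ∈ Q5, ∀ y ∈ Q5, τ (x * y) = τ x * τ y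
  inj : ∀ x ∈ Q5, τ x = 1 → x = 1

/-- the Weyl element on `J` -/
def w6 (x : S6) : S6 := ⟨x.u, -x.q, x.s, x.p, 0, 0⟩
/-- the torus element `a + i z ↦ i (a + i z)`, `u ↦ -u`, `q + i s ↦ -i (q + i s)`, `p ↦ -p` -/
def d6 (x : S6) : S6 := ⟨-x.p, x.s, -x.q, -x.u, -x.z, x.a⟩
/-- its signed permutation -/
def sd : Sp := ![(0, true), (1, false), (2, false), (3, true), (6, false), (9, false), (5, false),
  (8, true), (11, true), (4, false), (7, true), (10, true)]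

/-- inner product -/
def dt (x y : leechLattice) : ℤ := dotInt (x : GolayPt → ℤ) (y : GolayPt → ℤ)

/-- `g` acts on `M` as the reflection in the vector `r` of norm `48` -/
def Refl (g : Co0) (r : leechLattice) : Prop :=
  ∀ x, InM x → (24 : ℤ) • hm g x = (24 : ℤ) • x - dt x r • r

/-- monomial up to sign, keeping the coordinate `0` and the pair `1, 2` -/
def Mon (n : Co0) : Prop := ∃ (ε : Bool) (m : Mo), (∀ x i, Pl (hm n x) i = sgn ε * ap m (Pl x) i) ∧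
  (m 0).1 = 0 ∧ (((m 1).1 = 1 ∧ (m 2).1 = 2) ∨ ((m 1).1 = 2 ∧ (m 2).1 = 1))

/-- `θ = √-3` -/
def θ3 : Ei := ⟨1, 2⟩
/-- the roots in the three coordinate planes -/
def rt (i : Fin 3) (k : K3) : Mv := fun l => if l = i then θ3 * om k else 0

/-- the kernel of the action on `L` -/
def KL (d : Co0) : Prop := ∀ g ∈ NQ, (∀ x k, Crd x (rt 1 k) ∨ Crd x (rt 2 k) → hm g x = x) →
  ∃ (s : S6) (k : ℕ), g = ι s * d ^ k

/-- Facts on `N(Q)` (lead). -/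
class GN : Prop where
  cQ : ∀ g : Co0, (∀ x ∈ Q5, g * ι x = ι x * g) → ∃ z ∈ Z1, Pm (g * (ι z)⁻¹)
  sur : ∀ τ, AutQ τ → ∃ g : Co0, ∀ x ∈ Q5, g * ι x * g⁻¹ = ι (τ x)
  w : ∃ w : Co0, (∀ j ∈ J4, w * ι j * w⁻¹ = ι (w6 j)) ∧ ∀ x, InL x → hm w x = x
  d : ∃ d : Co0, (∀ s, d * ι s * d⁻¹ = ι (d6 s)) ∧ Rep d (tw sd 1) ∧ KL d
  fixL : ∀ s x, InL x → hm (ι s) x = x
  inM : ∀ g ∈ NQ, ∀ x, InM x → InM (hm g x)
  p0 : ∀ g ∈ NQ, ∀ x x', Crd x (rt 0 0) → Crd x' (rt 0 1) → P0 (hm g x) → P0 (hm g x') → g ∈ NS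
  mon : ∀ n ∈ NQ, n ∈ NS → Mon n

/-- Hypotheses on the preimage `K` of `Aut_F(Q)`. -/
structure KH (d : Co0) (K : Subgroup Co0) : Prop where
  le : K ≤ NQ
  s : ∀ s, ι s ∈ K
  pm : ∀ n, Pm n → n ∈ K
  d : d ∈ K
  syl : ∀ c ∈ Co.J, io c ∈ K → ∃ s, io c = ι s
  nn : ∃ k ∈ K, k ∉ NS

/-- The classification of the root subsystems of `E₆`. -/
class CL : Prop where
  out : ∀ d K, Rep d (tw sd 1) → KL d → KH d K → ∃ X : Set leechLattice, (∀ x ∈ X, InL x) ∧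
    (∀ k ∈ K, ∀ x ∈ X, hm k x ∈ X) ∧
    (∀ g ∈ NQ, (∀ x ∈ X, hm g⁻¹ x ∈ X) → ∀ s, g * ι s * g⁻¹ ∈ K) ∧
    ∀ n ∈ NQ, n ∈ NS → (∀ x ∈ X, hm n x = x) → n ∈ K

end Cfsg.Agent.Fu.T
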