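import Cfsg.Agent.Fu.T1

/-! Root subsystems of `E₆` containing the plane `0`: combinatorics. -/

set_option autoImplicit false

namespace Cfsg.Agent.Fu.T.C

open Cfsg.Agent.Co Cfsg.Agent.Co.A

def bf3 (v w : Mv) : ℤ := bf (v 0) (w 0) + bf (v 1) (w 1) + bf (v 2) (w 2)
/-- the reflection in `v` -/
def rf (v w : Mv) : Mv := fun i => w i - (bf3 w v / 3 : ℤ) • v i
def cl (a b c : K3) : Mv := ![om a, om b, om c]
def vv (b c : K3) : Mv := ![0, om b, -om c]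
abbrev RI : Type := Fin 4 × K3 × K3 × K3
def ro (ρ : RI) : Mv := ![rt 0 ρ.2.1, rt 1 ρ.2.1, rt 2 ρ.2.1, cl ρ.2.1 ρ.2.2.1 ρ.2.2.2] ρ.1
def PM (v w : Mv) : Prop := v = w ∨ v = -w
instance decPM (v w : Mv) : Decidable (PM v w) := inferInstanceAs (Decidable (_ ∨ _))
instance decInU (v : Mv) : Decidable (InU v) := inferInstanceAs (Decidable (_ ∣ _))

theorem bf3_neg (v w : Mv) : bf3 v (-w) = -bf3 v w := by simp [bf3, bf]; ring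
theorem bf3_comm (v w : Mv) : bf3 v w = bf3 w v := by simp [bf3, bf]; ring

theorem PM.perp {u v w : Mv} (h : PM v w) : bf3 u v = 0 ↔ bf3 u w = 0 := by
  rcases h with rfl | rfl <;> simp [bf3_neg]

theorem PM.three {v v' w w' : Mv} (h : PM v w) (h' : PM v' w') (e : bf3 v v' = -3) :
    bf3 w w' = 3 ∨ bf3 w w' = -3 := by
  have n : ∀ v w : Mv, bf3 (-v) w = -bf3 v w := fun v w => by rw [bf3_comm, bf3_neg, bf3_comm]
  rcases h with rfl | rfl <;> rcases h' with rfl | rfl <;> (try simp only [bf3_neg, n] at e) <;> omega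

/-- the Eisenstein integers of norm at most three -/
def un : Fin 13 → Ei := ![⟨0, 0⟩, ⟨1, 0⟩, ⟨0, 1⟩, ⟨-1, -1⟩, ⟨-1, 0⟩, ⟨0, -1⟩, ⟨1, 1⟩, ⟨1, 2⟩, ⟨-2, -1⟩, ⟨1, -1⟩,
  ⟨-1, -2⟩, ⟨2, 1⟩, ⟨-1, 1⟩]

theorem exists_un {z : Ei} (h : bf z z ≤ 6) : ∃ i, z = un i := by
  obtain ⟨a, b⟩ := z
  simp only [bf] at h
  have ha : -2 ≤ a ∧ a ≤ 2 := by constructor <;> nlinarith [sq_nonneg (a - 2 * b)]
  have hb : -2 ≤ b ∧ b ≤ 2 := by constructor <;> nlinarith [sq_nonneg (b - 2 * a)]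
  obtain ⟨a1, a2⟩ := ha
  obtain ⟨b1, b2⟩ := hb
  interval_cases a <;> interval_cases b <;> first | decide | omega

theorem bf_nonneg (z : Ei) : 0 ≤ bf z z := by
  simp only [bf]; nlinarith [sq_nonneg z.re, sq_nonneg z.im, sq_nonneg (z.re - z.im)]

theorem shape_un : ∀ i j l : Fin 13, bf3 ![un i, un j, un l] ![un i, un j, un l] = 6 → InU ![un i, un j, un l] →
    ∃ ρ, PM ![un i, un j, un l] (ro ρ) := by decide +kernel

theorem root_shape {v : Mv} (h1 : InU v) (h2 : bf3 v v = 6) : ∃ ρ, PM v (ro ρ) := by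
  have n0 := bf_nonneg (v 0)
  have n1 := bf_nonneg (v 1)
  have n2 := bf_nonneg (v 2)
  have h3 := h2
  simp only [bf3] at h3
  obtain ⟨i, hi⟩ := exists_un (z := v 0) (by omega)
  obtain ⟨j, hj⟩ := exists_un (z := v 1) (by omega)
  obtain ⟨l, hl⟩ := exists_un (z := v 2) (by omega)
  have e : v = ![un i, un j, un l] := funext fun m => by fin_cases m <;> assumption
  rw [e] at h1 h2 ⊢
  exact shape_un i j l h2 h1

/-- the rules on the cells -/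
def Rules (B : K3 → K3 → Prop) : Prop :=
  (∀ b c, B b c → ∀ b', B b' c → b ≠ b' → ∀ e f, B e f →
    B (b + b' - e) f ∧ ∀ e', B e' f → e ≠ e' → b + b' = e + e') ∧
  (∀ b c, B c b → ∀ b', B c b' → b ≠ b' → ∀ e f, B f e →
    B f (b + b' - e) ∧ ∀ e', B f e' → e ≠ e' → b + b' = e + e') ∧
  (∀ b c, B b c → ∀ b' c', B b' c' → b ≠ b' → c ≠ c' → B (-b - b') (-c - c')) ∧ ∃ b c, B b c

def X0 (B : K3 → K3 → Prop) (b c : K3) : Prop := ∀ b' c', B b' c' → (b = b' ↔ c = c')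

def Concl (B : K3 → K3 → Prop) : Prop :=
  (∃ b c, X0 B b c) ∧ (∀ b c, (∀ b' c', X0 B b' c' → (b' = b ↔ c' = c)) → B b c) ∧
  (∀ k, (∀ b c, X0 B b c → b = k) → ∃ c b, B b c ∧ ∃ b', B b' c ∧ b ≠ b' ∧ k = -b - b') ∧
  ∀ k, (∀ b c, X0 B b c → c = k) → ∃ c b, B c b ∧ ∃ b', B c b' ∧ b ≠ b' ∧ k = -b - b'

set_option synthInstance.maxSize 4096 in
instance decRules (B : K3 → K3 → Prop) [∀ b c, Decidable (B b c)] : Decidable (Rules B) := by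
  unfold Rules; infer_instance
instance decX0 (B : K3 → K3 → Prop) [∀ b c, Decidable (B b c)] (b c : K3) : Decidable (X0 B b c) := by
  unfold X0; infer_instance
set_option synthInstance.maxSize 4096 in
instance decConcl (B : K3 → K3 → Prop) [∀ b c, Decidable (B b c)] : Decidable (Concl B) := by
  unfold Concl; infer_instance

def mk3 {α : Type} (x y z : α) (k : K3) : α := if k = 0 then x else if k = 1 then y else z

theorem boole0 : ∀ x0 x1 x2 x3 x4 x5 x6 x7 x8 : Bool,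
    Rules (fun b c => mk3 (mk3 x0 x1 x2 c) (mk3 x3 x4 x5 c) (mk3 x6 x7 x8 c) b = true) →
    Concl (fun b c => mk3 (mk3 x0 x1 x2 c) (mk3 x3 x4 x5 c) (mk3 x6 x7 x8 c) b = true) := by
  decide +kernel

theorem boole {B : K3 → K3 → Prop} (h : Rules B) : Concl B := by
  classical
  have k3 : ∀ k : K3, k = 0 ∨ k = 1 ∨ k = 2 := by decide
  have e : B = fun b c => mk3 (mk3 (decide (B 0 0)) (decide (B 0 1)) (decide (B 0 2)) c)
      (mk3 (decide (B 1 0)) (decide (B 1 1)) (decide (B 1 2)) c)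
      (mk3 (decide (B 2 0)) (decide (B 2 1)) (decide (B 2 2)) c) b = true := by
    funext b c
    rcases k3 b with rfl | rfl | rfl <;> rcases k3 c with rfl | rfl | rfl <;>
      exact propext decide_eq_true_iff.symm
  rw [e] at h ⊢
  exact boole0 _ _ _ _ _ _ _ _ _ h

/-- a set of roots closed under its reflections -/
structure Sys (T : Mv → Prop) : Prop where
  neg : ∀ v, T v → T (-v)
  ref : ∀ v w, T v → T w → 3 ∣ bf3 w v → T (rf v w)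
  p0 : ∀ k, T (rt 0 k)
  u1 : ∀ k k', T (rt 1 k) → T (rt 1 k') → k = k'
  u2 : ∀ k k', T (rt 2 k) → T (rt 2 k') → k = k'

variable {T : Mv → Prop}

theorem Sys.pm (h : Sys T) {v w : Mv} (e : PM v w) (hv : T v) : T w := by
  rcases e with rfl | rfl
  exacts [hv, by simpa using h.neg _ hv]

theorem Sys.step (h : Sys T) {v w u : Mv} (hv : T v) (hw : T w) (e : 3 ∣ bf3 w v ∧ PM (rf v w) u) : T u :=
  h.pm e.2 (h.ref v w hv hw e.1)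

theorem Sys.cell (h : Sys T) {a a' b c : K3} (hv : T (cl a b c)) : T (cl a' b c) :=
  h.step (h.p0 (-a - a')) hv (by clear hv; revert a a' b c; decide +kernel)

theorem Sys.r1 (h : Sys T) {b b' c : K3} (h1 : T (cl 0 b c)) (h2 : T (cl 0 b' c)) (n : b ≠ b') :
    T (rt 1 (-b - b')) := h.step h1 h2 (by clear h1 h2; revert b b' c; decide +kernel)

theorem Sys.r2 (h : Sys T) {b b' c : K3} (h1 : T (cl 0 c b)) (h2 : T (cl 0 c b')) (n : b ≠ b') :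
    T (rt 2 (-b - b')) := h.step h1 h2 (by clear h1 h2; revert b b' c; decide +kernel)

theorem Sys.s1 (h : Sys T) {k b c : K3} (h1 : T (rt 1 k)) (h2 : T (cl 0 b c)) : T (cl 0 (-k - b) c) :=
  h.step h1 h2 (by clear h1 h2; revert k b c; decide +kernel)

theorem Sys.s2 (h : Sys T) {k b c : K3} (h1 : T (rt 2 k)) (h2 : T (cl 0 b c)) : T (cl 0 b (-k - c)) :=
  h.step h1 h2 (by clear h1 h2; revert k b c; decide +kernel)

theorem Sys.concl (h : Sys T) (hn : ∃ b c, T (cl 0 b c)) : Concl fun b c => T (cl 0 b c) := by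
  refine boole ⟨fun b c h1 b' h2 n e f h3 => ⟨?_, fun e' h4 n' => ?_⟩,
    fun b c h1 b' h2 n e f h3 => ⟨?_, fun e' h4 n' => ?_⟩, fun b c h1 b' c' h2 n n' => ?_, hn⟩
  · convert h.s1 (h.r1 h1 h2 n) h3 using 2; ring
  · linear_combination -h.u1 _ _ (h.r1 h1 h2 n) (h.r1 h3 h4 n')
  · convert h.s2 (h.r2 h1 h2 n) h3 using 2; ring
  · linear_combination -h.u2 _ _ (h.r2 h1 h2 n) (h.r2 h3 h4 n')
  · exact h.cell (a := 2) (h.step h1 (h.cell (a' := 1) h2) (by clear h1 h2; revert b c b' c'; decide +kernel))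

theorem pp0 : ∀ b c k, bf3 (vv b c) (rt 0 k) = 0 := by decide +kernel
theorem pp1 : ∀ b c k, bf3 (vv b c) (rt 1 k) = 0 ↔ b = k := by decide +kernel
theorem pp2 : ∀ b c k, bf3 (vv b c) (rt 2 k) = 0 ↔ c = k := by decide +kernel
theorem pp3 : ∀ b c a b' c', bf3 (vv b c) (cl a b' c') = 0 ↔ (b = b' ↔ c = c') := by decide +kernel

theorem ro_cases (ρ : RI) : (∃ k, ro ρ = rt 0 k) ∨ (∃ k, ro ρ = rt 1 k) ∨ (∃ k, ro ρ = rt 2 k) ∨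
    ∃ a b c, ro ρ = cl a b c := by
  obtain ⟨i, a, b, c⟩ := ρ
  fin_cases i
  exacts [.inl ⟨a, rfl⟩, .inr (.inl ⟨a, rfl⟩), .inr (.inr (.inl ⟨a, rfl⟩)), .inr (.inr (.inr ⟨a, b, c, rfl⟩))]

theorem Sys.all (h : Sys T) (hn : ∃ b c, T (cl 0 b c)) (ρ : RI)
    (H : ∀ b c, X0 (fun b c => T (cl 0 b c)) b c → bf3 (vv b c) (ro ρ) = 0) : T (ro ρ) := by
  obtain ⟨-, c1, c2, c3⟩ := h.concl hn
  rcases ro_cases ρ with ⟨k, e⟩ | ⟨k, e⟩ | ⟨k, e⟩ | ⟨a, b, c, e⟩ <;> rw [e] at H ⊢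
  · exact h.p0 k
  · obtain ⟨c, b, h1, b', h2, n, rfl⟩ := c2 k fun b c x => (pp1 b c k).1 (H b c x)
    exact h.r1 h1 h2 n
  · obtain ⟨c, b, h1, b', h2, n, rfl⟩ := c3 k fun b c x => (pp2 b c k).1 (H b c x)
    exact h.r2 h1 h2 n
  · exact h.cell (c1 b c fun b' c' x => (pp3 _ _ a _ _).1 (H b' c' x))

theorem pt1 : ∀ k ρ, bf3 (rt 1 k) (ro ρ) = 3 ∨ bf3 (rt 1 k) (ro ρ) = -3 →
    (ro ρ = rt 1 ρ.2.1 ∧ k ≠ ρ.2.1) ∨ (ro ρ = cl ρ.2.1 ρ.2.2.1 ρ.2.2.2 ∧ ρ.2.2.1 ≠ k) := by decide +kernel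
theorem pt2 : ∀ k ρ, bf3 (rt 2 k) (ro ρ) = 3 ∨ bf3 (rt 2 k) (ro ρ) = -3 →
    (ro ρ = rt 2 ρ.2.1 ∧ k ≠ ρ.2.1) ∨ (ro ρ = cl ρ.2.1 ρ.2.2.1 ρ.2.2.2 ∧ ρ.2.2.2 ≠ k) := by decide +kernel

theorem Sys.part (h : Sys T) {v v' : Mv} (hv : T v) (hv' : T v') (u : InU v) (u' : InU v') (n : bf3 v v = 6)
    (n' : bf3 v' v' = 6) (e : bf3 v v' = -3) : ((∃ k, PM v (rt 0 k)) ∨ ∃ b c, T (cl 0 b c)) ∧
      ∀ b c, X0 (fun b c => T (cl 0 b c)) b c → bf3 (vv b c) v = 0 := by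
  obtain ⟨ρ, p⟩ := root_shape u n
  obtain ⟨ρ', p'⟩ := root_shape u' n'
  have t := h.pm p hv
  have t' := h.pm p' hv'
  have e' := p.three p' e
  simp only [p.perp]
  rcases ro_cases ρ with ⟨k, e⟩ | ⟨k, e⟩ | ⟨k, e⟩ | ⟨a, b, c, e⟩ <;> rw [e] at t e' p ⊢
  · exact ⟨.inl ⟨k, p⟩, fun b c _ => pp0 b c k⟩
  · rcases pt1 k ρ' e' with ⟨a, b⟩ | ⟨a, b⟩ <;> rw [a] at t'
    · exact absurd (h.u1 _ _ t t') b
    · refine ⟨.inr ⟨_, _, h.cell t'⟩, fun b c x => (pp1 b c k).2 ?_⟩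
      have x1 := x _ _ (h.cell t')
      have x2 := x _ _ (h.s1 t (h.cell t'))
      clear x; revert x1 x2; revert b c; generalize ρ'.2.2.1 = y at *; generalize ρ'.2.2.2 = z; clear * - b
      revert k y z; decide
  · rcases pt2 k ρ' e' with ⟨a, b⟩ | ⟨a, b⟩ <;> rw [a] at t'
    · exact absurd (h.u2 _ _ t t') b
    · refine ⟨.inr ⟨_, _, h.cell t'⟩, fun b c x => (pp2 b c k).2 ?_⟩
      have x1 := x _ _ (h.cell t')
      have x2 := x _ _ (h.s2 t (h.cell t'))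
      clear x; revert x1 x2; revert b c; generalize ρ'.2.2.2 = y at *; generalize ρ'.2.2.1 = z; clear * - b
      revert k y z; decide
  · exact ⟨.inr ⟨_, _, h.cell t⟩, fun b' c' x => (pp3 _ _ _ _ _).2 (x _ _ (h.cell t))⟩

/-- a product of reflections -/
def rs : List RI → Mv → Mv
  | [], w => w
  | ρ :: l, w => rf (ro ρ) (rs l w)

def ok : List RI → Mv → Bool
  | [], _ => true
  | ρ :: l, w => ok l w && decide (3 ∣ bf3 (rs l w) (ro ρ))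

/-- a monomial map on the coordinates `1, 2` -/
def dl (ε sw e1 e2 : Bool) (k1 k2 : K3) (w : Mv) : Mv :=
  ![0, sgn ε * (om k1 * cjg e1 (w (cond sw 2 1))), sgn ε * (om k2 * cjg e2 (w (cond sw 1 2)))]

def LL : List (List RI) := [[], [(2, 0, 0, 0)], [(2, 2, 0, 0)], [(2, 1, 0, 0)], [(1, 0, 0, 0)], [(1, 2, 0, 0)], [(1, 1, 0, 0)], [(2, 0, 0, 0), (1, 0, 0, 0)], [(2, 2, 0, 0), (1, 0, 0, 0)], [(2, 1, 0, 0), (1, 0, 0, 0)], [(2, 0, 0, 0), (1, 2, 0, 0)], [(2, 2, 0, 0), (1, 2, 0, 0)], [(2, 1, 0, 0), (1, 2, 0, 0)], [(2, 0, 0, 0), (1, 1, 0, 0)], [(2, 2, 0, 0), (1, 1, 0, 0)], [(2, 1, 0, 0), (1, 1, 0, 0)], [(3, 0, 2, 2), (3, 0, 1, 1), (3, 0, 0, 0)], [(3, 0, 2, 1), (3, 0, 1, 0), (3, 0, 0, 2)], [(3, 0, 2, 0), (3, 0, 1, 2), (3, 0, 0, 1)], [(3, 0, 2, 2), (3, 0, 1, 1), (3, 0, 0, 0), (1, 0, 0, 0)], [(3, 0, 2, 2), (3, 0, 1, 1), (3, 0, 0, 0), (1, 2, 0, 0)], [(3,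 0, 2, 2), (3, 0, 1, 1), (3, 0, 0, 0), (1, 1, 0, 0)], [(3, 0, 2, 1), (3, 0, 1, 0), (3, 0, 0, 2), (1, 2, 0, 0)], [(3, 0, 2, 1), (3, 0, 1, 0), (3, 0, 0, 2), (1, 1, 0, 0)], [(3, 0, 2, 1), (3, 0, 1, 0), (3, 0, 0, 2), (1, 0, 0, 0)], [(3, 0, 2, 0), (3, 0, 1, 2), (3, 0, 0, 1), (1, 1, 0, 0)], [(3, 0, 2, 0), (3, 0, 1, 2), (3, 0, 0, 1), (1, 0, 0, 0)], [(3, 0, 2, 0), (3, 0, 1, 2), (3, 0, 0, 1), (1, 2, 0, 0)], [(3, 0, 2, 1), (3, 0, 1, 2), (3, 0, 0, 0), (1, 0, 0, 0)], [(3, 0, 2, 1), (3, 0, 1, 2), (3, 0, 0, 0), (1, 1, 0, 0)], [(3, 0, 2, 1), (3, 0, 1, 2), (3, 0, 0, 0), (1, 2, 0, 0)], [(3, 0, 2, 2), (3, 0, 1, 0), (3, 0, 0, 1), (1, 2, 0, 0)], [(3, 0, 2, 2), (3, 0, 1, 0), (3, 0, 0, 1), (1, 0, 0, 0)], [(3, 0, 2, 2), (3, 0, 1, 0), (3, 0, 0, 1), (1, 1, 0, 0)], [(3, 0, 2, 0), (3, 0, 1, 1), (3, 0, 0, 2), (1, 1, 0, 0)], [(3, 0, 2, 0), (3, 0, 1, 1), (3, 0, 0, 2),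 (1, 2, 0, 0)], [(3, 0, 2, 0), (3, 0, 1, 1), (3, 0, 0, 2), (1, 0, 0, 0)], [(3, 0, 2, 1), (3, 0, 1, 2), (3, 0, 0, 0)], [(3, 0, 2, 2), (3, 0, 1, 0), (3, 0, 0, 1)], [(3, 0, 2, 0), (3, 0, 1, 1), (3, 0, 0, 2)]]

theorem table : ∀ ε sw e1 e2 k1 k2, (∃ b c, dl ε sw e1 e2 k1 k2 (vv b c) = vv b c) →
    LL.any (fun l => decide (∀ k, rs l (rt 1 k) = dl ε sw e1 e2 k1 k2 (rt 1 k) ∧
      rs l (rt 2 k) = dl ε sw e1 e2 k1 k2 (rt 2 k) ∧ ok l (rt 1 k) = true ∧ ok l (rt 2 k) = true) &&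
      l.all fun ρ => decide (∀ b c, dl ε sw e1 e2 k1 k2 (vv b c) = vv b c → bf3 (vv b c) (ro ρ) = 0)) = true := by
  decide +kernel

end Cfsg.Agent.Fu.T.C
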