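import Cfsg.Agent.Fu.T0

/-! Lattice lemmas for the case `q = 3`. -/

set_option autoImplicit false

namespace Cfsg.Agent.Fu.T

open Cfsg.Agent.Co Cfsg.Agent.Co.A Cfsg.Spor Cfsg.Agent.H4 Cfsg.Agent.L

theorem om_sum {k : K3} (hk : k ≠ 0) (z : Ei) : z + om k * z + om k * (om k * z) = 0 := by
  by_cases h3 : k = 1 <;> ext <;> simp [om, hk, h3] <;> ring

theorem tr0 {g : Co0} {j j' : Sy} (hj : j ∈ J) (hj' : j' ∈ J) (h : g * io j = io j' * g) {x : leechLattice}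
    (hx : ∀ l, cc l j = 0 → Pl x l = 0) (l : Fin 12) (hl : cc l j' = 0) : Pl (hm g x) l = 0 := by
  have e : x + hm (io j) x + hm (io j) (hm (io j) x) = 0 := Pl_inj (funext fun i => by
    simp only [map_add, Pi.add_apply, Pl_J hj, map_zero, Pi.zero_apply]
    by_cases c : cc i j = 0
    · simp [hx i c]
    · exact om_sum c _)
  have e' := congrArg (fun v => Pl (hm g v) l) e
  have k : ∀ y, hm g (hm (io j) y) = hm (io j') (hm g y) := fun y => by rw [← hm_mul, h, hm_mul]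
  simp only [map_add, k, Pi.add_apply, Pl_J hj', hl, map_zero, Pi.zero_apply] at e'
  have h1 := congrArg QuadraticAlgebra.re e'
  have h2 := congrArg QuadraticAlgebra.im e'
  simp [om] at h1 h2
  ext <;> simp <;> omega

theorem tr1 {g : Co0} {j j' : Sy} (hj : j ∈ J) (hj' : j' ∈ J) (h : g * io j = io j' * g) {x : leechLattice}
    (hx : ∀ l, cc l j ≠ 0 → Pl x l = 0) (l : Fin 12) (hl : cc l j' ≠ 0) : Pl (hm g x) l = 0 := by
  have e : hm (io j) x = x := Pl_inj (funext fun i => by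
    rw [Pl_J hj]
    by_cases c : cc i j = 0
    · rw [c]; exact one_mul _
    · simp [hx i c])
  exact om_fix hl (by rw [← Pl_J hj', ← hm_mul, ← h, hm_mul, e])

theorem ee_supp {k l : Fin 12} (h : l ≠ k) : Pl (ee k) l = 0 := by rw [Pl_ee, if_neg h]

theorem ee_ne (g : Co0) (k : Fin 12) : Pl (hm g (ee k)) ≠ 0 := fun h => by
  have h2 : hm g (ee k) = 0 := Pl_inj (by rw [h, map_zero])
  have h3 := congrArg (fun v => Pl (hm g⁻¹ v) k) h2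
  simp only [← hm_mul, inv_mul_cancel, hm_one, Pl_ee, if_true, map_zero, Pi.zero_apply] at h3
  exact absurd h3 (by decide)

theorem emb_J {j : S6} (hj : j ∈ J4) : emb j ∈ J := ⟨hj.1, rfl, hj.2⟩

theorem z12 (j : S6) : cc 1 (emb j) = 0 ∧ cc 2 (emb j) = 0 := by simp [cc, emb_apply]

theorem sing1 : ∀ p q s u : K3, p * u = q ^ 2 + s ^ 2 → (p = 0 ∧ q = 0 ∧ s = 0 ∧ u = 0) ∨ ∃ i : Fin 12,
    ∀ l, cc l (jv p q u s 0 u) = 0 → l = 1 ∨ l = 2 ∨ l = i := by decide +kernel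

theorem sing2 : ∀ p q s u : K3, p * u ≠ q ^ 2 + s ^ 2 → ∃ k k' : Fin 12, k ≠ k' ∧ k ≠ 1 ∧ k ≠ 2 ∧
    k' ≠ 1 ∧ k' ≠ 2 ∧ cc k (jv p q u s 0 u) = 0 ∧ cc k' (jv p q u s 0 u) = 0 := by decide +kernel

theorem sing3 : ∀ k k' : Fin 12, k ≠ k' → k ≠ 1 → k ≠ 2 → k' ≠ 1 → k' ≠ 2 → ∃ p q s u : K3,
    cc k (jv p q u s 0 u) ≠ 0 ∧ cc k' (jv p q u s 0 u) = 0 := by decide +kernel

theorem tl_sing (g : Co0) (hg : ∀ j ∈ J4, ∃ j' ∈ J4, g⁻¹ * ι j * g = ι j') (j : S6) (hj : j ∈ J4)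
    (j' : S6) (hj' : j' ∈ J4) (h : g * ι j * g⁻¹ = ι j') (hs : Sing j) : Sing j' := by
  by_contra hn
  have ej : ∀ {j : S6}, j ∈ J4 → emb j = jv j.p j.q j.u j.s 0 j.u := fun h => by
    rw [emb_apply, h.1, h.2]
  rcases sing1 _ _ _ _ hs with ⟨a, b, c, d⟩ | ⟨i, hi⟩
  · obtain rfl : j = 1 := by ext <;> simp [a, b, c, d, hj.1, hj.2]
    rw [map_one, mul_one, mul_inv_cancel, ← map_one ι] at h
    rw [← ι_inj h] at hn
    exact hn (by simp [Sing])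
  obtain ⟨k, k', ne, k1, k2, k3, k4, c1, c2⟩ := sing2 _ _ _ _ hn
  rw [← ej hj] at hi
  rw [← ej hj'] at c1 c2
  have h' : g⁻¹ * io (emb j') = io (emb j) * g⁻¹ := by rw [← ι_apply, ← ι_apply, ← h]; group
  have key : ∀ k k' : Fin 12, k ≠ k' → k ≠ 1 → k ≠ 2 → k' ≠ 1 → k' ≠ 2 → ∃ b ∈ J4,
      (∀ l, cc l (emb b) = 0 → Pl (hm g⁻¹ (ee k)) l = 0) ∧
        ∀ l, cc l (emb b) ≠ 0 → Pl (hm g⁻¹ (ee k')) l = 0 := fun k k' a b c d e => by
    obtain ⟨p, q, s, u, h1, h2⟩ := sing3 k k' a b c d e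
    obtain ⟨b, hb, e⟩ := hg ⟨p, q, s, u, 0, 0⟩ ⟨rfl, rfl⟩
    have e' : g⁻¹ * io (jv p q u s 0 u) = io (emb b) * g⁻¹ := by
      rw [← ι_apply, ← e]; change _ = g⁻¹ * io (jv p q u s 0 u) * g * g⁻¹; group
    exact ⟨b, hb, tr0 ⟨rfl, rfl, rfl⟩ (emb_J hb) e' fun l hl => ee_supp fun c => h1 (c ▸ hl),
      tr1 ⟨rfl, rfl, rfl⟩ (emb_J hb) e' fun l hl => ee_supp fun c => hl (c ▸ h2)⟩
  have fin : ∀ k, cc k (emb j') = 0 → ∀ b, (∀ l, cc l (emb b) = 0 → Pl (hm g⁻¹ (ee k)) l = 0) →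
      Pl (hm g⁻¹ (ee k)) i ≠ 0 := fun k hk b hb h0 => ee_ne g⁻¹ k (funext fun l => by
    by_cases c : cc l (emb j) = 0
    · rcases hi l c with rfl | rfl | rfl
      exacts [hb _ (z12 b).1, hb _ (z12 b).2, h0]
    · exact tr1 (emb_J hj') (emb_J hj) h' (fun l hl => ee_supp fun c => hl (c ▸ hk)) l c)
  obtain ⟨b, -, b1, b2⟩ := key k k' ne k1 k2 k3 k4
  obtain ⟨b', -, b3, -⟩ := key k' k ne.symm k3 k4 k1 k2
  by_cases c : cc i (emb b) = 0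
  · exact fin k c1 b b1 (b1 i c)
  · exact fin k' c2 b' b3 (b2 i c)

theorem Bf_M {x : leechLattice} (hx : InM x) (w : Ve) :
    Bf (Pl x) w = bf (Pl x 0) (w 0) + bf (Pl x 1) (w 1) + bf (Pl x 2) (w 2) := by
  have : ∀ i : Fin 12, 3 ≤ i.val → bf (Pl x i) (w i) = 0 := fun i hi => by simp [hx i hi, bf]
  simp only [Bf, Fin.sum_univ_succ]
  simp [this, add_assoc]

theorem re24 : (24 : Ei).re = 24 := rfl
theorem im24 : (24 : Ei).im = 0 := rfl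

theorem InM.io {x : leechLattice} (hx : InM x) {j : Sy} (hj : j ∈ J) : InM (hm (io j) x) := fun i hi => by
  rw [Pl_J hj, hx i hi, mul_zero]

theorem tl_shape (x : leechLattice) (hx : InM x) : ∃ v, InU v ∧ Crd x v := by
  have hj : jv 1 0 1 0 0 0 ∈ J := ⟨rfl, rfl, rfl⟩
  have hy := hx.io hj
  have e : ∀ i, Pl (hm (io (jv 1 0 1 0 0 0)) x) i = ⟨0, 1⟩ * Pl x i := fun i => by
    rw [Pl_J hj, (by decide : ∀ i, om (cc i (jv 1 0 1 0 0 0)) = ⟨0, 1⟩) i]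
  have d : ∀ c : Fin 6, ∀ {y}, InM y → (576 : ℤ) ∣ bf (Pl y 0) ⟨8 * par c 0, 16 * par c 0⟩ +
      bf (Pl y 1) ⟨8 * par c 1, 16 * par c 1⟩ + bf (Pl y 2) ⟨8 * par c 2, 16 * par c 2⟩ := fun c y hy => by
    have := dvd_Bf y c.succ
    rwa [show 23 + c.succ.val = 24 + c.val by simp; omega, Bf_M hy, (ck_E4 _).2, (ck_E4 _).2,
      (ck_E4 _).2] at this
  have a0 := dvd_Bf x 0
  rw [Fin.val_zero, add_zero, Bf_M hx, (ck_E4 _).1, (ck_E4 _).1, (ck_E4 _).1] at a0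
  have a1 := d 0 hx
  have a2 := d 3 hx
  have a3 := d 5 hx
  have a4 := d 0 hy
  have a5 := d 3 hy
  have a6 := d 5 hy
  rw [e, e, e] at a4 a5 a6
  have key : ∀ i : Fin 3, 24 ∣ (Pl x (i.castLE (by decide))).re ∧ 24 ∣ (Pl x (i.castLE (by decide))).im := by
    simp [par, bf] at a1 a2 a3 a4 a5 a6
    intro i
    fin_cases i
    · change 24 ∣ (Pl x 0).re ∧ 24 ∣ (Pl x 0).im; omega
    · change 24 ∣ (Pl x 1).re ∧ 24 ∣ (Pl x 1).im; omega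
    · change 24 ∣ (Pl x 2).re ∧ 24 ∣ (Pl x 2).im; omega
  choose a ha using fun i => (key i).1
  choose b hb using fun i => (key i).2
  refine ⟨fun i => ⟨a i, b i⟩, ?_, hx, fun i => by ext <;> simp [re24, im24, ha, hb]⟩
  have e0 : (Pl x 0).re = _ := ha 0
  have e1 : (Pl x 1).re = _ := ha 1
  have e2 : (Pl x 2).re = _ := ha 2
  have e3 : (Pl x 0).im = _ := hb 0
  have e4 : (Pl x 1).im = _ := hb 1
  have e5 : (Pl x 2).im = _ := hb 2
  simp [bf, x0, e0, e1, e2, e3, e4, e5] at a0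
  simp only [InU, QuadraticAlgebra.re_add, QuadraticAlgebra.im_add]
  omega

theorem tl_vec (v : Mv) (hv : InU v) : ∃ x, Crd x v := by
  obtain ⟨m, hm⟩ := hv
  have e1 := fun l => (congrFun (Pl_ev 12 (by decide)) l).trans (ck_E3 1 l (by decide))
  have e2 := fun l => (congrFun (Pl_ev 13 (by decide)) l).trans (ck_E3 2 l (by decide))
  refine ⟨es (-v 1) (ev 12 (by decide)) + es (-v 2) (ev 13 (by decide)) +
    es ⟨(v 0 + v 1 + v 2).im - m, m - (v 0 + v 1 + v 2).re⟩ (ee 0), fun i hi => ?_, fun i => ?_⟩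
  · have : i ≠ 0 ∧ i ≠ 1 ∧ i ≠ 2 := by refine ⟨?_, ?_, ?_⟩ <;> rintro rfl <;> simp at hi
    simp [Pl_es, e1, e2, Pl_ee, this]
  · simp only [QuadraticAlgebra.re_add, QuadraticAlgebra.im_add] at hm
    fin_cases i <;> ext <;> simp [Pl_es, e1, e2, Pl_ee, Fin.castLE, th, re24, im24] <;> omega

end Cfsg.Agent.Fu.T
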