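import Cfsg.Agent.Fu.TC1
import Cfsg.Agent.Fu.TL1

/-! Root subsystems of `E₆` containing the plane `0`: the lattice side. -/

set_option autoImplicit false

namespace Cfsg.Agent.Fu.T.C

open Cfsg.Agent.Co Cfsg.Agent.Co.A Cfsg.Spor Cfsg.Agent.H4 Cfsg.Agent.L

variable {x y r : leechLattice} {v w : Mv} {g d : Co0} {K : Subgroup Co0}

theorem crd_mk (h : InM x) (h0 : Pl x 0 = 24 * v 0) (h1 : Pl x 1 = 24 * v 1) (h2 : Pl x 2 = 24 * v 2) :
    Crd x v := ⟨h, fun i => by fin_cases i; exacts [h0, h1, h2]⟩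

theorem lt3 {i : Fin 12} (h : ¬ 3 ≤ i.val) : i = 0 ∨ i = 1 ∨ i = 2 := by revert i; decide

theorem M_ext (hx : InM x) (hy : InM y) (h0 : Pl x 0 = Pl y 0) (h1 : Pl x 1 = Pl y 1) (h2 : Pl x 2 = Pl y 2) :
    x = y := Pl_inj (funext fun i => by
  by_cases c : 3 ≤ i.val
  · rw [hx i c, hy i c]
  · rcases lt3 c with rfl | rfl | rfl
    exacts [h0, h1, h2])

theorem crd_uniq (h : Crd x v) (h' : Crd y v) : x = y :=
  M_ext h.1 h'.1 ((h.2 0).trans (h'.2 0).symm) ((h.2 1).trans (h'.2 1).symm) ((h.2 2).trans (h'.2 2).symm)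

theorem crd_inj (h : Crd x v) (h' : Crd x w) : v = w := funext fun i => by
  have := (h.2 i).symm.trans (h'.2 i)
  have a := congrArg QuadraticAlgebra.re this
  have b := congrArg QuadraticAlgebra.im this
  simp [re24, im24] at a b
  ext <;> assumption

theorem dt_crd (h : Crd x v) (h' : Crd y w) : dt x y = 8 * bf3 v w := by
  have e : Bf (Pl x) (Pl y) = 72 * dt x y := Bf_Ph _ _
  have b : ∀ z z' : Ei, bf (24 * z) (24 * z') = 576 * bf z z' := fun z z' => by simp [bf, re24, im24]; ring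
  rw [Bf_M h.1, show Pl x 0 = _ from h.2 0, show Pl x 1 = _ from h.2 1, show Pl x 2 = _ from h.2 2,
    show Pl y 0 = _ from h'.2 0, show Pl y 1 = _ from h'.2 1, show Pl y 2 = _ from h'.2 2, b, b, b] at e
  simp only [bf3]; omega

theorem dt_hm (g : Co0) (x y : leechLattice) : dt (hm g x) (hm g y) = dt x y := dotInt_co0 g.2 x y

theorem dt_inv (g : Co0) (x y : leechLattice) : dt (hm g⁻¹ x) y = dt x (hm g y) := by
  rw [← dt_hm g, ← hm_mul, mul_inv_cancel, hm_one]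

theorem refl_crd (h : Refl g r) (hr : Crd r v) (hx : Crd x w) (h3 : 3 ∣ bf3 w v) : Crd (hm g x) (rf v w) := by
  obtain ⟨n, hn⟩ := h3
  have e : hm g x = x - n • r := smul_right_injective _ (by decide : (24 : ℤ) ≠ 0) (by
    simp only [h x hx.1, dt_crd hx hr, hn, smul_sub, smul_smul]; congr 2; ring)
  rw [e]
  refine ⟨fun i hi => by simp [hx.1 i hi, hr.1 i hi], fun i => ?_⟩
  rw [map_sub, map_zsmul, Pi.sub_apply, Pi.smul_apply, hx.2, hr.2, rf, hn,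
    Int.mul_ediv_cancel_left _ (by decide : (3 : ℤ) ≠ 0), zsmul_eq_mul, zsmul_eq_mul]
  ring

theorem refl_conj [GN] (h : Refl g r) {k : Co0} (hk : k ∈ NQ) : Refl (k * g * k⁻¹) (hm k r) := fun x hx => by
  have := congrArg (hm k) (h _ (GN.inM _ (NQ.inv_mem hk) x hx))
  simpa only [map_zsmul, map_sub, ← hm_mul, mul_inv_cancel, hm_one, dt_inv, ← mul_assoc] using this

theorem refl_eq {g' : Co0} (h : Refl g r) (h' : Refl g' r) (hx : InM x) : hm g x = hm g' x :=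
  smul_right_injective _ (by decide : (24 : ℤ) ≠ 0) ((h x hx).trans (h' x hx).symm)

theorem crd_io (h : Crd x v) {j : Sy} (hj : j ∈ J) :
    Crd (hm (io j) x) fun i => om (cc (i.castLE (by decide)) j) * v i :=
  ⟨h.1.io hj, fun i => by rw [Pl_J hj, h.2]; ring⟩

theorem io_NQ {c : Sy} (hc : c ∈ J) : io c ∈ NQ := mem_NQ.2 fun x hx =>
  ⟨⟨(c * emb x * c⁻¹).p, (c * emb x * c⁻¹).q, (c * emb x * c⁻¹).s, 0, x.a, x.z⟩, rfl, by
    rw [ι_apply, ι_apply, ← map_inv, ← map_mul, ← map_mul]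
    congr 1
    obtain ⟨a, b, z⟩ := hc
    rw [mem_Q5] at hx
    ext <;> simp [emb_apply, a, b, z, hx]⟩

theorem crd_r0 : Crd (ee 0) (rt 0 0) :=
  ⟨fun i hi => ee_supp (by rintro rfl; simp at hi), fun i => by rw [Pl_ee]; revert i; decide⟩

theorem d_act (hd : Rep d (tw sd 1)) (hx : InM x) : InM (hm d x) ∧ Pl (hm d x) 0 = star (Pl x 0) ∧
    Pl (hm d x) 1 = Pl x 1 ∧ Pl (hm d x) 2 = Pl x 2 := by
  have e : ∀ i, Pl (hm d x) i = cjg (sd i).2 (Pl x (sd i).1) := fun i => by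
    rw [show Pl (hm d x) = ap (tw sd 1) (Pl x) from hd x]
    simp only [ap, tw, (by decide : ∀ i, om (cc i 1) = 1) i, one_mul]
  refine ⟨fun i hi => ?_, e 0, e 1, e 2⟩
  rw [e, hx _ ((by decide : ∀ i : Fin 12, 3 ≤ i.val → 3 ≤ (sd i).1.val) i hi)]
  cases (sd i).2 <;> simp [cjg]

theorem refl_d (hd : Rep d (tw sd 1)) : Refl d (ee 0) := fun x hx => by
  obtain ⟨a, b0, b1, b2⟩ := d_act hd hx
  have e : Bf (Pl x) (Pl (ee 0)) = 72 * dt x (ee 0) := Bf_Ph _ _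
  simp [Bf_M hx, Pl_ee, bf, th] at e
  have e' : dt x (ee 0) = (Pl x 0).im := by omega
  refine M_ext (fun i hi => by simp [a i hi]) (fun i hi => by simp [hx i hi, crd_r0.1 i hi]) ?_ ?_ ?_ <;>
    simp only [map_sub, map_zsmul, Pi.sub_apply, Pi.smul_apply, b0, b1, b2, e', Pl_ee] <;> ext <;>
    simp [th, re24, im24] <;> ring

/-- the roots whose reflection is induced by `K` -/
def RR (K : Subgroup Co0) (v : Mv) : Prop := ∃ r, Crd r v ∧ ∃ g ∈ K, Refl g r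

section
variable [TL] [GN] (hd : Rep d (tw sd 1)) (hl : KL d) (hK : KH d K)
include hK

theorem RR.act {k : Co0} (h : RR K v) (hk : k ∈ K) (hr : Crd r v) (hw : Crd (hm k r) w) : RR K w := by
  obtain ⟨r', h1, g, hg, h2⟩ := h
  obtain rfl := crd_uniq h1 hr
  exact ⟨_, hw, _, K.mul_mem (K.mul_mem hk hg) (K.inv_mem hk), refl_conj h2 (hK.le hk)⟩

theorem rr_p0 (hd : Rep d (tw sd 1)) (k : K3) : RR K (rt 0 k) :=
  RR.act hK ⟨_, crd_r0, d, hK.d, refl_d hd⟩ (hK.s ⟨0, 0, 0, -k, 0, 0⟩) crd_r0 (by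
    rw [ι_apply]
    convert crd_io crd_r0 (emb_J (j := ⟨0, 0, 0, -k, 0, 0⟩) ⟨rfl, rfl⟩) using 1
    simp only [emb_apply]; revert k; decide)

include hl

omit [TL] [GN] in
theorem mem_K {k : Co0} (hg : g ∈ NQ) (hk : k ∈ K)
    (h : ∀ x j, Crd x (rt 1 j) ∨ Crd x (rt 2 j) → hm g x = hm k x) : g ∈ K := by
  obtain ⟨s, n, e⟩ := hl (k⁻¹ * g) (NQ.mul_mem (NQ.inv_mem (hK.le hk)) hg) fun x j hx => by
    rw [hm_mul, h x j hx, ← hm_mul, inv_mul_cancel, hm_one]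
  exact mul_inv_cancel_left k g ▸ K.mul_mem hk (e ▸ K.mul_mem (hK.s s) (K.pow_mem hK.d n))

omit [TL] [GN] in
theorem mem_list {n : Co0} (hn : n ∈ NQ) {δ : Mv → Mv} (hδ : ∀ x w, w 0 = 0 → Crd x w → Crd (hm n x) (δ w))
    {l : List RI} (h1 : ∀ ρ ∈ l, RR K (ro ρ)) (h2 : ∀ k, rs l (rt 1 k) = δ (rt 1 k) ∧
      rs l (rt 2 k) = δ (rt 2 k) ∧ ok l (rt 1 k) = true ∧ ok l (rt 2 k) = true) : n ∈ K := by
  have key : ∀ l : List RI, (∀ ρ ∈ l, RR K (ro ρ)) →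
      ∃ k ∈ K, ∀ x w, Crd x w → ok l w = true → Crd (hm k x) (rs l w) := fun l => by
    induction l with
    | nil => exact fun _ => ⟨1, K.one_mem, fun x w h _ => h⟩
    | cons ρ l ih =>
      intro h
      obtain ⟨k, hk, e⟩ := ih fun ρ hρ => h ρ (List.mem_cons_of_mem _ hρ)
      obtain ⟨r, h1, g, hg, h2⟩ := h ρ List.mem_cons_self
      refine ⟨g * k, K.mul_mem hg hk, fun x w hx ho => ?_⟩
      simp only [ok, Bool.and_eq_true, decide_eq_true_iff] at ho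
      rw [hm_mul]
      exact refl_crd h2 h1 (e x w hx ho.1) ho.2
  obtain ⟨k, hk, e⟩ := key l h1
  refine mem_K hl hK hn hk fun x j hx => ?_
  obtain ⟨a, b, c, d⟩ := h2 j
  rcases hx with hx | hx
  · exact crd_uniq (hδ x _ rfl hx) (a ▸ e x _ hx c)
  · exact crd_uniq (hδ x _ rfl hx) (b ▸ e x _ hx d)

include hd

theorem sys : Sys (RR K) where
  neg v := fun ⟨r, h1, g, hg, h2⟩ => ⟨-r, ⟨fun i hi => by simp [h1.1 i hi], fun i => by simp [h1.2]⟩, g, hg,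
    fun x hx => by
      rw [h2 x hx, show dt x (-r) = -dt x r by simp only [dt, dotInt, AddSubgroup.coe_neg, Pi.neg_apply, mul_neg,
        Finset.sum_neg_distrib], neg_smul_neg]⟩
  ref v w := fun ⟨r, h1, g, hg, h2⟩ hw h3 => by
    obtain ⟨r', h4, -⟩ := id hw
    exact RR.act hK hw hg h4 (refl_crd h2 h1 h4 h3)
  p0 := rr_p0 hK hd
  u1 k k' h h' := by
    have hc : jv 0 0 (k - k') 0 (k - k') 0 ∈ J := ⟨rfl, rfl, rfl⟩
    obtain ⟨s, e⟩ := hK.syl _ hc (mem_list hl hK (io_NQ hc) (fun x w _ hx => crd_io hx hc)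
      (l := [(1, k, 0, 0), (1, k', 0, 0)]) (by simpa using ⟨h, h'⟩) (by clear * -; revert k k'; decide +kernel))
    have := (z12 s).1
    rw [← io_injective e] at this
    revert this; clear * -; revert k k'; decide
  u2 k k' h h' := by
    have hc : jv 0 0 (k - k') 0 (k' - k) 0 ∈ J := ⟨rfl, rfl, rfl⟩
    obtain ⟨s, e⟩ := hK.syl _ hc (mem_list hl hK (io_NQ hc) (fun x w _ hx => crd_io hx hc)
      (l := [(2, k, 0, 0), (2, k', 0, 0)]) (by simpa using ⟨h, h'⟩) (by clear * -; revert k k'; decide +kernel))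
    have := (z12 s).2
    rw [← io_injective e] at this
    revert this; clear * -; revert k k'; decide

theorem orb {k : Co0} (hk : k ∈ K) {j j' : K3} (hr : Crd r (rt 0 j)) (hj : j ≠ j') : ∃ v, Crd (hm k r) v ∧
    ((∃ k, PM v (rt 0 k)) ∨ ∃ b c, RR K (cl 0 b c)) ∧
      ∀ b c, X0 (fun b c => RR K (cl 0 b c)) b c → bf3 (vv b c) v = 0 := by
  obtain ⟨r', hr', -⟩ := rr_p0 hK hd j'
  obtain ⟨v, u, c⟩ := TL.shape _ (GN.inM k (hK.le hk) _ hr.1)
  obtain ⟨v', u', c'⟩ := TL.shape _ (GN.inM k (hK.le hk) _ hr'.1)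
  have e1 := (dt_crd c c).symm.trans ((dt_hm k _ _).trans (dt_crd hr hr))
  have e2 := (dt_crd c' c').symm.trans ((dt_hm k _ _).trans (dt_crd hr' hr'))
  have e3 := (dt_crd c c').symm.trans ((dt_hm k _ _).trans (dt_crd hr hr'))
  rw [(by decide : ∀ j, bf3 (rt 0 j) (rt 0 j) = 6)] at e1 e2
  rw [(by decide : ∀ j j', j ≠ j' → bf3 (rt 0 j) (rt 0 j') = -3) j j' hj] at e3
  exact ⟨v, c, (sys hd hl hK).part (RR.act hK (rr_p0 hK hd j) hk hr c) (RR.act hK (rr_p0 hK hd j') hk hr' c')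
    u u' (by omega) (by omega) (by omega)⟩

theorem exists_cell : ∃ b c, RR K (cl 0 b c) := by
  obtain ⟨k, hk, hn⟩ := hK.nn
  by_contra hc
  have key : ∀ {r j j'}, Crd r (rt 0 j) → j ≠ j' → P0 (hm k r) := fun hr hj i hi => by
    obtain ⟨v, c, h, -⟩ := orb hd hl hK hk hr hj
    obtain ⟨m, h⟩ := h.resolve_right hc
    by_cases c3 : 3 ≤ i.val
    · exact c.1 i c3
    · rcases lt3 c3 with rfl | rfl | rfl
      · exact absurd rfl hi
      · rw [show Pl _ 1 = _ from c.2 1]; rcases h with rfl | rfl <;> simp [rt]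
      · rw [show Pl _ 2 = _ from c.2 2]; rcases h with rfl | rfl <;> simp [rt]
  obtain ⟨r', hr', -⟩ := rr_p0 hK hd 1
  exact hn (GN.p0 k (hK.le hk) _ _ crd_r0 hr' (key (j' := 1) crd_r0 (by decide)) (key (j' := 0) hr' (by decide)))

end

/-- the orthogonal complement of the orbit of the plane `0` -/
def XX (K : Subgroup Co0) : Set leechLattice :=
  {x | InM x ∧ ∀ k ∈ K, ∀ r j, Crd r (rt 0 j) → dt x (hm k r) = 0}

section
variable [TL] [GN] (hd : Rep d (tw sd 1)) (hl : KL d) (hK : KH d K)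
include hd hl hK

theorem mem_XX {b c : K3} (h : X0 (fun b c => RR K (cl 0 b c)) b c) : ∃ x ∈ XX K, Crd x (vv b c) := by
  obtain ⟨x, hx⟩ := TL.vec (vv b c) (by clear * -; revert b c; decide)
  refine ⟨x, ⟨hx.1, fun k hk r j hr => ?_⟩, hx⟩
  obtain ⟨v, c, -, e⟩ := orb hd hl hK hk hr (j' := j + 1) (by simp)
  rw [dt_crd hx c, e _ _ h, mul_zero]

theorem inL_XX (hx : x ∈ XX K) : InL x := fun i h1 h2 => by
  by_cases c3 : 3 ≤ i.val
  · exact hx.1 i c3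
  obtain rfl : i = 0 := by rcases lt3 c3 with h | h | h <;> simp_all
  obtain ⟨v, -, c⟩ := TL.shape x hx.1
  obtain ⟨r', hr', -⟩ := rr_p0 hK hd 1
  have e1 := hx.2 1 K.one_mem _ _ crd_r0
  have e2 := hx.2 1 K.one_mem _ _ hr'
  rw [hm_one, dt_crd c crd_r0] at e1
  rw [hm_one, dt_crd c hr'] at e2
  simp [bf3, bf, rt, θ3, om] at e1 e2
  rw [show Pl x 0 = _ from c.2 0]
  ext <;> simp [re24, im24] <;> omega

theorem conj_refl (hg : g ∈ NQ) (hX : ∀ x ∈ XX K, hm g⁻¹ x ∈ XX K) {e : Co0} (he : e ∈ NQ) (h : Refl e r) {j : K3}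
    (hr : Crd r (rt 0 j)) : g * e * g⁻¹ ∈ K := by
  obtain ⟨v, u, c⟩ := TL.shape _ (GN.inM g hg _ hr.1)
  have e1 := (dt_crd c c).symm.trans ((dt_hm g _ _).trans (dt_crd hr hr))
  rw [(by decide : ∀ j, bf3 (rt 0 j) (rt 0 j) = 6)] at e1
  obtain ⟨ρ, p⟩ := root_shape u (by omega)
  have s := sys hd hl hK
  have t := s.all (exists_cell hd hl hK) ρ fun b c' x0 => by
    obtain ⟨x, hx, cx⟩ := mem_XX hd hl hK x0
    have := (hX x hx).2 1 K.one_mem r j hr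
    rw [hm_one, dt_inv, dt_crd cx c] at this
    exact p.perp.1 (by omega)
  obtain ⟨r', c', k, hk, h'⟩ : RR K v := by
    rcases p with rfl | rfl
    exacts [t, s.neg _ t]
  obtain rfl := crd_uniq c' c
  exact mem_K hl hK (NQ.mul_mem (NQ.mul_mem hg he) (NQ.inv_mem hg)) hk fun x j hx =>
    refl_eq (refl_conj h hg) h' (hx.elim And.left And.left)

theorem alpha (hg : g ∈ NQ) (hX : ∀ x ∈ XX K, hm g⁻¹ x ∈ XX K) (s : S6) : g * ι s * g⁻¹ ∈ K := by
  let K' : Subgroup S6 := (K.comap (MulAut.conj g).toMonoidHom).comap ι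
  let y : S6 := ⟨0, 0, 0, 1, 0, 0⟩
  have yJ : emb y ∈ J := ⟨rfl, rfl, rfl⟩
  have yJ' : emb y⁻¹ ∈ J := emb_J ⟨neg_zero, neg_zero⟩
  have yJ2 : emb (y * y) ∈ J := ⟨rfl, rfl, rfl⟩
  have dQ := hK.le hK.d
  have yQ := hK.le (hK.s y)
  have h1 := conj_refl hd hl hK hg hX dQ (refl_d hd) crd_r0
  have h2 := conj_refl hd hl hK hg hX (NQ.mul_mem (NQ.mul_mem yQ dQ) (NQ.inv_mem yQ)) (refl_conj (refl_d hd) yQ)
    (j := 2) (by rw [ι_apply]; convert crd_io crd_r0 yJ using 1; simp only [y, emb_apply]; decide)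
  have h3 : g * ι (y * y) * g⁻¹ ∈ K := mem_K hl hK (NQ.mul_mem (NQ.mul_mem hg (hK.le (hK.s _))) (NQ.inv_mem hg))
    (K.mul_mem h2 h1) fun x j hx => by
      have m := GN.inM _ (NQ.inv_mem hg) x (hx.elim And.left And.left)
      rw [show g * (ι y * d * (ι y)⁻¹) * g⁻¹ * (g * d * g⁻¹) = g * (ι y * d * ι y⁻¹ * d) * g⁻¹ by
        rw [map_inv]; group]
      simp only [hm_mul, ι_apply]
      refine congrArg (hm g) ?_
      generalize hm g⁻¹ x = x at m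
      obtain ⟨a, b0, b1, b2⟩ := d_act hd m
      obtain ⟨a', c0, c1, c2⟩ := d_act hd (a.io yJ')
      refine M_ext (m.io yJ2) (a'.io yJ) ?_ ?_ ?_
      · rw [Pl_J yJ2, Pl_J yJ, c0, Pl_J yJ', b0, star_mul', star_star, ← mul_assoc]
        exact congrArg (· * _) (by simp only [y, emb_apply]; decide)
      · rw [Pl_J yJ2, Pl_J yJ, c1, Pl_J yJ', b1, ← mul_assoc]
        exact congrArg (· * _) (by simp only [y, emb_apply]; decide)
      · rw [Pl_J yJ2, Pl_J yJ, c2, Pl_J yJ', b2, ← mul_assoc]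
        exact congrArg (· * _) (by simp only [y, emb_apply]; decide)
  have h4 : Q5 ≤ K' := fun x hx => by
    obtain ⟨z, -, e⟩ := mem_NQ.1 hg x hx
    exact (show g * ι x * g⁻¹ ∈ K from e ▸ hK.s z)
  have k3 : ∀ k : K3, k = 0 ∨ k = 1 ∨ k = -1 := by decide
  change s ∈ K'
  rcases k3 s.u with c | c | c
  · exact h4 c
  · exact (K'.mul_mem_cancel_right h3).1 (h4 (show s * (y * y) ∈ Q5 by simp [y, c]; rfl))
  · exact (K'.mul_mem_cancel_right (K'.inv_mem h3)).1 (h4 (show s * (y * y)⁻¹ ∈ Q5 by simp [y, c]; rfl))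

theorem beta {n : Co0} (h1 : n ∈ NQ) (h2 : n ∈ NS) (h3 : ∀ x ∈ XX K, hm n x = x) : n ∈ K := by
  obtain ⟨ε, m, e, m0, m12⟩ := GN.mon n h1 h2
  obtain ⟨sw, m1, m2⟩ : ∃ sw : Bool, (m 1).1 = cond sw 2 1 ∧ (m 2).1 = cond sw 1 2 := by
    rcases m12 with h | h
    exacts [⟨false, h⟩, ⟨true, h⟩]
  have c24 : ∀ (e : Bool) (a b z : Ei), a * (b * cjg e (24 * z)) = 24 * (a * (b * cjg e z)) := fun e a b z => by
    cases e <;> simp only [cjg, cond, star_mul', star_ofNat] <;> ring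
  have hδ : ∀ x w, w 0 = 0 → Crd x w →
      Crd (hm n x) (dl ε sw (m 1).2.1 (m 2).2.1 (m 1).2.2 (m 2).2.2 w) := fun x w w0 c => by
    have c0 : Pl x 0 = _ := c.2 0
    have c1 : Pl x 1 = _ := c.2 1
    have c2 : Pl x 2 = _ := c.2 2
    refine crd_mk (GN.inM n h1 x c.1) ?_ ?_ ?_ <;> rw [e] <;> simp only [ap, m0, m1, m2, dl]
    · rw [c0, w0]; cases (m 0).2.1 <;> simp [cjg]
    · cases sw <;> simp [c1, c2, c24]
    · cases sw <;> simp [c1, c2, c24]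
  have fx : ∀ b c, X0 (fun b c => RR K (cl 0 b c)) b c →
      dl ε sw (m 1).2.1 (m 2).2.1 (m 1).2.2 (m 2).2.2 (vv b c) = vv b c := fun b c x0 => by
    obtain ⟨x, hx, cx⟩ := mem_XX hd hl hK x0
    exact crd_inj (h3 x hx ▸ hδ x _ rfl cx) cx
  have s := sys hd hl hK
  have ne := exists_cell hd hl hK
  obtain ⟨b, c, x0⟩ := (s.concl ne).1
  obtain ⟨l, -, t⟩ := List.any_eq_true.1 (table _ _ _ _ _ _ ⟨b, c, fx b c x0⟩)
  simp only [Bool.and_eq_true, decide_eq_true_iff, List.all_eq_true] at t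
  exact mem_list hl hK h1 hδ (fun ρ hρ => s.all ne ρ fun b c x0 => t.2 ρ hρ b c (fx b c x0)) t.1

end

instance instCL [TL] [GN] : CL := ⟨fun _ K hd hl hK => ⟨XX K, fun _ => inL_XX hd hl hK,
  fun k hk x hx => ⟨GN.inM k (hK.le hk) x hx.1, fun k' hk' r j hr => by
    rw [← dt_hm k⁻¹, ← hm_mul, ← hm_mul, inv_mul_cancel, hm_one]
    exact hx.2 _ (K.mul_mem (K.inv_mem hk) hk') r j hr⟩,
  fun _ hg hX => alpha hd hl hK hg hX, fun _ => beta hd hl hK⟩⟩

end Cfsg.Agent.Fu.T.C
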