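import Cfsg.Agent.Fu.T1
import Cfsg.Agent.Fu.A

/-! The case `q = 3`: identification of the two models. -/

set_option autoImplicit false
set_option linter.unusedSimpArgs false

namespace Cfsg.Agent.Fu.T

open Cfsg.Agent.Co Cfsg.Agent.Uf

variable {K : Type*} [Field K] [StarRing K] [Finite K] [HF K]

/-- coordinates of the isomorphism -/
structure Iso6 (e : S6 ≃* U4 K) : Prop where
  a : ∀ x, (e x).a = 0 ↔ x.a = 0 ∧ x.z = 0
  y : ∀ x, (e x).y = 0 ↔ x.u = 0
  c : ∀ x, (e x).c = 0 ↔ x.q = 0 ∧ x.s = 0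
  z : ∀ x, (e x).z = 0 ↔ x.p = 0
  w : ∀ x, e (w6 x) = w2 (e x)
  d : ∃ u : K, u ≠ 0 ∧ ∀ x, e (d6 x) = gam (u ^ 2) u⁻¹ (RingEquiv.refl K) (e x)

theorem p_eq_three {p : ℕ} [hp : Fact p.Prime] [CharP K p] (h3 : qq K = 3) : p = 3 := by
  obtain ⟨n, hn⟩ := exists_qq (K := K) p
  rw [h3] at hn
  exact ((Nat.Prime.pow_eq_iff Nat.prime_three).1 hn.symm).1

theorem exists_i [CharP K 3] (h3 : qq K = 3) : ∃ i : K, i * i = -1 ∧ star i = -i := by
  obtain ⟨θ, h0, h⟩ := exists_skew (K := K)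
  refine ⟨θ, ?_, h⟩
  have t : (2 : K) ≠ 0 := fun c => by
    have : (3 : K) = 0 := CharP.cast_eq_zero K 3
    exact one_ne_zero (by linear_combination this - c : (1 : K) = 0)
  have r : star (θ * θ) = θ * θ := by rw [star_mul', h]; ring
  by_contra hne
  have h1 : θ * θ ≠ 1 := fun c => by
    rcases mul_self_eq_one_iff.1 c with e | e <;> rw [e] at h <;> simp at h
    · exact t (by linear_combination h)
    · exact t (by linear_combination -h)
  have := Nat.card_le_card_of_injective (α := Fin 4) (β := selfAdjoint K)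
    (![⟨0, by simp⟩, ⟨1, by simp [selfAdjoint.mem_iff]⟩, ⟨-1, by simp [selfAdjoint.mem_iff]⟩,
      ⟨θ * θ, r⟩]) (by
      have n1 : (-1 : K) ≠ 1 := fun c => t (by linear_combination -c)
      intro a b
      fin_cases a <;> fin_cases b <;>
        simp [Subtype.ext_iff, h0, h1, hne, h1.symm, Ne.symm hne, n1, n1.symm])
  rw [show Nat.card (selfAdjoint K) = 3 from h3] at this
  simp at this

theorem exists_iso6 [CharP K 3] (h3 : qq K = 3) : ∃ e : S6 ≃* U4 K, Iso6 e := by
  obtain ⟨i, ii, si⟩ := exists_i h3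
  let φ : K3 →+* K := ZMod.castHom (dvd_refl 3) K
  have sφ : ∀ k, star (φ k) = φ k := fun k => by
    rcases (by decide : ∀ k : K3, k = 0 ∨ k = 1 ∨ k = -1) k with rfl | rfl | rfl <;> simp
  have φ0 : ∀ k, φ k = 0 ↔ k = 0 := fun k => map_eq_zero φ
  have t3 : (3 : K) = 0 := CharP.cast_eq_zero K 3
  have i0 : i ≠ 0 := fun c => by simp [c] at ii
  have z2 : ∀ a b : K3, φ a + i * φ b = 0 ↔ a = 0 ∧ b = 0 := fun a b => ⟨fun h => by
    have h' := congrArg star h
    rw [star_add, star_mul', sφ, sφ, si, star_zero] at h'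
    have ha : φ a = 0 := by linear_combination -h - h' + φ a * t3
    rw [ha, zero_add, mul_eq_zero] at h
    exact ⟨(φ0 _).1 ha, (φ0 _).1 (h.resolve_left i0)⟩, fun h => by simp [h]⟩
  let f : S6 →* U4 K := MonoidHom.mk' (fun x => ⟨φ x.a + i * φ x.z, φ x.u, φ x.q + i * φ x.s, φ x.p,
    sφ _, sφ _⟩) fun x y => by
      ext
      · simp; ring
      · simp
      · simp; ring
      · simp only [mu_p, U4.mul_z, map_add, map_mul, map_pow, map_ofNat, star_add, star_mul', sφ, si]
        linear_combination (2 * φ x.z * φ y.s + φ x.z ^ 2 * φ y.u) * ii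
  have inj : Function.Injective f := (injective_iff_map_eq_one f).2 fun x h => by
    have a := (z2 _ _).1 (congrArg U4.a h); have c := (z2 _ _).1 (congrArg U4.c h)
    exact S6.ext ((φ0 _).1 (congrArg U4.z h)) c.1 c.2 ((φ0 _).1 (congrArg U4.y h)) a.1 a.2
  have bij := (Nat.bijective_iff_injective_and_card f).2 ⟨inj, by rw [card_S6, card_U4, h3]⟩
  have u0 : (1 - i) * -(1 + i) = 1 := by linear_combination ii - t3
  have ui : (1 - i)⁻¹ = -(1 + i) := inv_eq_of_mul_eq_one_right u0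
  refine ⟨MulEquiv.ofBijective f bij, fun x => z2 _ _, fun x => φ0 _, fun x => z2 _ _,
    fun x => φ0 _, fun x => ?_, 1 - i, left_ne_zero_of_mul_eq_one u0, fun x => ?_⟩
  · ext <;> simp [f, w6, w2, sφ, si]; ring
  · rw [ui]
    ext <;> simp only [f, d6, gam, MulEquiv.ofBijective_apply, MonoidHom.mk'_apply, map_neg,
      RingEquiv.refl_apply, star_neg, star_add, star_pow, star_sub, star_one, si]
    all_goals clear * - ii t3; grind

end Cfsg.Agent.Fu.T
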