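import Cfsg.Agent.Fu.TF1
import Cfsg.Agent.H9.PL
import Cfsg.Agent.H5.Flag

/-! The case `q = 3`: elements of `Co0` inducing `F`-automorphisms. -/

set_option autoImplicit false
set_option linter.unusedSimpArgs false
set_option linter.unusedSectionVars false

namespace Cfsg.Agent.Fu.T

open Equiv Cfsg.Agent.Co.A Cfsg.Agent.Uf Cfsg.Spor Cfsg.Fus Cfsg.FusionSystem

variable {K : Type*} [Field K] [StarRing K] [Finite K] [HF K] {e : S6 ≃* U4 K}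
  {F : FusionSystem (⊤ : Subgroup (U4 K))}

/-- the embedding of `U4 K` -/
noncomputable def jj (e : S6 ≃* U4 K) : U4 K →* Co0 := ι.comp e.symm.toMonoidHom

theorem jj_e (s : S6) : jj e (e s) = ι s := by simp [jj]
theorem jj_symm (x : U4 K) : ι (e.symm x) = jj e x := rfl
theorem jj_inj : Function.Injective (jj e) := ι_inj.comp e.symm.injective

/-- elements inducing an `F`-automorphism of `P` -/
def Ind (e : S6 ≃* U4 K) (F : FusionSystem (⊤ : Subgroup (U4 K))) (P : Subgroup (U4 K)) :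
    Subgroup Co0 where
  carrier := {n | ∃ α, F.Iso P P α ∧ ∀ x ∈ P, n * jj e x * n⁻¹ = jj e (α x)}
  one_mem' := ⟨1, F.iso_one le_top, fun x _ => by simp⟩
  mul_mem' := by
    rintro n m ⟨α, a, b⟩ ⟨β, c, d⟩
    exact ⟨α * β, c.trans a, fun x hx => by rw [Perm.mul_apply, ← b _ (c.mem hx), ← d x hx]; group⟩
  inv_mem' := by
    rintro n ⟨α, a, b⟩
    refine ⟨α⁻¹, a.symm, fun x hx => ?_⟩
    have := b _ (a.inv_mem hx)
    rw [perm_apply_inv_self] at this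
    rw [← this]; group

theorem pm_Ind {P : Subgroup (U4 K)} {n : Co0} (h : Pm n) : n ∈ Ind e F P :=
  ⟨1, F.iso_one le_top, fun x _ => by
    rw [← Subgroup.mem_center_iff.1 h.center, mul_inv_cancel_right]; rfl⟩

theorem jj_Ind {P : Subgroup (U4 K)} {g : U4 K} (h : g ∈ Subgroup.normalizer (P : Set (U4 K))) :
    jj e g ∈ Ind e F P := ⟨cj g, F.iso_cj le_top trivial h, fun x _ => by simp⟩

theorem nT (g : U4 K) : g ∈ Subgroup.normalizer ((⊤ : Subgroup (U4 K)) : Set (U4 K)) :=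
  norm_of_le le_top g

theorem mem_NS' {g : Co0} : g ∈ NS ↔ ∀ x, ∃ y, g * jj e x * g⁻¹ = jj e y := by
  rw [mem_NS]
  exact ⟨fun h x => (h (e.symm x)).imp' e fun y hy => by rwa [jj_e],
    fun h x => (h (e x)).imp' e.symm fun y hy => by rwa [jj_e] at hy⟩

theorem pm_cube {n : Co0} (h : Pm n) {k : ℕ} (h3 : n ^ 3 ^ k = 1) : n = 1 := by
  obtain ⟨j, hj⟩ : Odd (3 ^ k) := Odd.pow (by decide)
  rwa [hj, pow_succ, pow_mul, sq, h.sq, one_pow, one_mul] at h3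

namespace Iso6

theorem q (h : Iso6 e) {x : S6} : e x ∈ sQ K ↔ x ∈ Q5 := h.y x
theorem j (h : Iso6 e) {x : S6} : e x ∈ sJ K ↔ x ∈ J4 := h.a x
theorem z1 (h : Iso6 e) {x : S6} : e x ∈ sZ K ↔ x ∈ Z1 := by
  rw [mem_sZ, h.a, h.y, h.c, mem_Z1]; tauto
theorem q' (h : Iso6 e) {x : U4 K} : e.symm x ∈ Q5 ↔ x ∈ sQ K := by rw [← h.q]; simp
theorem j' (h : Iso6 e) {x : U4 K} : e.symm x ∈ J4 ↔ x ∈ sJ K := by rw [← h.j]; simp

theorem nq (h : Iso6 e) {g : Co0} :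
    g ∈ NQ ↔ ∀ x ∈ sQ K, ∃ y ∈ sQ K, g * jj e x * g⁻¹ = jj e y := by
  rw [mem_NQ]
  exact ⟨fun c x hx => (c _ (h.q'.2 hx)).imp' e fun y hy => ⟨h.q.2 hy.1, by rw [jj_e]; exact hy.2⟩,
    fun c x hx => (c _ (h.q.2 hx)).imp' e.symm fun y hy => ⟨h.q'.2 hy.1, by
      rw [← jj_e (e := e)]; exact hy.2⟩⟩

variable [GN]

theorem cq (h : Iso6 e) {g : Co0} (c : ∀ x ∈ sQ K, g * jj e x * g⁻¹ = jj e x) :
    ∃ z ∈ sZ K, Pm (g * (jj e z)⁻¹) := by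
  obtain ⟨z, hz, p⟩ := GN.cQ g fun x hx => by
    rw [← jj_e (e := e), ← mul_inv_eq_iff_eq_mul]; exact c _ (h.q.2 hx)
  exact ⟨e z, h.z1.2 hz, by rwa [jj_e]⟩

theorem sur (h : Iso6 e) {τ : U4 K → U4 K} (h1 : HomOn τ (sQ K)) (h2 : ∀ x ∈ sQ K, τ x ∈ sQ K)
    (h3 : ∀ x ∈ sQ K, τ x = 1 → x = 1) : ∃ g : Co0, ∀ x ∈ sQ K, g * jj e x * g⁻¹ = jj e (τ x) := by
  obtain ⟨g, hg⟩ := GN.sur (fun x => e.symm (τ (e x))) ⟨fun x hx => h.q'.2 (h2 _ (h.q.2 hx)),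
    fun x hx y hy => by rw [map_mul, h1 (h.q.2 hx) (h.q.2 hy), map_mul],
    fun x hx c => e.injective (by rw [map_one]; exact h3 _ (h.q.2 hx) (by simpa using c))⟩
  exact ⟨g, fun x hx => by simpa [jj_symm] using hg _ (h.q'.2 hx)⟩

theorem sur' (h : Iso6 e) {τ : Perm (U4 K)} (t : F.Iso (sQ K) (sQ K) τ) :
    ∃ g : Co0, ∀ x ∈ sQ K, g * jj e x * g⁻¹ = jj e (τ x) :=
  h.sur t.homOn (fun _ hx => t.mem hx) fun _ _ c => τ.injective (c.trans t.homOn.map_one.symm)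

theorem gam_ind [TL] (h : Iso6 e) {s u : K} (hs : s ≠ 0) (hu : u ≠ 0) (σ : K ≃+* K) :
    ∃ n : Co0, ∀ x, n * jj e x * n⁻¹ = jj e (gam s u σ x) := by
  haveI := finite_Co0
  have hh : HomOn (gam s u σ) ⊤ := fun x _ y _ => gam_mul ..
  have sj := Finite.surjective_of_injective (Function.LeftInverse.injective (gam_inv hs hu σ))
  have gy : ∀ x, (gam s u σ x).y = 0 ↔ x.y = 0 := fun x => by simp [gam, hu]
  obtain ⟨n, hn⟩ := h.sur (hh.mono le_top) (fun x hx => (gy x).2 hx) fun x _ c => by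
    rw [← gam_inv hs hu σ x, c]; ext <;> simp [gam]
  let y6 : S6 := ⟨0, 0, 0, 1, 0, 0⟩
  obtain ⟨z, hz, p⟩ := h.cq (g := (jj e (gam s u σ (e y6)))⁻¹ * (n * ι y6 * n⁻¹)) fun x hx => by
    obtain ⟨x, rfl⟩ := sj x
    have hx := (gy x).1 hx
    have a := hn _ (conj_mem_of_mem_normalizer (norm_of_le Z2_Q (e y6)) hx)
    rw [hh.map_conj trivial trivial] at a
    simp only [map_mul, map_inv, jj_e] at a
    calc _ = (jj e (gam s u σ (e y6)))⁻¹ * (n * (ι y6 * (n⁻¹ * jj e (gam s u σ x) * n) * (ι y6)⁻¹) *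
        n⁻¹) * jj e (gam s u σ (e y6)) := by group
      _ = _ := by rw [← hn x hx, show n⁻¹ * (n * jj e x * n⁻¹) * n = jj e x by group, a, hn x hx]; group
  obtain ⟨z, rfl⟩ := e.surjective z
  obtain ⟨b, hb⟩ := e.surjective (gam s u σ (e y6))
  have ba := (h.a b).1 (by rw [hb]; simp [gam, (h.a y6).2 ⟨rfl, rfl⟩])
  have bc := (h.c b).1 (by rw [hb]; simp [gam, (h.c y6).2 ⟨rfl, rfl⟩])
  have bp := (h.z b).1 (by rw [hb]; simp [gam, (h.z y6).2 rfl])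
  have bu : b.u ≠ 0 := fun c => by
    have := (h.y y6).1 ((gy _).1 (hb ▸ (h.y b).2 c)); simp [y6] at this
  have hz := mem_Z1.1 (h.z1.1 hz)
  rw [← hb, jj_e, jj_e] at p
  have c3 : ∀ x ∈ J4, x ^ 3 = 1 := fun x hx => by
    rw [mem_J4] at hx; rw [pow_three]; ext <;> simp [hx] <;> exact (by decide : ∀ a : Co.K3, a + (a + a) = 0) _
  have bz : b * z ∈ J4 := by simp [ba, hz]
  have ny : n * ι y6 * n⁻¹ = ι (b * z) := by
    have e1 : n * ι y6 * n⁻¹ = (ι b)⁻¹ * (n * ι y6 * n⁻¹) * (ι z)⁻¹ * ι (b * z) := by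
      rw [← Subgroup.mem_center_iff.1 p.center, map_mul, mul_assoc (ι b),
        Subgroup.mem_center_iff.1 p.center]; group
    have e2 := congrArg (· ^ 3) e1
    rw [conj_pow, ← map_pow, c3 y6 ⟨rfl, rfl⟩, Commute.mul_pow (Subgroup.mem_center_iff.1 p.center _).symm,
      ← map_pow, c3 _ bz, map_one, mul_one, mul_one, mul_inv_cancel] at e2
    rw [e1, pm_cube p (k := 1) e2.symm, one_mul]
  have dec : ∀ x : S6, x = x * (y6 ^ x.u.val)⁻¹ * y6 ^ x.u.val ∧ x * (y6 ^ x.u.val)⁻¹ ∈ Q5 ∧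
      (x ∈ J4 → x * (y6 ^ x.u.val)⁻¹ ∈ J4) := fun x => by
    refine ⟨by group, ?_, fun hx => J4.mul_mem hx (J4.inv_mem (J4.pow_mem ⟨rfl, rfl⟩ _))⟩
    have : ∀ k : Co.K3, (y6 ^ k.val).u = k := by decide
    simp [this]
  have nJ : n ∈ Subgroup.normalizer (J4.map ι : Set Co0) := Subgroup.mem_normalizer_fintype (by
    rintro _ ⟨x, hx, rfl⟩
    obtain ⟨a1, a2, a3⟩ := dec x
    have := hn _ (h.q.2 a2)
    rw [jj_e] at this
    refine ⟨e.symm (gam s u σ (e (x * (y6 ^ x.u.val)⁻¹))) * (b * z) ^ x.u.val, J4.mul_mem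
      (h.j'.2 (by simp only [mem_sJ, gam, mem_sJ.1 (h.j.2 (a3 hx))]; simp)) (J4.pow_mem bz _), ?_⟩
    rw [map_mul, jj_symm, ← this, map_pow, ← ny, conj_pow, map_mul, map_inv, map_pow]; group)
  have sg := TL.sing n (fun j hj => by
    obtain ⟨y, hy, c⟩ := (Subgroup.inv_mem _ nJ (ι j)).1 ⟨j, hj, rfl⟩
    exact ⟨y, hy, by rw [c, inv_inv]⟩) y6 ⟨rfl, rfl⟩ _ bz ny (by simp [Sing, y6])
  have z1 : z = 1 := by
    simp [Sing, ba, bc, bp, hz, bu] at sg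
    ext <;> simp [hz, sg]
  rw [z1, mul_one, ← jj_e (e := e) b, hb] at ny
  refine ⟨n, fun x => ?_⟩
  obtain ⟨x, rfl⟩ := e.surjective x
  obtain ⟨x, k, a2, rfl⟩ : ∃ x' k, x' ∈ Q5 ∧ x = x' * y6 ^ k := ⟨_, _, (dec x).2.1, (dec x).1⟩
  rw [map_mul, map_pow, gam_mul, hh.map_pow trivial, map_mul, map_mul, map_pow, map_pow, ← ny,
    ← hn _ (h.q.2 a2), conj_pow, jj_e y6]; group

theorem all_ind [TL] (h : Iso6 e) {p : ℕ} (hF : Std p F) {α : Perm (U4 K)} (a : F.Iso ⊤ ⊤ α) :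
    ∃ n : Co0, ∀ x, n * jj e x * n⁻¹ = jj e (α x) := by
  obtain ⟨g, s, u, σ, hs, hu, c⟩ := hF.aut α a
  obtain ⟨n, hn⟩ := h.gam_ind hs hu σ
  exact ⟨jj e g * n, fun x => by rw [c, map_mul, map_mul, map_inv, ← hn]; group⟩

omit [GN] in
theorem N_le {p : ℕ} (hF : Std p F) : Ind e F ⊤ ≤ Ind e F (sQ K) := by
  rintro n ⟨α, a, b⟩
  obtain ⟨g, s, u, σ, -, -, c⟩ := hF.aut α a
  exact ⟨α, (a.isMap.mono le_top).iso_self fun x hx => by
    rw [c, mem_sQ, cj_y]; simp [gam, mem_sQ.1 hx], fun x _ => b x trivial⟩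

omit [GN] in
theorem N_NS : Ind e F ⊤ ≤ NS := fun _ ⟨α, _, b⟩ => mem_NS'.2 fun x => ⟨α x, b x trivial⟩

omit [GN] in
theorem K_NQ (h : Iso6 e) : Ind e F (sQ K) ≤ NQ := fun _ ⟨α, a, b⟩ =>
  h.nq.2 fun x hx => ⟨α x, a.mem hx, b x hx⟩

omit [GN] in
theorem keepZ2 {n : Co0} (hn : n ∈ NS) {x y : U4 K} (hx : x ∈ sZ2 K)
    (c : n * jj e x * n⁻¹ = jj e y) : y ∈ sZ2 K := by
  choose γ hγ using (mem_NS' (e := e)).1 hn
  have hc : ∀ a b, jj e (cm (γ a) (γ b)) = n * jj e (cm a b) * n⁻¹ := fun a b => by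
    simp only [cm, map_mul, map_inv, ← hγ]; group
  obtain ⟨t, ht⟩ := exists_cm_z (x := xa (1 : K)) one_ne_zero
    (z := (cm (xa x.c) (xy 1 (star_one K)))⁻¹ * x) ⟨by simp [cm_a, hx.1], by simp [cm_y, hx.2], by
      simp [cm_a, cm_c, xa, xy]⟩
  have : y = cm (γ (xa x.c)) (γ (xy 1 (star_one K))) * cm (γ (xc t)) (γ (xa 1)) := jj_inj (e := e) (by
    rw [map_mul, hc, hc, ht, ← c, map_mul, map_inv]; group)
  exact this ▸ (sZ2 K).mul_mem (cm_sZ2 _ _) (cm_sZ2 _ _)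

variable [TL] [CharP K 3]

theorem star1 (h : Iso6 e) (hF : Std 3 F) {n : Co0} (hK : n ∈ Ind e F (sQ K)) (hn : n ∈ NS) :
    n ∈ Ind e F ⊤ := by
  obtain ⟨τ, t, b⟩ := hK
  obtain ⟨-, α, a, c⟩ := ext1 hF.sat t fun x hx => keepZ2 hn hx (b x (Z2_Q hx))
  obtain ⟨m, hm⟩ := h.all_ind hF a
  obtain ⟨z, -, p⟩ := h.cq (g := m⁻¹ * n) fun x hx => by
    rw [mul_inv_rev, mul_assoc, mul_assoc, ← mul_assoc _ n⁻¹, ← mul_assoc n, ← mul_assoc n, b x hx,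
      ← c x hx, ← hm]; group
  simpa using (Ind e F ⊤).mul_mem ⟨α, a, fun x _ => hm x⟩
    ((Ind e F ⊤).mul_mem (pm_Ind p) (jj_Ind (nT z)))

omit [TL] in
theorem star2 (h : Iso6 e) (hF : Std 3 F) {n : Co0} (hN : n ∈ Ind e F ⊤) (hn : H5.Cl.PE 3 n) :
    n ∈ (jj e).range := by
  obtain ⟨α, a, b⟩ := hN
  obtain ⟨k, hk⟩ := hn
  have pw : ∀ (m : ℕ) x, n ^ m * jj e x * (n ^ m)⁻¹ = jj e ((α ^ m) x) := fun m => by
    induction m with
    | zero => simp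
    | succ m ih => intro x; rw [pow_succ' α, Perm.mul_apply, ← b _ trivial, ← ih, pow_succ']; group
  obtain ⟨g, -, c⟩ := mem_innS_self.1 (hF.sat.mem_innS_top (topP 3) a (k := k) fun x _ =>
    jj_inj (e := e) (by rw [← pw, hk]; simp))
  obtain ⟨z, -, p⟩ := h.cq (g := (jj e g)⁻¹ * n) fun x _ => by
    rw [mul_inv_rev, mul_assoc, mul_assoc, ← mul_assoc _ n⁻¹, ← mul_assoc n, ← mul_assoc n,
      b x trivial, c x trivial, map_mul, map_mul, map_inv]; group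
  have e1 : n = (jj e g)⁻¹ * n * (jj e z)⁻¹ * jj e (g * z) := by
    rw [← Subgroup.mem_center_iff.1 p.center, map_mul, mul_assoc (jj e g),
      Subgroup.mem_center_iff.1 p.center]; group
  obtain ⟨l, hl⟩ := topP (K := K) 3 ⟨g * z, trivial⟩
  have hl : (g * z) ^ 3 ^ l = 1 := congrArg Subtype.val hl
  have e2 := congrArg (· ^ 3 ^ (k + l)) e1
  rw [Commute.mul_pow (Subgroup.mem_center_iff.1 p.center _).symm, ← map_pow, pow_add, pow_mul n, hk,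
    mul_comm (3 ^ k), pow_mul (g * z), hl, one_pow, one_pow, map_one, mul_one, ← pow_add] at e2
  rw [e1, pm_cube p e2.symm, one_mul]; exact ⟨_, rfl⟩

omit [GN] [TL] [CharP K 3] in
theorem d_mem (h : Iso6 e) (h2 : W2 F) {d : Co0} (hd : ∀ s, d * ι s * d⁻¹ = ι (d6 s)) :
    d ∈ Ind e F ⊤ := by
  obtain ⟨u, hu, c⟩ := h.d
  obtain ⟨α, a, b⟩ := (h2.t u hu).exists_perm
  refine ⟨α, a.iso_self fun _ _ => trivial, fun x _ => ?_⟩
  obtain ⟨x, rfl⟩ := e.surjective x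
  rw [b _ trivial, ← c, jj_e, jj_e, hd]

theorem kh (h : Iso6 e) (hF : Std 3 F) {d : Co0} (hd : d ∈ Ind e F ⊤) :
    KH d (Ind e F (sQ K)) where
  le := h.K_NQ
  s s := N_le hF (jj_e (e := e) s ▸ jj_Ind (nT _))
  pm _ p := pm_Ind p
  d := N_le hF hd
  syl c hc m := by
    obtain ⟨x, hx⟩ := h.star2 hF (h.star1 hF m (mem_NS.2 fun x =>
      ⟨⟨(c * emb x * c⁻¹).p, (c * emb x * c⁻¹).q, (c * emb x * c⁻¹).s, x.u, x.a, x.z⟩, by
        rw [ι_apply, ι_apply, ← map_inv, ← map_mul, ← map_mul]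
        congr 1
        rw [Co.mem_J] at hc
        ext <;> simp [emb_apply, hc]⟩)) ⟨1, by
          rw [← map_pow, pow_one, pow_three, ← mul_assoc, ← map_one io]; congr 1
          rw [Co.mem_J] at hc
          ext <;> simp [hc] <;> exact (by decide : ∀ a : Co.K3, a + a + a = 0) _⟩
    exact ⟨e.symm x, hx.symm⟩
  nn := by
    obtain ⟨τ, t, x, hx, c⟩ := hF.n1
    obtain ⟨k, hk⟩ := h.sur' t
    exact ⟨k, ⟨τ, t, hk⟩, fun n => c (keepZ2 n hx (hk x (Z2_Q hx)))⟩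

end Iso6

end Cfsg.Agent.Fu.T
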