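import Cfsg.Agent.Fu.TL1

/-! The centraliser of `J3` in `Co0`. -/

set_option autoImplicit false

namespace Cfsg.Agent.Fu.T

open Cfsg.Agent.Co Cfsg.Agent.Co.A Cfsg.Spor Cfsg.Agent.H4 Cfsg.Agent.L

theorem Bf_hm (g : Co0) (x y : leechLattice) : Bf (Pl (hm g x)) (Pl (hm g y)) = Bf (Pl x) (Pl y) :=
  (Bf_Ph _ _).trans ((congrArg _ (dotInt_co0 g.2 _ _)).trans (Bf_Ph _ _).symm)

theorem Bf_one {v w : Ve} {i : Fin 12} (h : ∀ l, l ≠ i → w l = 0) : Bf v w = bf (v i) (w i) :=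
  Finset.sum_eq_single i (fun l _ hl => by simp [h l hl, bf]) (by simp)

theorem bf_ineq (w x : Ei) : 0 ≤ bf w w + 4 * bf w x + 4 * bf x x := by
  simp only [bf]
  nlinarith [sq_nonneg (w.re + 2 * x.re), sq_nonneg (w.im + 2 * x.im),
    sq_nonneg (w.re + 2 * x.re - (w.im + 2 * x.im))]

theorem Bf_sub (v w y : Ve) : Bf (v - w) y = Bf v y - Bf w y := by
  simp only [Bf, ← Finset.sum_sub_distrib]
  exact Finset.sum_congr rfl fun i _ => by simp [bf]; ring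

theorem Bf_sq (v w : Ve) : Bf (v - w) (v - w) + 2 * Bf (v - w) w = Bf v v - Bf w w := by
  simp only [Bf, Finset.mul_sum, ← Finset.sum_sub_distrib, ← Finset.sum_add_distrib]
  exact Finset.sum_congr rfl fun i _ => by simp [bf]; ring

theorem surj3 : ∀ a b c : K3, ∃ r t u : K3, cc 0 (jv 0 0 r 0 t u) = a ∧ cc 1 (jv 0 0 r 0 t u) = b ∧
    cc 2 (jv 0 0 r 0 t u) = c := by decide +kernel

theorem id_of {h : Co0} (hk : ∀ x (i : Fin 12), 3 ≤ i.val → Pl (hm h x) i = Pl x i) (x : leechLattice) :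
    hm h x = x := by
  have hM : ∀ x, InM (hm h x - x) := fun x i hi => by rw [map_sub, Pi.sub_apply, hk x i hi, sub_self]
  have key : ∀ a b c : K3, ∃ y, hm h y = y ∧ Pl y 0 = om a * ⟨8, 0⟩ ∧ Pl y 1 = om b * ⟨8, 0⟩ ∧
      Pl y 2 = om c * ⟨8, 0⟩ := fun a b c => by
    obtain ⟨r, t, u, rfl, rfl, rfl⟩ := surj3 a b c
    have e : ∀ i : Fin 12, i.val < 3 → Pl (hm (io (jv 0 0 r 0 t u)) (ev 23 (by decide) - ev 14 (by decide))) i =
        om (cc i (jv 0 0 r 0 t u)) * ⟨8, 0⟩ := fun i hi => by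
      rw [Pl_J ⟨rfl, rfl, rfl⟩, map_sub, Pi.sub_apply, Pl_ev, Pl_ev, (ck_E4 _).1]
      erw [ck_E3 3 i (by decide)]
      congr 1
      revert i; decide
    refine ⟨_, ?_, e 0 (by decide), e 1 (by decide), e 2 (by decide)⟩
    generalize hm (io (jv 0 0 r 0 t u)) (ev 23 (by decide) - ev 14 (by decide)) = y at e
    by_contra hne
    have h1 := le_sqNorm (mem_leechLattice.1 (hm h y - y).2) fun c => hne (sub_eq_zero.1 (Subtype.ext c))
    have h2 : Bf (Pl (hm h y - y)) (Pl (hm h y - y)) = 72 * sqNorm ((hm h y - y : leechLattice) : GolayPt → ℤ) :=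
      (Bf_Ph _ _).trans (by simp only [dotInt, sqNorm, sq]; rfl)
    have h3 := Bf_sq (Pl (hm h y)) (Pl y)
    rw [Bf_hm, sub_self, ← map_sub, Bf_M (hM y), Bf_M (hM y)] at h3
    rw [Bf_M (hM y)] at h2
    have n : ∀ k, bf (om k * ⟨8, 0⟩) (om k * ⟨8, 0⟩) = 128 := by decide
    have i0 := bf_ineq (Pl (hm h y - y) 0) (Pl y 0)
    have i1 := bf_ineq (Pl (hm h y - y) 1) (Pl y 1)
    have i2 := bf_ineq (Pl (hm h y - y) 2) (Pl y 2)
    have n0 : bf (Pl y 0) (Pl y 0) = 128 := by rw [e 0 (by decide), n]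
    have n1 : bf (Pl y 1) (Pl y 1) = 128 := by rw [e 1 (by decide), n]
    have n2 : bf (Pl y 2) (Pl y 2) = 128 := by rw [e 2 (by decide), n]
    omega
  have z : ∀ a b c : K3, bf (Pl (hm h x - x) 0) (om a * ⟨8, 0⟩) + bf (Pl (hm h x - x) 1) (om b * ⟨8, 0⟩) +
      bf (Pl (hm h x - x) 2) (om c * ⟨8, 0⟩) = 0 := fun a b c => by
    obtain ⟨y, e, e0, e1, e2⟩ := key a b c
    rw [← e0, ← e1, ← e2, ← Bf_M (hM x), map_sub, Bf_sub, ← Bf_hm h x y, e, sub_self]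
  refine sub_eq_zero.1 (Pl_inj (funext fun i => ?_))
  have m := hM x
  generalize hm h x - x = w at m z
  have z0 := z 0 0 0
  have z1 := z 1 0 0
  have z2 := z 2 0 0
  have z3 := z 0 1 0
  have z4 := z 0 2 0
  have z5 := z 0 0 1
  have z6 := z 0 0 2
  have o0 : om 0 * ⟨8, 0⟩ = ⟨8, 0⟩ := by decide
  have o1 : om 1 * ⟨8, 0⟩ = ⟨0, 8⟩ := by decide
  have o2 : om 2 * ⟨8, 0⟩ = ⟨-8, -8⟩ := by decide
  simp only [o0, o1, o2, bf] at z0 z1 z2 z3 z4 z5 z6
  rw [map_zero, Pi.zero_apply]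
  by_cases hi : 3 ≤ i.val
  · exact m i hi
  · have : i = 0 ∨ i = 1 ∨ i = 2 := by revert i; decide
    rcases this with rfl | rfl | rfl <;> ext <;> simp <;> omega

theorem pm_of {h : Co0} {s : Bool} (hk : ∀ x (i : Fin 12), 3 ≤ i.val → Pl (hm h x) i = sgn s * Pl x i) :
    Pm h := by
  cases s
  · exact .inl (id_of fun x i hi => (hk x i hi).trans (one_mul _))
  · obtain ⟨n, hn⟩ := exists_of_add (-AddMonoidHom.id _) fun x => by simp [sqNorm]
    refine .inr fun x => ?_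
    have := id_of (h := n * h) (fun x i hi => by
      rw [hm_mul, hn]; simp [hk x i hi, sgn]) x
    rw [hm_mul, hn] at this
    exact neg_eq_iff_eq_neg.1 this

/-- `g` centralises `J3` -/
def C3 (g : Co0) : Prop := ∀ p q s : K3, g * io (jv p q 0 s 0 0) = io (jv p q 0 s 0 0) * g

theorem C3.inv {g : Co0} (h : C3 g) : C3 g⁻¹ := fun p q s => (show Commute _ _ from h p q s).inv_left

theorem ccp : ∀ l : Fin 12, cc l (jv 1 0 0 0 0 0) = 0 ↔ l.val < 3 := by decide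

theorem sep9 : ∀ i l : Fin 12, 3 ≤ i.val → 3 ≤ l.val → l ≠ i → ∃ p q s : K3,
    cc i (jv p q 0 s 0 0) = 0 ∧ cc l (jv p q 0 s 0 0) ≠ 0 := by decide +kernel

theorem C3.perp {g : Co0} (h : C3 g) {x : leechLattice} (hx : ∀ l : Fin 12, l.val < 3 → Pl x l = 0)
    (l : Fin 12) (hl : l.val < 3) : Pl (hm g x) l = 0 :=
  tr0 ⟨rfl, rfl, rfl⟩ ⟨rfl, rfl, rfl⟩ (h 1 0 0) (fun l hl => hx l ((ccp l).1 hl)) l ((ccp l).2 hl)

theorem C3.supp {g : Co0} (h : C3 g) {i : Fin 12} (hi : 3 ≤ i.val) (l : Fin 12) (hl : l ≠ i) :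
    Pl (hm g (ee i)) l = 0 := by
  by_cases c : l.val < 3
  · exact h.perp (fun l hl => ee_supp (by rintro rfl; omega)) l c
  · obtain ⟨p, q, s, h1, h2⟩ := sep9 i l hi (by omega) hl
    exact tr1 ⟨rfl, rfl, rfl⟩ ⟨rfl, rfl, rfl⟩ (h p q s) (fun l hl => ee_supp fun c => hl (c ▸ h1)) l h2

theorem unit_of {s : Bool} {k c : K3} (hc : c ≠ 0) {w z : Ei} (h1 : bf w th = bf z (th * (sgn s * om k)))
    (h2 : bf w (om c * th) = bf z (om c * (th * (sgn s * om k)))) : w = sgn s * om (-k) * z := by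
  have o0 : om 0 = ⟨1, 0⟩ := rfl
  have o1 : om 1 = ⟨0, 1⟩ := rfl
  have o2 : om (-1) = ⟨-1, -1⟩ := rfl
  have k3 : ∀ k : K3, k = 0 ∨ k = 1 ∨ k = -1 := by decide
  rcases k3 c with rfl | rfl | rfl
  · exact absurd rfl hc
  all_goals rcases k3 k with rfl | rfl | rfl <;> cases s <;>
    simp [bf, th, sgn, o0, o1, o2] at h1 h2 <;> ext <;> simp [sgn, o0, o1, o2] <;> omega

theorem C3.diag {g : Co0} (h : C3 g) (i : Fin 12) : ∃ (s : Bool) (k : K3), 3 ≤ i.val → ∀ x,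
    Pl (hm g x) i = sgn s * om k * Pl x i := by
  by_cases hi : 3 ≤ i.val
  swap
  · exact ⟨false, 0, fun c => absurd c hi⟩
  have e := Bf_hm g⁻¹ (ee i) (ee i)
  rw [Bf_one (h.inv.supp hi), Bf_one fun l => ee_supp, Pl_ee, if_pos rfl] at e
  obtain ⟨s, k, hk⟩ := nrm e
  have pJ : jv 1 0 0 0 0 0 ∈ J := ⟨rfl, rfl, rfl⟩
  refine ⟨s, -k, fun _ x => unit_of (c := cc i (jv 1 0 0 0 0 0)) (fun c => by have := (ccp i).1 c; omega) ?_ ?_⟩
  · have := Bf_hm g⁻¹ (hm g x) (ee i)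
    rw [Bf_one (h.inv.supp hi), Bf_one fun l => ee_supp, Pl_ee, if_pos rfl, hk, ← hm_mul, inv_mul_cancel,
      hm_one] at this
    exact this.symm
  · have := Bf_hm g⁻¹ (hm g x) (hm (io (jv 1 0 0 0 0 0)) (ee i))
    rw [← hm_mul _ (io _), h.inv, hm_mul, Bf_one (i := i) fun l hl => by rw [Pl_J pJ, h.inv.supp hi l hl, mul_zero],
      Bf_one (i := i) fun l hl => by rw [Pl_J pJ, ee_supp hl, mul_zero], Pl_J pJ, Pl_J pJ, Pl_ee, if_pos rfl, hk,
      ← hm_mul, inv_mul_cancel, hm_one] at this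
    exact this.symm

theorem tl_c3 (g : Co0) (hg : ∀ j ∈ J3, g * ι j = ι j * g) : ∃ j ∈ Co.J, Pm (g * (io j)⁻¹) := by
  have h : C3 g := fun p q s => hg ⟨p, q, s, 0, 0, 0⟩ ⟨rfl, rfl, rfl⟩
  choose s k hk using h.diag
  have h1 : ∀ i : Fin 12, 3 ≤ i.val → s i = s 3 := fun i hi => by
    by_cases hi3 : i = 3
    · rw [hi3]
    have hi0 : i ≠ 0 := by rintro rfl; simp at hi
    have v : ∀ l, Pl (ev (11 + i) (by omega) - ev 14 (by decide)) l =
        if l = 3 then 24 else if l = i then -24 else 0 := fun l => by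
      rw [map_sub, Pi.sub_apply, Pl_ev, Pl_ev, ck_E3 i l hi0]
      erw [ck_E3 3 l (by decide)]
      revert i l; decide
    have e := dvd_Bf (hm g (ev (11 + i) (by omega) - ev 14 (by decide))) 0
    rw [Bf, Finset.sum_eq_add_of_mem 3 i (Finset.mem_univ _) (Finset.mem_univ _) (Ne.symm hi3) fun l _ hl => by
      by_cases c : l.val < 3
      · rw [h.perp (fun l hl => by
          rw [v, if_neg (by rintro rfl; simp at hl), if_neg (by rintro rfl; omega)]) l c]; simp [bf]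
      · rw [hk l (by omega), v, if_neg hl.1, if_neg hl.2]; simp [bf],
      hk 3 (by decide), hk i hi, v, v] at e
    simp only [Fin.val_zero, add_zero, (ck_E4 _).1, x0, hi0, hi3, if_true, if_false,
      (by decide : (3 : Fin 12) ≠ 0)] at e
    exact (by decide +kernel : ∀ s s' k k', (576 : ℤ) ∣ bf (sgn s * om k * 24) ⟨8 * 1, 0⟩ +
      bf (sgn s' * om k' * -24) ⟨8 * 1, 0⟩ → s' = s) _ _ _ _ e
  have b8 : ∀ (z : Ei) (m : ℤ), bf z ⟨8 * m, 16 * m⟩ = 24 * z.im * m := fun z m => by simp [bf]; ring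
  have d : ∀ c : Fin 6, 576 ∣ ∑ l, 24 * (Pl (hm g (ev 23 (by decide))) l).im * par c l := fun c => by
    have e := dvd_Bf (hm g (ev 23 (by omega))) c.succ
    rw [show 23 + c.succ.val = 24 + c.val by simp; omega] at e
    simpa only [Bf, (ck_E4 _).2, b8] using e
  have h2 : ∀ η : Fin 12 → ℤ, (∀ l : Fin 12, l.val < 3 → η l = 0) →
      576 ∣ ∑ l, 24 * (Pl (hm g (ev 23 (by decide))) l).im * η l → ∑ l, (η l : K3) * k l = 0 := fun η h0 e =>
    parity (s := s 3) (by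
      convert e using 2 with l
      rw [b8]
      by_cases c : l.val < 3
      · simp [h0 l c]
      · rw [hk l (by omega), h1 l (by omega), Pl_ev, (ck_E4 _).1])
  have a0 := h2 (fun l => par 1 l + par 2 l) (by decide) (by
    simpa only [mul_add, Finset.sum_add_distrib] using dvd_add (d 1) (d 2))
  have a1 := h2 (fun l => par 3 l + par 4 l + par 5 l) (by decide) (by
    simpa only [mul_add, Finset.sum_add_distrib] using dvd_add (dvd_add (d 3) (d 4)) (d 5))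
  have a2 := h2 (fun l => par 1 l + par 3 l - par 5 l) (by decide) (by
    simpa only [mul_add, mul_sub, Finset.sum_add_distrib, Finset.sum_sub_distrib] using
      dvd_sub (dvd_add (d 1) (d 3)) (d 5))
  simp [par, Fin.sum_univ_succ] at a0 a1 a2
  obtain ⟨j, hj, e⟩ : ∃ j ∈ J, ∀ i : Fin 12, 3 ≤ i.val → cc i j = k i :=
    ⟨jv (k 3) (k 9 - k 6) (k 6 + k 9 - k 3) (k 4 - k 5) (k 8 - k 7 - k 4 + k 5) (-k 3 - k 4 - k 5),
      ⟨rfl, rfl, rfl⟩, fun i hi => by fin_cases i <;> simp [cc] at hi ⊢ <;> grind⟩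
  exact ⟨j, hj, pm_of (s := s 3) fun x i hi => by
    rw [hm_mul, hk i hi, h1 i hi, mul_assoc, ← e i hi, ← Pl_J hj, ← hm_mul, mul_inv_cancel, hm_one]⟩

instance instTL : TL := ⟨tl_c3, tl_sing, tl_shape, tl_vec⟩

end Cfsg.Agent.Fu.T
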