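import Cfsg.Agent.Fu.TG2
import Cfsg.Agent.Fu.TL2

/-! The case `q = 3`: easy facts on the normaliser of `3^{1+4}` in `Co0`. -/

set_option autoImplicit false

namespace Cfsg.Agent.Fu.T.H

open Cfsg.Agent.Co Cfsg.Agent.Co.A Cfsg.Spor Cfsg.Agent.H4 Cfsg.Agent.L Cfsg.Agent.L.PC

theorem pm_comm {g c y : Co0} (hP : Pm (g * c⁻¹)) (h : g * y = y * g) : c * y = y * c := by
  have hz := Subgroup.mem_center_iff.1 hP.center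
  have e : c = (g * c⁻¹)⁻¹ * g := by group
  have h1 : (g * c⁻¹)⁻¹ * y = y * (g * c⁻¹)⁻¹ := (show Commute _ _ from hz y).inv_right.symm
  rw [e, mul_assoc, h, ← mul_assoc, h1, mul_assoc]

theorem zcen : ∀ p q r s t u : K3, (⟨p, q, r, s, t, u, 0, 0, 0⟩ : Sy) * emb xa = emb xa * ⟨p, q, r, s, t, u, 0, 0, 0⟩ →
    (⟨p, q, r, s, t, u, 0, 0, 0⟩ : Sy) * emb xz = emb xz * ⟨p, q, r, s, t, u, 0, 0, 0⟩ →
    q = 0 ∧ r = 0 ∧ s = 0 ∧ t = 0 ∧ u = 0 := by decide +kernel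

theorem gn_cQ (g : Co0) (hg : ∀ x ∈ Q5, g * ι x = ι x * g) : ∃ z ∈ Z1, Pm (g * (ι z)⁻¹) := by
  obtain ⟨⟨p, q, r, s, t, u, a, b, z⟩, hj, hP⟩ := tl_c3 g fun j hj => hg j hj.1
  obtain ⟨h1, h2, h3⟩ : a = 0 ∧ b = 0 ∧ z = 0 := hj
  subst h1 h2 h3
  have k : ∀ x ∈ Q5, (⟨p, q, r, s, t, u, 0, 0, 0⟩ : Sy) * emb x = emb x * ⟨p, q, r, s, t, u, 0, 0, 0⟩ :=
    fun x hx => io_injective (by rw [map_mul, map_mul]; exact pm_comm hP (hg x hx))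
  obtain ⟨rfl, rfl, rfl, rfl, rfl⟩ := zcen p q r s t u (k xa rfl) (k xz rfl)
  exact ⟨⟨p, 0, 0, 0, 0, 0⟩, ⟨rfl, rfl, rfl, rfl, rfl⟩, hP⟩

theorem fix_of {g : Co0} {m : Mo} (hg : Rep g m) (h1 : m 1 = (1, false, 0)) (h2 : m 2 = (2, false, 0))
    (h : ∀ i, i ≠ 1 → i ≠ 2 → (m i).1 ≠ 1 ∧ (m i).1 ≠ 2) {x : leechLattice} (hx : InL x) :
    hm g x = x := by
  refine Pl_inj (funext fun i => ?_)
  have : Pl (hm g x) = ap m (Pl x) := hg x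
  rw [this, ap]
  by_cases a : i = 1
  · subst a; rw [h1]; exact one_mul _
  by_cases b : i = 2
  · subst b; rw [h2]; exact one_mul _
  rw [hx i a b, hx _ (h i a b).1 (h i a b).2]
  rcases (m i).2.1 with _ | _ <;> simp [cjg]

theorem gn_w : ∃ w : Co0, (∀ j ∈ J4, w * ι j * w⁻¹ = ι (w6 j)) ∧ ∀ x, InL x → hm w x = x := by
  obtain ⟨w, hw⟩ := ex_w
  exact ⟨w, fun j hj => cj_w hw hj, fun x hx =>
    fix_of hw (by decide +kernel) (by decide +kernel) (by decide +kernel) hx⟩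

theorem sR12 : ∀ a z, sR a 0 z 1 = (1, false) ∧ sR a 0 z 2 = (2, false) ∧ sR a 0 z 0 = (0, false) ∧
    ∀ i, i ≠ 1 → i ≠ 2 → (sR a 0 z i).1 ≠ 1 ∧ (sR a 0 z i).1 ≠ 2 := by decide +kernel

theorem gn_fixL (s : S6) (x : leechLattice) (hx : InL x) : hm (ι s) x = x := by
  obtain ⟨a, b, -, c⟩ := sR12 s.a s.z
  refine fix_of (io_rep (emb s)) ?_ ?_ c hx
  · change ((sR s.a 0 s.z 1).1, (sR s.a 0 s.z 1).2, cc 1 (emb s)) = _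
    rw [a, (z12 s).1]
  · change ((sR s.a 0 s.z 2).1, (sR s.a 0 s.z 2).2, cc 2 (emb s)) = _
    rw [b, (z12 s).2]

end Cfsg.Agent.Fu.T.H
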