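import Cfsg.Agent.Fu.TH1

/-! The case `q = 3`: structure of the normaliser of `3^{1+4}` in `Co0`. -/

set_option autoImplicit false

namespace Cfsg.Agent.Fu.T.H

open Cfsg.Agent.Co Cfsg.Agent.Co.A Cfsg.Spor Cfsg.Agent.H4 Cfsg.Agent.L Cfsg.Agent.L.PC

theorem rel {τ : S6 → S6} (h : AutQ τ) {x y : S6} (a : x ∈ Q5) (b : y ∈ Q5)
    (e : x * y = y * x) : (τ x).a * (τ y).q + (τ x).z * (τ y).s =
      (τ y).a * (τ x).q + (τ y).z * (τ x).s := by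
  have k := congrArg S6.p (h.cj a b b e)
  simp only [mu_p, mem_Q5.1 (h.mem x a), mem_Q5.1 (h.mem y b)] at k
  grind

theorem rel' {τ : S6 → S6} (h : AutQ τ) {x y : S6} (a : x ∈ Q5) (b : y ∈ Q5)
    (e : x * y = y * xp * x) : (τ x).a * (τ y).q + (τ x).z * (τ y).s + (τ xp).p =
      (τ y).a * (τ x).q + (τ y).z * (τ x).s ∧ (τ xp).p ≠ 0 := by
  have k := congrArg S6.p (h.cj a b (mul_mem b (rfl : xp ∈ Q5)) e)
  rw [h.mul y b xp rfl] at k
  rcases h.z with c | c <;> rw [c] at k ⊢ <;>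
    simp only [mu_p, mu_a, mu_z, mem_Q5.1 (h.mem x a), mem_Q5.1 (h.mem y b), xp, iv_p, iv_q, iv_s,
      iv_u, iv_a, iv_z] at k ⊢ <;> refine ⟨by grind, by decide⟩

theorem val {τ : S6 → S6} (h : AutQ τ) : Val (τ xq).q (τ xq).s (τ xq).a (τ xq).z
    (τ xs).q (τ xs).s (τ xs).a (τ xs).z := by
  have a := rel h (x := xq) (y := xs) rfl rfl (by decide)
  have b := rel' h (x := xs) (y := xz) rfl rfl (by decide)
  have c := rel h (x := xs) (y := xa) rfl rfl (by decide)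
  have d := rel' h (x := xq) (y := xa) rfl rfl (by decide)
  refine ⟨a, fun ⟨e1, e2, e3, e4⟩ => b.2 ?_, fun i ⟨e1, e2, e3, e4⟩ => d.2 ?_⟩
  · simpa [e1, e2, e3, e4] using b.1
  · have := d.1
    rw [e1, e2, e3, e4] at this
    linear_combination this - i * c

theorem enc1 : ∀ q s a z, enc ⟨0, q, s, 0, a, z⟩ = 1 → q = 1 ∧ s = 0 ∧ a = 0 ∧ z = 0 := by decide
theorem enc3 : ∀ q s a z, enc ⟨0, q, s, 0, a, z⟩ = 3 → q = 0 ∧ s = 1 ∧ a = 0 ∧ z = 0 := by decide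

theorem uni {τ : S6 → S6} (h : AutQ τ) (hp : τ xp = xp) (h1 : enc (τ xq) = 1)
    (h3 : enc (τ xs) = 3) : ∃ y : Sy, y.b = 0 ∧ ∀ x ∈ Q5, io y * ι x * (io y)⁻¹ = ι (τ x) := by
  obtain ⟨a1, a2, a3, a4⟩ := enc1 _ _ _ _ h1
  obtain ⟨b1, b2, b3, b4⟩ := enc3 _ _ _ _ h3
  have a := rel h (x := xq) (y := xz) rfl rfl (by decide)
  have b := (rel' h (x := xs) (y := xz) rfl rfl (by decide)).1
  have c := rel h (x := xs) (y := xa) rfl rfl (by decide)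
  have d := (rel' h (x := xq) (y := xa) rfl rfl (by decide)).1
  have e := rel h (x := xa) (y := xz) rfl rfl (by decide)
  have u1 := mem_Q5.1 (h.mem xq rfl)
  have u2 := mem_Q5.1 (h.mem xs rfl)
  have u3 := mem_Q5.1 (h.mem xa rfl)
  have u4 := mem_Q5.1 (h.mem xz rfl)
  have hp1 : (τ xp).p = 1 := by rw [hp]; rfl
  simp only [a1, a2, a3, a4, b1, b2, b3, b4, hp1, zero_mul, mul_zero, mul_one, add_zero,
    zero_add] at a b c d
  simp only [← a, ← b, ← c, ← d, zero_mul, one_mul, add_zero, zero_add] at e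
  let y : Sy := ⟨0, (τ xa).p - (τ xa).q, -(τ xa).q, (τ xz).p - (τ xz).s, -(τ xa).s, -(τ xz).s,
    -(τ xq).p, 0, -(τ xs).p⟩
  have k : ∀ x ∈ Q5, y * emb x = emb (τ x) * y → x ∈ indS (io y) τ Q5 h.one h.mul := fun x hx e =>
    ⟨hx, by rw [mul_inv_eq_iff_eq_mul, ι_apply, ι_apply, ← map_mul, e, map_mul]⟩
  refine ⟨y, rfl, fun x hx => (ind6 (K := indS (io y) τ Q5 h.one h.mul) (fun _ => k _ rfl ?_)
    (fun _ => k _ rfl ?_) (fun _ => k _ rfl ?_) (fun a => absurd hx a) (fun _ => k _ rfl ?_)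
    fun _ => k _ rfl ?_).2⟩
  · rw [hp]; ext <;> simp [emb_apply, xp, y, add_comm]
  · ext <;> simp [emb_apply, y, a1, a2, a3, a4, u1] <;> simp [xq] <;> grind
  · ext <;> simp [emb_apply, y, b1, b2, b3, b4, u2] <;> simp [xs] <;> grind
  · ext <;> simp [emb_apply, y, ← c, ← d, u3] <;> simp [xa] <;> grind
  · ext <;> simp [emb_apply, y, ← a, ← b, u4, e] <;> simp [xz] <;> grind

theorem autQ_fu : AutQ fu :=
  ⟨fun x a => by simpa [fu] using a, fun x _ y _ => by ext <;> simp [fu] <;> ring,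
    fun x _ e => by simpa [fu, S6.ext_iff] using e⟩

/-- the normalising word -/
noncomputable def GG (e w1 w2 : ℕ) : Co0 := gμ ^ e * (gw w2 12 * gw w1 12)

/-- the word keeping two roots in the plane `0` is monomial -/
def Ok (w1 w2 : ℕ) : Prop := evw cTr w2 (evw cTr w1 0 12) 12 < 6 →
  evw cTr w2 (evw cTr w1 1 12) 12 < 6 → only 1 w1 = true ∧ only 2 w2 = true

theorem key {τ : S6 → S6} (h : AutQ τ) : ∃ (e w1 w2 : ℕ) (y : Sy), y.b = 0 ∧ Ok w1 w2 ∧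
    ∀ x ∈ Q5, GG e w1 w2 * ι (τ x) * (GG e w1 w2)⁻¹ = io y * ι x * (io y)⁻¹ := by
  have hk : okb (enc (τ xq)) (enc (τ xs)) = true := ck_ok _ _ _ _ _ _ _ _ (val h)
  simp only [okb, Bool.and_eq_true, beq_iff, Bool.or_eq_true, Bool.not_eq_true',
    Bool.or_eq_false_iff, Bool.and_eq_false_iff] at hk
  generalize app 36 cW1 (enc (τ xq)) = w1 at hk
  generalize app 36 cW2 (evw cTq w1 (enc (τ xs)) 12) = w2 at hk
  obtain ⟨⟨⟨k1, k2⟩, k3⟩, k4⟩ := hk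
  have ok : Ok w1 w2 := fun a b => k4.resolve_left fun c => by
    rw [← Nat.blt_eq] at a b
    simp [a, b] at c
  have T := (tk_gw w2 12).mul (tk_gw w1 12)
  obtain ⟨ρ, hρ, e⟩ := exists_autQ T.nq
  have t : ∀ x ∈ Q5, enc (ρ x) = evw cTq w2 (evw cTq w1 (enc x) 12) 12 := fun x hx => by
    obtain ⟨y, -, e1, e2⟩ := T.1 x hx
    rw [← ι_inj (e1.symm.trans (e x hx)), e2]
  have a1 : enc (ρ (τ xq)) = 1 := by rw [t _ (h.mem _ rfl), k1, k2]
  have a3 : enc (ρ (τ xs)) = 3 := by rw [t _ (h.mem _ rfl), k3]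
  rcases (h.comp hρ).z with c | c
  · obtain ⟨y, hy, f⟩ := uni (h.comp hρ) c a1 a3
    exact ⟨0, w1, w2, y, hy, ok, fun x hx => by
      rw [f x hx, GG, pow_zero, one_mul, e _ (h.mem x hx)]; rfl⟩
  · obtain ⟨b1, b2, b3, b4⟩ := enc1 _ _ _ _ a1
    obtain ⟨c1, c2, c3, c4⟩ := enc3 _ _ _ _ a3
    obtain ⟨y, hy, f⟩ := uni ((h.comp hρ).comp autQ_fu)
      (by rw [Function.comp_apply, c]; decide)
      (by simp [enc, fu, b1, b2, b3, b4]; rfl) (by simp [enc, fu, c1, c2, c3, c4]; rfl)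
    refine ⟨1, w1, w2, y, hy, ok, fun x hx => ?_⟩
    rw [f x hx, Function.comp_apply, Function.comp_apply, ← cj_u rμ, ← e _ (h.mem x hx), GG]
    group

theorem gn_sur (τ : S6 → S6) (h : AutQ τ) : ∃ g : Co0, ∀ x ∈ Q5, g * ι x * g⁻¹ = ι (τ x) := by
  obtain ⟨e, w1, w2, y, -, -, k⟩ := key h
  refine ⟨(GG e w1 w2)⁻¹ * io y, fun x hx => ?_⟩
  calc _ = (GG e w1 w2)⁻¹ * (io y * ι x * (io y)⁻¹) * GG e w1 w2 := by group
    _ = _ := by rw [← k x hx]; group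

theorem dec {g : Co0} (hg : g ∈ NQ) : ∃ (e w1 w2 : ℕ) (y : Sy) (n : Co0), y.b = 0 ∧ Ok w1 w2 ∧
    Pm n ∧ GG e w1 w2 * g = n * io y := by
  obtain ⟨τ, h, a⟩ := exists_autQ hg
  obtain ⟨e, w1, w2, y, hy, ok, k⟩ := key h
  obtain ⟨z, -, hP⟩ := gn_cQ ((io y)⁻¹ * (GG e w1 w2 * g)) fun x hx => by
    have := k x hx
    rw [← a x hx] at this
    calc _ = (io y)⁻¹ * (GG e w1 w2 * (g * ι x * g⁻¹) * (GG e w1 w2)⁻¹) * (GG e w1 w2 * g) := by group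
      _ = _ := by rw [this]; group
  refine ⟨e, w1, w2, y * emb z, _, by simp [hy, emb_apply], ok, hP, ?_⟩
  rw [map_mul, ← mul_assoc, ← Subgroup.mem_center_iff.1 hP.center, ← ι_apply]
  group

end Cfsg.Agent.Fu.T.H
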