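import Cfsg.Agent.Fu.TH2

/-! The case `q = 3`: the instance `GN`. -/

set_option autoImplicit false

namespace Cfsg.Agent.Fu.T.H

open Cfsg.Agent.Co Cfsg.Agent.Co.A Cfsg.Spor Cfsg.Agent.H4 Cfsg.Agent.L Cfsg.Agent.L.PC

theorem ap_sgn (m : Mo) (e : Bool) (v : Ve) (i : Fin 12) :
    ap m (fun i => sgn e * v i) i = sgn e * ap m v i := by
  simp only [ap]
  rcases (m i).2.1 with _ | _ <;> cases e <;> simp [cjg, sgn]

theorem mon_rep {g : Co0} {m : Mo} (hg : Rep g m) (h : (m 0).1 = 0 ∧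
    (((m 1).1 = 1 ∧ (m 2).1 = 2) ∨ ((m 1).1 = 2 ∧ (m 2).1 = 1))) : Mon g :=
  ⟨false, m, fun x i => (congrFun (hg x) i).trans (one_mul _).symm, h⟩

/-- monomial elements normalising `S` -/
def MS : Submonoid Co0 where
  carrier := {g | g ∈ NS ∧ Mon g}
  one_mem' := ⟨one_mem _, mon_rep Rep_one (by decide)⟩
  mul_mem' := fun {g h} ⟨a, e, m, b, b0, b1⟩ ⟨c, e', m', d, d0, d1⟩ => ⟨mul_mem a c, xor e e',
    cp m m', fun x i => by
      rw [hm_mul, b, funext (d x), ap_sgn, ap_cp, ← mul_assoc]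
      cases e <;> cases e' <;> simp [sgn], by
      change (m' (m 0).1).1 = 0 ∧ (((m' (m 1).1).1 = 1 ∧ (m' (m 2).1).1 = 2) ∨
        ((m' (m 1).1).1 = 2 ∧ (m' (m 2).1).1 = 1))
      rw [b0]
      rcases b1 with ⟨x, y⟩ | ⟨x, y⟩ <;> rw [x, y] <;> tauto⟩

theorem MS_inv {g : Co0} (h : g ∈ MS) : g⁻¹ ∈ MS := by
  haveI := finite_Co0
  exact Submonoid.powers_le.2 h (mem_powers_iff_mem_zpowers.2 (inv_mem (Subgroup.mem_zpowers g)))

theorem MS_v : gv ∈ MS := ⟨mem_NS.2 fun x => ⟨_, cj_v rv x⟩, mon_rep rv (by decide)⟩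
theorem MS_σ : gσ ∈ MS := ⟨mem_NS.2 fun x => ⟨_, cj_σ rσ x⟩, mon_rep rσ (by decide)⟩
theorem MS_μ : gμ ∈ MS := ⟨mem_NS.2 fun x => ⟨_, cj_u rμ x⟩, mon_rep rμ (by decide)⟩

theorem MS_pm {n : Co0} (h : Pm n) : n ∈ MS := by
  refine ⟨mem_NS.2 fun x => ⟨x, by
    rw [← Subgroup.mem_center_iff.1 h.center, mul_inv_cancel_right]⟩, ?_⟩
  have k : ∀ v i, ap (tw s0 1) v i = v i := fun v i => by
    simp only [ap, tw, s0, cc_one, cjg, cond_false]; exact one_mul _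
  rcases h with h | h
  · exact ⟨false, tw s0 1, fun x i => by simp [h, k, sgn], by decide⟩
  · exact ⟨true, tw s0 1, fun x i => by simp [h, k, sgn], by decide⟩

theorem cj_y {y : Sy} (hy : y.b = 0) (x : S6) : ∃ z : S6, z.u = x.u ∧ io y * ι x * (io y)⁻¹ = ι z := by
  refine ⟨⟨(y * emb x * y⁻¹).p, (y * emb x * y⁻¹).q, (y * emb x * y⁻¹).s, x.u, x.a, x.z⟩, rfl, ?_⟩
  rw [ι_apply, ← map_inv, ← map_mul, ← map_mul, ι_apply]
  congr 1
  ext <;> simp [emb_apply, hy]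

theorem MS_y {y : Sy} (hy : y.b = 0) : io y ∈ MS := by
  obtain ⟨a, b, c, -⟩ := sR12 y.a y.z
  refine ⟨mem_NS.2 fun x => (cj_y hy x).imp fun _ h => h.2, mon_rep (io_rep y) ?_⟩
  simp only [mS, tw, hy, a, b, c, true_or, and_self]

theorem NQ_y {y : Sy} (hy : y.b = 0) : io y ∈ NQ :=
  mem_NQ.2 fun x hx => (cj_y hy x).imp fun _ h => ⟨h.1.trans hx, h.2⟩

theorem NQ_pm {n : Co0} (h : Pm n) : n ∈ NQ := mem_NQ.2 fun x hx => ⟨x, hx, by
  rw [← Subgroup.mem_center_iff.1 h.center, mul_inv_cancel_right]⟩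

theorem NQ_μ : gμ ∈ NQ := mem_NQ.2 fun x hx => ⟨_, autQ_fu.mem x hx, cj_u rμ x⟩

theorem P0.inM {x : leechLattice} (h : P0 x) : InM x := fun i hi => h i (by omega)

theorem mon_P0 {g : Co0} (hq : g ∈ NQ) (hg : Mon g) {x : leechLattice} (hx : P0 x) :
    P0 (hm g x) := fun i hi => by
  obtain ⟨e, m, a, -, b⟩ := hg
  by_cases h3 : 3 ≤ i.val
  · exact inM_NQ hq (P0.inM hx) i h3
  have : (m i).1 ≠ 0 := by
    obtain rfl | rfl : i = 1 ∨ i = 2 := by omega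
    all_goals rcases b with ⟨x, y⟩ | ⟨x, y⟩ <;> simp [x, y]
  rw [a, ap, hx _ this]
  rcases (m i).2.1 with _ | _ <;> simp [cjg]

theorem lt6 : ∀ j < 72, (24 : Ei) * root j 1 = 0 → (24 : Ei) * root j 2 = 0 → j < 6 := by
  decide +kernel

theorem dec0 {g : Co0} (hg : g ∈ NQ) {x x' : leechLattice} (h : Crd x (rt 0 0))
    (h' : Crd x' (rt 0 1)) (k : P0 (hm g x)) (k' : P0 (hm g x')) :
    ∃ (e a b : ℕ) (y : Sy) (n : Co0), y.b = 0 ∧ Pm n ∧
      gμ ^ e * (gσ ^ b * gv ^ a) * g⁻¹ = n * io y := by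
  obtain ⟨e, w1, w2, y, n, hy, ok, hn, E⟩ := dec (inv_mem hg)
  have T := (tk_gw w2 12).mul (tk_gw w1 12)
  have W : gw w2 12 * gw w1 12 = (gμ ^ e)⁻¹ * (n * io y) * g := by rw [← E, GG]; group
  have m1 : (gμ ^ e)⁻¹ * (n * io y) ∈ MS :=
    mul_mem (MS_inv (pow_mem MS_μ e)) (mul_mem (MS_pm hn) (MS_y hy))
  have q1 : (gμ ^ e)⁻¹ * (n * io y) ∈ NQ :=
    mul_mem (inv_mem (pow_mem NQ_μ e)) (mul_mem (NQ_pm hn) (NQ_y hy))
  have t : ∀ i < 72, ∀ x, Crd x (root i) → P0 (hm g x) → evw cTr w2 (evw cTr w1 i 12) 12 < 6 :=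
    fun i hi x hx hp => by
    have c := (T.2 i hi).2 x hx
    have p := mon_P0 q1 m1.2 hp
    rw [← hm_mul, ← W] at p
    exact lt6 _ (T.2 i hi).1 ((c.2 1).symm.trans (p _ (by decide)))
      ((c.2 2).symm.trans (p _ (by decide)))
  obtain ⟨o1, o2⟩ := ok (t 0 (by decide) x ((by decide : rt 0 0 = root 0) ▸ h) k)
    (t 1 (by decide) x' ((by decide : rt 0 1 = root 1) ▸ h') k')
  obtain ⟨a, ha⟩ := gw_pow o1
  obtain ⟨b, hb⟩ := gw_pow o2
  exact ⟨e, a, b, y, n, hy, hn, by rw [← E, GG, ha, hb]; rfl⟩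

theorem p0_MS {g : Co0} (hg : g ∈ NQ) {x x' : leechLattice} (h : Crd x (rt 0 0))
    (h' : Crd x' (rt 0 1)) (k : P0 (hm g x)) (k' : P0 (hm g x')) : g ∈ MS := by
  obtain ⟨e, a, b, y, n, hy, hn, E⟩ := dec0 hg h h' k k'
  have : g = (n * io y)⁻¹ * (gμ ^ e * (gσ ^ b * gv ^ a)) := by rw [← E]; group
  rw [this]
  exact mul_mem (MS_inv (mul_mem (MS_pm hn) (MS_y hy)))
    (mul_mem (pow_mem MS_μ e) (mul_mem (pow_mem MS_σ b) (pow_mem MS_v a)))

theorem ex_rt (i : Fin 3) (k : K3) : ∃ x, Crd x (rt i k) :=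
  tl_vec _ ((by unfold InU; decide : ∀ i k, InU (rt i k)) i k)

theorem crd_P0 {x : leechLattice} {k : K3} (h : Crd x (rt 0 k)) : P0 x := fun i hi => by
  rw [crd_iff.1 h, (by decide : ∀ k i, i ≠ 0 → ex (rt 0 k) i = 0) k i hi, mul_zero]

theorem pl12 (s : S6) (x : leechLattice) {i : Fin 12} (hi : i = 1 ∨ i = 2) :
    Pl (hm (ι s) x) i = Pl x i := by
  obtain ⟨a, b, -, -⟩ := sR12 s.a s.z
  have : Pl (hm (ι s) x) = ap (mS (emb s)) (Pl x) := io_rep _ x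
  rw [this]
  change om (cc i (emb s)) * cjg (sR s.a 0 s.z i).2 (Pl x (sR s.a 0 s.z i).1) = _
  rcases hi with rfl | rfl
  · rw [a, (z12 s).1]; exact one_mul _
  · rw [b, (z12 s).2]; exact one_mul _

theorem ns_P0 {n : Co0} (hq : n ∈ NQ) (hn : n ∈ NS) {x : leechLattice} (hx : P0 x) :
    P0 (hm n x) := fun i hi => by
  by_cases h3 : 3 ≤ i.val
  · exact inM_NQ hq (P0.inM hx) i h3
  have hi' : i = 1 ∨ i = 2 := by omega
  obtain ⟨s, hs⟩ := mem_NS.1 hn xu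
  have e : ∀ v, hm n (hm (ι xu) v) = hm (ι s) (hm n v) := fun v => by
    rw [← hm_mul, ← hs, ← hm_mul]; congr 2; group
  have z : x + hm (ι xu) x + hm (ι xu) (hm (ι xu) x) = 0 := Pl_inj (funext fun l => by
    have hJ : emb xu ∈ Co.J := ⟨rfl, rfl, rfl⟩
    rw [map_add, map_add, map_zero, Pi.add_apply, Pi.add_apply, ι_apply, Pl_J hJ, Pl_J hJ, Pl_J hJ,
      Pi.zero_apply]
    by_cases hl : l = 0
    · subst hl; exact om_sum (k := cc 0 (emb xu)) (by decide) _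
    · simp [hx l hl])
  have := congrFun (congrArg Pl (congrArg (hm n) z)) i
  rw [map_add, map_add, e, e, map_add, map_add, Pi.add_apply, Pi.add_apply, pl12 _ _ hi',
    e, pl12 _ _ hi', map_zero, map_zero, Pi.zero_apply] at this
  have h1 := congrArg QuadraticAlgebra.re this
  have h2 := congrArg QuadraticAlgebra.im this
  simp only [QuadraticAlgebra.re_add, QuadraticAlgebra.im_add, QuadraticAlgebra.re_zero,
    QuadraticAlgebra.im_zero] at h1 h2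
  ext <;> simp <;> omega

theorem gn_mon (n : Co0) (hq : n ∈ NQ) (hn : n ∈ NS) : Mon n := by
  obtain ⟨x, h⟩ := ex_rt 0 0
  obtain ⟨x', h'⟩ := ex_rt 0 1
  exact (p0_MS hq h h' (ns_P0 hq hn (crd_P0 h)) (ns_P0 hq hn (crd_P0 h'))).2

/-- powers of a signed permutation -/
def spw (σ : Sp) (n : ℕ) : Sp := Nat.rec s0 (fun _ τ => sc σ τ) n

theorem rep_pow {g : Co0} {σ : Sp} (hg : Rep g (tw σ 1)) (n : ℕ) : Rep (g ^ n) (tw (spw σ n) 1) := by
  induction n with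
  | zero => exact Rep_one
  | succ n ih => rw [pow_succ']; exact Rep_mul hg ih

theorem rep_mod {g : Co0} {σ : Sp} (hg : Rep g (tw σ 1)) {k : ℕ} (h : ∀ i, spw σ k i = s0 i)
    (n : ℕ) : Rep (g ^ n) (tw (spw σ (n % k)) 1) := by
  have : g ^ k = 1 := (rep_pow hg k).uniq (funext h ▸ Rep_one)
  rw [pow_eq_pow_mod n this]
  exact rep_pow hg _

theorem ck_d : ∀ (e b : Fin 2) (a : Fin 8), sc (spw su e) (sc (spw sσ b) (spw sv a)) 1 = (1, false) →
    sc (spw su e) (sc (spw sσ b) (spw sv a)) 2 = (2, false) →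
    ∃ j : Fin 8, ∀ i, sc (spw su e) (sc (spw sσ b) (spw sv a)) i = spw sd j i := by decide +kernel

theorem ck_1 : ∀ (l : Fin 12) (f s : Bool) (c : K3), (∀ k : K3,
    om 0 * cjg f (24 * ex (rt 1 k) l) = sgn s * (om c * (24 * ex (rt 1 k) 1))) →
    l = 1 ∧ f = false ∧ s = false ∧ c = 0 := by decide +kernel

theorem ck_2 : ∀ (l : Fin 12) (f : Bool) (c : K3), (∀ k : K3,
    om 0 * cjg f (24 * ex (rt 2 k) l) = om c * (24 * ex (rt 2 k) 2)) →
    l = 2 ∧ f = false ∧ c = 0 := by decide +kernel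

theorem bf_zero {z : Ei} (h0 : bf z (24 * (θ3 * om 0)) = 0) (h1 : bf z (24 * (θ3 * om 1)) = 0) :
    z = 0 := by
  rw [(by decide : (24 : Ei) * (θ3 * om 0) = ⟨24, 48⟩)] at h0
  rw [(by decide : (24 : Ei) * (θ3 * om 1) = ⟨-48, -24⟩)] at h1
  simp only [bf] at h0 h1
  ext <;> simp <;> omega

theorem fix_P0 {g : Co0} (hq : g ∈ NQ)
    (hf : ∀ x k, Crd x (rt 1 k) ∨ Crd x (rt 2 k) → hm g x = x) {x : leechLattice} (hx : P0 x) :
    P0 (hm g x) := fun i hi => by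
  by_cases h3 : 3 ≤ i.val
  · exact inM_NQ hq (P0.inM hx) i h3
  have key : ∀ (j : Fin 3) (k : K3), j = 1 ∨ j = 2 → j.val = i.val →
      bf (Pl (hm g x) i) (24 * (θ3 * om k)) = 0 := fun j k hj e => by
    obtain ⟨r, hr⟩ := ex_rt j k
    have f : hm g r = r := hf r k (by rcases hj with rfl | rfl <;> simp [hr])
    have s : ∀ l, l ≠ i → Pl r l = 0 := fun l hl => by
      rw [crd_iff.1 hr, (by decide : ∀ (j : Fin 3) k (i l : Fin 12), j.val = i.val → l ≠ i →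
        ex (rt j k) l = 0) j k i l e hl, mul_zero]
    have b := Bf_hm g x r
    rw [f, Bf_one s, Bf_one s, hx i hi, crd_iff.1 hr, (by decide : ∀ (j : Fin 3) k (i : Fin 12),
      j.val = i.val → ex (rt j k) i = θ3 * om k) j k i e] at b
    rw [b]; simp [bf]
  obtain rfl | rfl : i = 1 ∨ i = 2 := by omega
  · exact bf_zero (key 1 0 (by simp) rfl) (key 1 1 (by simp) rfl)
  · exact bf_zero (key 2 0 (by simp) rfl) (key 2 1 (by simp) rfl)

theorem kl_d : KL gd' := fun g hq hf => by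
  obtain ⟨x, h⟩ := ex_rt 0 0
  obtain ⟨x', h'⟩ := ex_rt 0 1
  obtain ⟨e, a, b, y, n, hy, hn, E⟩ :=
    dec0 hq h h' (fix_P0 hq hf (crd_P0 h)) (fix_P0 hq hf (crd_P0 h'))
  have R := Rep_mul (rep_mod rμ (k := 2) (by decide +kernel) e) (Rep_mul
    (rep_mod rσ (k := 2) (by decide +kernel) b) (rep_mod rv (k := 8) (by decide +kernel) a))
  have E' : gμ ^ e * (gσ ^ b * gv ^ a) = n * io y * g := by rw [← E]; group
  rw [E'] at R
  obtain ⟨s, hs⟩ : ∃ s, ∀ x i, Pl (hm n x) i = sgn s * Pl x i := by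
    rcases hn with h | h
    exacts [⟨false, fun x i => by simp [h, sgn]⟩, ⟨true, fun x i => by simp [h, sgn]⟩]
  obtain ⟨a1, a2, -, -⟩ := sR12 y.a y.z
  generalize hσ : sc (spw su (e % 2)) (sc (spw sσ (b % 2)) (spw sv (a % 8))) = σ at R
  have key : ∀ (j : Fin 3) (i : Fin 12) (k : K3), j = 1 ∨ j = 2 → sR y.a 0 y.z i = (i, false) →
      om 0 * cjg (σ i).2 (24 * ex (rt j k) (σ i).1) =
        sgn s * (om (cc i y) * (24 * ex (rt j k) i)) := fun j i k hj hi => by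
    obtain ⟨r, hr⟩ := ex_rt j k
    have f : hm g r = r := hf r k (by rcases hj with rfl | rfl <;> simp [hr])
    have c : Pl (hm (n * io y * g) r) = ap (tw σ 1) (Pl r) := R r
    have d : Pl (hm (io y) r) = ap (mS y) (Pl r) := io_rep y r
    have c' := congrFun c i
    rw [hm_mul, f, hm_mul, hs, d] at c'
    simp only [ap, mS, tw, hy, hi, cc_one, cjg, cond_false, crd_iff.1 hr] at c'
    exact c'.symm
  obtain ⟨l1, l2, rfl, l4⟩ := ck_1 _ _ _ _ fun k => key 1 1 k (by simp) a1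
  obtain ⟨l6, l7, l5⟩ := ck_2 _ _ _ fun k => (key 2 2 k (by simp) a2).trans (one_mul _)
  obtain ⟨j, hj⟩ := ck_d ⟨_, Nat.mod_lt e two_pos⟩ ⟨_, Nat.mod_lt b two_pos⟩
    ⟨_, Nat.mod_lt a (by decide : 0 < 8)⟩ (by rw [hσ]; exact Prod.ext l1 l2)
    (by rw [hσ]; exact Prod.ext l6 l7)
  simp only [hσ] at hj
  have n1 : n = 1 := hm_ext fun x => Pl_inj (funext fun i => (hs x i).trans (one_mul _))
  have e1 : n * io y * g = gd' ^ j.val := R.uniq (funext hj ▸ rep_pow rd j)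
  have e2 : y = emb ⟨y.p, y.q, y.s, y.u, y.a, y.z⟩ := by
    change y.r + y.t - y.u = 0 at l4
    change y.r - y.t - y.u = 0 at l5
    ext <;> simp [emb_apply, hy] <;> grind
  refine ⟨(⟨y.p, y.q, y.s, y.u, y.a, y.z⟩ : S6)⁻¹, j, ?_⟩
  rw [← e1, n1, map_inv, ι_apply, ← e2]; group

instance instGN : GN where
  cQ := gn_cQ
  sur := gn_sur
  w := gn_w
  d := ⟨gd', cj_d rd, rd, kl_d⟩
  fixL := gn_fixL
  inM := fun _ hg _ hx => inM_NQ hg hx
  p0 := fun _ hg _ _ h h' k k' => (p0_MS hg h h' k k').1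
  mon := gn_mon

end Cfsg.Agent.Fu.T.H
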